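import Cfsg.Agent.H4.Bp6

/-!
# The extended first main theorem
-/

set_option autoImplicit false
open Cfsg MonoidAlgebra
open CfsgH4 hiding centralChar sum_conj

namespace CfsgH5

variable {G : Type*} [Group G] [Finite G] {p : ℕ} [hp : Fact p.Prime] {M : Ideal AlgInt} [hMp : M.IsPrime]

/-- blocks of `L = P C(P)` below the Brauer correspondent -/
theorem dg_of_below (hM : IsPModular p M) {P L N : Subgroup G} (hPL : P ≤ L) (hLN : L ≤ N) (hN : N ≤ nz P)
    {c z : MonoidAlgebra (kk M) G} (hc : DG p N c P) (hcf : Fx N c) (hz : IsBl L z) (h : c * z = z) : DG p L z P := by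
  have hPp := hc.pg
  haveI := charP_kk hM
  have hzs : Sup (cz P) z := IsBl.sup_cz hM hPp hPL (hLN.trans hN) hz
  refine ⟨hPL, hPp, ?_, ?_⟩
  · rw [br_of_sup hzs]; exact hz.ne
  · intro R hRL hRp hPR hne
    refine hc.max R (hRL.trans hLN) hRp hPR ?_
    intro h0
    apply hne
    rw [← h, br_mul hRp (hcf.mono (hRL.trans hLN)) (hz.fx.mono hRL), h0, zero_mul]

theorem sup_cz_le_nz (P : Subgroup G) : P ⊔ cz P ≤ nz P :=
  sup_le Subgroup.le_normalizer (cz_le_nz P)

/-- the extended first main theorem, existence -/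
theorem extFM_exists (hM : IsPModular p M) {P : Subgroup G} {B : Set (IrrCharacter G)} (hB : IsPBlock M B) (hP : IsDefectGroup p M B P) :
    ∃ b : Set (IrrCharacter ↥(P ⊔ cz P)), IsDefectGroup p M b (P.subgroupOf (P ⊔ cz P)) ∧ IsInducedBlock M (P ⊔ cz P) b B := by
  have hDG := (isDefectGroup_iff_DG hM hB).1 hP
  have hPp := hDG.pg
  obtain ⟨c, hc, hcP, hBc⟩ := fm_exists_top hM hPp (isBl_top hB) hDG
  have hLN := sup_cz_le_nz P
  have hcs : Sup (cz P) c := IsBl.sup_cz hM hPp Subgroup.le_normalizer le_rfl hc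
  obtain ⟨z, hz, hcz⟩ := exists_bl_mul (H := P ⊔ cz P) (hcs.mono le_sup_right) (hc.fx.mono hLN) hc.idem hc.ne
  obtain ⟨b, hb, rfl⟩ := exists_block_of_isBl hz
  refine ⟨b, (isDefectGroup_iff_DG' hM hb le_sup_left).2 (dg_of_below hM le_sup_left hLN le_rfl hcP hc.fx hz hcz), ?_⟩
  rw [ind_iff hM hPp le_sup_left le_sup_right hLN hb hB]
  rw [← hcz, ← mul_assoc, hBc]

theorem nz_le_nz_sup (P : Subgroup G) : nz P ≤ nz (P ⊔ cz P) := by
  intro x hx
  rw [Subgroup.mem_normalizer_iff'']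
  have h1 : cj x (P ⊔ cz P) = P ⊔ cz P := by
    show (P ⊔ cz P).map _ = _
    rw [Subgroup.map_sup]
    have h2 := cj_eq_of_mem_normalizer hx
    have h3 : cj x (cz P) = cz P := by rw [← cz_cj, h2]
    exact congrArg₂ _ h2 h3
  intro y
  rw [← mem_cj, h1]

/-- the extended first main theorem, uniqueness up to conjugation -/
theorem extFM_unique (hM : IsPModular p M) {P : Subgroup G} {B : Set (IrrCharacter G)} (hB : IsPBlock M B) (hP : IsDefectGroup p M B P)
    {b b' : Set (IrrCharacter ↥(P ⊔ cz P))} (h : IsInducedBlock M (P ⊔ cz P) b B) (h' : IsInducedBlock M (P ⊔ cz P) b' B) :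
    ∃ n ∈ nz P, b' = cjSet n b := by
  have hDG := (isDefectGroup_iff_DG hM hB).1 hP
  have hPp := hDG.pg
  have hLN := sup_cz_le_nz P
  have hb := h.1
  have hb' := h'.1
  have hN : IsBl (nz P ⊓ (⊤ : Subgroup G)) (br P (idB M B)) := (br_isBl hM (isBl_top hB) hDG).1
  rw [inf_top_eq] at hN
  rw [ind_iff hM hPp le_sup_left le_sup_right hLN hb hB] at h
  rw [ind_iff hM hPp le_sup_left le_sup_right hLN hb' hB] at h'
  have hnn : nz P ≤ nz (P ⊔ cz P) := nz_le_nz_sup P
  obtain ⟨n, hn, he⟩ := isBl_orbit hLN hnn hN (isBl_idH hb) (isBl_idH hb') h h'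
  refine ⟨n, hn, ?_⟩
  have hcjL : P ⊔ cz P = cj n (P ⊔ cz P) := (cj_eq_of_mem_normalizer (hnn hn)).symm
  apply idH_injective hb' ((isPBlock_cjSet n hcjL).2 hb)
  rw [idH_cjSet n hcjL, he]

end CfsgH5
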