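import Cfsg.Agent.H5.PCP
import Cfsg.Agent.H5.ExtFM
import Cfsg.Agent.H5.Res

/-!
# Central characters and defect groups
-/

set_option autoImplicit false
open Cfsg MonoidAlgebra
open CfsgH4 hiding centralChar sum_conj

namespace CfsgH5

open scoped ComplexConjugate

variable {G : Type*} [Group G] [Finite G] {p : ℕ} [hp : Fact p.Prime] {M : Ideal AlgInt}

/-- S0929 -/
theorem central_char_loc (hM : IsPModular p M) {B : Set (IrrCharacter G)} (hB : IsPBlock M B) {P : Subgroup G} (hP : IsDefectGroup p M B P)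
    {g : G} {χ : IrrCharacter G} (hχ : χ ∈ B) (hg : ¬ MemLocalIdeal M (centralChar (χ : G → ℂ) g)) :
    ∃ x : G, IsConj g x ∧ x ∈ Subgroup.centralizer (P : Set G) ∧ ∀ z : G, IsPPart p x z → z ∈ P ∧ ∀ w ∈ P, z * w = w * z := by
  classical
  haveI := IsPModular.isPrime hM
  have hPp : IsPGroup p P := CfsgH5.IsDefectGroup.isPGroup hP
  obtain ⟨b, hbD, hbB⟩ := extFM_exists hM hB hP
  have hb := hbB.1
  set L := P ⊔ cz P with hL
  haveI := Fintype.ofFinite L
  obtain ⟨κ, hκ⟩ := exists_pexp p L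
  have hP' : IsPGroup p (P.subgroupOf L) := isPGroup_subgroupOf hPp
  have hPL : P ≤ L := le_sup_left
  have htop : P.subgroupOf L ⊔ cz (P.subgroupOf L) = ⊤ := by
    rw [cz_subgroupOf hPL]
    rw [eq_top_iff]
    rintro ⟨x, hx⟩ -
    obtain ⟨a, ha, c, hc, rfl⟩ := mem_sup_of_le_nz (A := P) (C := cz P) ((Subgroup.le_normalizer).trans (nz_le_nz_cz P)) hx
    have h1 : (⟨a, hPL ha⟩ : L) ∈ P.subgroupOf L := Subgroup.mem_subgroupOf.2 ha
    have h2 : (⟨c, (le_sup_right : cz P ≤ L) hc⟩ : L) ∈ (cz P).subgroupOf L := Subgroup.mem_subgroupOf.2 hc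
    exact Subgroup.mul_mem_sup h1 h2
  obtain ⟨θ, hθ, -, -, h3, -⟩ := pcp_main hM hκ hP' htop hb hbD
  obtain ⟨ζ, hζ⟩ := h3 θ hθ
  -- the Brauer map
  have h4 := induced_br hM hPp hPL (sup_cz_le_nz P) hbB hθ hχ (isCen_cs g) (inS_cs (M := M) g)
  rw [om_cs χ.2] at h4
  have h5 : ¬ MemLocalIdeal M (om (θ : L → ℂ) (brA P L (cs ℂ g))) := by
    intro h6
    apply hg
    have h7 := MemLocalIdeal.sub h6 h4
    rwa [sub_sub_cancel] at h7
  have h6 : ∃ h : L, (brA P L (cs ℂ g)).coeff h * (θ : L → ℂ) h ≠ 0 := by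
    by_contra hcon
    push Not at hcon
    apply h5
    rw [om, ev_eq_sum, Finset.sum_congr rfl fun h _ => hcon h, Finset.sum_const_zero, zero_div]
    exact memLocalIdeal_zero
  obtain ⟨h, hh⟩ := h6
  rw [coeff_brA, coeff_cs] at hh
  by_cases hc : (h : G) ∈ Subgroup.centralizer (P : Set G)
  swap
  · rw [if_neg hc, zero_mul] at hh; exact absurd rfl hh
  by_cases hgh : IsConj g (h : G)
  swap
  · rw [if_pos hc, if_neg hgh, zero_mul] at hh; exact absurd rfl hh
  refine ⟨h, hgh, hc, fun z hz => ?_⟩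
  have hθh : (θ : L → ℂ) h ≠ 0 := right_ne_zero_of_mul hh
  have h7 : h ^ κ ∈ P.subgroupOf L := by
    by_contra h8
    apply hθh
    rw [hζ]
    exact tw_of_notMem _ _ h8
  have h8 : z = ((h ^ κ : L) : G) := by
    have h9 : IsPPart p h (h ^ κ) := (hκ _ _).2 rfl
    exact ppart_unique hz (ppart_coe.1 h9)
  refine ⟨by rw [h8]; exact Subgroup.mem_subgroupOf.1 h7, fun w hw => ?_⟩
  have h9 : z ∈ Subgroup.centralizer (P : Set G) := by
    rw [h8, Subgroup.coe_pow]
    exact Subgroup.pow_mem _ hc _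
  exact (Subgroup.mem_centralizer_iff.1 h9 w hw).symm

theorem exists_class_induced (hM : IsPModular p M) {H : Subgroup G} {b : Set (IrrCharacter H)} {B : Set (IrrCharacter G)}
    (hind : IsInducedBlock M H b B) {ξ : IrrCharacter H} (hξ : ξ ∈ b) {χ : IrrCharacter G} (hχ : χ ∈ B) {g : G}
    (hg : ¬ MemLocalIdeal M (centralChar (χ : G → ℂ) g)) :
    ∃ h : H, IsConj g (h : G) ∧ ¬ MemLocalIdeal M (centralChar (ξ : H → ℂ) h) := by
  classical
  haveI := IsPModular.isPrime hM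
  have h1 := induced_om hind hξ hχ (isCen_cs g) (inS_cs (M := M) g)
  rw [om_cs χ.2] at h1
  have h2 : ¬ MemLocalIdeal M (om (ξ : H → ℂ) (resA H (cs ℂ g))) := by
    intro h3
    apply hg
    have h4 := MemLocalIdeal.sub h3 h1
    rwa [sub_sub_cancel] at h4
  obtain ⟨h, h3, h4⟩ := exists_class (B := b) (isCen_resA (isCen_cs g)) (inS_resA (inS_cs (M := M) g)) h2
  refine ⟨h, ?_, h4⟩
  rw [coeff_resA, coeff_cs] at h3
  by_contra h5
  rw [if_neg h5] at h3
  exact h3 memLocalIdeal_zero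

/-- S0930 -/
theorem center_defect (hM : IsPModular p M) {H : Subgroup G} {b : Set (IrrCharacter H)} {B : Set (IrrCharacter G)}
    (hind : IsInducedBlock M H b B) {D : Subgroup H} (hD : IsDefectGroup p M b D) {P : Subgroup G} (hP : IsDefectGroup p M B P)
    {x : G} (hx : x ∈ P) (hxc : ∀ w ∈ P, x * w = w * x) :
    ∃ g : G, g * x * g⁻¹ ∈ D.map H.subtype ∧ ∀ w ∈ D.map H.subtype, (g * x * g⁻¹) * w = w * (g * x * g⁻¹) := by
  haveI := IsPModular.isPrime hM
  obtain ⟨y, hy, hyP⟩ := isDefectGroup_iff.1 hP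
  obtain ⟨χ, hχ⟩ := IsPBlock.nonempty hind.2.1
  obtain ⟨ξ, hξ⟩ := IsPBlock.nonempty hind.1
  have hxP : x ∈ Subgroup.centralizer (P : Set G) := by
    rw [Subgroup.mem_centralizer_iff]
    intro w hw
    exact (hxc w hw).symm
  have h1 := centralChar_val_mul hM hind.2.1 hy hyP hx hxP hχ
  obtain ⟨h, h2, h3⟩ := exists_class_induced hM hind hξ hχ h1
  obtain ⟨k, hk1, hk2, hk3⟩ := central_char_loc hM hind.1 hD hξ h3
  obtain ⟨z, hz⟩ := exists_ppart (p := p) k
  obtain ⟨hzD, hzc⟩ := hk3 z hz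
  -- `k` is conjugate to `x y`
  have h4 : IsConj (x * y) (k : G) := h2.trans (by
    obtain ⟨c, hc⟩ := isConj_iff.1 hk1
    rw [isConj_iff]
    exact ⟨c, by rw [← hc]; push_cast; rfl⟩)
  obtain ⟨c, hc⟩ := isConj_iff.1 h4
  have h5 : IsPPart p (x * y) x := by
    have hcomm : Commute x y := (Subgroup.mem_centralizer_singleton_iff.1 (hyP.1 hx))
    exact ⟨y, rfl, hcomm, orderOf_of_mem_pgroup hyP.isPGroup hx, defectClass_regular hM hind.2.1 hy⟩
  have h6 := ppart_conj h5 c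
  rw [hc] at h6
  have h7 : c * x * c⁻¹ = (z : G) := ppart_unique h6 (ppart_coe.1 hz)
  refine ⟨c, ?_, ?_⟩
  · rw [h7]; exact ⟨z, hzD, rfl⟩
  · rintro _ ⟨w, hw, rfl⟩
    rw [h7]
    exact congrArg Subtype.val (hzc w hw)

theorem defect_le_induced (hM : IsPModular p M) {H : Subgroup G} {b : Set (IrrCharacter H)} {B : Set (IrrCharacter G)}
    (hind : IsInducedBlock M H b B) : blockDefect p b ≤ blockDefect p B := by
  haveI := IsPModular.isPrime hM
  obtain ⟨D, hD⟩ := exists_defectGroup hM hind.1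
  obtain ⟨P, hP⟩ := exists_defectGroup hM hind.2.1
  obtain ⟨y, hy, hyP⟩ := isDefectGroup_iff.1 hP
  obtain ⟨χ, hχ⟩ := IsPBlock.nonempty hind.2.1
  obtain ⟨ξ, hξ⟩ := IsPBlock.nonempty hind.1
  obtain ⟨h, h2, h3⟩ := exists_class_induced hM hind hξ hχ (hy.2.2 χ hχ)
  obtain ⟨x, hx1, hx2⟩ := defect_le_centralizer hM hind.1 hD hξ h3
  have hyx : IsConj y (x : G) := h2.trans (by
    obtain ⟨c, hc⟩ := isConj_iff.1 hx1
    rw [isConj_iff]
    exact ⟨c, by rw [← hc]; push_cast; rfl⟩)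
  obtain ⟨c, hc⟩ := isConj_iff.1 hyx
  have h4 : D.map H.subtype ≤ cj c (Subgroup.centralizer ({y} : Set G)) := by
    rintro _ ⟨w, hw, rfl⟩
    rw [mem_cj, Subgroup.mem_centralizer_singleton_iff]
    have h5 : w * x = x * w := Subgroup.mem_centralizer_singleton_iff.1 (hx2 hw)
    have h6 : (w : G) * (x : G) = (x : G) * (w : G) := congrArg Subtype.val h5
    have h7 : (x : G) = c * y * c⁻¹ := hc.symm
    rw [h7] at h6
    show c⁻¹ * (w : G) * c * y = y * (c⁻¹ * (w : G) * c)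
    calc c⁻¹ * (w : G) * c * y = c⁻¹ * ((w : G) * (c * y * c⁻¹)) * c := by group
      _ = c⁻¹ * ((c * y * c⁻¹) * (w : G)) * c := by rw [h6]
      _ = _ := by group
  have h5 := (hyP.cj c).card_le (IsPGroup.map (CfsgH5.IsDefectGroup.isPGroup hD) H.subtype) h4
  rw [card_cj, Subgroup.card_map_of_injective H.subtype_injective, defectGroup_card hM hind.1 hD, defectGroup_card hM hind.2.1 hP] at h5
  exact (Nat.pow_le_pow_iff_right hp.out.one_lt).1 h5

/-- S0931 -/
theorem defect_zero_induced (hM : IsPModular p M) {H : Subgroup G} {b : Set (IrrCharacter H)} {B : Set (IrrCharacter G)}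
    (hind : IsInducedBlock M H b B) : blockDefect p b = 0 ↔ blockDefect p B = 0 := by
  haveI := IsPModular.isPrime hM
  constructor
  · intro h0
    obtain ⟨D, hD⟩ := exists_defectGroup hM hind.1
    obtain ⟨P, hP⟩ := exists_defectGroup hM hind.2.1
    have hPc := defectGroup_card hM hind.2.1 hP
    by_contra hne
    have hPp : IsPGroup p P := CfsgH5.IsDefectGroup.isPGroup hP
    haveI : Nontrivial P := by
      rw [Subgroup.nontrivial_iff_ne_bot]
      rintro rfl
      rw [Subgroup.card_bot] at hPc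
      have : 1 < p ^ blockDefect p B := Nat.one_lt_pow hne hp.out.one_lt
      omega
    haveI := hPp.center_nontrivial
    obtain ⟨z, hz⟩ := exists_ne (1 : Subgroup.center P)
    obtain ⟨g, hg, -⟩ := center_defect hM hind hD hP (x := ((z : P) : G)) (z : P).2 (fun w hw => by
      have := Subgroup.mem_center_iff.1 z.2 ⟨w, hw⟩
      exact (congrArg Subtype.val this).symm)
    have hDc := defectGroup_card hM hind.1 hD
    rw [h0, pow_zero] at hDc
    have h1 : D = ⊥ := Subgroup.card_eq_one.1 hDc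
    rw [h1, Subgroup.map_bot, Subgroup.mem_bot] at hg
    apply hz
    apply Subtype.ext
    apply Subtype.ext
    have h2 : ((z : P) : G) = g⁻¹ * (g * ((z : P) : G) * g⁻¹) * g := by group
    rw [h2, hg]
    simp
  · intro h0
    have := defect_le_induced hM hind
    omega

end CfsgH5
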