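import Cfsg.Agent.H5.Princ2
import Cfsg.Agent.H5.Syl

/-!
# Characters of small degree and coprime TI action
-/

set_option autoImplicit false
open Cfsg MonoidAlgebra
open CfsgH4 hiding centralChar sum_conj

namespace CfsgH5

open scoped ComplexConjugate

section Hom

variable {G : Type*} [Group G] [Finite G]

/-- restriction of a representation -/
def resRp {V : Type*} [AddCommGroup V] [Module ℂ V] (σ : Representation ℂ G V) (N : Subgroup G) : Representation ℂ N V :=
  σ.comp N.subtype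

theorem finrank_inv_eq {n : ℕ} (ρ : Representation ℂ G (Fin n → ℂ)) (N : Subgroup G) [Fintype N] :
    (Module.finrank ℂ (Representation.invariants (resRp (Representation.linHom ρ ρ) N)) : ℂ) =
      classInner (fun x : N => ρ.character x) (fun x : N => ρ.character x) := by
  haveI : Invertible (Nat.card N : ℂ) := invertibleOfNonzero (card_ne_zero N)
  rw [← Representation.card_inv_mul_sum_char_eq_finrank, classInner_def]
  congr 1
  refine Finset.sum_congr rfl fun x _ => ?_
  have h1 : (resRp (Representation.linHom ρ ρ) N).character x =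
      (Representation.linHom ρ ρ).character (x : G) := rfl
  rw [h1, Representation.char_linHom, mul_comm]
  congr 1
  exact IsCharacter.inv_eq ⟨n, ρ, rfl⟩ (x : G)

/-- if `χ_N` and `χ_C` have the same norm then everything that centralises `C` centralises `N` modulo the kernel -/
theorem ker_of_inner_eq {N C : Subgroup G} [Fintype N] [Fintype C] (hCN : C ≤ N) {χ : G → ℂ} (hχ : IsCharacter G χ)
    (h : classInner (fun x : C => χ x) (fun x : C => χ x) = classInner (fun x : N => χ x) (fun x : N => χ x))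
    {x : G} (hx : ∀ c ∈ C, c * x = x * c) {n : G} (hn : n ∈ N) : χ (n * x * n⁻¹ * x⁻¹) = χ 1 := by
  obtain ⟨k, ρ, rfl⟩ := hχ
  set σ := Representation.linHom ρ ρ with hσ
  have hle : Representation.invariants (resRp σ N) ≤ Representation.invariants (resRp σ C) := by
    intro v hv c
    exact hv ⟨(c : G), hCN c.2⟩
  have hfin : Module.finrank ℂ (Representation.invariants (resRp σ N)) =
      Module.finrank ℂ (Representation.invariants (resRp σ C)) := by
    have h1 := finrank_inv_eq ρ N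
    have h2 := finrank_inv_eq ρ C
    rw [← h, ← h2] at h1
    exact_mod_cast h1
  have heq := Submodule.eq_of_le_of_finrank_eq hle hfin
  have hmem : ρ x ∈ Representation.invariants (resRp σ C) := by
    intro c
    show ρ (c : G) ∘ₗ ρ x ∘ₗ ρ (c : G)⁻¹ = ρ x
    rw [← Module.End.mul_eq_comp, ← Module.End.mul_eq_comp, ← map_mul, ← map_mul]
    congr 1
    rw [← mul_assoc, hx c c.2]; group
  rw [← heq] at hmem
  have h1 := hmem ⟨n, hn⟩
  have h2 : ρ n ∘ₗ ρ x ∘ₗ ρ n⁻¹ = ρ x := h1
  have h3 : ρ (n * x * n⁻¹ * x⁻¹) = 1 := by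
    rw [← Module.End.mul_eq_comp, ← Module.End.mul_eq_comp, ← map_mul, ← map_mul] at h2
    have h4 : n * x * n⁻¹ * x⁻¹ = (n * (x * n⁻¹)) * x⁻¹ := by group
    rw [h4, map_mul, h2, ← map_mul, mul_inv_cancel, map_one]
  show ρ.character _ = ρ.character 1
  rw [Representation.character, Representation.character, h3, map_one ρ]

end Hom

section Coset

variable {G : Type*} [Group G] [Finite G] {p : ℕ} [hp : Fact p.Prime]

theorem coset_count {N C : Subgroup G} [Fintype N] [Fintype C] (hN : ¬ p ∣ Nat.card N) {x : G}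
    (hxN : x ∈ Subgroup.normalizer (N : Set G)) (hxp : ∃ k, orderOf x = p ^ k)
    (hC : ∀ c, c ∈ C ↔ c ∈ N ∧ c * x = x * c) {F : G → ℂ} (hF : ∀ g y : G, F (g * y * g⁻¹) = F y) :
    (Nat.card N : ℂ) * ∑ c : C, F (c * x) = (Nat.card C : ℂ) * ∑ n : N, F (n * x) := by
  classical
  have hreg : ∀ c ∈ N, ¬ p ∣ orderOf c := by
    intro c hc h
    exact hN (h.trans (by have := orderOf_dvd_natCard (⟨c, hc⟩ : N); rwa [← Subgroup.orderOf_coe] at this))
  have hpp : ∀ c ∈ C, IsPPart p (c * x) x := by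
    intro c hc
    have h1 := (hC c).1 hc
    exact ⟨c, h1.2.symm, h1.2.symm, hxp, hreg c h1.1⟩
  have hmem : ∀ (n : N) (c : C), (n : G) * (c * x) * (n : G)⁻¹ * x⁻¹ ∈ N := by
    intro n c
    have h1 : x * (n : G)⁻¹ * x⁻¹ ∈ N := (Subgroup.mem_normalizer_iff.1 hxN _).1 (N.inv_mem n.2)
    have h2 : (n : G) * (c * x) * (n : G)⁻¹ * x⁻¹ = (n : G) * c * (x * (n : G)⁻¹ * x⁻¹) := by group
    rw [h2]
    exact N.mul_mem (N.mul_mem n.2 ((hC c).1 c.2).1) h1
  let Φ : N × C → N := fun a => ⟨(a.1 : G) * (a.2 * x) * (a.1 : G)⁻¹ * x⁻¹, hmem a.1 a.2⟩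
  have hΦ : ∀ a : N × C, ((Φ a : N) : G) * x = (a.1 : G) * (a.2 * x) * (a.1 : G)⁻¹ := by
    intro a
    show (a.1 : G) * (a.2 * x) * (a.1 : G)⁻¹ * x⁻¹ * x = _
    group
  have hfib : ∀ m : N, (Finset.univ.filter (fun a : N × C => Φ a = m)).card ≤ Nat.card C := by
    intro m
    by_cases hne : (Finset.univ.filter (fun a : N × C => Φ a = m)).Nonempty
    · obtain ⟨a₀, ha₀⟩ := hne
      have h0 : Φ a₀ = m := (Finset.mem_filter.1 ha₀).2
      have key : ∀ a ∈ Finset.univ.filter (fun a : N × C => Φ a = m), (a₀.1 : G)⁻¹ * a.1 ∈ C := by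
        intro a ha
        have h1 : Φ a = m := (Finset.mem_filter.1 ha).2
        have h2 : (a.1 : G) * (a.2 * x) * (a.1 : G)⁻¹ = (a₀.1 : G) * (a₀.2 * x) * (a₀.1 : G)⁻¹ := by
          rw [← hΦ a, ← hΦ a₀, h0, h1]
        have h3 := ppart_conj (hpp a.2 a.2.2) (a.1 : G)
        have h4 := ppart_conj (hpp a₀.2 a₀.2.2) (a₀.1 : G)
        rw [h2] at h3
        have h5 := ppart_unique h3 h4
        rw [hC]
        refine ⟨N.mul_mem (N.inv_mem a₀.1.2) a.1.2, ?_⟩
        have h6 : (a₀.1 : G)⁻¹ * ((a.1 : G) * x * (a.1 : G)⁻¹) * a.1 = (a₀.1 : G)⁻¹ * ((a₀.1 : G) * x * (a₀.1 : G)⁻¹) * a.1 := by rw [h5]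
        have h7 : (a₀.1 : G)⁻¹ * ((a.1 : G) * x * (a.1 : G)⁻¹) * a.1 = (a₀.1 : G)⁻¹ * a.1 * x := by group
        have h8 : (a₀.1 : G)⁻¹ * ((a₀.1 : G) * x * (a₀.1 : G)⁻¹) * a.1 = x * ((a₀.1 : G)⁻¹ * a.1) := by group
        rw [h7, h8] at h6
        exact h6
      have h9 : (Finset.univ.filter (fun a : N × C => Φ a = m)).card ≤ (Finset.univ : Finset C).card := by
        refine Finset.card_le_card_of_injOn (fun a : N × C => if h : (a₀.1 : G)⁻¹ * a.1 ∈ C then (⟨_, h⟩ : C) else 1)
          (fun _ _ => Finset.mem_coe.2 (Finset.mem_univ _)) ?_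
        intro a ha b hb hab
        have ha' := key a (Finset.mem_coe.1 ha)
        have hb' := key b (Finset.mem_coe.1 hb)
        simp only [ha', hb', dite_true, Subtype.mk.injEq, mul_right_inj] at hab
        have h10 : a.1 = b.1 := Subtype.ext hab
        have h11 : Φ a = m := (Finset.mem_filter.1 (Finset.mem_coe.1 ha)).2
        have h12 : Φ b = m := (Finset.mem_filter.1 (Finset.mem_coe.1 hb)).2
        have h13 : (a.1 : G) * (a.2 * x) * (a.1 : G)⁻¹ = (b.1 : G) * (b.2 * x) * (b.1 : G)⁻¹ := by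
          rw [← hΦ a, ← hΦ b, h11, h12]
        rw [h10] at h13
        have h14 : (a.2 : G) * x = b.2 * x := by
          have := congrArg (fun g => (b.1 : G)⁻¹ * g * b.1) h13
          simpa [mul_assoc] using this
        exact Prod.ext h10 (Subtype.ext (mul_right_cancel h14))
      rwa [Finset.card_univ, ← Nat.card_eq_fintype_card] at h9
    · rw [Finset.not_nonempty_iff_eq_empty] at hne
      rw [hne]; simp
  have htot : ∑ m : N, (Finset.univ.filter (fun a : N × C => Φ a = m)).card = Nat.card N * Nat.card C := by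
    rw [← Finset.card_eq_sum_card_fiberwise (fun a _ => Finset.mem_coe.2 (Finset.mem_univ (Φ a))), Finset.card_univ, Fintype.card_prod,
      Nat.card_eq_fintype_card, Nat.card_eq_fintype_card]
  have heq : ∀ m : N, (Finset.univ.filter (fun a : N × C => Φ a = m)).card = Nat.card C := by
    have h1 : ∑ m : N, (Finset.univ.filter (fun a : N × C => Φ a = m)).card = ∑ _m : N, Nat.card C := by
      rw [htot, Finset.sum_const, Finset.card_univ, smul_eq_mul, ← Nat.card_eq_fintype_card]
    intro m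
    exact (Finset.sum_eq_sum_iff_of_le (fun m _ => hfib m)).1 h1 m (Finset.mem_univ m)
  have hL : ∑ a : N × C, F ((Φ a : G) * x) = (Nat.card N : ℂ) * ∑ c : C, F (c * x) := by
    simp only [hΦ, hF]
    rw [Fintype.sum_prod_type]
    simp only [Finset.sum_const, Finset.card_univ, nsmul_eq_mul]
    rw [Nat.card_eq_fintype_card]
  have hR : ∑ a : N × C, F ((Φ a : G) * x) = (Nat.card C : ℂ) * ∑ n : N, F (n * x) := by
    rw [← Finset.sum_fiberwise (Finset.univ : Finset (N × C)) Φ, Finset.mul_sum]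
    refine Finset.sum_congr rfl fun m _ => ?_
    have h1 : ∀ a ∈ Finset.univ.filter (fun a : N × C => Φ a = m), F ((Φ a : G) * x) = F ((m : G) * x) := by
      intro a ha
      rw [(Finset.mem_filter.1 ha).2]
    rw [Finset.sum_congr rfl h1, Finset.sum_const, heq m, nsmul_eq_mul]
  rw [← hL, hR]

theorem sum_sup {A P : Subgroup G} [Fintype A] [Fintype P] [Fintype (A ⊔ P : Subgroup G)]
    (hP : P ≤ Subgroup.normalizer (A : Set G)) (hAP : A ⊓ P = ⊥) (F : G → ℂ) :
    ∑ k : (A ⊔ P : Subgroup G), F k = ∑ x : P, ∑ a : A, F (a * x) := by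
  classical
  rw [← Fintype.sum_prod_type']
  symm
  refine Fintype.sum_bijective (fun y : P × A => (⟨(y.2 : G) * y.1, Subgroup.mul_mem_sup y.2.2 y.1.2⟩ : (A ⊔ P : Subgroup G)))
    ⟨?_, ?_⟩ _ _ (fun y => rfl)
  · intro a b hab
    have h1 : (a.2 : G) * a.1 = b.2 * b.1 := congrArg Subtype.val hab
    have h2 : (b.2 : G)⁻¹ * a.2 = b.1 * (a.1 : G)⁻¹ := by
      have := congrArg (fun g => (b.2 : G)⁻¹ * g * (a.1 : G)⁻¹) h1
      simpa [mul_assoc] using this
    have h3 : (b.2 : G)⁻¹ * a.2 ∈ A ⊓ P := ⟨A.mul_mem (A.inv_mem b.2.2) a.2.2, by rw [h2]; exact P.mul_mem b.1.2 (P.inv_mem a.1.2)⟩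
    rw [hAP, Subgroup.mem_bot] at h3
    have h4 : a.2 = b.2 := Subtype.ext (inv_mul_eq_one.1 h3).symm
    rw [h3] at h2
    have h5 : a.1 = b.1 := Subtype.ext (mul_inv_eq_one.1 h2.symm).symm
    exact Prod.ext h5 h4
  · intro k
    have h1 : (k : G) ∈ ((A ⊔ P : Subgroup G) : Set G) := k.2
    rw [Subgroup.coe_mul_of_right_le_normalizer_left A P hP] at h1
    obtain ⟨a, ha, x, hx, hax⟩ := Set.mem_mul.1 h1
    exact ⟨(⟨x, hx⟩, ⟨a, ha⟩), Subtype.ext hax⟩

/-- the key identity: if the nonidentity elements of `P` all have the same centraliser in the `p'`-group `N`, then a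
character of degree at most `√|P|` has the same norm on `N` and on `C_N(P)` -/
theorem inner_eq_of_small {N P C : Subgroup G} [Fintype N] [Fintype P] [Fintype C] (hN : ¬ p ∣ Nat.card N) (hP : IsPGroup p P)
    (hPN : P ≤ Subgroup.normalizer (N : Set G)) (hC : C = N ⊓ Subgroup.centralizer (P : Set G))
    (hTI : ∀ x ∈ P, x ≠ 1 → ∀ c ∈ N, c * x = x * c → c ∈ C) {χ : G → ℂ} (hχ : IsCharacter G χ)
    {d : ℕ} (hd : χ 1 = d) (hdP : d ^ 2 ≤ Nat.card P) (hd0 : 0 < d) :
    classInner (fun x : C => χ x) (fun x : C => χ x) = classInner (fun x : N => χ x) (fun x : N => χ x) := by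
  classical
  haveI : Fintype (N ⊔ P : Subgroup G) := Fintype.ofFinite _
  haveI : Fintype (C ⊔ P : Subgroup G) := Fintype.ofFinite _
  have hPC : P ≤ Subgroup.normalizer (C : Set G) := by
    intro x hx
    rw [Subgroup.mem_normalizer_iff]
    intro c
    have h1 : ∀ y ∈ P, ∀ c ∈ C, y * c * y⁻¹ = c := by
      intro y hy c hc
      rw [hC] at hc
      have := Subgroup.mem_centralizer_iff.1 hc.2 y hy
      rw [this]; group
    constructor
    · intro hc; rw [h1 x hx c hc]; exact hc
    · intro hc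
      have h2 := h1 x⁻¹ (P.inv_mem hx) _ hc
      have h3 : x⁻¹ * (x * c * x⁻¹) * x⁻¹⁻¹ = c := by group
      rw [h3] at h2
      rw [h2]; exact hc
  have hNP : N ⊓ P = ⊥ := by
    rw [eq_bot_iff]
    rintro x ⟨hxN, hxP⟩
    rw [Subgroup.mem_bot]
    obtain ⟨k, hk⟩ := (IsPGroup.iff_orderOf.1 hP) ⟨x, hxP⟩
    rw [← Subgroup.orderOf_coe] at hk
    have h1 : orderOf x ∣ Nat.card N := by
      have := orderOf_dvd_natCard (⟨x, hxN⟩ : N); rwa [← Subgroup.orderOf_coe] at this
    rcases Nat.eq_zero_or_pos k with h0 | h0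
    · rw [h0, pow_zero] at hk; exact orderOf_eq_one_iff.1 hk
    · exfalso
      apply hN
      exact (dvd_pow_self p h0.ne').trans (hk ▸ h1)
  have hCN : C ≤ N := by rw [hC]; exact inf_le_left
  have hCP : C ⊓ P = ⊥ := by
    rw [eq_bot_iff, ← hNP]; exact inf_le_inf_right _ hCN
  set F : G → ℂ := fun g => χ g * conj (χ g) with hF
  have hFc : ∀ g y : G, F (g * y * g⁻¹) = F y := by
    intro g y
    simp only [hF, IsCharacter.conj_eq hχ]
  have e1 := sum_sup hPN hNP F
  have e2 := sum_sup hPC hCP F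
  have e3 : ∀ x : P, (x : G) ≠ 1 → (Nat.card N : ℂ) * ∑ c : C, F (c * x) = (Nat.card C : ℂ) * ∑ n : N, F (n * x) := by
    intro x hx
    apply coset_count hN (hPN x.2) _ _ hFc
    · obtain ⟨k, hk⟩ := (IsPGroup.iff_orderOf.1 hP) x
      exact ⟨k, by rw [Subgroup.orderOf_coe, hk]⟩
    · intro c
      constructor
      · intro hc
        refine ⟨hCN hc, ?_⟩
        rw [hC] at hc
        exact (Subgroup.mem_centralizer_iff.1 hc.2 x x.2).symm
      · rintro ⟨h1, h2⟩; exact hTI x x.2 hx c h1 h2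
  -- cardinalities
  have c1 : Nat.card (N ⊔ P : Subgroup G) = Nat.card N * Nat.card P := by
    have := sum_sup hPN hNP (fun _ => (1 : ℂ))
    simp only [Finset.sum_const, Finset.card_univ, nsmul_eq_mul, mul_one] at this
    rw [Nat.card_eq_fintype_card, Nat.card_eq_fintype_card, Nat.card_eq_fintype_card]
    rw [mul_comm]
    exact_mod_cast this
  have c2 : Nat.card (C ⊔ P : Subgroup G) = Nat.card C * Nat.card P := by
    have := sum_sup hPC hCP (fun _ => (1 : ℂ))
    simp only [Finset.sum_const, Finset.card_univ, nsmul_eq_mul, mul_one] at this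
    rw [Nat.card_eq_fintype_card, Nat.card_eq_fintype_card, Nat.card_eq_fintype_card]
    rw [mul_comm]
    exact_mod_cast this
  obtain ⟨sN, hsN⟩ := IsCharacter.inner_nat (isCharacter_restrict (N ⊔ P) hχ) (isCharacter_restrict (N ⊔ P) hχ)
  obtain ⟨sC, hsC⟩ := IsCharacter.inner_nat (isCharacter_restrict (C ⊔ P) hχ) (isCharacter_restrict (C ⊔ P) hχ)
  obtain ⟨tN, htN⟩ := IsCharacter.inner_nat (isCharacter_restrict N hχ) (isCharacter_restrict N hχ)
  obtain ⟨tC, htC⟩ := IsCharacter.inner_nat (isCharacter_restrict C hχ) (isCharacter_restrict C hχ)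
  have hcN := card_ne_zero N
  have hcC := card_ne_zero C
  have hcP := card_ne_zero P
  have f1 : ∑ k : (N ⊔ P : Subgroup G), F k = (Nat.card N : ℂ) * Nat.card P * sN := by
    rw [classInner_def, c1] at hsN
    push_cast at hsN
    field_simp at hsN
    exact hsN
  have f2 : ∑ k : (C ⊔ P : Subgroup G), F k = (Nat.card C : ℂ) * Nat.card P * sC := by
    rw [classInner_def, c2] at hsC
    push_cast at hsC
    field_simp at hsC
    exact hsC
  have f3 : ∑ k : N, F k = (Nat.card N : ℂ) * tN := by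
    rw [classInner_def] at htN
    field_simp at htN
    exact htN
  have f4 : ∑ k : C, F k = (Nat.card C : ℂ) * tC := by
    rw [classInner_def] at htC
    field_simp at htC
    exact htC
  -- the main equation
  have g1 : ∑ x : P, ((Nat.card N : ℂ) * ∑ c : C, F (c * x) - (Nat.card C : ℂ) * ∑ n : N, F (n * x)) =
      (Nat.card N : ℂ) * ∑ c : C, F c - (Nat.card C : ℂ) * ∑ n : N, F n := by
    rw [Finset.sum_eq_single (1 : P)]
    · simp
    · intro x _ hx
      rw [e3 x (fun h => hx (Subtype.ext h)), sub_self]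
    · intro h; exact absurd (Finset.mem_univ _) h
  rw [Finset.sum_sub_distrib, ← Finset.mul_sum, ← Finset.mul_sum, ← e1, ← e2, f1, f2, f3, f4] at g1
  have g2 : (Nat.card P : ℂ) * sC - (Nat.card P : ℂ) * sN = tC - tN := by
    have h3 : (Nat.card N : ℂ) * Nat.card C ≠ 0 := mul_ne_zero hcN hcC
    apply mul_left_cancel₀ h3
    linear_combination g1
  -- bounds
  have bound : ∀ (A : Subgroup G) [Fintype A] (t : ℕ), classInner (fun x : A => χ x) (fun x : A => χ x) = t → t ≤ d ^ 2 ∧ 1 ≤ t := by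
    intro A _ t ht
    constructor
    · rw [classInner_self_eq] at ht
      have h1 : ((Nat.card A : ℝ)⁻¹ * ∑ g : A, ‖χ g‖ ^ 2) = t := by exact_mod_cast ht
      have hA : (0 : ℝ) < Nat.card A := by exact_mod_cast Nat.card_pos
      have h2 : ∑ g : A, ‖χ g‖ ^ 2 ≤ ∑ _g : A, (d : ℝ) ^ 2 := by
        refine Finset.sum_le_sum fun g _ => ?_
        have h3 := IsCharacter.norm_le hχ (g : G)
        rw [hd] at h3
        have h4 : ‖(d : ℂ)‖ = d := by simp
        rw [h4] at h3
        exact pow_le_pow_left₀ (norm_nonneg _) h3 2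
      rw [Finset.sum_const, Finset.card_univ, nsmul_eq_mul, ← Nat.card_eq_fintype_card] at h2
      have h5 : (t : ℝ) ≤ (d : ℝ) ^ 2 := by
        rw [← h1, inv_mul_le_iff₀ hA]; exact h2
      exact_mod_cast h5
    · rw [Nat.one_le_iff_ne_zero]
      rintro rfl
      rw [Nat.cast_zero] at ht
      have h1 := classInner_self_eq_zero ht
      have h2 := congrFun h1 1
      simp only [Pi.zero_apply, Subgroup.coe_one] at h2
      rw [hd] at h2
      have : d = 0 := by exact_mod_cast h2
      omega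
  obtain ⟨bN1, bN2⟩ := bound N tN htN
  obtain ⟨bC1, bC2⟩ := bound C tC htC
  have g3 : (Nat.card P : ℤ) * ((sC : ℤ) - sN) = (tC : ℤ) - tN := by
    have : (Nat.card P : ℂ) * (sC - sN) = (tC - tN) := by linear_combination g2
    exact_mod_cast this
  have g4 : (tC : ℤ) - tN = 0 := by
    have h1 : |(tC : ℤ) - tN| < Nat.card P := by
      rw [abs_lt]
      constructor <;> omega
    exact Int.eq_zero_of_abs_lt_dvd ⟨_, g3.symm⟩ h1
  have g5 : tC = tN := by omega
  rw [htC, htN, g5]

end Coset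

end CfsgH5
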