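import Cfsg.Agent.H5.Cover3
import Cfsg.Agent.H1.CopExtra
import Cfsg.Agent.H1.Frat

/-!
# Blocks of `G/D'`
-/

set_option autoImplicit false

open Cfsg MonoidAlgebra
open CfsgH4 hiding centralChar sum_conj

namespace CfsgH5

section InflD

variable {G : Type*} [Group G] [Finite G] {M : Ideal AlgInt} {p : ℕ} [hp : Fact p.Prime]
variable {D : Subgroup G} [hDn : D.Normal]

/-- a `p'`-element acting trivially on `D/D'` centralizes the `p`-group `D` -/
theorem centralizes_of_abelianization (hD : IsPGroup p D) {g : G} (hg : ¬ p ∣ orderOf g)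
    (h : ∀ d ∈ D, g * d * g⁻¹ * d⁻¹ ∈ ⁅D, D⁆) : g ∈ Subgroup.centralizer (D : Set G) := by
  have hcop1 : (Nat.card (Subgroup.zpowers g)).Coprime p := by
    rw [Nat.card_zpowers, Nat.coprime_comm, hp.out.coprime_iff_not_dvd]; exact hg
  have hcard : ∀ (H : Subgroup D), (Nat.card (Subgroup.zpowers g)).Coprime (Nat.card H) := by
    intro H
    obtain ⟨n, hn⟩ := IsPGroup.iff_card.1 (hD.to_subgroup H)
    rw [hn]
    exact Nat.Coprime.pow_right n hcop1
  have hnil : Group.IsNilpotent D := hD.isNilpotent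
  have hA : Subgroup.zpowers g ≤ Subgroup.normalizer (D : Set G) := by
    rw [Subgroup.normalizer_eq_top_iff.2 hDn]; exact le_top
  have hfr : ⁅D, D⁆ ≤ (frattini D).map D.subtype := by
    have h1 := CfsgH1.commutator_le_frattini (G := D)
    have h2 := Subgroup.map_mono (f := D.subtype) h1
    rwa [commutator_def, Subgroup.map_commutator, ← MonoidHom.range_eq_map, Subgroup.range_subtype] at h2
  have h2 := CfsgH1.coprime_trivial_of_frattini hA (hcard (frattini D)) (fun a ha k hk => ?_)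
  · exact h2 (Subgroup.mem_zpowers g)
  · apply hfr
    -- powers of g act trivially modulo the commutator subgroup
    have h3 : ∀ d ∈ D, ∃ c ∈ ⁅D, D⁆, g * d * g⁻¹ = c * d := fun d hd => ⟨_, h d hd, by group⟩
    haveI : (⁅D, D⁆ : Subgroup G).Normal := Subgroup.commutator_normal D D
    let φ : G →* MulAut (G ⧸ (⁅D, D⁆ : Subgroup G)) := MulAut.conj.comp (QuotientGroup.mk' _)
    have h4 : ∀ n : ℤ, ∀ d ∈ D, ((g ^ n * d * (g ^ n)⁻¹ : G) : G ⧸ (⁅D, D⁆ : Subgroup G)) = (d : G ⧸ (⁅D, D⁆ : Subgroup G)) := by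
      have hbase : ∀ d ∈ D, Commute (g : G ⧸ (⁅D, D⁆ : Subgroup G)) (d : G ⧸ (⁅D, D⁆ : Subgroup G)) := by
        intro d hd
        show (g : G ⧸ (⁅D, D⁆ : Subgroup G)) * d = d * g
        rw [← QuotientGroup.mk_mul, ← QuotientGroup.mk_mul, QuotientGroup.eq]
        have h5 := (⁅D, D⁆ : Subgroup G).inv_mem (h d hd)
        have h6 := this.conj_mem _ h5 ((g * d)⁻¹)
        have h7 : (g * d)⁻¹ * (g * d * g⁻¹ * d⁻¹)⁻¹ * (g * d)⁻¹⁻¹ = (g * d)⁻¹ * (d * g) := by group
        rw [h7] at h6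
        exact h6
      intro n d hd
      have h8 := (hbase d hd).zpow_left n
      rw [QuotientGroup.mk_mul, QuotientGroup.mk_mul, QuotientGroup.mk_inv, QuotientGroup.mk_zpow, h8.eq]
      group
    obtain ⟨n, rfl⟩ := Subgroup.mem_zpowers_iff.1 ha
    have h9 := h4 n k hk
    rw [QuotientGroup.eq] at h9
    have h10 := this.conj_mem _ ((⁅D, D⁆ : Subgroup G).inv_mem h9) k
    have h11 : k * ((g ^ n * k * (g ^ n)⁻¹)⁻¹ * k)⁻¹ * k⁻¹ = g ^ n * k * (g ^ n)⁻¹ * k⁻¹ := by group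
    rwa [h11] at h10

instance commutator_normal_self : (⁅D, D⁆ : Subgroup G).Normal := Subgroup.commutator_normal D D

/-- S4964 (i) -/
theorem sameBlock_infl_comm_iff (hM : IsPModular p M) (hD : IsPGroup p D)
    {χ ψ : IrrCharacter (G ⧸ (⁅D, D⁆ : Subgroup G))} :
    SameBlock M (χ : G ⧸ (⁅D, D⁆ : Subgroup G) → ℂ) (ψ : G ⧸ (⁅D, D⁆ : Subgroup G) → ℂ) ↔
      SameBlock M (inflI (⁅D, D⁆ : Subgroup G) χ : G → ℂ) (inflI (⁅D, D⁆ : Subgroup G) ψ : G → ℂ) := by
  haveI := IsPModular.isPrime hM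
  have hle : (⁅D, D⁆ : Subgroup G) ≤ D := Subgroup.commutator_le_left D D
  have hP : IsPGroup p (⁅D, D⁆ : Subgroup G) := hD.to_le hle
  refine ⟨sameBlock_infl _, fun h => sameBlock_of_regular hM fun x hx => ?_⟩
  haveI hDq : (D.map (QuotientGroup.mk' (⁅D, D⁆ : Subgroup G))).Normal :=
    hDn.map _ (QuotientGroup.mk'_surjective _)
  have hDqp : IsPGroup p (D.map (QuotientGroup.mk' (⁅D, D⁆ : Subgroup G))) := hD.map _
  by_cases hxC : x ∈ Subgroup.centralizer ((D.map (QuotientGroup.mk' (⁅D, D⁆ : Subgroup G)) : Subgroup _) : Set (G ⧸ (⁅D, D⁆ : Subgroup G)))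
  · obtain ⟨g, rfl, hg⟩ := exists_regular_lift hP hx
    have hgC : g ∈ Subgroup.centralizer (D : Set G) := by
      apply centralizes_of_abelianization hD hg
      intro d hd
      have h1 := Subgroup.mem_centralizer_iff.1 hxC (d : G ⧸ (⁅D, D⁆ : Subgroup G)) ⟨d, hd, rfl⟩
      rw [← QuotientGroup.mk_mul, ← QuotientGroup.mk_mul, QuotientGroup.eq] at h1
      have h2 := (commutator_normal_self (D := D)).conj_mem _ h1 (d * g)
      have h3 : d * g * ((d * g)⁻¹ * (g * d)) * (d * g)⁻¹ = g * d * g⁻¹ * d⁻¹ := by group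
      rwa [h3] at h2
    have h1 := index_centralizer_mk_eq hP hg (fun x hx => (Subgroup.mem_centralizer_iff.1 hgC x (hle hx)).symm)
    have h2 : ∀ χ : IrrCharacter (G ⧸ (⁅D, D⁆ : Subgroup G)), centralChar (χ : G ⧸ (⁅D, D⁆ : Subgroup G) → ℂ) (g : G ⧸ (⁅D, D⁆ : Subgroup G)) =
        centralChar (inflI (⁅D, D⁆ : Subgroup G) χ : G → ℂ) g := by
      intro χ
      unfold centralChar
      rw [h1, inflI_apply, inflI_apply]
      rfl
    rw [h2, h2]
    exact h g
  · exact MemLocalIdeal.sub (centralChar_mem_of_notMem hM hDqp hxC χ.2) (centralChar_mem_of_notMem hM hDqp hxC ψ.2)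

end InflD

end CfsgH5
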