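import Cfsg.Agent.H5.OneChar
import Cfsg.Agent.H2.Cores

/-!
# A condition on the values at one element
-/

set_option autoImplicit false
open Cfsg MonoidAlgebra
open CfsgH4 hiding centralChar sum_conj regInner_symm

namespace CfsgH5

open scoped ComplexConjugate

variable {G : Type*} [Group G] [Fintype G] {u : G} {c : ℂ}

theorem dc_lin (hyp : ∀ χ : IrrCharacter G, (χ : G → ℂ) ≠ (fun _ => (1 : ℂ)) →
    ((χ : G → ℂ) 1 - (χ : G → ℂ) u = c ∨ (χ : G → ℂ) u = 0)) {f : G →* ℂˣ} (hf : f ≠ 1) :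
    (f u : ℂ) = 1 - c := by
  have h1 := hyp ⟨fun g => (f g : ℂ), isCharacter_one_dim f⟩ (fun h => hf (MonoidHom.ext fun g => by
    apply Units.ext
    exact congrFun h g))
  rcases h1 with h1 | h1
  · have h2 : ((f 1 : ℂˣ) : ℂ) - ((f u : ℂˣ) : ℂ) = c := h1
    rw [map_one, Units.val_one] at h2
    linear_combination -h2
  · exact absurd h1 (f u).ne_zero

theorem dc_c_ne (hu : u ≠ 1) (hyp : ∀ χ : IrrCharacter G, (χ : G → ℂ) ≠ (fun _ => (1 : ℂ)) →
    ((χ : G → ℂ) 1 - (χ : G → ℂ) u = c ∨ (χ : G → ℂ) u = 0)) : c ≠ 0 := by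
  classical
  rintro rfl
  have h1 := col_orth_not (G := G) (g := u) (h := 1) (fun h => hu (isConj_one_left.1 h))
  have h2 : ∀ χ : IrrCharacter G, ∃ n : ℕ, (χ : G → ℂ) u * conj ((χ : G → ℂ) 1) = (n : ℂ) ∧
      ((χ : G → ℂ) = (fun _ => (1 : ℂ)) → n = 1) := by
    intro χ
    by_cases hχ : (χ : G → ℂ) = (fun _ => (1 : ℂ))
    · exact ⟨1, by rw [hχ]; simp, fun _ => rfl⟩
    · rcases hyp χ hχ with h | h
      · refine ⟨charDegree (χ : G → ℂ) ^ 2, ?_, fun h => absurd h hχ⟩
        rw [← sub_eq_zero.1 h, (IsIrr.one_eq χ.2).1, Complex.conj_natCast]; push_cast; ring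
      · exact ⟨0, by rw [h]; simp, fun h => absurd h hχ⟩
  choose n hn hn1 using h2
  rw [Finset.sum_congr rfl fun χ _ => hn χ, ← Nat.cast_sum] at h1
  have h3 : ∑ χ, n χ = 0 := by exact_mod_cast h1
  have h4 := Finset.sum_eq_zero_iff.1 h3 ⟨fun _ => 1, isIrrCharacter_one⟩ (Finset.mem_univ _)
  rw [hn1 _ rfl] at h4
  exact one_ne_zero h4

theorem dc_two_of_nonperfect (hu : u ≠ 1) (hyp : ∀ χ : IrrCharacter G, (χ : G → ℂ) ≠ (fun _ => (1 : ℂ)) →
    ((χ : G → ℂ) 1 - (χ : G → ℂ) u = c ∨ (χ : G → ℂ) u = 0)) (hG : commutator G ≠ ⊤) : c = 2 := by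
  obtain ⟨g, hg⟩ : ∃ g : G, g ∉ commutator G := by
    by_contra hc
    push Not at hc
    exact hG (eq_top_iff.2 fun x _ => hc x)
  obtain ⟨f, hf⟩ := exists_lin_ne hg
  have hf1 : f ≠ 1 := fun h => hf (by rw [h]; rfl)
  have h1 := dc_lin hyp hf1
  have hc0 := dc_c_ne hu hyp
  by_cases h2 : f * f = 1
  · have h3 : (f u : ℂ) * (f u : ℂ) = 1 := by
      rw [← Units.val_mul, ← MonoidHom.mul_apply, h2]; simp
    rw [h1] at h3
    have h4 : c * (c - 2) = 0 := by linear_combination h3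
    rcases mul_eq_zero.1 h4 with h | h
    · exact absurd h hc0
    · exact sub_eq_zero.1 h
  · exfalso
    have h3 := dc_lin hyp h2
    rw [MonoidHom.mul_apply, Units.val_mul, h1] at h3
    have h4 : (1 - c) * (-c) = 0 := by linear_combination h3
    rcases mul_eq_zero.1 h4 with h | h
    · apply (f u).ne_zero
      rw [h1]; exact h
    · exact hc0 (neg_eq_zero.1 h)

theorem dc_main (hu : u ≠ 1) (hyp : ∀ χ : IrrCharacter G, (χ : G → ℂ) ≠ (fun _ => (1 : ℂ)) →
    ((χ : G → ℂ) 1 - (χ : G → ℂ) u = 2 ∨ (χ : G → ℂ) u = 0)) :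
    commutator G ≠ ⊤ ∧ orderOf u = 2 ∧ (∃ f : G →* ℂˣ, f * f = 1 ∧ f u ≠ 1) ∧
      Nat.card (Subgroup.centralizer ({u} : Set G)) = 2 := by
  classical
  have hpos : ∀ χ : IrrCharacter G, 0 < charDegree (χ : G → ℂ) := fun χ => (IsIrr.one_eq χ.2).2
  have h1 := col_orth_not (G := G) (g := u) (h := 1) (fun h => hu (isConj_one_left.1 h))
  let one : IrrCharacter G := ⟨fun _ => 1, isIrrCharacter_one⟩
  -- integer terms
  have h2 : ∀ χ : IrrCharacter G, χ ≠ one → (χ : G → ℂ) u * conj ((χ : G → ℂ) 1) =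
      ((if (χ : G → ℂ) u = 0 then 0 else (charDegree (χ : G → ℂ) : ℤ) * ((charDegree (χ : G → ℂ) : ℤ) - 2) : ℤ) : ℂ) := by
    intro χ hχ
    split_ifs with h0
    · rw [h0]; simp
    · have h := (hyp χ (fun h => hχ (Subtype.ext h))).resolve_right h0
      have h' : (χ : G → ℂ) u = (χ : G → ℂ) 1 - 2 := by linear_combination -h
      rw [h', (IsIrr.one_eq χ.2).1, Complex.conj_natCast]; push_cast; ring
  rw [← Finset.add_sum_erase _ _ (Finset.mem_univ one),
    Finset.sum_congr rfl (fun χ hχ => h2 χ (Finset.mem_erase.1 hχ).1), ← Int.cast_sum] at h1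
  have h3 : (1 : ℤ) + ∑ χ ∈ Finset.univ.erase one, (if (χ : G → ℂ) u = 0 then 0 else
      (charDegree (χ : G → ℂ) : ℤ) * ((charDegree (χ : G → ℂ) : ℤ) - 2) : ℤ) = 0 := by
    have h4 : (one : G → ℂ) u * conj ((one : G → ℂ) 1) = 1 := by
      show (1 : ℂ) * conj 1 = 1
      simp
    rw [h4] at h1
    exact_mod_cast h1
  -- there is a nonprincipal linear character
  obtain ⟨ψ, hψ1, hψu, hψd⟩ : ∃ ψ : IrrCharacter G, ψ ≠ one ∧ (ψ : G → ℂ) u ≠ 0 ∧ charDegree (ψ : G → ℂ) = 1 := by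
    by_contra hc
    push Not at hc
    have h5 : 0 ≤ ∑ χ ∈ Finset.univ.erase one, (if (χ : G → ℂ) u = 0 then 0 else
      (charDegree (χ : G → ℂ) : ℤ) * ((charDegree (χ : G → ℂ) : ℤ) - 2) : ℤ) := by
      apply Finset.sum_nonneg
      intro χ hχ
      split_ifs with h0
      · exact le_rfl
      · have h6 := hc χ (Finset.mem_erase.1 hχ).1 h0
        have h7 := hpos χ
        have h8 : (2 : ℤ) ≤ charDegree (χ : G → ℂ) := by
          have : 2 ≤ charDegree (χ : G → ℂ) := by omega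
          exact_mod_cast this
        exact mul_nonneg (by linarith) (by linarith)
    omega
  obtain ⟨f, hf⟩ := IsCharacter.linear_of_one (IsIrr.isCharacter ψ.2) (by rw [(IsIrr.one_eq ψ.2).1, hψd, Nat.cast_one])
  have hf1 : f ≠ 1 := by
    intro h
    apply hψ1
    apply Subtype.ext
    rw [hf, h]
    rfl
  have hlin : ∀ g : G →* ℂˣ, g ≠ 1 → (g u : ℂ) = -1 := by
    intro g hg
    have := dc_lin hyp hg
    rw [this]; norm_num
  have huniq : ∀ g : G →* ℂˣ, g ≠ 1 → g = f := by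
    intro g hg
    by_contra hne
    have h5 : g * f⁻¹ ≠ 1 := fun h => hne (MonoidHom.ext fun x => by
      have h7 := DFunLike.congr_fun h x
      have h8 : g x * (f x)⁻¹ = 1 := h7
      exact mul_inv_eq_one.1 h8)
    have h6 := hlin _ h5
    have h7 : ((g u * (f u)⁻¹ : ℂˣ) : ℂ) = 1 := by
      have h8 : g u = f u := Units.ext (by rw [hlin g hg, hlin f hf1])
      rw [h8, mul_inv_cancel, Units.val_one]
    have h8 : ((g * f⁻¹) u : ℂˣ) = g u * (f u)⁻¹ := rfl
    rw [h8, h7] at h6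
    norm_num at h6
  have hff : f * f = 1 := by
    by_contra h
    have h5 := huniq _ h
    apply hf1
    ext x
    have h6 := DFunLike.congr_fun h5 x
    have h7 : f x * f x = f x := h6
    rw [mul_eq_left.1 h7]; rfl
  have hnz : ∀ χ : IrrCharacter G, χ ≠ one → χ ≠ ψ → (χ : G → ℂ) u = 0 := by
    -- remove ψ from the sum
    have hψmem : ψ ∈ Finset.univ.erase one := Finset.mem_erase.2 ⟨hψ1, Finset.mem_univ _⟩
    rw [← Finset.add_sum_erase _ _ hψmem, if_neg hψu, hψd] at h3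
    have h5 : ∑ χ ∈ (Finset.univ.erase one).erase ψ, (if (χ : G → ℂ) u = 0 then 0 else
      (charDegree (χ : G → ℂ) : ℤ) * ((charDegree (χ : G → ℂ) : ℤ) - 2) : ℤ) = 0 := by
      push_cast at h3
      linarith
    have h6 : ∀ χ ∈ (Finset.univ.erase one).erase ψ, (χ : G → ℂ) u ≠ 0 → 3 ≤ charDegree (χ : G → ℂ) := by
      intro χ hχ h0
      have hχ1 : χ ≠ one := (Finset.mem_erase.1 (Finset.mem_erase.1 hχ).2).1
      have hχ2 : χ ≠ ψ := (Finset.mem_erase.1 hχ).1
      have h7 := hpos χ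
      by_contra hlt
      have h8 : charDegree (χ : G → ℂ) = 1 ∨ charDegree (χ : G → ℂ) = 2 := by omega
      rcases h8 with h8 | h8
      · obtain ⟨g, hg⟩ := IsCharacter.linear_of_one (IsIrr.isCharacter χ.2) (by rw [(IsIrr.one_eq χ.2).1, h8, Nat.cast_one])
        have hg1 : g ≠ 1 := by
          intro h
          apply hχ1
          apply Subtype.ext
          rw [hg, h]; rfl
        apply hχ2
        apply Subtype.ext
        rw [hg, hf, huniq g hg1]
      · have h := (hyp χ (fun h => hχ1 (Subtype.ext h))).resolve_right h0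
        rw [(IsIrr.one_eq χ.2).1, h8] at h
        apply h0
        push_cast at h
        linear_combination -h
    intro χ hχ1 hχ2
    by_contra h0
    have hχ : χ ∈ (Finset.univ.erase one).erase ψ :=
      Finset.mem_erase.2 ⟨hχ2, Finset.mem_erase.2 ⟨hχ1, Finset.mem_univ _⟩⟩
    have h7 : ∀ χ ∈ (Finset.univ.erase one).erase ψ, 0 ≤ (if (χ : G → ℂ) u = 0 then 0 else
      (charDegree (χ : G → ℂ) : ℤ) * ((charDegree (χ : G → ℂ) : ℤ) - 2) : ℤ) := by
      intro χ hχ
      split_ifs with h0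
      · exact le_rfl
      · have h8 : (3 : ℤ) ≤ charDegree (χ : G → ℂ) := by exact_mod_cast h6 χ hχ h0
        exact mul_nonneg (by linarith) (by linarith)
    have h8 := (Finset.sum_eq_zero_iff_of_nonneg h7).1 h5 χ hχ
    rw [if_neg h0] at h8
    have h9 : (3 : ℤ) ≤ charDegree (χ : G → ℂ) := by exact_mod_cast h6 χ hχ h0
    rcases mul_eq_zero.1 h8 with h | h <;> linarith
  have hcard : Nat.card (Subgroup.centralizer ({u} : Set G)) = 2 := by
    have h5 := col_orth_isConj (IsConj.refl u)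
    rw [← Finset.add_sum_erase _ _ (Finset.mem_univ one),
      ← Finset.add_sum_erase _ _ (Finset.mem_erase.2 ⟨hψ1, Finset.mem_univ ψ⟩),
      Finset.sum_eq_zero (s := (Finset.univ.erase one).erase ψ) (fun χ hχ => by
        rw [hnz χ (Finset.mem_erase.1 (Finset.mem_erase.1 hχ).2).1 (Finset.mem_erase.1 hχ).1, zero_mul])] at h5
    have h6 : (one : G → ℂ) u = 1 := rfl
    have h7 : (ψ : G → ℂ) u = -1 := by rw [hf]; exact hlin f hf1
    rw [h6, h7] at h5
    have h8 : (2 : ℂ) = (Nat.card (Subgroup.centralizer ({u} : Set G)) : ℂ) := by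
      rw [← h5]; simp; norm_num
    exact_mod_cast h8.symm
  refine ⟨?_, ?_, ⟨f, hff, ?_⟩, hcard⟩
  · intro h
    apply hf1
    ext g
    have h5 : g ∈ f.ker := (Abelianization.commutator_subset_ker f) (h ▸ Subgroup.mem_top g)
    rw [h5]; rfl
  · have h5 : orderOf (⟨u, Subgroup.mem_centralizer_singleton_iff.2 rfl⟩ : Subgroup.centralizer ({u} : Set G)) ∣ 2 :=
      hcard ▸ orderOf_dvd_natCard _
    rw [Subgroup.orderOf_mk] at h5
    rcases (Nat.dvd_prime Nat.prime_two).1 h5 with h | h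
    · exact absurd (orderOf_eq_one_iff.1 h) hu
    · exact h
  · intro h
    have := hlin f hf1
    rw [h] at this
    norm_num at this


theorem dc_struct (h : orderOf u = 2 ∧ (∃ f : G →* ℂˣ, f * f = 1 ∧ f u ≠ 1) ∧
      Nat.card (Subgroup.centralizer ({u} : Set G)) = 2) :
    orderOf u = 2 ∧ Subgroup.zpowers u ⊔ oddCore G = ⊤ ∧
      Subgroup.centralizer ({u} : Set G) = Subgroup.zpowers u := by
  obtain ⟨ho, ⟨f, hff, hfu⟩, hcard⟩ := h
  have hle : Subgroup.zpowers u ≤ Subgroup.centralizer ({u} : Set G) := by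
    rw [Subgroup.zpowers_le, Subgroup.mem_centralizer_singleton_iff]
  have hcent : Subgroup.centralizer ({u} : Set G) = Subgroup.zpowers u := by
    refine (Subgroup.eq_of_le_of_card_ge hle ?_).symm
    rw [hcard, Nat.card_zpowers, ho]
  refine ⟨ho, ?_, hcent⟩
  -- the Sylow 2-subgroup has order 2
  haveI : Fact (Nat.Prime 2) := ⟨Nat.prime_two⟩
  have hpu : IsPGroup 2 (Subgroup.zpowers u) := IsPGroup.of_card (n := 1) (by rw [Nat.card_zpowers, ho, pow_one])
  obtain ⟨S, hS⟩ := hpu.exists_le_sylow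
  have huS : u ∈ (S : Subgroup G) := hS (Subgroup.mem_zpowers u)
  have hScard : Nat.card (S : Subgroup G) = 2 := by
    haveI : Nontrivial (S : Subgroup G) := ⟨⟨⟨u, huS⟩, 1, fun h => by
      have := congrArg Subtype.val h
      have h1 : u = 1 := this
      rw [h1, orderOf_one] at ho; omega⟩⟩
    haveI := S.isPGroup'.center_nontrivial
    obtain ⟨⟨⟨z, hz⟩, hzc⟩, hz1⟩ := exists_ne (1 : Subgroup.center (S : Subgroup G))
    have hzu : z ∈ Subgroup.zpowers u := by
      rw [← hcent, Subgroup.mem_centralizer_singleton_iff]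
      exact (congrArg Subtype.val ((Subgroup.mem_center_iff.1 hzc) ⟨u, huS⟩)).symm
    have hz1' : z ≠ 1 := fun h => hz1 (Subtype.ext (Subtype.ext h))
    have hzeq : Subgroup.zpowers z = Subgroup.zpowers u := by
      refine Subgroup.eq_of_le_of_card_ge (by rw [Subgroup.zpowers_le]; exact hzu) ?_
      rw [Nat.card_zpowers, Nat.card_zpowers, ho]
      by_contra hlt
      have h1 : orderOf z = 1 := by
        have := orderOf_pos z
        omega
      exact hz1' (orderOf_eq_one_iff.1 h1)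
    have huz : u ∈ Subgroup.zpowers z := by rw [hzeq]; exact Subgroup.mem_zpowers u
    have hSle : (S : Subgroup G) ≤ Subgroup.centralizer ({u} : Set G) := by
      intro s hs
      rw [Subgroup.mem_centralizer_singleton_iff]
      have h1 : s * z = z * s := congrArg Subtype.val ((Subgroup.mem_center_iff.1 hzc) ⟨s, hs⟩)
      obtain ⟨n, hn⟩ := huz
      have hn' : z ^ n = u := hn
      have h2 : Commute s z := h1
      rw [← hn']; exact (h2.zpow_right n)
    have h1 := Subgroup.card_dvd_of_le hSle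
    rw [hcard] at h1
    rcases (Nat.dvd_prime Nat.prime_two).1 h1 with h2 | h2
    · exfalso
      have h3 := Finite.one_lt_card_iff_nontrivial.2 (inferInstance : Nontrivial (S : Subgroup G))
      omega
    · exact h2
  have hnot4 : ¬ 4 ∣ Nat.card G := by
    intro h
    have h1 := S.card_mul_index
    rw [hScard] at h1
    have h2 : ¬ 2 ∣ (S : Subgroup G).index := S.not_dvd_index
    omega
  have huker : u ∉ f.ker := hfu
  have hidx : 2 ∣ f.ker.index := by
    have h1 : (QuotientGroup.mk u : G ⧸ f.ker) ≠ 1 := fun h => huker ((QuotientGroup.eq_one_iff u).1 h)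
    have h2 : orderOf (QuotientGroup.mk u : G ⧸ f.ker) ∣ 2 := by
      have := orderOf_map_dvd (QuotientGroup.mk' f.ker) u
      rwa [ho] at this
    have h3 : orderOf (QuotientGroup.mk u : G ⧸ f.ker) = 2 := by
      rcases (Nat.dvd_prime Nat.prime_two).1 h2 with h | h
      · exact absurd (orderOf_eq_one_iff.1 h) h1
      · exact h
    rw [← h3]
    exact orderOf_dvd_natCard _
  have hodd : ¬ 2 ∣ Nat.card f.ker := by
    intro h
    apply hnot4
    rw [← f.ker.card_mul_index]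
    exact mul_dvd_mul h hidx
  have hKle : f.ker ≤ oddCore G := by
    apply CfsgH2.le_pPrimeCore inferInstance
    exact ((Nat.Prime.coprime_iff_not_dvd Nat.prime_two).2 hodd).symm
  rw [eq_top_iff]
  intro g _
  have hsq : ∀ x : G, f x = 1 ∨ f x = -1 := by
    intro x
    have h1 : f x * f x = 1 := DFunLike.congr_fun hff x
    have h2 : (f x : ℂ) * (f x : ℂ) = 1 := by rw [← Units.val_mul, h1, Units.val_one]
    rcases mul_self_eq_one_iff.1 h2 with h3 | h3
    · left; exact Units.ext h3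
    · right; exact Units.ext (by rw [h3]; simp)
  by_cases hg : f g = 1
  · exact Subgroup.mem_sup_right (hKle hg)
  · have h1 : f g = -1 := (hsq g).resolve_left hg
    have h2 : f u = -1 := (hsq u).resolve_left hfu
    have h3 : u * g ∈ f.ker := by
      rw [MonoidHom.mem_ker, map_mul, h1, h2]; simp
    have h4 : g = u⁻¹ * (u * g) := by group
    rw [h4]
    exact Subgroup.mul_mem_sup (Subgroup.inv_mem _ (Subgroup.mem_zpowers u)) (hKle h3)

theorem dc_a_b (h : orderOf u = 2 ∧ Subgroup.zpowers u ⊔ oddCore G = ⊤) : commutator G ≠ ⊤ := by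
  intro hG
  haveI : (oddCore G).Normal := inferInstanceAs ((pPrimeCore 2 G).Normal)
  have h1 : commutator G ≤ oddCore G :=
    Subgroup.Normal.commutator_le_of_self_sup_commutative_eq_top (H := Subgroup.zpowers u)
      (by rw [sup_comm]; exact h.2) inferInstance
  rw [hG, top_le_iff] at h1
  have h2 := CfsgH2.coprime_card_pPrimeCore (G := G) 2
  have h3 : (pPrimeCore 2 G) = ⊤ := h1
  rw [h3, Subgroup.card_top] at h2
  have h4 : 2 ∣ Nat.card G := h.1 ▸ orderOf_dvd_natCard u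
  exact (Nat.Prime.coprime_iff_not_dvd Nat.prime_two).1 h2.symm h4

theorem s4757_main (hu : u ≠ 1) (hyp : ∀ χ : IrrCharacter G, (χ : G → ℂ) ≠ (fun _ => (1 : ℂ)) →
    ((χ : G → ℂ) 1 - (χ : G → ℂ) u = c ∨ (χ : G → ℂ) u = 0)) :
    ((orderOf u = 2 ∧ Subgroup.zpowers u ⊔ oddCore G = ⊤ ∧
      Subgroup.centralizer ({u} : Set G) = Subgroup.zpowers u) ↔ commutator G ≠ ⊤) ∧
    (commutator G ≠ ⊤ ↔ c = 2) := by
  have hbc : commutator G ≠ ⊤ → c = 2 := fun h => dc_two_of_nonperfect hu hyp h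
  have hc : c = 2 → (commutator G ≠ ⊤ ∧ (orderOf u = 2 ∧ Subgroup.zpowers u ⊔ oddCore G = ⊤ ∧
      Subgroup.centralizer ({u} : Set G) = Subgroup.zpowers u)) := by
    rintro rfl
    obtain ⟨h1, h2⟩ := dc_main hu hyp
    exact ⟨h1, dc_struct h2⟩
  exact ⟨⟨fun h => dc_a_b ⟨h.1, h.2.1⟩, fun h => (hc (hbc h)).2⟩, hbc, fun h => (hc h).1⟩

end CfsgH5
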