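import Cfsg.Agent.H5.ItoM2
import Cfsg.Agent.H5.ClifCorr

/-!
# Derived length of Sylow subgroups of p-solvable groups and character degrees
-/

set_option autoImplicit false
open Cfsg MonoidAlgebra
open CfsgH4 hiding centralChar sum_conj regInner_symm exists_over

namespace CfsgH5

open scoped commutatorElement

universe u

variable {p : ℕ} [hp : Fact p.Prime]

theorem derived_le_of_hom {P : Type*} [Group P] {Q : Type*} [Group Q] (f : P →* Q) {k : ℕ}
    (h : derivedSeries Q k = ⊥) : derivedSeries P k ≤ f.ker := by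
  intro x hx
  have h1 := map_derivedSeries_le_derivedSeries f k (Subgroup.mem_map_of_mem f hx)
  rw [h, Subgroup.mem_bot] at h1
  exact h1

theorem derived_succ_of_comm {P : Type*} [Group P] {K : Subgroup P} {k : ℕ} (h : derivedSeries P k ≤ K)
    (hK : ∀ a ∈ K, ∀ b ∈ K, a * b = b * a) : derivedSeries P (k + 1) = ⊥ := by
  rw [derivedSeries_succ, eq_bot_iff]
  refine Subgroup.commutator_le.2 fun a ha b hb => ?_
  rw [Subgroup.mem_bot, commutatorElement_eq_one_iff_mul_comm]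
  exact hK a (h ha) b (h hb)

theorem derived_equiv {P Q : Type*} [Group P] [Group Q] (e : P ≃* Q) {k : ℕ} (h : derivedSeries Q k = ⊥) :
    derivedSeries P k = ⊥ := by
  rw [eq_bot_iff]
  refine (derived_le_of_hom e.toMonoidHom h).trans ?_
  rw [(MonoidHom.ker_eq_bot_iff _).2 e.injective]

theorem derived_le {P : Type*} [Group P] {a b : ℕ} (h : derivedSeries P a = ⊥) (hab : a ≤ b) :
    derivedSeries P b = ⊥ := by
  rw [eq_bot_iff, ← h]
  exact derivedSeries_antitone P hab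

theorem two_step {G : Type u} [Group G] [Finite G] (hsol : IsPSolvable p G) (N : Subgroup G)
    [hNn : N.Normal] (hNp : IsPGroup p N) (hNc : ∀ a ∈ N, ∀ b ∈ N, a * b = b * a) (hN : N ≠ ⊥)
    (hdeg : ∀ χ : IrrCharacter G, (¬ ∀ n ∈ N, (χ : G → ℂ) n = (χ : G → ℂ) 1) →
      ¬ p ∣ charDegree (χ : G → ℂ)) (P : Sylow p G) : derivedSeries P 2 = ⊥ := by
  classical
  haveI : Fintype G := Fintype.ofFinite _
  haveI : Fintype N := Fintype.ofFinite _
  obtain ⟨⟨n0, hn0⟩, hn1'⟩ := (Subgroup.ne_bot_iff_exists_ne_one (H := N)).1 hN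
  have hn1 : n0 ≠ 1 := fun h => hn1' (Subtype.ext h)
  have hcom : (⟨n0, hn0⟩ : N) ∉ commutator N := by
    have h1 : commutator N = ⊥ := by
      rw [eq_bot_iff]
      refine Subgroup.commutator_le.2 fun a _ b _ => ?_
      rw [Subgroup.mem_bot, commutatorElement_eq_one_iff_mul_comm]
      exact Subtype.ext (hNc a a.2 b b.2)
    rw [h1, Subgroup.mem_bot]
    intro h
    exact hn1 (congrArg Subtype.val h)
  obtain ⟨f, hf⟩ := exists_lin_ne hcom
  let θ : IrrCharacter N := ⟨fun n => (f n : ℂ), isCharacter_one_dim f⟩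
  have hθ1 : (θ : N → ℂ) 1 = 1 := by show ((f 1 : ℂˣ) : ℂ) = 1; simp
  have hker : ∀ χ : IrrCharacter G, classInner (fun n : N => (χ : G → ℂ) n) (θ : N → ℂ) ≠ 0 →
      ¬ ∀ n ∈ N, (χ : G → ℂ) n = (χ : G → ℂ) 1 := by
    intro χ hχ hk
    rw [ker_iff_under_one N χ] at hk
    obtain ⟨g, hg⟩ := clifford' (N := N) hk hχ
    have h2 := congrArg (fun ζ : IrrCharacter N => (ζ : N → ℂ) ⟨n0, hn0⟩) hg
    have h3 : (f ⟨n0, hn0⟩ : ℂ) = 1 := h2
    exact hf (Units.ext h3)
  have hNT : N ≤ inertia N (θ : N → ℂ) := le_inertia N (IsIrr.isClassFunction θ.2)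
  obtain ⟨T, hT⟩ : ∃ T : Subgroup G, T = inertia N (θ : N → ℂ) := ⟨_, rfl⟩
  haveI : Fintype (inertia N (θ : N → ℂ)) := Fintype.ofFinite _
  -- degrees over θ
  have hTdeg : ∀ ψ : IrrCharacter (inertia N (θ : N → ℂ)), classInner (resLE hNT (ψ : _ → ℂ)) (θ : N → ℂ) ≠ 0 →
      ¬ p ∣ (inertia N (θ : N → ℂ)).index * charDegree (ψ : inertia N (θ : N → ℂ) → ℂ) := by
    intro ψ hψ h
    have h1 := clif_irr N θ.2 hNT ψ.2 hψ
    have h2 := clif_over N θ.2 hNT ψ.2 hψ
    have h3 := hdeg ⟨_, h1⟩ (hker ⟨_, h1⟩ (by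
      show classInner (fun n : N => indFun (inertia N (θ : N → ℂ)) (ψ : _ → ℂ) n) (θ : N → ℂ) ≠ 0
      rw [h2]; exact hψ))
    apply h3
    have h4 : charDegree (indFun (inertia N (θ : N → ℂ)) (ψ : inertia N (θ : N → ℂ) → ℂ)) =
        (inertia N (θ : N → ℂ)).index * charDegree (ψ : inertia N (θ : N → ℂ) → ℂ) := by
      have h5 := (IsIrr.one_eq h1).1
      rw [indFun_one, (IsIrr.one_eq ψ.2).1] at h5
      exact_mod_cast h5.symm
    show p ∣ charDegree (indFun (inertia N (θ : N → ℂ)) (ψ : inertia N (θ : N → ℂ) → ℂ))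
    rw [h4]; exact h
  obtain ⟨χ, hχ⟩ := exists_over (N := N) θ
  obtain ⟨ψ0, hψ0, hne0, -, hres0⟩ := clifford_corr N χ.2 θ.2 hχ
  obtain ⟨m, hm⟩ : ∃ m : ℕ, m = charDegree ψ0 := ⟨_, rfl⟩
  have hψ01 : ψ0 1 = m := by rw [hm]; exact (IsIrr.one_eq hψ0).1
  have hprime := hTdeg ⟨ψ0, hψ0⟩ hne0
  have hpT : ¬ p ∣ (inertia N (θ : N → ℂ)).index := fun h => hprime (h.mul_right _)
  have hpm : ¬ p ∣ m := fun h => hprime ((hm ▸ h).mul_left _)
  have hc : classInner (resLE hNT ψ0) (θ : N → ℂ) = m := by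
    have h1 := congrFun hres0 1
    have h2 : resLE hNT ψ0 1 = ψ0 1 := rfl
    rw [h2, hψ01, Pi.smul_apply, hθ1, smul_eq_mul, mul_one] at h1
    exact h1.symm
  rw [hc] at hres0
  obtain ⟨δ0, hδ0⟩ := exists_det_hom (IsIrr.isCharacter hψ0)
  have hδN : ∀ n : N, ((δ0 ⟨n, hNT n.2⟩ : ℂˣ) : ℂ) = (f n : ℂ) ^ m := by
    intro n
    have h1 := detChar_comp (Subgroup.inclusion hNT) (IsIrr.isCharacter hψ0) n
    have h2 : (fun x : N => ψ0 (Subgroup.inclusion hNT x)) = (m : ℂ) • (θ : N → ℂ) := hres0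
    have h3 : IsCharacter N ((m : ℂ) • (θ : N → ℂ)) := by
      rw [← h2]; exact isCharacter_comp (Subgroup.inclusion hNT) (IsIrr.isCharacter hψ0)
    have h4 := detChar_scalar h3 (d := m) (by rw [Pi.smul_apply, hθ1, smul_eq_mul, mul_one]) (g := n)
      (c := (f n : ℂ)) (fun x => by
        show (m : ℂ) * ((f (x * n) : ℂˣ) : ℂ) = (f n : ℂ) * ((m : ℂ) * ((f x : ℂˣ) : ℂ))
        rw [map_mul, Units.val_mul]; ring) (by
        have h5 : (f n : ℂ) ^ Nat.card N = 1 := by
          rw [← Units.val_pow_eq_pow_val, ← map_pow, pow_card_eq_one', map_one, Units.val_one]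
        exact Complex.norm_eq_one_of_pow_eq_one h5 Nat.card_pos.ne')
    rw [h2, h4] at h1
    rw [h1]
    exact (hδ0 _).symm
  obtain ⟨a, ha⟩ := IsPGroup.iff_card.1 hNp
  have hcop : Nat.Coprime m (p ^ a) := Nat.Coprime.pow_right a ((Nat.Prime.coprime_iff_not_dvd hp.out).2 hpm).symm
  obtain ⟨j, hj⟩ : ∃ j : ℕ, ∀ n : N, f n ^ (m * j) = f n := by
    rcases Nat.eq_zero_or_pos a with h0 | h0
    · refine ⟨1, fun n => ?_⟩
      have h1 : Nat.card N = 1 := by rw [ha, h0, pow_zero]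
      have h2 : n = 1 := by
        have := (Nat.card_eq_one_iff_unique.1 h1).1
        exact Subsingleton.elim _ _
      rw [h2, map_one, one_pow]
    · obtain ⟨j, hj⟩ := Nat.exists_mul_mod_eq_one_of_coprime hcop (by
        exact Nat.one_lt_pow h0.ne' hp.out.one_lt)
      refine ⟨j, fun n => ?_⟩
      have h1 : f n ^ (p ^ a) = 1 := by
        rw [← map_pow, ← ha, pow_card_eq_one', map_one]
      have h2 := Nat.div_add_mod (m * j) (p ^ a)
      rw [hj.2] at h2
      rw [← h2, pow_add, pow_mul, h1, one_pow, one_mul, pow_one]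
  let δ : inertia N (θ : N → ℂ) →* ℂˣ := δ0 ^ j
  have hδ : ∀ n : N, δ ⟨n, hNT n.2⟩ = f n := by
    intro n
    show (δ0 ⟨n, hNT n.2⟩) ^ j = f n
    have h1 : δ0 ⟨n, hNT n.2⟩ = f n ^ m := by
      apply Units.ext
      rw [hδN, Units.val_pow_eq_pow_val]
    rw [h1, ← pow_mul]
    exact hj n
  -- quotient
  obtain ⟨NT, hNTdef⟩ : ∃ NT : Subgroup (inertia N (θ : N → ℂ)), NT = N.subgroupOf (inertia N (θ : N → ℂ)) := ⟨_, rfl⟩
  haveI hNTn : NT.Normal := by rw [hNTdef]; infer_instance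
  have hq : ∀ β : IrrCharacter (inertia N (θ : N → ℂ) ⧸ NT), ¬ p ∣ charDegree (β : inertia N (θ : N → ℂ) ⧸ NT → ℂ) := by
    intro β h
    have h1 : classInner (resLE hNT (linMul δ (inflI NT β) : inertia N (θ : N → ℂ) → ℂ)) (θ : N → ℂ) ≠ 0 := by
      have h2 : resLE hNT (linMul δ (inflI NT β) : inertia N (θ : N → ℂ) → ℂ) =
          ((charDegree (β : inertia N (θ : N → ℂ) ⧸ NT → ℂ) : ℕ) : ℂ) • (θ : N → ℂ) := by
        ext n
        show (linMul δ (inflI NT β) : inertia N (θ : N → ℂ) → ℂ) ⟨n, hNT n.2⟩ = _ * ((f n : ℂˣ) : ℂ)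
        rw [linMul_apply, hδ n]
        have h3 := inflI_ker NT β ⟨n, hNT n.2⟩ (by rw [hNTdef, Subgroup.mem_subgroupOf]; exact n.2)
        rw [h3, (IsIrr.one_eq (inflI NT β).2).1]
        show ((f n : ℂˣ) : ℂ) * ((charDegree (β : inertia N (θ : N → ℂ) ⧸ NT → ℂ) : ℕ) : ℂ) = _
        ring
      rw [h2, classInner_smul_left, classInner_irr_self θ.2, mul_one]
      exact_mod_cast (IsIrr.one_eq β.2).2.ne'
    apply hTdeg _ h1
    rw [charDegree_linMul]
    exact h.mul_left _
  have hTsol : IsPSolvable p (inertia N (θ : N → ℂ) ⧸ NT) :=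
    psolvable_quotient (CfsgH1.IsPSolvable.subgroup hsol _) NT
  obtain ⟨P0⟩ : Nonempty (Sylow p (inertia N (θ : N → ℂ))) := inferInstance
  have hab := ((ito_michler_psolv hTsol (P0.mapSurjective (QuotientGroup.mk'_surjective NT))).2 hq).2
  have hP0 : derivedSeries P0 2 = ⊥ := by
    let g : P0 →* (inertia N (θ : N → ℂ) ⧸ NT) := (QuotientGroup.mk' NT).comp (P0 : Subgroup (inertia N (θ : N → ℂ))).subtype
    have h1 : derivedSeries P0 1 ≤ g.ker := by
      rw [derivedSeries_one]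
      refine Subgroup.commutator_le.2 fun a _ b _ => ?_
      rw [MonoidHom.mem_ker, map_commutatorElement, commutatorElement_eq_one_iff_mul_comm]
      exact congrArg Subtype.val (hab.is_comm.comm
        (⟨g a, ⟨a, a.2, rfl⟩⟩ : (P0.mapSurjective (QuotientGroup.mk'_surjective NT)))
        ⟨g b, ⟨b, b.2, rfl⟩⟩)
    refine derived_succ_of_comm h1 ?_
    intro x hx y hy
    rw [MonoidHom.mem_ker] at hx hy
    have hx' : ((x : inertia N (θ : N → ℂ)) : G) ∈ N := by
      have := (QuotientGroup.eq_one_iff (x : inertia N (θ : N → ℂ))).1 hx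
      rwa [hNTdef, Subgroup.mem_subgroupOf] at this
    have hy' : ((y : inertia N (θ : N → ℂ)) : G) ∈ N := by
      have := (QuotientGroup.eq_one_iff (y : inertia N (θ : N → ℂ))).1 hy
      rwa [hNTdef, Subgroup.mem_subgroupOf] at this
    exact Subtype.ext (Subtype.ext (hNc _ hx' _ hy'))
  have hP1p : IsPGroup p ((P0 : Subgroup (inertia N (θ : N → ℂ))).map (inertia N (θ : N → ℂ)).subtype) :=
    P0.isPGroup'.map _
  have hP1i : ¬ p ∣ ((P0 : Subgroup (inertia N (θ : N → ℂ))).map (inertia N (θ : N → ℂ)).subtype).index := by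
    rw [Subgroup.index_map_subtype]
    intro h
    rcases (hp.out.dvd_mul).1 h with h | h
    · exact P0.not_dvd_index h
    · exact hpT h
  let e1 : P ≃* (hP1p.toSylow hP1i : Sylow p G) := Sylow.equiv P (hP1p.toSylow hP1i)
  let e2 : P0 ≃* (hP1p.toSylow hP1i : Sylow p G) :=
    (P0 : Subgroup (inertia N (θ : N → ℂ))).equivMapOfInjective _ (inertia N (θ : N → ℂ)).subtype_injective
  exact derived_equiv (e1.trans e2.symm) hP0

theorem derlen_main (n : ℕ) : ∀ (G : Type u) [Group G] [Finite G], Nat.card G = n →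
    IsPSolvable p G → ∀ P : Sylow p G,
    derivedSeries P (Nat.card {χ : IrrCharacter G // p ∣ charDegree (χ : G → ℂ)} + 1) = ⊥ := by
  induction n using Nat.strong_induction_on with
  | _ n ih =>
  intro G _ _ hcard hsol P
  classical
  haveI : Fintype G := Fintype.ofFinite _
  rcases subsingleton_or_nontrivial G with hs | hnt
  · rw [eq_bot_iff]
    intro x _
    rw [Subgroup.mem_bot]
    exact Subsingleton.elim _ _
  have hfin : ∀ (K : Subgroup G) [K.Normal], Finite (IrrCharacter (G ⧸ K)) := fun K _ => inferInstance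
  have hinj : ∀ (K : Subgroup G) [K.Normal], Function.Injective
      (fun χ : {χ : IrrCharacter (G ⧸ K) // p ∣ charDegree (χ : G ⧸ K → ℂ)} =>
        (⟨inflI K χ.1, χ.2⟩ : {χ : IrrCharacter G // p ∣ charDegree (χ : G → ℂ)})) := by
    intro K _ a b hab
    exact Subtype.ext (inflI_injective K (congrArg Subtype.val hab))
  have hlt : ∀ (K : Subgroup G) [K.Normal], K ≠ ⊥ → Nat.card (G ⧸ K) < n := by
    intro K _ hK
    rw [← hcard, ← Subgroup.index_eq_card]
    have h1 := K.card_mul_index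
    have h2 : 1 < Nat.card K := by
      rcases Nat.lt_or_ge 1 (Nat.card K) with h | h
      · exact h
      · exfalso
        have h4 : 0 < Nat.card K := Nat.card_pos
        exact hK (Subgroup.card_eq_one.1 (by omega))
    have h3 : 0 < K.index := Nat.pos_of_ne_zero K.index_ne_zero_of_finite
    nlinarith
  have hquot : ∀ (K : Subgroup G) [K.Normal], K ≠ ⊥ →
      ∃ f : P →* (P.mapSurjective (QuotientGroup.mk'_surjective K)), (∀ x : P, x ∈ f.ker → (x : G) ∈ K) ∧
        derivedSeries (P.mapSurjective (QuotientGroup.mk'_surjective K))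
          (Nat.card {χ : IrrCharacter (G ⧸ K) // p ∣ charDegree (χ : G ⧸ K → ℂ)} + 1) = ⊥ := by
    intro K _ hK
    refine ⟨((QuotientGroup.mk' K).comp (P : Subgroup G).subtype).codRestrict _ (fun x => ⟨x, x.2, rfl⟩), ?_, ?_⟩
    · intro x hx
      rw [MonoidHom.mem_ker] at hx
      have h1 := congrArg Subtype.val hx
      exact (QuotientGroup.eq_one_iff (x : G)).1 h1
    · exact ih _ (hlt K hK) (G ⧸ K) rfl (psolvable_quotient hsol K) _
  rcases CfsgH1.IsPSolvable.core_ne_bot hsol with hcore | hcore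
  · -- abelian normal p-subgroup
    obtain ⟨N, hNdef⟩ : ∃ N : Subgroup G, N = (Subgroup.center (pCore p G)).map (pCore p G).subtype := ⟨_, rfl⟩
    haveI hNn : N.Normal := by rw [hNdef]; infer_instance
    have hOp : IsPGroup p (pCore p G) := CfsgH2.isPGroup_pCore p
    haveI : Nontrivial (pCore p G) := (Subgroup.nontrivial_iff_ne_bot _).2 hcore
    have hNbot : N ≠ ⊥ := by
      rw [hNdef]
      intro h
      have h1 := (Subgroup.map_eq_bot_iff_of_injective _ (pCore p G).subtype_injective).1 h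
      haveI := hOp.center_nontrivial
      exact (Subgroup.nontrivial_iff_ne_bot _).1 (inferInstance : Nontrivial (Subgroup.center (pCore p G))) h1
    have hNp : IsPGroup p N := by
      rw [hNdef]
      exact (hOp.to_subgroup _).map _
    have hNc : ∀ a ∈ N, ∀ b ∈ N, a * b = b * a := by
      rw [hNdef]
      rintro _ ⟨a, ha, rfl⟩ _ ⟨b, hb, rfl⟩
      exact congrArg Subtype.val ((Subgroup.mem_center_iff.1 hb) a)
    rcases Nat.lt_or_ge (Nat.card {χ : IrrCharacter (G ⧸ N) // p ∣ charDegree (χ : G ⧸ N → ℂ)})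
      (Nat.card {χ : IrrCharacter G // p ∣ charDegree (χ : G → ℂ)}) with hlt' | hge
    · obtain ⟨f, hf, hd⟩ := hquot N hNbot
      have h1 := derived_succ_of_comm (derived_le_of_hom f hd)
        (fun a ha b hb => Subtype.ext (hNc _ (hf a ha) _ (hf b hb)))
      exact derived_le h1 (by omega)
    · have hbij := (Nat.bijective_iff_injective_and_card
        (fun χ : {χ : IrrCharacter (G ⧸ N) // p ∣ charDegree (χ : G ⧸ N → ℂ)} =>
        (⟨inflI N χ.1, χ.2⟩ : {χ : IrrCharacter G // p ∣ charDegree (χ : G → ℂ)}))).2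
        ⟨hinj N, le_antisymm (Nat.card_le_card_of_injective _ (hinj N)) hge⟩
      rcases Nat.eq_zero_or_pos (Nat.card {χ : IrrCharacter G // p ∣ charDegree (χ : G → ℂ)}) with h0 | hpos
      · have h1 : ∀ χ : IrrCharacter G, ¬ p ∣ charDegree (χ : G → ℂ) := by
          intro χ hχ
          have h2 : Nonempty {χ : IrrCharacter G // p ∣ charDegree (χ : G → ℂ)} := ⟨⟨χ, hχ⟩⟩
          have h3 := Nat.card_pos (α := {χ : IrrCharacter G // p ∣ charDegree (χ : G → ℂ)})
          omega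
        have h2 := ((ito_michler_psolv hsol P).2 h1).2
        rw [h0]
        exact derived_succ_of_comm (K := ⊤) le_top (fun a _ b _ => h2.is_comm.comm a b)
      · refine derived_le (two_step hsol N hNp hNc hNbot ?_ P) (by omega)
        intro χ hχ hdvd
        obtain ⟨ψ, hψ⟩ := hbij.2 ⟨χ, hdvd⟩
        have h1 : inflI N ψ.1 = χ := congrArg Subtype.val hψ
        apply hχ
        rw [← h1]
        exact fun n hn => inflI_ker N ψ.1 n hn
  · obtain ⟨f, hf, hd⟩ := hquot (pPrimeCore p G) hcore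
    have h1 := derived_le_of_hom f hd
    have hle : Nat.card {χ : IrrCharacter (G ⧸ pPrimeCore p G) // p ∣ charDegree (χ : G ⧸ pPrimeCore p G → ℂ)} ≤
        Nat.card {χ : IrrCharacter G // p ∣ charDegree (χ : G → ℂ)} :=
      Nat.card_le_card_of_injective _ (hinj (pPrimeCore p G))
    refine derived_le (a := Nat.card {χ : IrrCharacter (G ⧸ pPrimeCore p G) //
      p ∣ charDegree (χ : G ⧸ pPrimeCore p G → ℂ)} + 1) ?_ (by omega)
    rw [eq_bot_iff]
    intro x hx
    rw [Subgroup.mem_bot]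
    have hxK := hf x (h1 hx)
    have h2 : orderOf (x : G) ∣ Nat.card (pPrimeCore p G) := by
      have := orderOf_dvd_natCard (⟨x, hxK⟩ : pPrimeCore p G)
      rwa [Subgroup.orderOf_mk] at this
    obtain ⟨k, hk⟩ := P.isPGroup' x
    have h4 : (x : G) ^ p ^ k = 1 := congrArg Subtype.val hk
    have h5 := orderOf_dvd_of_pow_eq_one h4
    obtain ⟨j, -, hj⟩ := (Nat.dvd_prime_pow hp.out).1 h5
    rcases Nat.eq_zero_or_pos j with h0 | h0
    · rw [h0, pow_zero, orderOf_eq_one_iff] at hj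
      exact Subtype.ext hj
    · exact absurd ((dvd_pow_self p h0.ne').trans (hj ▸ h2)) (not_dvd_pPrimeCore hp.out)

end CfsgH5
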