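import Cfsg.Agent.H5.EqDeg9
import Cfsg.Agent.H4.Bp14

/-!
# Blocks with normal defect group and equal height-zero degrees are nilpotent
-/

set_option autoImplicit false
open Cfsg MonoidAlgebra
open CfsgH4 hiding centralChar sum_conj regInner_symm

namespace CfsgH5

open Module
open scoped ComplexConjugate

variable {G : Type*} [Group G] [Finite G] {M : Ideal AlgInt} {p : ℕ} [hp : Fact p.Prime]

theorem mem_nz_normal (H : Subgroup G) [H.Normal] (x : G) : x ∈ nz H := by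
  rw [show nz H = ⊤ from Subgroup.normalizer_eq_top _]; trivial

theorem relIndex_pow_of_regular {N H : Subgroup G} (hNH : N ≤ H) (hn : H ≤ nz N)
    (h : ∀ x ∈ H, ¬ p ∣ orderOf x → x ∈ N) : ∃ k : ℕ, N.relIndex H = p ^ k := by
  haveI := subgroupOf_normal hn hNH
  have h1 : IsPGroup p (H ⧸ N.subgroupOf H) := by
    intro g
    obtain ⟨y, rfl⟩ := QuotientGroup.mk_surjective g
    refine ⟨(orderOf y).factorization p, ?_⟩
    rw [← QuotientGroup.mk_pow, QuotientGroup.eq_one_iff]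
    show ((y ^ p ^ (orderOf y).factorization p : H) : G) ∈ N
    refine h _ (y ^ p ^ (orderOf y).factorization p : H).2 ?_
    rw [Subgroup.orderOf_coe, orderOf_pow' _ (pow_ne_zero _ hp.out.ne_zero),
      Nat.gcd_eq_right (Nat.ordProj_dvd _ _)]
    exact Nat.not_dvd_ordCompl hp.out (orderOf_pos y).ne'
  obtain ⟨k, hk⟩ := IsPGroup.iff_card.1 h1
  exact ⟨k, hk⟩

theorem dg_of_normal' (hM : IsPModular p M) [hMp : M.IsPrime] {B : Set (IrrCharacter G)} (hB : IsPBlock M B)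
    {D : Subgroup G} [hD : D.Normal] (hDD : IsDefectGroup p M B D) {N : Subgroup G} [hN : N.Normal]
    {c : MonoidAlgebra (kk M) G} (hc : IsBl N c) (hBc : idB M B * c ≠ 0) :
    DG p N c (D ⊓ N) := by
  haveI : CharP (kk M) p := charP_kk hM
  have hne : br (⊥ : Subgroup G) c ≠ 0 := by
    have h1 : br (⊥ : Subgroup G) c = c := by
      refine br_of_sup fun g hg => ?_
      exfalso
      apply hg
      rw [Subgroup.mem_centralizer_iff]
      intro h hh
      have : h = 1 := hh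
      rw [this, one_mul, mul_one]
    rw [h1]; exact hc.ne
  obtain ⟨Q, hQ, -⟩ := exists_DG_ge (p := p) (H := N) bot_le IsPGroup.of_bot hne
  obtain ⟨P, hP, hPQ⟩ := knorr hM (isBl_top hB) hc hBc hQ
  obtain ⟨x, -, hx⟩ := DG.conj hM (isBl_top hB) ((isDefectGroup_iff_DG hM hB).1 hDD) hP
  have h1 : cj x D = D := cj_eq_of_mem_normalizer (by rw [Subgroup.normalizer_eq_top]; trivial)
  rw [h1] at hx
  rw [hx] at hPQ
  rw [hPQ]
  exact hQ

/-- constituents of the restriction of a character with `D` in the kernel -/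
theorem const_triv {D C : Subgroup G} [hD : D.Normal] [Fintype C] {χ : IrrCharacter G}
    (hker : ∀ g ∈ D, (χ : G → ℂ) g = (χ : G → ℂ) 1) {ψ : IrrCharacter C}
    (hψ : classInner (fun c : C => (χ : G → ℂ) c) (ψ : C → ℂ) ≠ 0) {Z : Subgroup C}
    (hZ : Z ≤ Subgroup.center C) (hZD : ∀ u ∈ Z, (u : G) ∈ D) :
    ∀ (u : Z) (g : C), (ψ : C → ℂ) (u * g) = (ψ : C → ℂ) g := by
  classical
  obtain ⟨f, hf⟩ := central_lin hZ ψ
  obtain ⟨χ', rfl⟩ := exists_defl D hker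
  intro u g
  rw [hf]
  have h1 : classInner (fun c : C => (inflI D χ' : G → ℂ) c) (ψ : C → ℂ) =
      conj (f u : ℂ) * classInner (fun c : C => (inflI D χ' : G → ℂ) c) (ψ : C → ℂ) := by
    conv_lhs => rw [classInner_def, ← Equiv.sum_comp (Equiv.mulLeft (u : C))]
    rw [classInner_def, mul_left_comm]
    congr 1
    rw [Finset.mul_sum]
    refine Finset.sum_congr rfl fun c _ => ?_
    rw [Equiv.coe_mulLeft, hf, map_mul]
    have h2 : (inflI D χ' : G → ℂ) (((u : C) * c : C) : G) = (inflI D χ' : G → ℂ) (c : G) := by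
      rw [inflI_apply, inflI_apply, Subgroup.coe_mul, QuotientGroup.mk_mul,
        (QuotientGroup.eq_one_iff _).2 (hZD u u.2), one_mul]
    rw [h2]
    ring
  have h2 : conj (f u : ℂ) = 1 := by
    have h3 : (1 - conj (f u : ℂ)) * classInner (fun c : C => (inflI D χ' : G → ℂ) c) (ψ : C → ℂ) = 0 := by
      rw [sub_mul, one_mul, ← h1, sub_self]
    exact (sub_eq_zero.1 ((mul_eq_zero.1 h3).resolve_right hψ)).symm
  have h3 : (f u : ℂ) = 1 := by
    have := congrArg conj h2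
    rwa [Complex.conj_conj, map_one] at this
  rw [h3, one_mul]

theorem claimA (hM : IsPModular p M) [hMp : M.IsPrime] {B : Set (IrrCharacter G)} (hB : IsPBlock M B)
    (D : Subgroup G) [hDn : D.Normal] (hDD : IsDefectGroup p M B D) {n : ℕ}
    (hn : ∀ χ ∈ B, blockHeight p B (χ : G → ℂ) = 0 → charDegree (χ : G → ℂ) = n)
    {e : MonoidAlgebra (kk M) G} (he : IsBl (cz D) e) (hBe : idB M B * e ≠ 0) {x : G}
    (hx : ¬ p ∣ orderOf x) (hxe : ca x e = e) : x ∈ cz D := by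
  classical
  haveI : CharP (kk M) p := charP_kk hM
  haveI := Fintype.ofFinite G
  have hcardD := defectGroup_card hM hB hDD
  have hDp : IsPGroup p D := IsPGroup.of_card hcardD
  have hle : (⁅D, D⁆ : Subgroup G) ≤ D := Subgroup.commutator_le_left D D
  have hBQ := isPBlock_BQ hM hB D hDp
  have hDDQ := isDefectGroup_BQ hM hB D hDD
  haveI hDq : (D.map (QuotientGroup.mk' (⁅D, D⁆ : Subgroup G))).Normal :=
    hDn.map _ (QuotientGroup.mk'_surjective _)
  have hDqp : IsPGroup p (D.map (QuotientGroup.mk' (⁅D, D⁆ : Subgroup G))) := hDp.map _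
  set π := QuotientGroup.mk' (⁅D, D⁆ : Subgroup G) with hπ
  set Dq := D.map π with hDqdef
  have hab : Dq ≤ cz Dq := by
    rintro _ ⟨a, ha, rfl⟩
    rw [Subgroup.mem_centralizer_iff]
    rintro _ ⟨b, hb, rfl⟩
    show (b : G ⧸ (⁅D, D⁆ : Subgroup G)) * a = a * b
    rw [← QuotientGroup.mk_mul, ← QuotientGroup.mk_mul, QuotientGroup.eq]
    have h1 : a⁻¹ * b⁻¹ * a⁻¹⁻¹ * b⁻¹⁻¹ ∈ (⁅D, D⁆ : Subgroup G) :=
      Subgroup.commutator_mem_commutator (D.inv_mem ha) (D.inv_mem hb)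
    have e : (b * a)⁻¹ * (a * b) = a⁻¹ * b⁻¹ * a⁻¹⁻¹ * b⁻¹⁻¹ := by group
    rw [e]; exact h1
  obtain ⟨cc, hcc, hceq⟩ := exists_block_of_isBl he
  haveI : Fintype (cz D) := Fintype.ofFinite _
  have hdgC := dg_of_normal' hM hB hDD he hBe
  have hdgC' : IsDefectGroup p M cc ((D ⊓ cz D).subgroupOf (cz D)) := by
    rw [isDefectGroup_iff_DG' hM hcc inf_le_right, ← hceq]
    exact hdgC
  set Z := (D ⊓ cz D).subgroupOf (cz D) with hZdef
  have hZD : ∀ u ∈ Z, (u : G) ∈ D := fun u hu => hu.1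
  have hZc : Z ≤ Subgroup.center (cz D) := by
    intro d hd
    rw [Subgroup.mem_center_iff]
    intro g
    apply Subtype.ext
    exact (Subgroup.mem_centralizer_iff.1 g.2 (d : G) (hZD d hd)).symm
  obtain ⟨θ, hθ, hθ1, -, hθ3, -⟩ := cen_struct hM hcc hZc hdgC'
  have huniq : ∀ ψ ∈ cc, (∀ (u : Z) (g : cz D), (ψ : cz D → ℂ) (u * g) = (ψ : cz D → ℂ) g) → ψ = θ := by
    intro ψ hψ h
    obtain ⟨ψ0, -, h0⟩ := hθ3 1
    rw [h0 ψ ⟨hψ, fun u g => by rw [h u g]; simp⟩, h0 θ ⟨hθ, fun u g => by rw [hθ1 u g]; simp⟩]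
  -- a character of `B` over `θ` with `D` in the kernel
  obtain ⟨χ, hχ, hker⟩ := exists_ker_char hM hDp (IsPBlock.nonempty hB) (inS_eSet hB)
  have hBe' : idB M B * idH M (cz D) cc ≠ 0 := by rw [← hceq]; exact hBe
  have hcov : Covers (cz D) B cc := (cover_iff hB hcc).2 hBe'
  obtain ⟨ψ, hψ, hψχ⟩ := covers_exists hB hcc hcov hχ
  have hψθ : ψ = θ := huniq ψ hψ (const_triv hker hψχ hZc hZD)
  subst hψθ
  -- stability
  have hxnz : x ∈ nz (cz D) := by
    rw [show nz (cz D) = ⊤ from Subgroup.normalizer_eq_top _]; trivial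
  have hxcj := cjSet_eq_self hcc hxnz (by rw [← hceq]; exact hxe)
  have hstab : ∀ c : cz D, ∀ c' : cz D, (c' : G) = x * c * x⁻¹ → (ψ : cz D → ℂ) c' = (ψ : cz D → ℂ) c := by
    have h1 : ψ ∈ (cjSet x cc : Set (IrrCharacter (cz D))) := by rw [hxcj]; exact hψ
    obtain ⟨ξ, hξ, hξψ⟩ := h1
    have h2 : ξ = ψ := by
      refine huniq ξ hξ fun u g => ?_
      have hxn : ∀ g : cz D, x * (g : G) * x⁻¹ ∈ cz D := fun g =>
        (inferInstance : (cz D).Normal).conj_mem _ g.2 x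
      have h3 := hξψ (u * g) ⟨x * ((u * g : cz D) : G) * x⁻¹, hxn _⟩ rfl
      have h4 := hξψ g ⟨x * (g : G) * x⁻¹, hxn _⟩ rfl
      have huD : x * ((u : cz D) : G) * x⁻¹ ∈ D := hDn.conj_mem _ (hZD u u.2) x
      have huZ : (⟨x * ((u : cz D) : G) * x⁻¹, hxn _⟩ : cz D) ∈ Z := ⟨huD, hxn _⟩
      have h5 := hθ1 ⟨_, huZ⟩ ⟨x * (g : G) * x⁻¹, hxn _⟩
      rw [← h3, ← h4, ← h5]
      refine congrArg (ψ : cz D → ℂ) (Subtype.ext ?_)
      show x * ((u : cz D) * g : G) * x⁻¹ = x * ((u : cz D) : G) * x⁻¹ * (x * (g : G) * x⁻¹)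
      group
    subst h2
    intro c c' h
    exact hξψ c c' h
  -- the image of `θ`
  obtain ⟨χ', hχ'⟩ := exists_defl (⁅D, D⁆ : Subgroup G) (χ := χ) (fun n hn => hker n (hle hn))
  subst hχ'
  have hχ'B : χ' ∈ BQ D B := hχ
  haveI hCn : (cz D).Normal := inferInstance
  haveI hC1n : ((cz D).map π).Normal := hCn.map _ (QuotientGroup.mk'_surjective _)
  haveI : Fintype ((cz D).map π) := Fintype.ofFinite _
  set φ : cz D →* (cz D).map π := π.subgroupMap (cz D) with hφ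
  have hφs : Function.Surjective φ := π.subgroupMap_surjective (cz D)
  have hφv : ∀ c : cz D, ((φ c : (cz D).map π) : G ⧸ (⁅D, D⁆ : Subgroup G)) = ((c : G) : G ⧸ (⁅D, D⁆ : Subgroup G)) :=
    fun c => rfl
  obtain ⟨θq, hθq, hθqe⟩ := exists_irr_descend φ hφs ψ.2 (fun c hc => by
    have h1 : ((c : G) : G ⧸ (⁅D, D⁆ : Subgroup G)) = 1 := by
      rw [← hφv c, hc]; rfl
    have h2 : (c : G) ∈ D := hle ((QuotientGroup.eq_one_iff _).1 h1)
    have h3 : c ∈ Z := ⟨h2, c.2⟩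
    have h4 := hθ1 ⟨c, h3⟩ 1
    rwa [mul_one] at h4)
  let θq' : IrrCharacter ((cz D).map π) := ⟨θq, hθq⟩
  have hf := isPBlock_blockOf (M := M) θq'
  have hθf : θq' ∈ blockOf M (θq' : (cz D).map π → ℂ) := mem_blockOf_self θq'
  haveI := Fintype.ofFinite (G ⧸ (⁅D, D⁆ : Subgroup G))
  have hinner : classInner (fun y : (cz D).map π => (χ' : G ⧸ (⁅D, D⁆ : Subgroup G) → ℂ) y)
      (θq' : (cz D).map π → ℂ) ≠ 0 := by
    rw [← inner_comp_surj φ hφs]
    have h1 : (fun a : cz D => (θq' : (cz D).map π → ℂ) (φ a)) = (ψ : cz D → ℂ) := by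
      funext a; exact (hθqe a).symm
    rw [h1]
    exact hψχ
  have hcovq := (cover_iff hBQ hf).1 ⟨χ', hχ'B, θq', hθf, hinner⟩
  set fh := idH M ((cz D).map π) (blockOf M (θq' : (cz D).map π → ℂ)) with hfh
  have hfbl : IsBl ((cz D).map π) fh := isBl_idH hf
  -- C1 ≤ Cq
  have hC1C : (cz D).map π ≤ cz Dq := by
    rintro _ ⟨a, ha, rfl⟩
    rw [Subgroup.mem_centralizer_iff]
    rintro _ ⟨b, hb, rfl⟩
    rw [← map_mul, ← map_mul, Subgroup.mem_centralizer_iff.1 ha b hb]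
  have hCnz : cz Dq ≤ nz ((cz D).map π) := by
    rw [show nz ((cz D).map π) = ⊤ from Subgroup.normalizer_eq_top _]; exact le_top
  have hmemC : ∀ g : G, (g : G ⧸ (⁅D, D⁆ : Subgroup G)) ∈ cz Dq → ¬ p ∣ orderOf g → g ∈ cz D := by
    intro g hgC hg
    apply centralizes_of_abelianization hDp hg
    intro d hd
    have h1 := Subgroup.mem_centralizer_iff.1 hgC (d : G ⧸ (⁅D, D⁆ : Subgroup G)) ⟨d, hd, rfl⟩
    rw [← QuotientGroup.mk_mul, ← QuotientGroup.mk_mul, QuotientGroup.eq] at h1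
    have h2 := (commutator_normal_self (D := D)).conj_mem _ h1 (d * g)
    have h3 : d * g * ((d * g)⁻¹ * (g * d)) * (d * g)⁻¹ = g * d * g⁻¹ * d⁻¹ := by group
    rwa [h3] at h2
  have hidx : ∃ k : ℕ, ((cz D).map π).relIndex (cz Dq) = p ^ k := by
    refine relIndex_pow_of_regular hC1C hCnz fun y hy hyr => ?_
    obtain ⟨g, rfl, hg⟩ := exists_regular_lift (hDp.to_le hle) hyr
    exact ⟨g, hmemC g hy hg, rfl⟩
  obtain ⟨d, hd, hdne⟩ := exists_covered (N := cz Dq) hcovq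
  have hBqc : IsCen (idB M (BQ D B)) := isCen_idB _
  have hd1 : idB M (BQ D B) * d ≠ 0 := by
    intro h
    apply hdne
    rw [hBqc.comm, mul_assoc, h, mul_zero]
  have hd2 : d * fh ≠ 0 := by
    intro h
    apply hdne
    rw [mul_assoc, ← hd.comm (hfbl.sup.mono hC1C), h, mul_zero]
  -- x stabilizes fh
  have hxf : ca (x : G ⧸ (⁅D, D⁆ : Subgroup G)) fh = fh := by
    have hK : (cz D).map π = cj (x : G ⧸ (⁅D, D⁆ : Subgroup G)) ((cz D).map π) :=
      (cj_eq_of_mem_normalizer (mem_nz_normal _ _)).symm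
    rw [hfh, ← idH_cjSet (x : G ⧸ (⁅D, D⁆ : Subgroup G)) hK]
    congr 1
    have h1 := (isPBlock_cjSet (M := M) (x : G ⧸ (⁅D, D⁆ : Subgroup G)) hK).2 hf
    have h2 : θq' ∈ (cjSet (x : G ⧸ (⁅D, D⁆ : Subgroup G)) (blockOf M (θq' : (cz D).map π → ℂ)) :
        Set (IrrCharacter ((cz D).map π))) := by
      refine ⟨θq', hθf, fun h k hk => ?_⟩
      obtain ⟨a, rfl⟩ := hφs h
      have hxa : x * (a : G) * x⁻¹ ∈ cz D := hCn.conj_mem _ a.2 x
      have hk' : k = φ ⟨x * (a : G) * x⁻¹, hxa⟩ := by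
        apply Subtype.ext
        rw [hk, hφv, hφv]
        rfl
      rw [hk']
      show θq _ = θq _
      rw [← hθqe, ← hθqe]
      exact hstab a ⟨x * (a : G) * x⁻¹, hxa⟩ rfl
    rw [IsPBlock.eq_blockOf h1 h2]
  have hxd : ca (x : G ⧸ (⁅D, D⁆ : Subgroup G)) d = d := by
    have h1 : IsBl (cz Dq) (ca (x : G ⧸ (⁅D, D⁆ : Subgroup G)) d) := by
      exact IsBl.ca_of_normalizer hd (mem_nz_normal _ _)
    refine unique_cover_pIndex' hM hC1C hCnz hidx hfbl h1 hd ?_ hd2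
    intro h
    apply hd2
    have h2 : ca (x : G ⧸ (⁅D, D⁆ : Subgroup G)) (d * fh) = 0 := by
      rw [ca_mul, hxf, h]
    exact ca_injective (x : G ⧸ (⁅D, D⁆ : Subgroup G)) (by rw [h2, ca_zero])
  have hdegq : ∀ χ ∈ BQ D B, charDegree (χ : G ⧸ (⁅D, D⁆ : Subgroup G) → ℂ) = n := by
    intro ζ hζ
    rw [← charDegree_inflI]
    exact hn _ hζ (height_BQ hM hB D hDD hζ)
  have hfin := stab_le_cz hM hBQ Dq hDDQ hab hdegq hd hd1 (mem_stb.2 hxd)
  exact hmemC x hfin hx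

end CfsgH5
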