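import Cfsg.Agent.H5.EqDeg10
import Cfsg.Agent.H5.Syl

/-!
# Equal height-zero degrees and nilpotency for a normal defect group
-/

set_option autoImplicit false
open Cfsg MonoidAlgebra
open CfsgH4 hiding centralChar sum_conj regInner_symm

namespace CfsgH5

open Module
open scoped ComplexConjugate

variable {G : Type*} [Group G] [Finite G] {M : Ideal AlgInt} {p : ℕ} [hp : Fact p.Prime]

/-- a maximal pair with normal first component -/
theorem exists_mp_normal (hM : IsPModular p M) [hMp : M.IsPrime] {B : Set (IrrCharacter G)}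
    (hB : IsPBlock M B) (D : Subgroup G) [hDn : D.Normal] (hDD : IsDefectGroup p M B D) :
    ∃ e, IsBl (cz D) e ∧ idB M B * e = e ∧ MP p ⊤ (idB M B) (D, e) := by
  haveI : CharP (kk M) p := charP_kk hM
  have hcardD := defectGroup_card hM hB hDD
  have hDp : IsPGroup p D := IsPGroup.of_card hcardD
  have hsup : Sup (cz D) (idB M B) := IsBl.sup_cz hM hDp le_top
    (le_of_eq (Subgroup.normalizer_eq_top (H := D)).symm) (isBl_top hB)
  obtain ⟨e, he, hBe⟩ := exists_bl_mul hsup ((isBl_top hB).fx.mono le_top) (idB_idem (inS_eSet hB))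
    (idB_ne_zero hB)
  refine ⟨e, he, hBe, ⟨hDp, le_top, le_top, he, ?_⟩, ?_⟩
  · show br D (idB M B) * e = e
    rw [br_of_sup hsup]; exact hBe
  · intro c hc hle
    have hDG := (isDefectGroup_iff_DG hM hB).1 hDD
    refine hDG.max c.1 le_top hc.1 hle.le ?_
    intro h
    have h1 : br c.1 (idB M B) * c.2 = c.2 := hc.2.2.2.2
    rw [h, zero_mul] at h1
    exact hc.2.2.2.1.ne h1.symm

/-- members of subpairs do not annihilate the top block -/
theorem le_mul_ne_zero (hM : IsPModular p M) [hMp : M.IsPrime] {D : Subgroup G} [hDn : D.Normal]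
    {e : MonoidAlgebra (kk M) G} (he : IsBl (cz D) e) {a : Subgroup G × MonoidAlgebra (kk M) G}
    (h : LE p a (D, e)) : a.2 * e ≠ 0 := by
  haveI : CharP (kk M) p := charP_kk hM
  unfold CfsgH4.LE at h
  induction h using Relation.ReflTransGen.head_induction_on with
  | refl => rw [he.idem]; exact he.ne
  | head h1 h2 ih =>
    rename_i a c
    have hcD : c.1 ≤ D := CfsgH4.LE.le (p := p) (b := (D, e)) h2
    intro h0
    apply ih
    have hes : Sup (cz c.1) e := he.sup.mono (cz_le_cz hcD)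
    have hfx : Fx c.1 e := fx_of_sup_centralizer hes
    have h3 : br c.1 (a.2 * e) = br c.1 a.2 * e := by
      rw [br_mul h1.pb h1.fx hfx, br_of_sup hes]
    rw [h0, br_zero] at h3
    calc c.2 * e = (br c.1 a.2 * c.2) * e := by rw [h1.mul]
      _ = br c.1 a.2 * (e * c.2) := by rw [mul_assoc, h1.bb.comm hes]
      _ = (br c.1 a.2 * e) * c.2 := by rw [mul_assoc]
      _ = 0 := by rw [← h3, zero_mul]

theorem nil_of_stab (hM : IsPModular p M) [hMp : M.IsPrime] {B : Set (IrrCharacter G)}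
    (hB : IsPBlock M B) (D : Subgroup G) [hDn : D.Normal]
    {e : MonoidAlgebra (kk M) G} (he : IsBl (cz D) e) (hmax : MP p ⊤ (idB M B) (D, e))
    (h : ∀ x ∈ stb e, ¬ p ∣ orderOf x → x ∈ cz D) : NilB p (idB M B) := by
  refine nilB_of_below hM (isBl_top hB) hmax fun Q f hle x hx hreg => ?_
  have hQD : Q ≤ D := hle.le
  have hf : IsBl (cz Q) f := hle.isBl he
  have hne : f * e ≠ 0 := le_mul_ne_zero hM he hle
  obtain ⟨hxn, hxf⟩ := mem_st.1 hx
  have he' : IsBl (cz D) (ca x e) := IsBl.ca_of_normalizer he (mem_nz_normal _ _)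
  have hne' : f * ca x e ≠ 0 := by
    intro h0
    apply hne
    refine ca_injective x ?_
    rw [ca_mul, hxf, h0, ca_zero]
  obtain ⟨c', hc', hce⟩ := cover_conj_rel (cz_le_cz hQD)
    (by rw [show nz (cz D) = ⊤ from Subgroup.normalizer_eq_top _]; exact le_top) hf he he' hne hne'
  have hy : c'⁻¹ * x ∈ stb e := by
    rw [mem_stb, ← ca_ca, hce, ca_inv_ca]
  obtain ⟨u, hu⟩ := exists_ppart (p := p) (c'⁻¹ * x)
  have hu' := hu
  obtain ⟨v, huv, hcomm, ⟨k, hk⟩, hv⟩ := hu
  have hue : u ∈ stb e := ppart_mem hu' hy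
  have hve : v ∈ stb e := by
    have : v = u⁻¹ * (c'⁻¹ * x) := by rw [← huv]; group
    rw [this]; exact (stb e).mul_mem ((stb e).inv_mem hue) hy
  have hvD : v ∈ cz D := h v hve hv
  have hc'n : c' ∈ nz Q := cz_le_nz Q hc'
  have hyn : c'⁻¹ * x ∈ nz Q := (nz Q).mul_mem ((nz Q).inv_mem hc'n) hxn
  have hun : u ∈ nz Q := ppart_mem hu' hyn
  refine cz_of_same_action hxn hun (fun r hr => ?_) hreg hk
  have hvr : v * r * v⁻¹ = r := by
    have := Subgroup.mem_centralizer_iff.1 hvD r (hQD hr)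
    rw [← this, mul_inv_cancel_right]
  have hur : u * r * u⁻¹ ∈ Q := (Subgroup.mem_normalizer_iff.1 hun r).1 hr
  have h2 : x = c' * (u * v) := by rw [huv]; group
  calc x * r * x⁻¹ = c' * (u * (v * r * v⁻¹) * u⁻¹) * c'⁻¹ := by rw [h2]; group
    _ = c' * (u * r * u⁻¹) * c'⁻¹ := by rw [hvr]
    _ = u * r * u⁻¹ := by
        rw [← Subgroup.mem_centralizer_iff.1 hc' _ hur, mul_inv_cancel_right]

/-- S4890, forward direction -/
theorem nil_of_eq_deg (hM : IsPModular p M) [hMp : M.IsPrime] {B : Set (IrrCharacter G)}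
    (hB : IsPBlock M B) (D : Subgroup G) [hDn : D.Normal] (hDD : IsDefectGroup p M B D) {n : ℕ}
    (hn : ∀ χ ∈ B, blockHeight p B (χ : G → ℂ) = 0 → charDegree (χ : G → ℂ) = n) :
    IsNilpotentBlock p M B := by
  obtain ⟨e, he, hBe, hmax⟩ := exists_mp_normal hM hB D hDD
  refine (nil_iff hM).2 ⟨hB, nil_of_stab hM hB D he hmax fun x hx hreg => ?_⟩
  exact claimA hM hB D hDD hn he (by rw [hBe]; exact he.ne) hreg (mem_stb.1 hx)

/-- S4890, backward direction -/
theorem eq_deg_of_nil (hM : IsPModular p M) [hMp : M.IsPrime] {B : Set (IrrCharacter G)}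
    (D : Subgroup G) [hDn : D.Normal] (hDD : IsDefectGroup p M B D) (hnil : IsNilpotentBlock p M B) :
    ∃ n : ℕ, ∀ χ : IrrCharacter G, χ ∈ B → blockHeight p B (χ : G → ℂ) = 0 →
      charDegree (χ : G → ℂ) = n := by
  classical
  haveI : CharP (kk M) p := charP_kk hM
  haveI := Fintype.ofFinite G
  haveI : Fintype (cz D) := Fintype.ofFinite _
  obtain ⟨hB, hnB⟩ := (nil_iff hM).1 hnil
  obtain ⟨e, he, hBe, hmax⟩ := exists_mp_normal hM hB D hDD
  have hcardD := defectGroup_card hM hB hDD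
  have hDp : IsPGroup p D := IsPGroup.of_card hcardD
  have hC : ∀ x ∈ stb e, ¬ p ∣ orderOf x → x ∈ cz D := fun x hx hreg =>
    hnB D e hmax.1 x (mem_st.2 ⟨mem_nz_normal _ _, hx⟩) hreg
  have hCT : cz D ≤ stb e := fx_iff_le.1 he.fx
  obtain ⟨k, hk⟩ := relIndex_pow_of_regular hCT
    (by rw [show nz (cz D) = ⊤ from Subgroup.normalizer_eq_top _]; exact le_top) hC
  obtain ⟨cc, hcc, hceq⟩ := exists_block_of_isBl he
  have hBe0 : idB M B * e ≠ 0 := by rw [hBe]; exact he.ne
  have hdgC := dg_of_normal' hM hB hDD he hBe0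
  have hdgC' : IsDefectGroup p M cc ((D ⊓ cz D).subgroupOf (cz D)) := by
    rw [isDefectGroup_iff_DG' hM hcc inf_le_right, ← hceq]
    exact hdgC
  have hZc : (D ⊓ cz D).subgroupOf (cz D) ≤ Subgroup.center (cz D) := by
    intro d hd
    rw [Subgroup.mem_center_iff]
    intro g
    apply Subtype.ext
    exact (Subgroup.mem_centralizer_iff.1 g.2 (d : G) hd.1).symm
  obtain ⟨θ, hθ, -, hθ2, -⟩ := cen_struct hM hcc hZc hdgC'
  have hBe' : idB M B * idH M (cz D) cc ≠ 0 := by rw [← hceq]; exact hBe0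
  have hcov : Covers (cz D) B cc := (cover_iff hB hcc).2 hBe'
  -- degrees
  have key : ∀ χ ∈ B, ∃ j : ℕ, charDegree (χ : G → ℂ) =
      (stb e).index * charDegree (θ : cz D → ℂ) * p ^ j := by
    intro χ hχ
    obtain ⟨ψ, hψ, hψχ⟩ := covers_exists hB hcc hcov hχ
    have hψ1 : (ψ : cz D → ℂ) 1 = (θ : cz D → ℂ) 1 :=
      hθ2 ψ hψ 1 (by rw [orderOf_one]; exact hp.out.one_lt.ne' ∘ Nat.dvd_one.1)
    obtain ⟨ζ, hζ, hζne, hind, -⟩ := clifford_corr (cz D) χ.2 ψ.2 hψχ
    have hNI : cz D ≤ inertia (cz D) (ψ : cz D → ℂ) := le_inertia (cz D) (IsIrr.isClassFunction ψ.2)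
    haveI : Fintype (inertia (cz D) (ψ : cz D → ℂ)) := Fintype.ofFinite _
    haveI : Fintype ((cz D).subgroupOf (inertia (cz D) (ψ : cz D → ℂ))) := Fintype.ofFinite _
    let E : (cz D).subgroupOf (inertia (cz D) (ψ : cz D → ℂ)) ≃* cz D := Subgroup.subgroupOfEquivOfLe hNI
    have hψ' : IsIrrCharacter ((cz D).subgroupOf (inertia (cz D) (ψ : cz D → ℂ)))
        (fun x => (ψ : cz D → ℂ) (E x)) := (isIrr_comp_equiv E).2 ψ.2
    have hne' : classInner (fun n : (cz D).subgroupOf (inertia (cz D) (ψ : cz D → ℂ)) => ζ n)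
        (fun x => (ψ : cz D → ℂ) (E x)) ≠ 0 := by
      have h1 : (fun n : (cz D).subgroupOf (inertia (cz D) (ψ : cz D → ℂ)) => ζ n) =
          fun n : (cz D).subgroupOf (inertia (cz D) (ψ : cz D → ℂ)) => (resLE hNI ζ) (E n) := by
        ext n; rfl
      rw [h1, classInner_comp_equiv E]
      exact hζne
    obtain ⟨m, hm, hdvd⟩ := degree_quot ((cz D).subgroupOf (inertia (cz D) (ψ : cz D → ℂ))) hζ hψ' hne'
    -- inertia is inside the stabilizer
    have hIT : inertia (cz D) (ψ : cz D → ℂ) ≤ stb e := by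
      intro x hx
      rw [mem_stb, hceq]
      have hK : cz D = cj x (cz D) := (cj_eq_of_mem_normalizer (mem_nz_normal _ _)).symm
      rw [← idH_cjSet x hK]
      congr 1
      have h1 := (isPBlock_cjSet (M := M) x hK).2 hcc
      have h2 : ψ ∈ (cjSet x cc : Set (IrrCharacter (cz D))) := by
        refine ⟨ψ, hψ, fun h k hk => ?_⟩
        have h3 := congrFun ((mem_inertia (cz D) (ψ : cz D → ℂ) x).1 hx) h
        rw [← h3]
        refine congrArg (ψ : cz D → ℂ) (Subtype.ext ?_)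
        rw [hk]
      rw [IsPBlock.eq_blockOf h1 h2, ← IsPBlock.eq_blockOf hcc hψ]
    have hrel : (cz D).relIndex (inertia (cz D) (ψ : cz D → ℂ)) *
        (inertia (cz D) (ψ : cz D → ℂ)).relIndex (stb e) = p ^ k := by
      rw [Subgroup.relIndex_mul_relIndex _ _ _ hNI hIT]; exact hk
    have hm' : m ∣ (cz D).relIndex (inertia (cz D) (ψ : cz D → ℂ)) := hdvd
    have h4 : m * (inertia (cz D) (ψ : cz D → ℂ)).relIndex (stb e) ∣ p ^ k := by
      rw [← hrel]; exact Nat.mul_dvd_mul_right hm' _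
    obtain ⟨j, -, hj⟩ := (Nat.dvd_prime_pow hp.out).1 h4
    refine ⟨j, ?_⟩
    have h5 := congrFun hind 1
    rw [indFun_one, hm] at h5
    have h6 : (ψ : cz D → ℂ) (E 1) = charDegree (θ : cz D → ℂ) := by
      rw [map_one, hψ1, (IsIrr.one_eq θ.2).1]
    rw [h6, (IsIrr.one_eq χ.2).1] at h5
    have h7 : (inertia (cz D) (ψ : cz D → ℂ)).relIndex (stb e) * (stb e).index =
        (inertia (cz D) (ψ : cz D → ℂ)).index := Subgroup.relIndex_mul_index hIT
    have h8 : charDegree (χ : G → ℂ) = (inertia (cz D) (ψ : cz D → ℂ)).index *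
        (m * charDegree (θ : cz D → ℂ)) := by exact_mod_cast h5
    rw [h8, ← h7, ← hj]
    ring
  by_cases hex : ∃ χ ∈ B, blockHeight p B (χ : G → ℂ) = 0
  · obtain ⟨χ0, hχ0, h0⟩ := hex
    refine ⟨charDegree (χ0 : G → ℂ), fun χ hχ hh => ?_⟩
    obtain ⟨j, hj⟩ := key χ hχ
    obtain ⟨j0, hj0⟩ := key χ0 hχ0
    have h1 := degree_eq (p := p) hχ
    have h2 := degree_eq (p := p) hχ0
    have h3 : (charDegree (χ : G → ℂ)).factorization p = (charDegree (χ0 : G → ℂ)).factorization p := by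
      omega
    have hne1 : (stb e).index * charDegree (θ : cz D → ℂ) ≠ 0 :=
      mul_ne_zero Subgroup.index_ne_zero_of_finite (charDegree_ne_zero θ)
    have h4 : ∀ i : ℕ, ((stb e).index * charDegree (θ : cz D → ℂ) * p ^ i).factorization p =
        ((stb e).index * charDegree (θ : cz D → ℂ)).factorization p + i := by
      intro i
      rw [Nat.factorization_mul hne1 (pow_ne_zero _ hp.out.ne_zero), Finsupp.add_apply,
        Nat.factorization_pow_self hp.out]
    rw [hj, hj0, h4, h4] at h3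
    rw [hj, hj0, Nat.add_left_cancel h3]
  · exact ⟨0, fun χ hχ hh => absurd ⟨χ, hχ, hh⟩ hex⟩

end CfsgH5
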