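import Cfsg.Agent.H5.EqDeg5

/-!
# The trace data of a block with a normal abelian defect group and equal degrees
-/

set_option autoImplicit false
open Cfsg MonoidAlgebra
open CfsgH4 hiding centralChar sum_conj regInner_symm

namespace CfsgH5

open Module

variable {G : Type*} [Group G] [Finite G] {p : ℕ} [hp : Fact p.Prime] {M : Ideal AlgInt}

theorem nl_single_sub (hM : IsPModular p M) [hMp : M.IsPrime] {D : Subgroup G} (hDp : IsPGroup p D)
    (hDc : D ≤ cz D) {d : G} (hd : d ∈ D) : Nl D (single d (1 : kk M) - 1) := by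
  classical
  haveI : CharP (kk M) p := charP_kk hM
  have hsup : Sup D (single d (1 : kk M) - 1 : MonoidAlgebra (kk M) G) := by
    intro g hg
    rw [MonoidAlgebra.coeff_sub, Finsupp.sub_apply, MonoidAlgebra.one_def, coeff_single_apply,
      coeff_single_apply, if_neg, if_neg, sub_zero]
    · rintro rfl; exact hg D.one_mem
    · rintro rfl; exact hg hd
  refine ⟨hsup, fx_of_sup_centralizer (hsup.mono hDc), ?_⟩
  haveI : CharP (MonoidAlgebra (kk M) G) p :=
    charP_of_injective_algebraMap (algebraMap (kk M) (MonoidAlgebra (kk M) G)).injective p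
  obtain ⟨a, ha⟩ := hDp.exists_card_eq
  refine ⟨p ^ a, ?_⟩
  rw [sub_pow_char_pow_of_commute _ _ (Commute.one_right _), one_pow, single_pow, one_pow]
  have h1 : d ^ p ^ a = 1 := by
    rw [← ha]
    have := pow_card_eq_one' (G := D) (x := ⟨d, hd⟩)
    exact congrArg Subtype.val this
  rw [h1, MonoidAlgebra.one_def, sub_self]

theorem NN_le_jn (hM : IsPModular p M) [hMp : M.IsPrime] {D : Subgroup G} [hD : D.Normal]
    (hDp : IsPGroup p D) (hDc : D ≤ cz D) {b : MonoidAlgebra (kk M) G} (hb : Dh (kk M) D * b = 0) :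
    b ∈ jn M D 1 := by
  classical
  haveI := Fintype.ofFinite G
  haveI := Fintype.ofFinite D
  let q : G → G := fun x => (x : G ⧸ D).out
  have hq : ∀ x, x * (q x)⁻¹ ∈ D := by
    intro x
    have h1 : (q x)⁻¹ * x ∈ D := QuotientGroup.eq.1 (QuotientGroup.out_eq' (x : G ⧸ D))
    have h2 := hD.conj_mem _ h1 (q x)
    have e : q x * ((q x)⁻¹ * x) * (q x)⁻¹ = x * (q x)⁻¹ := by group
    rwa [e] at h2
  have hq2 : ∀ x y, q x = q y ↔ y * x⁻¹ ∈ D := by
    intro x y
    constructor
    · intro h
      have h3 : ((q x : G) : G ⧸ D) = ((q y : G) : G ⧸ D) := by rw [h]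
      have h4 : (x : G ⧸ D) = (y : G ⧸ D) := by
        rw [show ((q x : G) : G ⧸ D) = x from QuotientGroup.out_eq' _,
          show ((q y : G) : G ⧸ D) = y from QuotientGroup.out_eq' _] at h3
        exact h3
      have h5 := QuotientGroup.eq.1 h4
      have h6 := hD.conj_mem _ h5 x
      have e : x * (x⁻¹ * y) * x⁻¹ = y * x⁻¹ := by group
      rwa [e] at h6
    · intro h
      have h5 := hD.conj_mem _ h x⁻¹
      have e : x⁻¹ * (y * x⁻¹) * x⁻¹⁻¹ = x⁻¹ * y := by group
      rw [e] at h5
      show (x : G ⧸ D).out = (y : G ⧸ D).out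
      rw [QuotientGroup.eq.2 h5]
  have hzero : ∑ x : G, single (q x) (b.coeff x) = (0 : MonoidAlgebra (kk M) G) := by
    refine algExt fun y => ?_
    rw [MonoidAlgebra.coeff_sum, Finsupp.finset_sum_apply]
    simp only [coeff_single_apply, MonoidAlgebra.coeff_zero, Finsupp.zero_apply]
    by_cases hy : q y = y
    · have h1 : (Dh (kk M) D * b).coeff y = (0 : MonoidAlgebra (kk M) G).coeff y := by rw [hb]
      rw [coeff_Dh_mul, MonoidAlgebra.coeff_zero, Finsupp.zero_apply] at h1
      rw [← Finset.sum_filter, ← h1]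
      symm
      refine Finset.sum_bij (fun (d : D) _ => (d : G) * y) ?_ ?_ ?_ ?_
      · intro d _
        rw [Finset.mem_filter]
        refine ⟨Finset.mem_univ _, ?_⟩
        have h2 : q ((d : G) * y) = q y := by
          rw [hq2]
          have : y * ((d : G) * y)⁻¹ = (d : G)⁻¹ := by group
          rw [this]; exact D.inv_mem d.2
        rw [h2, hy]
      · intro d _ d' _ h
        exact Subtype.ext (mul_right_cancel h)
      · intro x hx
        rw [Finset.mem_filter] at hx
        have h2 : q x = q y := by rw [hx.2, hy]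
        rw [hq2] at h2
        have h3 : x * y⁻¹ ∈ D := by
          have := D.inv_mem h2
          rwa [mul_inv_rev, inv_inv] at this
        exact ⟨⟨x * y⁻¹, h3⟩, Finset.mem_univ _, by show x * y⁻¹ * y = x; group⟩
      · intro d _; rfl
    · refine Finset.sum_eq_zero fun x _ => ?_
      rw [if_neg]
      intro h
      apply hy
      have h3 : ((q x : G) : G ⧸ D) = x := QuotientGroup.out_eq' _
      have h4 : q (q x) = q x := by
        show ((q x : G) : G ⧸ D).out = (x : G ⧸ D).out
        rw [h3]
      rw [h] at h4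
      exact h4
  have hexp : b = ∑ x : G, (single (x * (q x)⁻¹) (1 : kk M) - 1) * single (q x) (b.coeff x) := by
    have h1 : ∑ x : G, (single (x * (q x)⁻¹) (1 : kk M) - 1) * single (q x) (b.coeff x) =
        ∑ x : G, single x (b.coeff x) - ∑ x : G, single (q x) (b.coeff x) := by
      rw [← Finset.sum_sub_distrib]
      refine Finset.sum_congr rfl fun x _ => ?_
      rw [sub_mul, one_mul, single_mul_single, one_mul, inv_mul_cancel_right]
    rw [h1, hzero, sub_zero]
    exact eq_sum_single b
  rw [hexp]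
  refine sum_mem fun x _ => ?_
  have h1 := jn_gen (M := M) (N := D) (l := [single (x * (q x)⁻¹) (1 : kk M) - 1]) rfl (fun y hy => by
    rw [List.mem_singleton.1 hy]; exact nl_single_sub hM hDp hDc (hq x)) (single (q x) (b.coeff x))
  rwa [List.prod_singleton] at h1

theorem jn_smul [hMp : M.IsPrime] {N : Subgroup G} {n : ℕ} {z : MonoidAlgebra (kk M) G}
    (hz : z ∈ jn M N n) (c : kk M) : c • z ∈ jn M N n := by
  have := jn_mul_right hz (c • (1 : MonoidAlgebra (kk M) G))
  rwa [mul_smul_comm, mul_one] at this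

theorem itI_jn [hMp : M.IsPrime] {D : Subgroup G} [hD : D.Normal]
    {N : Submodule (kk M) (MonoidAlgebra (kk M) G)} (hN : ∀ n ∈ N, n ∈ jn M D 1) :
    ∀ (k j : ℕ) (J : Submodule (kk M) (MonoidAlgebra (kk M) G)), (∀ b ∈ J, b ∈ jn M D j) →
      ∀ x ∈ itI N k J, x ∈ jn M D (j + k) := by
  intro k
  induction k with
  | zero => intro j J h x hx; exact h x hx
  | succ k ih =>
    intro j J h x hx
    have h1 := ih (j + 1) (mulI N J) (fun b hb => by
      unfold mulI at hb
      refine Submodule.span_induction ?_ ?_ ?_ ?_ hb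
      · rintro _ ⟨n, hn, c, hc, rfl⟩
        exact jn_mul (h c hc) (hN n hn)
      · exact zero_mem _
      · intro x y _ _ hx hy; exact add_mem hx hy
      · intro c x _ hx; exact jn_smul hx c) x hx
    rwa [add_assoc, add_comm 1 k] at h1

theorem itI_bot (hM : IsPModular p M) [hMp : M.IsPrime] {D : Subgroup G} [hD : D.Normal]
    (hDp : IsPGroup p D) (hDc : D ≤ cz D) (e : MonoidAlgebra (kk M) G) :
    itI (NN D e) (Nat.card (IrrCharacter D)) (AA e) = ⊥ := by
  rw [eq_bot_iff]
  intro x hx
  rw [Submodule.mem_bot]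
  have h1 := itI_jn (D := D) (N := NN D e) (fun n hn => NN_le_jn hM hDp hDc hn.2)
    (Nat.card (IrrCharacter D)) 0 (AA e) (fun b _ => mem_jn_zero D b) x hx
  rw [zero_add] at h1
  exact jn_top_eq_zero h1

theorem NN_le_AA [hMp : M.IsPrime] {D : Subgroup G} {e : MonoidAlgebra (kk M) G} : NN D e ≤ AA e :=
  fun _ h => h.1

/-- the dimension of the algebra of `e` -/
theorem finrank_AA_le (hM : IsPModular p M) [hMp : M.IsPrime] {D : Subgroup G} [hD : D.Normal]
    (hDp : IsPGroup p D) (hDc : D ≤ cz D) {e : MonoidAlgebra (kk M) G} (hec : IsCen e)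
    (hee : e * e = e) :
    finrank (kk M) (AA e) ≤ (finrank (kk M) (AA e) - finrank (kk M) (NN D e)) * Nat.card D := by
  classical
  haveI := Fintype.ofFinite G
  haveI := Fintype.ofFinite D
  obtain ⟨W, hWA, hWN, hWf⟩ := exists_compl_sub (NN_le_AA (D := D) (e := e))
  have hsup : AA e = W ⊔ NN D e := by
    symm
    refine Submodule.eq_of_le_of_finrank_le (sup_le hWA NN_le_AA) ?_
    have h1 := Submodule.finrank_sup_add_finrank_inf_eq W (NN D e)
    rw [hWN, finrank_bot, add_zero] at h1
    omega
  let Φ : (D → W) →ₗ[kk M] MonoidAlgebra (kk M) G :=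
    { toFun := fun f => ∑ d : D, single (d : G) 1 * (f d : MonoidAlgebra (kk M) G)
      map_add' := fun f g => by
        rw [← Finset.sum_add_distrib]
        refine Finset.sum_congr rfl fun d _ => ?_
        rw [Pi.add_apply, Submodule.coe_add, mul_add]
      map_smul' := fun c f => by
        rw [RingHom.id_apply, Finset.smul_sum]
        refine Finset.sum_congr rfl fun d _ => ?_
        rw [Pi.smul_apply, Submodule.coe_smul, mul_smul_comm] }
  have hΦ : ∀ f, Φ f = ∑ d : D, single (d : G) 1 * (f d : MonoidAlgebra (kk M) G) := fun _ => rfl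
  have hV : ∀ (s : MonoidAlgebra (kk M) G), Sup D s → ∀ u ∈ W, s * u ∈ LinearMap.range Φ := by
    intro s hs u hu
    refine ⟨fun d => s.coeff (d : G) • ⟨u, hu⟩, ?_⟩
    rw [hΦ]
    have h1 : s = ∑ d : D, s.coeff (d : G) • single (d : G) 1 := by
      refine algExt fun x => ?_
      rw [MonoidAlgebra.coeff_sum, Finsupp.finset_sum_apply]
      by_cases hx : x ∈ D
      · rw [Finset.sum_eq_single (⟨x, hx⟩ : D)]
        · rw [MonoidAlgebra.coeff_smul, Finsupp.smul_apply, coeff_single_apply, if_pos rfl,
            smul_eq_mul, mul_one]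
        · intro d _ hd
          rw [MonoidAlgebra.coeff_smul, Finsupp.smul_apply, coeff_single_apply, if_neg, smul_zero]
          intro h; exact hd (Subtype.ext h)
        · intro h; exact absurd (Finset.mem_univ _) h
      · rw [hs x hx]
        symm
        refine Finset.sum_eq_zero fun d _ => ?_
        rw [MonoidAlgebra.coeff_smul, Finsupp.smul_apply, coeff_single_apply, if_neg, smul_zero]
        intro h; exact hx (h ▸ d.2)
    conv_rhs => rw [h1, Finset.sum_mul]
    refine Finset.sum_congr rfl fun d _ => ?_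
    rw [Submodule.coe_smul, mul_smul_comm, smul_mul_assoc]
  have hsupl : ∀ (l : List (MonoidAlgebra (kk M) G)), (∀ y ∈ l, Nl D y) → Sup D l.prod := by
    intro l
    induction l with
    | nil => intro _; exact sup_one D
    | cons a l ih =>
      intro h
      rw [List.prod_cons]
      exact (h a List.mem_cons_self).sup.mul (ih fun y hy => h y (List.mem_cons_of_mem _ hy))
  have step : ∀ k : ℕ, ∀ w ∈ jn M D k, ∃ v ∈ LinearMap.range Φ, e * w - v ∈ jn M D (k + 1) := by
    intro k w hw
    unfold jn at hw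
    induction hw using AddSubgroup.closure_induction with
    | mem w hw =>
      obtain ⟨l, a, hl, h, rfl⟩ := hw
      have h1 : e * a ∈ AA e := by
        show e * (e * a) = e * a
        rw [← mul_assoc, hee]
      rw [hsup] at h1
      obtain ⟨u, hu, n, hn, hun⟩ := Submodule.mem_sup.1 h1
      refine ⟨l.prod * u, hV _ (hsupl l h) u hu, ?_⟩
      have h2 : e * (l.prod * a) - l.prod * u = l.prod * n := by
        rw [← mul_assoc, hec.comm, mul_assoc, ← hun, mul_add, add_sub_cancel_left]
      rw [h2]
      have h3 : l.prod ∈ jn M D k := by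
        have := jn_gen (M := M) (N := D) hl h 1
        rwa [mul_one] at this
      exact jn_mul h3 (NN_le_jn hM hDp hDc hn.2)
    | zero => exact ⟨0, zero_mem _, by rw [mul_zero, sub_zero]; exact zero_mem _⟩
    | add x y _ _ hx hy =>
      obtain ⟨v, hv, h1⟩ := hx
      obtain ⟨v', hv', h2⟩ := hy
      refine ⟨v + v', add_mem hv hv', ?_⟩
      have : e * (x + y) - (v + v') = (e * x - v) + (e * y - v') := by rw [mul_add]; abel
      rw [this]; exact add_mem h1 h2
    | neg x _ hx =>
      obtain ⟨v, hv, h1⟩ := hx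
      refine ⟨-v, neg_mem hv, ?_⟩
      have : e * (-x) - (-v) = -(e * x - v) := by rw [mul_neg]; abel
      rw [this]; exact neg_mem h1
  have hVA : ∀ v ∈ LinearMap.range Φ, e * v = v := by
    rintro _ ⟨f, rfl⟩
    rw [hΦ, Finset.mul_sum]
    refine Finset.sum_congr rfl fun d _ => ?_
    have h1 : e * (f d : MonoidAlgebra (kk M) G) = f d := hWA (f d).2
    rw [← mul_assoc, hec.comm, mul_assoc, h1]
  have claim : ∀ k : ℕ, ∀ a ∈ AA e, ∃ v ∈ LinearMap.range Φ, a - v ∈ jn M D k := by
    intro k
    induction k with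
    | zero => intro a _; exact ⟨0, zero_mem _, mem_jn_zero D _⟩
    | succ k ih =>
      intro a ha
      obtain ⟨v, hv, h1⟩ := ih a ha
      obtain ⟨v', hv', h2⟩ := step k _ h1
      refine ⟨v + v', add_mem hv hv', ?_⟩
      have ha' : e * a = a := ha
      have h3 : e * (a - v) - v' = a - (v + v') := by
        rw [mul_sub, ha', hVA v hv]; abel
      rwa [h3] at h2
  have hle : AA e ≤ LinearMap.range Φ := by
    intro a ha
    obtain ⟨v, hv, h1⟩ := claim (Nat.card (IrrCharacter D)) a ha
    have h2 := jn_top_eq_zero h1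
    rw [sub_eq_zero.1 h2]
    exact hv
  refine (Submodule.finrank_mono hle).trans ((LinearMap.finrank_range_le Φ).trans ?_)
  haveI : Module.Free (kk M) W := Module.Free.of_divisionRing (kk M) W
  rw [Module.finrank_pi_fintype, Finset.sum_const, Finset.card_univ, smul_eq_mul,
    ← Nat.card_eq_fintype_card, mul_comm]
  refine Nat.mul_le_mul_right _ ?_
  omega

end CfsgH5
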