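import Cfsg.Agent.H5.EqDeg6

/-!
# Injectivity of the Brauer map on the centre
-/

set_option autoImplicit false
open Cfsg MonoidAlgebra
open CfsgH4 hiding centralChar sum_conj regInner_symm

namespace CfsgH5

open Module

variable {G : Type*} [Group G] [Finite G] {p : ℕ} [hp : Fact p.Prime] {M : Ideal AlgInt}

theorem trData (hM : IsPModular p M) [hMp : M.IsPrime] {B : Set (IrrCharacter G)} (hB : IsPBlock M B)
    (D : Subgroup G) [hD : D.Normal] [Fintype (G ⧸ D)] (hDD : IsDefectGroup p M B D)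
    {χ0 : IrrCharacter G} (hK : overK D B = {χ0}) (h0 : blockHeight p B (χ0 : G → ℂ) = 0) :
    TrData (AA (idB M B)) (NN D (idB M B)) (zF (idB M B)) (idB M B) (TrL D)
      (ev fun x => resid M ((D.index : ℂ) / (χ0 : G → ℂ) 1 * (χ0 : G → ℂ) x)) := by
  classical
  haveI := Fintype.ofFinite G
  have hBS := inS_eSet hB
  have hec : IsCen (idB M B) := isCen_idB B
  have hee := idB_idem (M := M) hBS
  have hχ0 : χ0 ∈ B := by
    have : χ0 ∈ overK D B := by rw [hK]; rfl
    exact this.1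
  obtain ⟨hu1, hu2⟩ := idx_unit hM hB D hDD hχ0 h0
  have hDc : IsCen (Dh (kk M) D) := isCen_Dh D
  have h10 := IsIrr.one_ne_zero χ0.2
  have hi : (D.index : ℂ) ≠ 0 := by
    exact_mod_cast (Subgroup.index_ne_zero_of_finite : D.index ≠ 0)
  -- lifts
  have hlift : ∀ a : MonoidAlgebra (kk M) G, idB M B * a = a → ∃ b : MonoidAlgebra ℂ G,
      eSet B * b = b ∧ InS M b ∧ rd M b = a := by
    intro a ha
    refine ⟨eSet B * lft a, ?_, hBS.mul (inS_lft a), ?_⟩
    · rw [← mul_assoc, eSet_mul_self]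
    · rw [rd_mul hBS (inS_lft a), rd_lft]; exact ha
  have hf : ∀ x, MemLocalRing M ((D.index : ℂ) / (χ0 : G → ℂ) 1 * (χ0 : G → ℂ) x) := fun x =>
    MemLocalRing.mul hu1 (memLocalRing_char (IsIrr.isCharacter χ0.2) x)
  have hevf : ∀ b : MonoidAlgebra ℂ G, ev (fun x => (D.index : ℂ) / (χ0 : G → ℂ) 1 * (χ0 : G → ℂ) x) b =
      (D.index : ℂ) / (χ0 : G → ℂ) 1 * ev (χ0 : G → ℂ) b := by
    intro b
    rw [ev_eq_sum, ev_eq_sum, Finset.mul_sum]
    exact Finset.sum_congr rfl fun x _ => by ring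
  refine ⟨?_, ?_, NN_le_AA, ?_, ?_, ?_, ?_, ?_, ?_, ?_, ?_⟩
  · intro r a ha
    have ha' : idB M B * a = a := ha
    constructor
    · show idB M B * (r * a) = r * a
      rw [← mul_assoc, hec.comm, mul_assoc, ha']
    · show idB M B * (a * r) = a * r
      rw [← mul_assoc, ha']
  · rintro r a ⟨ha, ha'⟩
    refine ⟨⟨?_, ?_⟩, ⟨?_, ?_⟩⟩
    · rw [← mul_assoc, hec.comm, mul_assoc, ha]
    · rw [← mul_assoc, hDc.comm, mul_assoc, ha', mul_zero]
    · rw [← mul_assoc, ha]
    · rw [← mul_assoc, ha', zero_mul]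
  · rintro z ⟨hz, hz'⟩; exact hz'
  · rintro z ⟨hz, -⟩ r; exact hz.comm r
  · exact ⟨hec, hee⟩
  · intro a ha; exact ha
  · intro I hI a ha
    rw [TrL_apply]
    refine I.sum_mem fun q _ => ?_
    exact (hI _ _ (hI _ _ ha).1).2
  · rintro a z ⟨hz, -⟩
    rw [TrL_apply, TrL_apply, Finset.sum_mul]
    refine Finset.sum_congr rfl fun q _ => ?_
    rw [ca_mul, fx_iff.1 (fx_top.2 hz) q.out (Subgroup.mem_top _)]
  · intro a ha
    obtain ⟨b, hb1, hb2, hb3⟩ := hlift a ha
    have h1 := trace_ident D hK hb1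
    have h2 := congrArg (rd M) h1
    have hDb : InS M (Dh ℂ D * b) := (inS_Dh D).mul hb2
    have h3 : rd M (∑ q : G ⧸ D, ca q.out (Dh ℂ D * b)) = Dh (kk M) D * TrL D a := by
      rw [rd_sum _ _ fun q _ => inS_ca hDb q.out, TrL_apply, Finset.mul_sum]
      refine Finset.sum_congr rfl fun q _ => ?_
      rw [rd_ca, rd_mul (inS_Dh D) hb2, rd_Dh, hb3, ca_Dh_mul]
    have h4 : rd M (((D.index : ℂ) / (χ0 : G → ℂ) 1 * ev (χ0 : G → ℂ) b) • (Dh ℂ D * eSet B)) =
        ev (fun x => resid M ((D.index : ℂ) / (χ0 : G → ℂ) 1 * (χ0 : G → ℂ) x)) a •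
          (Dh (kk M) D * idB M B) := by
      have hev : MemLocalRing M (ev (χ0 : G → ℂ) b) := by
        rw [ev_eq_sum]
        exact memLocalRing_sum _ _ fun x _ => MemLocalRing.mul (hb2 x) (memLocalRing_char (IsIrr.isCharacter χ0.2) x)
      have h5 : InS M (Dh ℂ D * eSet B) := (inS_Dh D).mul hBS
      have h6 : rd M (Dh ℂ D * eSet B) = Dh (kk M) D * idB M B := by
        rw [rd_mul (inS_Dh D) hBS, rd_Dh]; rfl
      refine algExt fun g => ?_
      rw [coeff_rd, MonoidAlgebra.coeff_smul, Finsupp.smul_apply, smul_eq_mul,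
        resid_mul (MemLocalRing.mul hu1 hev) (h5 g), ← hevf, resid_ev hf hb2, hb3, ← coeff_rd, h6,
        MonoidAlgebra.coeff_smul, Finsupp.smul_apply, smul_eq_mul]
    rw [h3, h4] at h2
    refine ⟨?_, ?_⟩
    · have h7 : idB M B * TrL D a = TrL D a := by
        rw [TrL_apply, Finset.mul_sum]
        refine Finset.sum_congr rfl fun q _ => ?_
        rw [ca_comm_top (fx_top.2 hec), show idB M B * a = a from ha]
      rw [mul_sub, h7, mul_smul_comm, hee]
    · rw [mul_sub, h2, mul_smul_comm, sub_self]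
  · intro a ha h
    obtain ⟨b, hb1, hb2, hb3⟩ := hlift a ha
    refine ⟨ha, ?_⟩
    refine algExt fun x => ?_
    have h1 := coeff_Dh_mul_ev D hK hb1 x
    have h2 : (Dh (kk M) D * a).coeff x = resid M ((Dh ℂ D * b).coeff x) := by
      rw [← coeff_rd, rd_mul (inS_Dh D) hb2, rd_Dh, hb3]
    have hbx : InS M (b * single x⁻¹ 1) := hb2.mul (inS_single memLocalRing_one _)
    have h3 := h (single x⁻¹ 1)
    have h4 : rd M (b * single x⁻¹ 1) = a * single x⁻¹ 1 := by
      rw [rd_mul hb2 (inS_single memLocalRing_one _), hb3]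
      congr 1
      refine algExt fun g => ?_
      rw [coeff_rd, coeff_single_apply, coeff_single_apply]
      split_ifs
      · exact resid_one
      · exact resid_zero
    rw [← h4, ← resid_ev hf hbx, hevf] at h3
    have hev : MemLocalRing M (ev (χ0 : G → ℂ) (b * single x⁻¹ 1)) := by
      rw [ev_eq_sum]
      exact memLocalRing_sum _ _ fun x _ => MemLocalRing.mul (hbx x) (memLocalRing_char (IsIrr.isCharacter χ0.2) x)
    have h5 : (χ0 : G → ℂ) 1 / D.index * ev (χ0 : G → ℂ) (b * single x⁻¹ 1) =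
        ((χ0 : G → ℂ) 1 / D.index * ((χ0 : G → ℂ) 1 / D.index)) *
          ((D.index : ℂ) / (χ0 : G → ℂ) 1 * ev (χ0 : G → ℂ) (b * single x⁻¹ 1)) := by
      field_simp
    rw [h2, h1, h5, resid_mul (MemLocalRing.mul hu2 hu2) (MemLocalRing.mul hu1 hev), h3, mul_zero]
    simp

theorem e_notMem_NN (hM : IsPModular p M) [hMp : M.IsPrime] {B : Set (IrrCharacter G)} (hB : IsPBlock M B)
    {D : Subgroup G} [hD : D.Normal] (hDp : IsPGroup p D) (hDc : D ≤ cz D) :
    idB M B ∉ NN D (idB M B) := by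
  intro h
  have h1 := NN_le_jn hM hDp hDc h.2
  exact idB_ne_zero hB (idem_eq_zero_of_jn h1 (idB_idem (inS_eSet hB)))

theorem center_gen (hM : IsPModular p M) [hMp : M.IsPrime] {B : Set (IrrCharacter G)} (hB : IsPBlock M B)
    (D : Subgroup G) [hD : D.Normal] (hDD : IsDefectGroup p M B D) (hDc : D ≤ cz D)
    {n : ℕ} (hn : ∀ χ ∈ B, charDegree (χ : G → ℂ) = n)
    {z w : MonoidAlgebra (kk M) G} (hz : z ∈ zF (idB M B)) (hw : w ∈ zF (idB M B))
    (h : ∃ a ∈ AA (idB M B), w = z * a) : ∃ y ∈ zF (idB M B), w = z * y := by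
  classical
  haveI := Fintype.ofFinite G
  haveI : Fintype (G ⧸ D) := Fintype.ofFinite _
  have hDp : IsPGroup p D := IsPGroup.of_card (defectGroup_card hM hB hDD)
  obtain ⟨h1, h2⟩ := eq_deg_count hM hB D hDD hn
  obtain ⟨χ0, hχ0⟩ := (Nat.card_eq_one_iff_exists.1 h2)
  have hK : overK D B = {χ0.1} := by
    ext χ
    constructor
    · intro h
      have := hχ0 ⟨χ, h⟩
      exact congrArg Subtype.val this
    · intro h
      rw [Set.mem_singleton_iff.1 h]; exact χ0.2
  have h0 : blockHeight p B (χ0.1 : G → ℂ) = 0 := by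
    unfold blockHeight
    have h3 : ((fun ψ : IrrCharacter G => (charDegree (ψ : G → ℂ)).factorization p) '' B) =
        {n.factorization p} := by
      ext a
      constructor
      · rintro ⟨ψ, hψ, rfl⟩
        rw [Set.mem_singleton_iff]
        show (charDegree (ψ : G → ℂ)).factorization p = _
        rw [hn ψ hψ]
      · rintro rfl
        exact ⟨χ0.1, χ0.2.1, by
          show (charDegree (χ0.1 : G → ℂ)).factorization p = _; rw [hn _ χ0.2.1]⟩
    rw [h3, hn _ χ0.2.1, csInf_singleton, Nat.sub_self]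
  have hT := trData hM hB D hDD hK h0
  have hk := itI_bot hM hDp hDc (idB M B)
  have hdim := finrank_AA_le hM hDp hDc (isCen_idB (M := M) B) (idB_idem (inS_eSet hB))
  rw [← h1, ← finrank_zF (M := M) (inS_eSet hB)] at hdim
  have hpos : finrank (kk M) (NN D (idB M B)) < finrank (kk M) (AA (idB M B)) := by
    refine Submodule.finrank_lt_finrank_of_lt ?_
    refine lt_of_le_of_ne NN_le_AA fun heq => e_notMem_NN hM hB hDp hDc ?_
    rw [heq]
    exact idB_idem (inS_eSet hB)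
  refine hT.center_ideal hk hdim hpos ?_ hz w hw h
  rintro a ⟨ha, ha'⟩ b ⟨hb, hb'⟩
  exact ⟨ha.mul hb, by rw [← mul_assoc, ha']⟩

end CfsgH5
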