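import Cfsg.Agent.H5.EqDeg7
import Cfsg.Agent.H4.Cen
import Cfsg.Agent.H4.Cov5

/-!
# The stabilizer of a block of the centralizer of a normal abelian defect group
-/

set_option autoImplicit false
open Cfsg MonoidAlgebra
open CfsgH4 hiding centralChar sum_conj regInner_symm

namespace CfsgH5

open Module

variable {G : Type*} [Group G] [Finite G] {p : ℕ} [hp : Fact p.Prime] {M : Ideal AlgInt}

theorem coeff_single_one_mul {R : Type*} [CommRing R] (g : G) (w : MonoidAlgebra R G) (h : G) :
    (single g (1 : R) * w).coeff h = w.coeff (g⁻¹ * h) := by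
  classical
  haveI := Fintype.ofFinite G
  rw [coeff_mul_left, Finset.sum_eq_single g]
  · rw [coeff_single_apply, if_pos rfl, one_mul]
  · intro x _ hx
    rw [coeff_single_apply, if_neg (Ne.symm hx), zero_mul]
  · intro h; exact absurd (Finset.mem_univ _) h

theorem height_of_eq {B : Set (IrrCharacter G)} {n : ℕ} (hn : ∀ χ ∈ B, charDegree (χ : G → ℂ) = n)
    {χ : IrrCharacter G} (hχ : χ ∈ B) : blockHeight p B (χ : G → ℂ) = 0 := by
  unfold blockHeight
  have h3 : ((fun ψ : IrrCharacter G => (charDegree (ψ : G → ℂ)).factorization p) '' B) =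
      {n.factorization p} := by
    ext a
    constructor
    · rintro ⟨ψ, hψ, rfl⟩
      rw [Set.mem_singleton_iff]
      show (charDegree (ψ : G → ℂ)).factorization p = _
      rw [hn ψ hψ]
    · rintro rfl
      exact ⟨χ, hχ, by
        show (charDegree (χ : G → ℂ)).factorization p = _; rw [hn _ hχ]⟩
  rw [h3, hn _ hχ, csInf_singleton, Nat.sub_self]

theorem br_zF_inj (hM : IsPModular p M) [hMp : M.IsPrime] {B : Set (IrrCharacter G)} (hB : IsPBlock M B)
    (D : Subgroup G) [hD : D.Normal] (hDD : IsDefectGroup p M B D) (hDc : D ≤ cz D)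
    {n : ℕ} (hn : ∀ χ ∈ B, charDegree (χ : G → ℂ) = n)
    {z : MonoidAlgebra (kk M) G} (hz : z ∈ zF (idB M B)) (hbr : br D z = 0) : z = 0 := by
  classical
  haveI := Fintype.ofFinite G
  haveI : Fintype (G ⧸ D) := Fintype.ofFinite _
  haveI : CharP (kk M) p := charP_kk hM
  by_contra hz0
  have hDp : IsPGroup p D := IsPGroup.of_card (defectGroup_card hM hB hDD)
  obtain ⟨h1, h2⟩ := eq_deg_count hM hB D hDD hn
  obtain ⟨χ0, hχ0⟩ := (Nat.card_eq_one_iff_exists.1 h2)
  have hK : overK D B = {χ0.1} := by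
    ext χ
    constructor
    · intro h
      have := hχ0 ⟨χ, h⟩
      exact congrArg Subtype.val this
    · intro h
      rw [Set.mem_singleton_iff.1 h]; exact χ0.2
  have h0 : blockHeight p B (χ0.1 : G → ℂ) = 0 := height_of_eq hn χ0.2.1
  have hT := trData hM hB D hDD hK h0
  have hec : IsCen (idB M B) := isCen_idB B
  have hee := idB_idem (M := M) (inS_eSet hB)
  have hDhc : IsCen (Dh (kk M) D) := isCen_Dh D
  have hzc : IsCen z := hz.1
  have hze : idB M B * z = z := hz.2
  have hDe : ∃ a ∈ AA (idB M B), Dh (kk M) D * idB M B = z * a := by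
    by_contra hcon
    have hS : Dh (kk M) D * idB M B ∉ (AA (idB M B)).map (LinearMap.mulLeft (kk M) z) := by
      intro h
      obtain ⟨a, ha, h⟩ := Submodule.mem_map.1 h
      exact hcon ⟨a, ha, h.symm⟩
    obtain ⟨φ, hφ1, hφ2⟩ := Submodule.exists_le_ker_of_notMem hS
    let y : MonoidAlgebra (kk M) G := mkA fun g => φ (single g⁻¹ 1)
    have hy : ∀ w : MonoidAlgebra (kk M) G, (w * y).coeff 1 = φ w := by
      intro w
      rw [coeff_mul_left]
      conv_rhs => rw [eq_sum_single w]
      rw [map_sum]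
      refine Finset.sum_congr rfl fun x _ => ?_
      show w.coeff x * φ (single (x⁻¹ * 1)⁻¹ 1) = _
      have h3 : (single x (w.coeff x) : MonoidAlgebra (kk M) G) = w.coeff x • single x 1 := by
        rw [MonoidAlgebra.smul_single, smul_eq_mul, mul_one]
      rw [h3, map_smul, smul_eq_mul, mul_one, inv_inv]
    have hzy : z * (idB M B * y) = 0 := by
      refine algExt fun g => ?_
      have h3 : (single g⁻¹ (1 : kk M) * (z * (idB M B * y))).coeff 1 = (z * (idB M B * y)).coeff g := by
        rw [coeff_single_one_mul, inv_inv, mul_one]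
      rw [← h3]
      have h4 : single g⁻¹ (1 : kk M) * (z * (idB M B * y)) = (z * (idB M B * single g⁻¹ 1)) * y := by
        calc single g⁻¹ (1 : kk M) * (z * (idB M B * y)) = (single g⁻¹ 1 * z) * (idB M B * y) := by
              rw [mul_assoc]
          _ = z * (single g⁻¹ 1 * idB M B) * y := by rw [← hzc.comm]; simp only [mul_assoc]
          _ = _ := by rw [← hec.comm]
      rw [h4, hy]
      have h5 : φ (z * (idB M B * single g⁻¹ 1)) = 0 := by
        have h6 := hφ2 (Submodule.mem_map_of_mem (f := LinearMap.mulLeft (kk M) z)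
          (show idB M B * single g⁻¹ 1 ∈ AA (idB M B) by
            show idB M B * (idB M B * single g⁻¹ 1) = _
            rw [← mul_assoc, hee]))
        exact h6
      rw [h5]
      simp
    have hb : idB M B * y ∈ AA (idB M B) := by
      show idB M B * (idB M B * y) = _
      rw [← mul_assoc, hee]
    have hb0 : Dh (kk M) D * (idB M B * y) ≠ 0 := by
      intro h
      have h3 : (Dh (kk M) D * (idB M B * y)).coeff 1 = 0 := by rw [h]; simp
      rw [← mul_assoc, hy] at h3
      exact hφ1 h3
    obtain ⟨y2, hy2⟩ : ∃ y2, ev (fun x => resid M ((D.index : ℂ) / (χ0.1 : G → ℂ) 1 * (χ0.1 : G → ℂ) x))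
        (idB M B * y * y2) ≠ 0 := by
      by_contra hcon2
      push Not at hcon2
      exact hb0 (hT.hτ0 _ hb hcon2).2
    have ht := hT.hτ (idB M B * y * y2) (hT.tA y2 _ hb).2
    set τ0 := ev (fun x => resid M ((D.index : ℂ) / (χ0.1 : G → ℂ) 1 * (χ0.1 : G → ℂ) x))
        (idB M B * y * y2) with hτ0
    have htz : TrL D (idB M B * y * y2) * z = 0 := by
      rw [← hT.hTrz _ z hz, ← hzc.comm, ← mul_assoc, hzy, zero_mul, map_zero]
    set n' := TrL D (idB M B * y * y2) - τ0 • idB M B with hn'
    have h3 : z * n' = -(τ0 • z) := by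
      rw [hn', mul_sub, hzc.comm, htz, mul_smul_comm, hzc.comm, hze, zero_sub]
    have h4 : z = z * ((-τ0⁻¹) • n') := by
      rw [mul_smul_comm, h3, smul_neg, neg_smul, neg_neg, smul_smul, inv_mul_cancel₀ hy2, one_smul]
    have h5 : ((-τ0⁻¹) • n') ∈ jn M D 1 := jn_smul (NN_le_jn hM hDp hDc ht.2) _
    have h6 : ∀ k : ℕ, z = z * ((-τ0⁻¹) • n') ^ k := by
      intro k
      induction k with
      | zero => rw [pow_zero, mul_one]
      | succ k ih => rw [pow_succ, ← mul_assoc, ← ih]; exact h4
    have h7 := jn_top_eq_zero (jn_pow h5 (Nat.card (IrrCharacter D)))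
    have h8 := h6 (Nat.card (IrrCharacter D))
    rw [h7, mul_zero] at h8
    exact hz0 h8
  have hw : Dh (kk M) D * idB M B ∈ zF (idB M B) := by
    refine ⟨hDhc.mul hec, ?_⟩
    rw [← mul_assoc, hec.comm, mul_assoc, hee]
  obtain ⟨y, hy, h3⟩ := center_gen hM hB D hDD hDc hn hz hw hDe
  have h4 : br D (z * y) = br D z * br D y :=
    br_mul hDp ((fx_top.2 hzc).mono le_top) ((fx_top.2 hy.1).mono le_top)
  rw [← h3, hbr, zero_mul] at h4
  have h5 : Sup (cz D) (Dh (kk M) D * idB M B) := by
    have h6 : Sup D (Dh (kk M) D) := by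
      intro g hg
      unfold Dh
      rw [coeff_mkA, if_neg hg]
    have h7 : Sup (cz D) (idB M B) := IsBl.sup_cz hM hDp le_top
      (le_of_eq (Subgroup.normalizer_eq_top (H := D)).symm) (isBl_top hB)
    exact (h6.mono hDc).mul h7
  rw [br_of_sup h5] at h4
  exact e_notMem_NN hM hB hDp hDc ⟨hee, h4⟩

/-- for a block of a normal centralizer, the defect group -/
theorem dg_of_normal (hM : IsPModular p M) [hMp : M.IsPrime] {B : Set (IrrCharacter G)} (hB : IsPBlock M B)
    {D : Subgroup G} [hD : D.Normal] (hDD : IsDefectGroup p M B D) {N : Subgroup G} [hN : N.Normal]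
    (hDN : D ≤ N) {c : MonoidAlgebra (kk M) G} (hc : IsBl N c) (hBc : idB M B * c ≠ 0) :
    DG p N c D := by
  haveI : CharP (kk M) p := charP_kk hM
  have hne : br (⊥ : Subgroup G) c ≠ 0 := by
    have h1 : br (⊥ : Subgroup G) c = c := by
      refine br_of_sup fun g hg => ?_
      exfalso
      apply hg
      rw [Subgroup.mem_centralizer_iff]
      intro h hh
      have : h = 1 := hh
      rw [this, one_mul, mul_one]
    rw [h1]; exact hc.ne
  obtain ⟨Q, hQ, -⟩ := exists_DG_ge (p := p) (H := N) bot_le IsPGroup.of_bot hne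
  obtain ⟨P, hP, hPQ⟩ := knorr hM (isBl_top hB) hc hBc hQ
  obtain ⟨x, -, hx⟩ := DG.conj hM (isBl_top hB) ((isDefectGroup_iff_DG hM hB).1 hDD) hP
  have h1 : cj x D = D := cj_eq_of_mem_normalizer (by rw [Subgroup.normalizer_eq_top]; trivial)
  rw [h1] at hx
  rw [hx, inf_eq_left.2 hDN] at hPQ
  rw [hPQ]
  exact hQ

theorem stab_le_cz (hM : IsPModular p M) [hMp : M.IsPrime] {B : Set (IrrCharacter G)} (hB : IsPBlock M B)
    (D : Subgroup G) [hD : D.Normal] (hDD : IsDefectGroup p M B D) (hDc : D ≤ cz D)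
    {n : ℕ} (hn : ∀ χ ∈ B, charDegree (χ : G → ℂ) = n)
    {c : MonoidAlgebra (kk M) G} (hc : IsBl (cz D) c) (hBc : idB M B * c ≠ 0) : stb c ≤ cz D := by
  classical
  haveI := Fintype.ofFinite G
  haveI : CharP (kk M) p := charP_kk hM
  have hDp : IsPGroup p D := IsPGroup.of_card (defectGroup_card hM hB hDD)
  have hnz : (⊤ : Subgroup G) ≤ nz D := le_of_eq (Subgroup.normalizer_eq_top (H := D)).symm
  have hCn : (cz D).Normal := inferInstance
  obtain ⟨cc, hcc, hceq⟩ := exists_block_of_isBl hc
  have hdg := dg_of_normal hM hB hDD hDc hc hBc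
  have hdg' : IsDefectGroup p M cc (D.subgroupOf (cz D)) := by
    rw [isDefectGroup_iff_DG' hM hcc hDc, ← hceq]
    exact hdg
  have hcen : D.subgroupOf (cz D) ≤ Subgroup.center (cz D) := by
    intro d hd
    rw [Subgroup.mem_center_iff]
    intro g
    apply Subtype.ext
    have h1 : (d : G) ∈ D := hd
    exact (Subgroup.mem_centralizer_iff.1 g.2 (d : G) h1).symm
  obtain ⟨-, -, -, -, -, -, hcard, -⟩ := cen_struct hM hcc hcen hdg'
  have hcardD : Nat.card (D.subgroupOf (cz D)) = Nat.card D :=
    Nat.card_congr (Subgroup.subgroupOfEquivOfLe hDc).toEquiv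
  obtain ⟨hcount, -⟩ := eq_deg_count hM hB D hDD hn
  -- the map
  let Ψ : MonoidAlgebra (kk M) G →ₗ[kk M] MonoidAlgebra (kk M) (cz D) :=
    { toFun := fun z => rsK (cz D) (br D z * c)
      map_add' := fun a b => by
        rw [br_add, add_mul]
        refine algExt fun g => ?_
        rw [coeff_rsK, MonoidAlgebra.coeff_add, Finsupp.add_apply, MonoidAlgebra.coeff_add,
          Finsupp.add_apply, coeff_rsK, coeff_rsK]
      map_smul' := fun k a => by
        have h1 : br D (k • a) = k • br D a := by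
          refine algExt fun g => ?_
          rw [coeff_br, MonoidAlgebra.coeff_smul, Finsupp.smul_apply, MonoidAlgebra.coeff_smul,
            Finsupp.smul_apply, coeff_br]
          split_ifs
          · rfl
          · rw [smul_zero]
        rw [h1, smul_mul_assoc]
        refine algExt fun g => ?_
        rw [coeff_rsK, RingHom.id_apply, MonoidAlgebra.coeff_smul, Finsupp.smul_apply,
          MonoidAlgebra.coeff_smul, Finsupp.smul_apply, coeff_rsK] }
  have hΨ : ∀ z, Ψ z = rsK (cz D) (br D z * c) := fun _ => rfl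
  have hbrfx : ∀ z ∈ zF (idB M B), Fx (⊤ : Subgroup G) (br D z) := fun z hz =>
    (fx_top.2 hz.1).br hnz
  have hsup : ∀ z, Sup (cz D) (br D z * c) := fun z => (br_sup D z).mul hc.sup
  have hΨmem : ∀ z ∈ zF (idB M B), Ψ z ∈ zF (idB M cc) := by
    intro z hz
    rw [hΨ]
    refine ⟨isCen_rsK (((hbrfx z hz).mono le_top).mul hc.fx), ?_⟩
    have h1 : idB M cc = rsK (cz D) c := by rw [hceq, rsK_idH]
    rw [h1, ← rsK_mul hc.sup (hsup z), ← mul_assoc, ← (fx_top.1 (hbrfx z hz)).comm, mul_assoc, hc.idem]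
  have hinj : Function.Injective (Ψ.domRestrict (zF (idB M B))) := by
    rw [injective_iff_map_eq_zero]
    rintro ⟨z, hz⟩ h0
    have h0' : rsK (cz D) (br D z * c) = 0 := h0
    have h1 : br D z * c = 0 := (rsK_eq_zero_iff (hsup z)).1 h0'
    have h2 : br D z * osum M (cz D) c = 0 := by
      unfold osum
      rw [Finset.mul_sum]
      refine Finset.sum_eq_zero fun y hy => ?_
      obtain ⟨-, x, rfl⟩ := (@Finset.mem_filter _ _ (fun a => Classical.propDecidable _) _ _).1 hy
      rw [ca_comm_top (hbrfx z hz), h1, ca_zero]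
    have hesup : Sup (cz D) (idB M B) := IsBl.sup_cz hM hDp le_top hnz (isBl_top hB)
    have h3 : br D z = br D z * idB M B := by
      conv_lhs => rw [← hz.2, (isCen_idB (M := M) B).comm]
      rw [br_mul hDp ((fx_top.2 hz.1).mono le_top) ((fx_top.2 (isCen_idB (M := M) B)).mono le_top),
        br_of_sup hesup]
    have h4 : idB M B * osum M (cz D) c = idB M B := mul_osum (isBl_top hB) hc hBc
    have h5 : br D z = 0 := by
      rw [h3, ← h4, ← mul_assoc, (fx_top.1 (hbrfx z hz)).comm, mul_assoc, h2, mul_zero]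
    exact Subtype.ext (br_zF_inj hM hB D hDD hDc hn hz h5)
  have hrange : (zF (idB M B)).map Ψ = zF (idB M cc) := by
    refine Submodule.eq_of_le_of_finrank_le ?_ ?_
    · rintro _ ⟨z, hz, rfl⟩; exact hΨmem z hz
    · rw [finrank_zF (inS_eSet hcc), hcard, hcardD, ← hcount, ← finrank_zF (M := M) (inS_eSet hB)]
      have h1 := LinearMap.finrank_range_of_inj hinj
      rw [← h1, LinearMap.domRestrict, LinearMap.range_comp, Submodule.range_subtype]
  intro x hx
  rw [mem_stb] at hx
  rw [Subgroup.mem_centralizer_iff]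
  intro d hd
  -- d * c is in the image
  have h1 : single (⟨d, hDc hd⟩ : cz D) (1 : kk M) * idB M cc ∈ zF (idB M cc) := by
    have h2 : IsCen (single (⟨d, hDc hd⟩ : cz D) (1 : kk M)) := by
      intro a b
      rw [coeff_single_apply, coeff_single_apply]
      have hcd : (⟨d, hDc hd⟩ : cz D) ∈ Subgroup.center (cz D) := hcen hd
      have h3 : (⟨d, hDc hd⟩ : cz D) = a * b * a⁻¹ ↔ (⟨d, hDc hd⟩ : cz D) = b := by
        have h4 := Subgroup.mem_center_iff.1 hcd a
        constructor
        · intro h
          have h5 : b = a⁻¹ * (a * b * a⁻¹) * a := by group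
          rw [h5, ← h, mul_assoc, ← h4, inv_mul_cancel_left]
        · intro h
          rw [← h, h4, mul_inv_cancel_right]
      simp only [h3]
    refine ⟨h2.mul (isCen_idB _), ?_⟩
    rw [← mul_assoc, (isCen_idB cc).comm, mul_assoc, idB_idem (inS_eSet hcc)]
  rw [← hrange] at h1
  obtain ⟨z, hz, h2⟩ := Submodule.mem_map.1 h1
  have h3 : br D z * c = single d 1 * c := by
    have h4 : rsK (cz D) (br D z * c) = rsK (cz D) (single d 1 * c) := by
      have h5 : Sup (cz D) (single d (1 : kk M)) := by
        intro g hg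
        rw [coeff_single_apply, if_neg]
        rintro rfl; exact hg (hDc hd)
      have h6 : rsK (cz D) (single d (1 : kk M)) = single (⟨d, hDc hd⟩ : cz D) (1 : kk M) := by
        refine algExt fun g => ?_
        rw [coeff_rsK, coeff_single_apply, coeff_single_apply]
        simp only [Subtype.ext_iff]
      rw [rsK_mul h5 hc.sup, h6]
      have h7 : rsK (cz D) c = idB M cc := by rw [hceq, rsK_idH]
      rw [h7]
      exact h2
    refine rsK_injective (hsup z) ?_ h4
    refine Sup.mul ?_ hc.sup
    intro g hg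
    rw [coeff_single_apply, if_neg]
    rintro rfl; exact hg (hDc hd)
  have h4 : ca x (single d 1 * c) = single d 1 * c := by
    rw [← h3, ca_mul, hx, fx_iff.1 (hbrfx z hz) x (Subgroup.mem_top x)]
  have h5 : single (x * d * x⁻¹) (1 : kk M) * c = single d 1 * c := by
    rw [← h4, ca_mul, hx]
    congr 1
    unfold ca
    rw [single_mul_single, single_mul_single]; simp
  by_contra hne
  have hxd : x * d * x⁻¹ ∈ D := hD.conj_mem _ hd x
  set v : G := (x * d * x⁻¹)⁻¹ * d with hv
  have hvD : v ∈ D := D.mul_mem (D.inv_mem hxd) hd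
  have hv1 : v ≠ 1 := by
    intro h
    apply hne
    have h6 : d = x * d * x⁻¹ := by
      have := congrArg (fun t => (x * d * x⁻¹) * t) h
      simp only [hv] at this
      rw [mul_inv_cancel_left, mul_one] at this
      exact this
    have h7 : d * x = x * d := by
      conv_lhs => rw [h6]
      group
    exact h7
  have h6 : ∀ s : G, c.coeff (v * s) = c.coeff s := by
    intro s
    have h7 : (single (x * d * x⁻¹) (1 : kk M) * c).coeff (d * s) = (single d 1 * c).coeff (d * s) := by
      rw [h5]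
    rw [coeff_single_one_mul, coeff_single_one_mul, inv_mul_cancel_left, ← mul_assoc] at h7
    exact h7
  have hsing : ∀ g : G, p ∣ orderOf g → c.coeff g = 0 := by
    intro g hg
    by_cases hgC : g ∈ cz D
    · have h7 : c.coeff g = (idB M cc).coeff ⟨g, hgC⟩ := by
        rw [hceq, ← rsK_idH (M := M) cc, coeff_rsK]
      rw [h7, coeff_idB, blockCoeff_singular hM (inS_eSet hcc), resid_zero]
      rw [← Subgroup.orderOf_coe]; exact hg
    · exact hc.sup g hgC
  apply hc.ne
  refine algExt fun s => ?_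
  rw [MonoidAlgebra.coeff_zero, Finsupp.zero_apply]
  by_cases hs : p ∣ orderOf s
  · exact hsing s hs
  · by_cases hsC : s ∈ cz D
    · rw [← h6 s]
      apply hsing
      have hcm : Commute v s := Subgroup.mem_centralizer_iff.1 hsC v hvD
      obtain ⟨a, ha⟩ := hDp.exists_card_eq
      obtain ⟨k, -, hk⟩ := (Nat.dvd_prime_pow hp.out).1 (ha ▸ orderOf_dvd_natCard (⟨v, hvD⟩ : D))
      have hk' : orderOf v = p ^ k := by rw [← hk, ← Subgroup.orderOf_coe]
      have hk0 : k ≠ 0 := by
        rintro rfl
        rw [pow_zero, orderOf_eq_one_iff] at hk'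
        exact hv1 hk'
      have hcop : (orderOf v).Coprime (orderOf s) := by
        rw [hk']
        exact Nat.Coprime.pow_left k ((hp.out.coprime_iff_not_dvd).2 hs)
      rw [hcm.orderOf_mul_eq_mul_orderOf_of_coprime hcop, hk']
      exact Dvd.dvd.mul_right (dvd_pow_self p hk0) _
    · exact hc.sup s hsC

end CfsgH5
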