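import Cfsg.Agent.H5.EqDeg8
import Cfsg.Agent.H5.Cover4
import Cfsg.Agent.H4.Extend2
import Cfsg.Agent.H5.GlNS1

/-!
# The block of `G/D'`
-/

set_option autoImplicit false
open Cfsg MonoidAlgebra
open CfsgH4 hiding centralChar sum_conj regInner_symm

namespace CfsgH5

open Module

variable {G : Type*} [Group G] [Finite G] {M : Ideal AlgInt} {p : ℕ} [hp : Fact p.Prime]

theorem charDegree_inflI (N : Subgroup G) [N.Normal] (χ : IrrCharacter (G ⧸ N)) :
    charDegree (inflI N χ : G → ℂ) = charDegree (χ : G ⧸ N → ℂ) := rfl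

/-- the block of `G/D'` -/
def BQ (D : Subgroup G) [hDn : D.Normal] (B : Set (IrrCharacter G)) :
    Set (IrrCharacter (G ⧸ (⁅D, D⁆ : Subgroup G))) :=
  {χ | inflI (⁅D, D⁆ : Subgroup G) χ ∈ B}

theorem isPBlock_BQ (hM : IsPModular p M) {B : Set (IrrCharacter G)} (hB : IsPBlock M B)
    (D : Subgroup G) [hDn : D.Normal] (hDp : IsPGroup p D) : IsPBlock M (BQ D B) := by
  haveI := IsPModular.isPrime hM
  obtain ⟨χ, hχ, hker⟩ := exists_ker_char hM hDp (IsPBlock.nonempty hB) (inS_eSet hB)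
  have hle : (⁅D, D⁆ : Subgroup G) ≤ D := Subgroup.commutator_le_left D D
  obtain ⟨χ', rfl⟩ := exists_defl (⁅D, D⁆ : Subgroup G) (χ := χ) (fun n hn => hker n (hle hn))
  have h1 : BQ D B = blockOf M (χ' : G ⧸ (⁅D, D⁆ : Subgroup G) → ℂ) := by
    ext ψ
    rw [mem_blockOf, sameBlock_infl_comm_iff hM hDp, ← IsPBlock.mem_iff hB hχ]
    rfl
  rw [h1]
  exact isPBlock_blockOf χ'

theorem card_map_mul {N D : Subgroup G} [N.Normal] (h : N ≤ D) :
    Nat.card (D.map (QuotientGroup.mk' N)) * Nat.card N = Nat.card D := by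
  have h1 : (D.map (QuotientGroup.mk' N)).index = D.index :=
    Subgroup.index_map_eq D (QuotientGroup.mk'_surjective N) (by rw [QuotientGroup.ker_mk']; exact h)
  have h2 := (D.map (QuotientGroup.mk' N)).card_mul_index
  have h3 := D.card_mul_index
  have h4 : Nat.card (G ⧸ N) * Nat.card N = Nat.card G := by
    rw [mul_comm]; exact N.card_mul_index
  rw [h1] at h2
  have hi : D.index ≠ 0 := Subgroup.index_ne_zero_of_finite
  apply Nat.eq_of_mul_eq_mul_right (Nat.pos_of_ne_zero hi)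
  rw [h3, ← h4, ← h2]
  ring

theorem fact_card_eq {D' : Subgroup G} {k : ℕ} (h : Nat.card D' = p ^ k) {Q : Type*} [Group Q] [Finite Q]
    (hQ : Nat.card Q * Nat.card D' = Nat.card G) :
    (Nat.card Q).factorization p + k = (Nat.card G).factorization p := by
  rw [← hQ, Nat.factorization_mul Nat.card_pos.ne' Nat.card_pos.ne', Finsupp.add_apply, h,
    Nat.factorization_pow_self hp.out]

theorem isDefectGroup_BQ (hM : IsPModular p M) {B : Set (IrrCharacter G)} (hB : IsPBlock M B)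
    (D : Subgroup G) [hDn : D.Normal] (hDD : IsDefectGroup p M B D) :
    IsDefectGroup p M (BQ D B) (D.map (QuotientGroup.mk' (⁅D, D⁆ : Subgroup G))) := by
  haveI := IsPModular.isPrime hM
  haveI : CharP (kk M) p := charP_kk hM
  have hcardD := defectGroup_card hM hB hDD
  have hDp : IsPGroup p D := IsPGroup.of_card hcardD
  have hle : (⁅D, D⁆ : Subgroup G) ≤ D := Subgroup.commutator_le_left D D
  have hBQ := isPBlock_BQ hM hB D hDp
  haveI hDq : (D.map (QuotientGroup.mk' (⁅D, D⁆ : Subgroup G))).Normal :=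
    hDn.map _ (QuotientGroup.mk'_surjective _)
  have hDqp : IsPGroup p (D.map (QuotientGroup.mk' (⁅D, D⁆ : Subgroup G))) := hDp.map _
  have hne : br (D.map (QuotientGroup.mk' (⁅D, D⁆ : Subgroup G))) (idB M (BQ D B)) ≠ 0 := by
    rw [br_of_sup (IsBl.sup_cz hM hDqp le_top
      (le_of_eq (Subgroup.normalizer_eq_top (H := D.map (QuotientGroup.mk' (⁅D, D⁆ : Subgroup G)))).symm)
      (isBl_top hBQ))]
    exact idB_ne_zero hBQ
  obtain ⟨E, hE, hDE⟩ := exists_DG_ge (p := p) (H := ⊤) le_top hDqp hne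
  have hEd := (isDefectGroup_iff_DG hM hBQ).2 hE
  have hcE := defectGroup_card hM hBQ hEd
  obtain ⟨χ, hχ, hχ0⟩ := exists_height_zero p (IsPBlock.nonempty hBQ)
  have h1 := degree_eq (p := p) hχ
  have hχ' : inflI (⁅D, D⁆ : Subgroup G) χ ∈ B := hχ
  have h2 := degree_eq (p := p) hχ'
  rw [charDegree_inflI] at h2
  obtain ⟨k, hk⟩ := (IsPGroup.iff_card.1 (hDp.to_le hle))
  have h3 := fact_card_eq (p := p) hk (Q := G ⧸ (⁅D, D⁆ : Subgroup G)) (by
    rw [mul_comm]; exact (⁅D, D⁆ : Subgroup G).card_mul_index)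
  have h4 := card_map_mul hle
  obtain ⟨j, hj⟩ := IsPGroup.iff_card.1 hDqp
  have h5 : j + k = blockDefect p B := by
    rw [hk, hj, hcardD, ← pow_add] at h4
    exact Nat.pow_right_injective hp.out.two_le h4
  have h6 : blockDefect p (BQ D B) ≤ j := by omega
  have h7 : D.map (QuotientGroup.mk' (⁅D, D⁆ : Subgroup G)) = E := by
    refine Subgroup.eq_of_le_of_card_ge hDE ?_
    rw [hcE, hj]
    exact Nat.pow_le_pow_right hp.out.pos h6
  rw [h7]
  exact hEd

/-- all characters of the block of `G/D'` have height zero in `B` -/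
theorem height_BQ (hM : IsPModular p M) {B : Set (IrrCharacter G)} (hB : IsPBlock M B)
    (D : Subgroup G) [hDn : D.Normal] (hDD : IsDefectGroup p M B D)
    {χ : IrrCharacter (G ⧸ (⁅D, D⁆ : Subgroup G))} (hχ : χ ∈ BQ D B) :
    blockHeight p B (inflI (⁅D, D⁆ : Subgroup G) χ : G → ℂ) = 0 := by
  classical
  haveI := IsPModular.isPrime hM
  haveI : CharP (kk M) p := charP_kk hM
  have hcardD := defectGroup_card hM hB hDD
  have hDp : IsPGroup p D := IsPGroup.of_card hcardD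
  have hle : (⁅D, D⁆ : Subgroup G) ≤ D := Subgroup.commutator_le_left D D
  have hBQ := isPBlock_BQ hM hB D hDp
  have hDDQ := isDefectGroup_BQ hM hB D hDD
  haveI hDq : (D.map (QuotientGroup.mk' (⁅D, D⁆ : Subgroup G))).Normal :=
    hDn.map _ (QuotientGroup.mk'_surjective _)
  have hDqp : IsPGroup p (D.map (QuotientGroup.mk' (⁅D, D⁆ : Subgroup G))) := hDp.map _
  set Dq := D.map (QuotientGroup.mk' (⁅D, D⁆ : Subgroup G)) with hDqdef
  have hab : Dq ≤ cz Dq := by
    rintro _ ⟨a, ha, rfl⟩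
    rw [Subgroup.mem_centralizer_iff]
    rintro _ ⟨b, hb, rfl⟩
    show (b : G ⧸ (⁅D, D⁆ : Subgroup G)) * a = a * b
    rw [← QuotientGroup.mk_mul, ← QuotientGroup.mk_mul, QuotientGroup.eq]
    have h1 : a⁻¹ * b⁻¹ * a⁻¹⁻¹ * b⁻¹⁻¹ ∈ (⁅D, D⁆ : Subgroup G) :=
      Subgroup.commutator_mem_commutator (D.inv_mem ha) (D.inv_mem hb)
    have e : (b * a)⁻¹ * (a * b) = a⁻¹ * b⁻¹ * a⁻¹⁻¹ * b⁻¹⁻¹ := by group
    rw [e]; exact h1
  haveI : Fintype (cz Dq) := Fintype.ofFinite _
  haveI := Fintype.ofFinite (G ⧸ (⁅D, D⁆ : Subgroup G))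
  obtain ⟨ψ, hψ⟩ := exists_under (N := cz Dq) χ
  have hb := isPBlock_blockOf (M := M) ψ
  have hψb : ψ ∈ blockOf M (ψ : cz Dq → ℂ) := mem_blockOf_self ψ
  have hcov := (cover_iff hBQ hb).1 ⟨χ, hχ, ψ, hψb, hψ⟩
  have hdg := dg_of_normal hM hBQ hDDQ hab (isBl_idH hb) hcov
  have hdg' := (isDefectGroup_iff_DG' hM hb hab).2 hdg
  have hcen : Dq.subgroupOf (cz Dq) ≤ Subgroup.center (cz Dq) := by
    intro d hd
    rw [Subgroup.mem_center_iff]
    intro g
    apply Subtype.ext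
    have h1 : (d : G ⧸ (⁅D, D⁆ : Subgroup G)) ∈ Dq := hd
    exact (Subgroup.mem_centralizer_iff.1 g.2 (d : G ⧸ (⁅D, D⁆ : Subgroup G)) h1).symm
  obtain ⟨θ, hθ, -, hθ2, -⟩ := cen_struct hM hb hcen hdg'
  have hdeg : ∀ ζ ∈ blockOf M (ψ : cz Dq → ℂ), charDegree (ζ : cz Dq → ℂ) = charDegree (θ : cz Dq → ℂ) := by
    intro ζ hζ
    have h1 := hθ2 ζ hζ 1 (by rw [orderOf_one]; exact hp.out.one_lt.ne' ∘ Nat.dvd_one.1)
    unfold charDegree
    rw [h1]
  have h0 := height_of_eq (p := p) hdeg hψb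
  have h1 := degree_eq (p := p) hψb
  have h2 := defectGroup_card hM hb hdg'
  have h3 : Nat.card (Dq.subgroupOf (cz Dq)) = Nat.card Dq :=
    Nat.card_congr (Subgroup.subgroupOfEquivOfLe hab).toEquiv
  obtain ⟨m, hm, hmdvd⟩ := degree_quot (cz Dq) χ.2 ψ.2 hψ
  have h4 : charDegree (χ : G ⧸ (⁅D, D⁆ : Subgroup G) → ℂ) = m * charDegree (ψ : cz Dq → ℂ) := by
    rw [(IsIrr.one_eq χ.2).1, (IsIrr.one_eq ψ.2).1] at hm
    exact_mod_cast hm
  have hm0 : m ≠ 0 := by
    rintro rfl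
    rw [zero_mul] at h4
    exact charDegree_ne_zero χ h4
  have h5 : (charDegree (χ : G ⧸ (⁅D, D⁆ : Subgroup G) → ℂ)).factorization p =
      m.factorization p + (charDegree (ψ : cz Dq → ℂ)).factorization p := by
    rw [h4, Nat.factorization_mul hm0 (charDegree_ne_zero ψ), Finsupp.add_apply]
  have h6 : m.factorization p ≤ (cz Dq).index.factorization p :=
    (Nat.factorization_le_iff_dvd hm0 Subgroup.index_ne_zero_of_finite).2 hmdvd p
  have h7 : (Nat.card (cz Dq)).factorization p + (cz Dq).index.factorization p =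
      (Nat.card (G ⧸ (⁅D, D⁆ : Subgroup G))).factorization p := by
    rw [← (cz Dq).card_mul_index, Nat.factorization_mul Nat.card_pos.ne' Subgroup.index_ne_zero_of_finite,
      Finsupp.add_apply]
  obtain ⟨k, hk⟩ := (IsPGroup.iff_card.1 (hDp.to_le hle))
  have h8 := fact_card_eq (p := p) hk (Q := G ⧸ (⁅D, D⁆ : Subgroup G)) (by
    rw [mul_comm]; exact (⁅D, D⁆ : Subgroup G).card_mul_index)
  have h9 := card_map_mul hle
  have h10 : blockDefect p (blockOf M (ψ : cz Dq → ℂ)) + k = blockDefect p B := by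
    rw [h3] at h2
    rw [← hDqdef, hk, h2, hcardD, ← pow_add] at h9
    exact Nat.pow_right_injective hp.out.two_le h9
  have hχ' : inflI (⁅D, D⁆ : Subgroup G) χ ∈ B := hχ
  have h11 := degree_eq (p := p) hχ'
  rw [charDegree_inflI] at h11
  omega

end CfsgH5
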