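import Cfsg.Agent.H5.ZStar2
import Cfsg.Agent.H1.SetMul
import Cfsg.Agent.H2.Cores

/-!
# Classes of involutions all of whose products are `p`-elements, `p` odd
-/

set_option autoImplicit false
open scoped ComplexConjugate commutatorElement Pointwise
open Cfsg

universe u

namespace CfsgH5

section Aut

variable {K : Type*} [Group K] [Finite K]

theorem card_sylow_odd (hK : Odd (Nat.card K)) (r : ℕ) [Fact r.Prime] : Odd (Nat.card (Sylow r K)) := by
  have P : Sylow r K := default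
  have h := Sylow.card_eq_index_normalizer P
  rw [h]
  exact Odd.of_dvd_nat hK (Subgroup.index_dvd_card _)

/-- an involutory automorphism of a group of odd order fixes a Sylow subgroup -/
theorem exists_fixed_sylow (hK : Odd (Nat.card K)) (τ : MulAut K) (hτ : τ * τ = 1) (r : ℕ) [Fact r.Prime] :
    ∃ R : Sylow r K, ∀ x ∈ R, τ x ∈ R := by
  classical
  haveI : Fintype (Sylow r K) := Fintype.ofFinite _
  haveI : Fact (Nat.Prime 2) := ⟨Nat.prime_two⟩
  have h1 : ¬ 2 ∣ Fintype.card (Sylow r K) := by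
    rw [← Nat.card_eq_fintype_card]
    have := card_sylow_odd hK r
    rw [Nat.odd_iff] at this
    omega
  have h2 : (MulAction.toPermHom (MulAut K) (Sylow r K) τ) ^ (2 ^ 1) = 1 := by
    rw [← map_pow, pow_one, pow_two, hτ, map_one]
  obtain ⟨R, hR⟩ := Equiv.Perm.exists_fixed_point_of_prime h1 h2
  refine ⟨R, fun x hx => ?_⟩
  have h3 : τ • R = R := hR
  have h4 : τ x ∈ (τ • (R : Subgroup K) : Subgroup K) := Subgroup.smul_mem_pointwise_smul x τ _ hx
  have h5 : ((τ • R : Sylow r K) : Subgroup K) = τ • (R : Subgroup K) := rfl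
  rw [← h5, h3] at h4
  exact h4

/-- the fixed point subgroup -/
def fixAut (τ : MulAut K) : Subgroup K where
  carrier := {x | τ x = x}
  mul_mem' := by intro a b ha hb; simp only [Set.mem_setOf_eq] at *; rw [map_mul, ha, hb]
  one_mem' := map_one _
  inv_mem' := by intro a ha; simp only [Set.mem_setOf_eq] at *; rw [map_inv, ha]

/-- if all `x⁻¹ τ(x)` are `p`-elements then they lie in a Sylow `p`-subgroup -/
theorem exists_sylow_comm (hK : Odd (Nat.card K)) (τ : MulAut K) (hτ : τ * τ = 1) {p : ℕ} [hp : Fact p.Prime]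
    (h : ∀ x : K, ∃ k : ℕ, orderOf (x⁻¹ * τ x) = p ^ k) :
    ∃ P : Sylow p K, ∀ x : K, x⁻¹ * τ x ∈ P := by
  obtain ⟨P, hP⟩ := exists_fixed_sylow hK τ hτ p
  refine ⟨P, fun x => ?_⟩
  have hcop : (fixAut τ).index.Coprime (P : Subgroup K).index := by
    rw [Nat.coprime_iff_gcd_eq_one]
    by_contra hne
    obtain ⟨r, hr, hrd⟩ := Nat.exists_prime_and_dvd hne
    haveI : Fact r.Prime := ⟨hr⟩
    have hr1 := hrd.trans (Nat.gcd_dvd_left _ _)
    have hr2 := hrd.trans (Nat.gcd_dvd_right _ _)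
    have hrp : r ≠ p := by
      rintro rfl
      exact P.not_dvd_index hr2
    obtain ⟨R, hR⟩ := exists_fixed_sylow hK τ hτ r
    have h1 : (R : Subgroup K) ≤ fixAut τ := by
      intro y hy
      obtain ⟨k, hk⟩ := h y
      have h2 : y⁻¹ * τ y ∈ R := R.mul_mem (R.inv_mem hy) (hR y hy)
      obtain ⟨l, hl⟩ := (IsPGroup.iff_orderOf.1 R.isPGroup') ⟨_, h2⟩
      rw [← Subgroup.orderOf_coe] at hl
      have h3 : orderOf (y⁻¹ * τ y) = 1 := by
        apply Nat.eq_one_of_dvd_coprimes (Nat.Coprime.pow k l ((Nat.coprime_primes hp.out hr).2 (Ne.symm hrp)))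
        · rw [← hk]
        · exact hl ▸ dvd_rfl
      rw [orderOf_eq_one_iff, inv_mul_eq_one] at h3
      exact h3.symm
    exact R.not_dvd_index (hr1.trans (Subgroup.index_dvd_of_le h1))
  obtain ⟨c, hc, y, hy, rfl⟩ := CfsgH1.isFact_of_coprime hcop x
  have h1 : τ c = c := hc
  have h2 : (c * y)⁻¹ * τ (c * y) = y⁻¹ * τ y := by
    rw [map_mul, h1]; group
  rw [h2]
  exact P.mul_mem (P.inv_mem hy) (hP y hy)

theorem comm_mem_pCore (hK : Odd (Nat.card K)) (τ : MulAut K) (hτ : τ * τ = 1) {p : ℕ} [hp : Fact p.Prime]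
    (h : ∀ x : K, ∃ k : ℕ, orderOf (x⁻¹ * τ x) = p ^ k) (x : K) : x⁻¹ * τ x ∈ pCore p K := by
  obtain ⟨P, hP⟩ := exists_sylow_comm hK τ hτ h
  set N : Subgroup K := Subgroup.closure (Set.range fun x : K => x⁻¹ * τ x) with hN
  have hNP : N ≤ P := by
    rw [hN, Subgroup.closure_le]
    rintro _ ⟨y, rfl⟩
    exact hP y
  have hNn : N.Normal := by
    constructor
    intro n hn g
    have h1 : N ≤ N.comap (MulAut.conj g).toMonoidHom := by
      rw [hN, Subgroup.closure_le]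
      rintro _ ⟨y, rfl⟩
      show g * (y⁻¹ * τ y) * g⁻¹ ∈ N
      have h2 : g * (y⁻¹ * τ y) * g⁻¹ = ((y * g⁻¹)⁻¹ * τ (y * g⁻¹)) * (((g⁻¹)⁻¹ * τ (g⁻¹)))⁻¹ := by
        rw [map_mul]; group
      rw [h2]
      exact N.mul_mem (Subgroup.subset_closure ⟨_, rfl⟩) (N.inv_mem (Subgroup.subset_closure ⟨_, rfl⟩))
    exact h1 hn
  exact CfsgH2.le_pCore hNn (P.isPGroup'.to_le hNP) (Subgroup.subset_closure ⟨x, rfl⟩)

end Aut

section Main

variable {G : Type u} [Group G] [Finite G] {p : ℕ}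

theorem tt68 (hp : p.Prime) (hp2 : p ≠ 2) {d : G} (hd : orderOf d = 2)
    (hprod : ∀ g : G, ∃ k : ℕ, orderOf (d * (g * d * g⁻¹)) = p ^ k) (g : G) : d * (g * d * g⁻¹) ∈ pCore p G := by
  haveI : Fact p.Prime := ⟨hp⟩
  have hodd : OddC d := by
    refine ⟨CfsgH3.ne_one_of_orderOf_two hd, CfsgH3.mul_self_of_orderOf_two hd, fun g => ?_⟩
    obtain ⟨k, hk⟩ := hprod g
    rw [hk]
    exact (hp.odd_of_ne_two hp2).pow
  have hdd := hodd.sq
  have hdi : d⁻¹ = d := inv_of_sq hdd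
  have hz := zstar_odd hodd g
  set K : Subgroup G := pPrimeCore 2 G with hKdef
  have hKn : K.Normal := inferInstance
  have hKodd : Odd (Nat.card K) := by
    have := CfsgH2.coprime_card_pPrimeCore (G := G) 2
    exact Nat.coprime_two_right.1 this
  set τ : MulAut K := MulAut.conjNormal d with hτdef
  have hτ2 : τ * τ = 1 := by rw [hτdef, ← map_mul, hdd, map_one]
  have hτv : ∀ x : K, ((τ x : K) : G) = d * x * d⁻¹ := fun x => MulAut.conjNormal_apply d x
  have hh : ∀ x : K, ∃ k : ℕ, orderOf (x⁻¹ * τ x) = p ^ k := by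
    intro x
    obtain ⟨k, hk⟩ := hprod (x : G)⁻¹
    refine ⟨k, ?_⟩
    rw [← Subgroup.orderOf_coe, Subgroup.coe_mul, Subgroup.coe_inv, hτv, ← hk]
    have h1 : (x : G)⁻¹ * (d * x * d⁻¹) = d⁻¹ * (d * ((x : G)⁻¹ * d * (x : G)⁻¹⁻¹)) * d⁻¹⁻¹ := by
      rw [inv_inv, inv_inv, hdi]
      calc (x : G)⁻¹ * (d * x * d) = (x : G)⁻¹ * d * x * d := by group
        _ = (d * d) * ((x : G)⁻¹ * d * x) * d := by rw [hdd, one_mul]
        _ = d * (d * ((x : G)⁻¹ * d * x)) * d := by group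
    rw [h1, CfsgH3.orderOf_conj]
  have hcore : ∀ x : K, (x : G)⁻¹ * (d * x * d⁻¹) ∈ pCore p G := by
    intro x
    have h1 := comm_mem_pCore hKodd τ hτ2 hh x
    have h2 : ((x⁻¹ * τ x : K) : G) ∈ (pCore p K).map K.subtype := ⟨_, h1, rfl⟩
    have h3 := CfsgH2.IsSubnormal.pCore_le (p := p) (Subgroup.Normal.isSubnormal hKn) h2
    rwa [Subgroup.coe_mul, Subgroup.coe_inv, hτv] at h3
  -- `k = d a` is inverted by `d`
  set k : G := d * (g * d * g⁻¹) with hk
  have hkinv : d * k * d⁻¹ = k⁻¹ := by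
    have h1 := sq_conj hdd g
    have h2 : (g * d * g⁻¹)⁻¹ = g * d * g⁻¹ := inv_of_sq h1
    rw [hk, mul_inv_rev, h2, hdi]
    calc d * (d * (g * d * g⁻¹)) * d = (d * d) * (g * d * g⁻¹) * d := by group
      _ = (g * d * g⁻¹) * d := by rw [hdd, one_mul]
  obtain ⟨m, hm⟩ := hodd.odd g
  have hy : (k ^ (m + 1)) * (k ^ (m + 1)) = k := by
    rw [← pow_add, show m + 1 + (m + 1) = (2 * m + 1) + 1 by ring, pow_succ, ← hm, pow_orderOf_eq_one, one_mul]
  have hyK : k ^ (m + 1) ∈ K := K.pow_mem hz _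
  have h1 := hcore ⟨_, hyK⟩
  have h2 : (k ^ (m + 1))⁻¹ * (d * k ^ (m + 1) * d⁻¹) = k⁻¹ := by
    rw [← conj_pow, hkinv, inv_pow, ← mul_inv_rev, hy]
  rw [h2] at h1
  exact (Subgroup.inv_mem_iff _).1 h1

end Main

end CfsgH5
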