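import Cfsg.Agent.H5.FrobD

/-!
# S4709
-/

set_option autoImplicit false

open Cfsg MonoidAlgebra
open CfsgH4 hiding centralChar sum_conj regInner_symm

namespace CfsgH5

open scoped ComplexConjugate

section Main

variable {G : Type*} [Group G] [Fintype G] {p : ℕ} [hp : Fact p.Prime]
variable {P : Sylow p G} {m : ℕ} {M : Ideal AlgInt}
variable {w : IrrCharacter G → ℤ} {d δ : ℤ} {ζ : ((P : Subgroup G) →* ℂˣ) → IrrCharacter G}

theorem rel_iff (ψ ψ' : (P : Subgroup G) →* ℂˣ) :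
    (∃ n : G, n ∈ Subgroup.normalizer ((P : Subgroup G) : Set G) ∧ ∀ w w' : ↥(P : Subgroup G),
      (w' : G) = n * w * n⁻¹ → ψ' w' = ψ w) ↔ ∃ n : nP P, ψ'.comp (cjP P n) = ψ := by
  constructor
  · rintro ⟨n, hn, h⟩
    refine ⟨⟨n, hn⟩, ?_⟩
    ext x
    exact congrArg _ (h x (cjP P ⟨n, hn⟩ x) rfl)
  · rintro ⟨n, rfl⟩
    refine ⟨n, n.2, fun x x' hx => ?_⟩
    have : x' = cjP P n x := Subtype.ext hx
    rw [this]; rfl

open Classical in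
theorem finsum_set {A : Type*} [AddCommMonoid A] (S : Set (IrrCharacter G)) (F : IrrCharacter G → A) :
    ∑ᶠ χ ∈ S, F χ = ∑ χ : IrrCharacter G, if χ ∈ S then F χ else 0 := by
  rw [finsum_mem_def, finsum_eq_sum_of_fintype]
  refine Finset.sum_congr rfl fun χ _ => ?_
  rw [Set.indicator_apply]

open Classical in
theorem finsum_orb [Fintype ((P : Subgroup G) →* ℂˣ)] (ψ : (P : Subgroup G) →* ℂˣ) (y : (P : Subgroup G)) :
    ∑ᶠ ψ' ∈ {ψ' : ↥(P : Subgroup G) →* ℂˣ | ∃ n : G, n ∈ Subgroup.normalizer ((P : Subgroup G) : Set G) ∧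
      ∀ w w' : ↥(P : Subgroup G), (w' : G) = n * w * n⁻¹ → ψ' w' = ψ w}, ((ψ' y : ℂˣ) : ℂ) =
    ∑ ψ' : (P : Subgroup G) →* ℂˣ, (if ∃ n : nP P, ψ'.comp (cjP P n) = ψ then (ψ' y : ℂ) else 0) := by
  rw [finsum_mem_def, finsum_eq_sum_of_fintype]
  refine Finset.sum_congr rfl fun χ _ => ?_
  rw [Set.indicator_apply]
  simp only [Set.mem_setOf_eq, rel_iff]

theorem FD.val_X' (hM : IsPModular p M) (h : FH P m) (D : FD M P m w d δ ζ) {χ : IrrCharacter G} (hχ : χ ∈ XX M ζ)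
    {z x : G} (hz : IsPPart p z x) (hx : x ∈ (P : Subgroup G)) (hx1 : x ≠ 1) : (χ : G → ℂ) z = w χ := by
  haveI := IsPModular.isPrime hM
  rw [h.val hM hχ.1 hz hx hx1, D.val_X h hχ hx hx1]

theorem FD.zeta_eq (D : FD M P m w d δ ζ) {ψ ψ' : (P : Subgroup G) →* ℂˣ} (hψ : ψ ≠ 1)
    (h1 : ∃ n : nP P, ψ'.comp (cjP P n) = ψ) : ζ ψ' = ζ ψ := ((D.fib hψ).2 h1).2

end Main

end CfsgH5
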