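import Cfsg.Agent.H5.FrobE
import Cfsg.Agent.H4.Prod
import Cfsg.Agent.H4.Sec

/-!
# The case `m = 3`
-/

set_option autoImplicit false

open Cfsg MonoidAlgebra
open CfsgH4 hiding centralChar sum_conj regInner_symm

namespace CfsgH5

open scoped ComplexConjugate

/-- the algebra -/
theorem four_alg {x2 x3 x4 z2 z3 z4 : ℚ} (h2 : x2 ≠ 0) (h3 : x3 ≠ 0) (h4 : x4 ≠ 0)
    (e0 : 1 + x2 + x3 + x4 = 0) (e1 : 1 + x2 * z2 + x3 * z3 + x4 * z4 = 0)
    (e2 : 1 + x2 * z2 ^ 2 + x3 * z3 ^ 2 + x4 * z4 ^ 2 = 0) (l2 : z2 < 1) (l3 : z3 < 1) (l4 : z4 < 1) :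
    ∃ l : ℚ, l ≠ 0 ∧ x2 * x3 * x4 = l ^ 2 := by
  obtain ⟨u2, hu2⟩ : ∃ u, u = 1 - z2 := ⟨_, rfl⟩
  obtain ⟨u3, hu3⟩ : ∃ u, u = 1 - z3 := ⟨_, rfl⟩
  obtain ⟨u4, hu4⟩ : ∃ u, u = 1 - z4 := ⟨_, rfl⟩
  have p2 : 0 < u2 := by linarith
  have p3 : 0 < u3 := by linarith
  have p4 : 0 < u4 := by linarith
  have f1 : x2 * u2 + x3 * u3 + x4 * u4 = 0 := by rw [hu2, hu3, hu4]; linear_combination e0 - e1
  have f2 : x2 * u2 ^ 2 + x3 * u3 ^ 2 + x4 * u4 ^ 2 = 0 := by
    rw [hu2, hu3, hu4]; linear_combination e0 - 2 * e1 + e2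
  obtain ⟨a2, ha2⟩ : ∃ a, a = x2 * u2 := ⟨_, rfl⟩
  obtain ⟨a3, ha3⟩ : ∃ a, a = x3 * u3 := ⟨_, rfl⟩
  obtain ⟨a4, ha4⟩ : ∃ a, a = x4 * u4 := ⟨_, rfl⟩
  have a20 : a2 ≠ 0 := by rw [ha2]; exact mul_ne_zero h2 p2.ne'
  have g1 : a2 + a3 + a4 = 0 := by rw [ha2, ha3, ha4]; exact f1
  have g2 : a2 * u2 + a3 * u3 + a4 * u4 = 0 := by rw [ha2, ha3, ha4]; linear_combination f2
  have hne : u4 ≠ u3 := by
    intro h
    have h5 : a2 * (u2 - u3) = 0 := by rw [h] at g2; linear_combination g2 - u3 * g1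
    have h6 : u2 = u3 := by
      rcases mul_eq_zero.1 h5 with h' | h'
      · exact absurd h' a20
      · linarith
    have h7 : u2 * (x2 + x3 + x4) = 0 := by rw [h, ← h6] at f1; linear_combination f1
    rcases mul_eq_zero.1 h7 with h' | h'
    · exact p2.ne' h'
    · linarith
  have hne' : u4 - u3 ≠ 0 := sub_ne_zero.2 hne
  obtain ⟨l, hl⟩ : ∃ l, l = a2 / (u4 - u3) := ⟨_, rfl⟩
  have b2 : a2 = l * (u4 - u3) := by rw [hl]; field_simp
  have b3 : a3 = l * (u2 - u4) := by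
    have : (a3 - l * (u2 - u4)) * (u4 - u3) = 0 := by
      have e := g2
      rw [show a4 = -a2 - a3 by linarith] at e
      linear_combination (u2 - u4) * b2 - e
    rcases mul_eq_zero.1 this with h' | h'
    · linarith
    · exact absurd h' hne'
  have b4 : a4 = l * (u3 - u2) := by linear_combination g1 - b2 - b3
  have hl0 : l ≠ 0 := by
    intro h; apply a20; rw [b2, h, zero_mul]
  refine ⟨l, hl0, ?_⟩
  have hx2 : x2 = a2 / u2 := by rw [ha2]; field_simp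
  have hx3 : x3 = a3 / u3 := by rw [ha3]; field_simp
  have hx4 : x4 = a4 / u4 := by rw [ha4]; field_simp
  have hs : x2 + x3 + x4 = -1 := by linarith
  rw [hx2, hx3, hx4, b2, b3, b4] at hs ⊢
  have hs' : l * (u4 - u3) * u3 * u4 + l * (u2 - u4) * u2 * u4 + l * (u3 - u2) * u2 * u3 = -(u2 * u3 * u4) := by
    have e : (l * (u4 - u3) / u2 + l * (u2 - u4) / u3 + l * (u3 - u2) / u4) * (u2 * u3 * u4) =
        -1 * (u2 * u3 * u4) := congrArg (fun t => t * (u2 * u3 * u4)) hs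
    have e' : (l * (u4 - u3) / u2 + l * (u2 - u4) / u3 + l * (u3 - u2) / u4) * (u2 * u3 * u4) =
        l * (u4 - u3) * u3 * u4 + l * (u2 - u4) * u2 * u4 + l * (u3 - u2) * u2 * u3 := by
      field_simp
    rw [e'] at e
    rw [e]; ring
  have : l * (u4 - u3) / u2 * (l * (u2 - u4) / u3) * (l * (u3 - u2) / u4) =
      l ^ 2 * (l * (u4 - u3) * (u2 - u4) * (u3 - u2)) / (u2 * u3 * u4) := by
    field_simp
  rw [this, div_eq_iff (by positivity)]
  have h9 : l * (u4 - u3) * (u2 - u4) * (u3 - u2) = u2 * u3 * u4 := by linear_combination -hs'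
  rw [h9]

section Main

variable {G : Type*} [Group G] [Fintype G] {p : ℕ} [hp : Fact p.Prime]
variable {P : Sylow p G} {M : Ideal AlgInt}
variable {w : IrrCharacter G → ℤ} {d δ : ℤ} {ζ : ((P : Subgroup G) →* ℂˣ) → IrrCharacter G}

theorem FD.swap (h : FH P 3) (D : FD M P 3 w d δ ζ) (hm : 3 + 1 < Nat.card (P : Subgroup G)) (hr : Nat.card (YY ζ) = 2)
    (hd : d = δ) : ∃ (w' : IrrCharacter G → ℤ) (δ' : ℤ) (ζ' : ((P : Subgroup G) →* ℂˣ) → IrrCharacter G),
      FD M P 3 w' 0 δ' ζ' := by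
  classical
  have hfin : ∃ a b : IrrCharacter G, a ≠ b ∧ ∀ χ, χ ∈ YY ζ ↔ (χ = a ∨ χ = b) := by
    obtain ⟨a, b, hab, h1⟩ := Nat.card_eq_two_iff.1 hr
    refine ⟨a.1, b.1, fun h' => hab (Subtype.ext h'), fun χ => ⟨fun hχ => ?_, ?_⟩⟩
    · have h2 : (⟨χ, hχ⟩ : YY ζ) ∈ ({a, b} : Set (YY ζ)) := by rw [h1]; trivial
      rcases h2 with h2 | h2
      · left; exact congrArg Subtype.val h2
      · right; exact congrArg Subtype.val h2
    · rintro (rfl | rfl)
      · exact a.2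
      · exact b.2
  obtain ⟨a, b, hab, hY⟩ := hfin
  have hδ2 : δ * δ = 1 := by rcases D.sgn with h' | h' <;> rw [h'] <;> norm_num
  obtain ⟨sw, hsw⟩ : ∃ sw : IrrCharacter G → IrrCharacter G, sw = fun χ => if χ = a then b else a := ⟨_, rfl⟩
  have haY : a ∈ YY ζ := (hY a).2 (Or.inl rfl)
  have hbY : b ∈ YY ζ := (hY b).2 (Or.inr rfl)
  have haB : a ∈ principalBlock M G := by rw [XX_union D]; exact Or.inr haY
  have hbB : b ∈ principalBlock M G := by rw [XX_union D]; exact Or.inr hbY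
  have hswinj : ∀ χ χ', χ ∈ YY ζ → χ' ∈ YY ζ → (sw χ = sw χ' ↔ χ = χ') := by
    intro χ χ' h1 h2
    rw [hsw]
    rcases (hY χ).1 h1 with rfl | rfl <;> rcases (hY χ').1 h2 with rfl | rfl
    · simp
    · simp [hab, hab.symm]
    · simp [hab, hab.symm]
    · simp
  have hz1 : ∀ ψ, ζ ψ ∈ YY ζ := by
    intro ψ
    obtain ⟨ψ', h1, h2⟩ := D.ex (ζ ψ) ⟨ψ, rfl⟩
    exact ⟨ψ', h1, h2⟩
  have hwY : ∀ χ ∈ YY ζ, w χ = δ := by
    rintro χ ⟨ψ, _, rfl⟩
    rw [D.wd, hd]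
  refine ⟨fun χ => if χ ∈ YY ζ then 0 else w χ, -δ, fun ψ => sw (ζ ψ), ?_, ?_, ?_, ?_, ?_, ?_, ?_⟩
  · rcases D.sgn with h' | h' <;> rw [h'] <;> norm_num
  · intro ψ
    rw [hsw]
    show (if ζ ψ = a then b else a) ∈ principalBlock M G
    split_ifs
    · exact hbB
    · exact haB
  · intro ψ ψ' h1 h2
    show sw (ζ ψ) = sw (ζ ψ') ↔ _
    rw [hswinj _ _ (hz1 ψ) (hz1 ψ')]
    exact D.rel ψ ψ' h1 h2
  · intro ψ
    show (if sw (ζ ψ) ∈ YY ζ then 0 else w (sw (ζ ψ))) = 0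
    rw [if_pos]
    rw [hsw]
    show (if ζ ψ = a then b else a) ∈ YY ζ
    split_ifs
    · exact hbY
    · exact haY
  · have h1 := D.norm_split
    have h2 : ∑ χ : IrrCharacter G, (if χ ∈ principalBlock M G then (if χ ∈ YY ζ then 0 else w χ) ^ 2 else 0) =
        ∑ χ : IrrCharacter G, (if χ ∈ XX M ζ then w χ ^ 2 else 0) := by
      refine Finset.sum_congr rfl fun χ _ => ?_
      by_cases hχ : χ ∈ principalBlock M G
      · rw [if_pos hχ]
        by_cases hχ2 : χ ∈ YY ζ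
        · rw [if_pos hχ2, if_neg (fun h' : χ ∈ XX M ζ => h'.2 hχ2)]; norm_num
        · rw [if_neg hχ2, if_pos ⟨hχ, hχ2⟩]
      · rw [if_neg hχ, if_neg (fun h' : χ ∈ XX M ζ => hχ h'.1)]
    rw [hr, hd] at h1
    show ∑ χ : IrrCharacter G, (if χ ∈ principalBlock M G then (if χ ∈ YY ζ then 0 else w χ) ^ 2 else 0) = _
    rw [h2]
    push_cast at h1 ⊢
    nlinarith
  · rintro χ ⟨ψ, rfl⟩
    obtain ⟨ψ', h1, h2⟩ := D.ex (ζ ψ) ⟨ψ, rfl⟩
    exact ⟨ψ', h1, congrArg sw h2⟩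
  · intro inst χ hχ ψ hψ
    rw [D.val χ hχ ψ hψ]
    show _ = (((if χ ∈ YY ζ then 0 else w χ : ℤ) : ℤ) : ℂ) - ((-δ : ℤ) : ℂ) * (if χ = sw (ζ ψ) then 1 else 0)
    have hζY := hz1 ψ
    by_cases hχ2 : χ ∈ YY ζ
    · rw [if_pos hχ2, hwY χ hχ2, hsw]
      show _ = ((0 : ℤ) : ℂ) - ((-δ : ℤ) : ℂ) * (if χ = (if ζ ψ = a then b else a) then 1 else 0)
      rcases (hY χ).1 hχ2 with rfl | rfl <;> rcases (hY (ζ ψ)).1 hζY with h3 | h3
      · rw [h3]; simp [hab]
      · rw [h3]; simp [hab, hab.symm]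
      · rw [h3]; simp [hab, hab.symm]
      · rw [h3]; simp [hab, hab.symm]
    · rw [if_neg hχ2, if_neg, if_neg]
      · ring
      · intro h3
        apply hχ2
        rw [h3, hsw]
        show (if ζ ψ = a then b else a) ∈ YY ζ
        split_ifs
        · exact hbY
        · exact haY
      · rintro rfl; exact hχ2 hζY

/-- normalisation: `d = 0` -/
theorem FH.main3 (h : FH P 3) (hM : IsPModular p M) (hm : 3 + 1 < Nat.card (P : Subgroup G)) :
    ∃ (w : IrrCharacter G → ℤ) (δ : ℤ) (ζ : ((P : Subgroup G) →* ℂˣ) → IrrCharacter G), FD M P 3 w 0 δ ζ := by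
  classical
  haveI := IsPModular.isPrime hM
  obtain ⟨w, d, δ, ζ, D⟩ := h.main hM hm
  by_cases hd0 : d = 0
  · subst hd0; exact ⟨w, δ, ζ, D⟩
  have hδ2 : δ * δ = 1 := by rcases D.sgn with h' | h' <;> rw [h'] <;> norm_num
  have h1 := D.norm_split
  have h2 := D.two_le h hm
  have h3 := D.irrOne_notMem h hm
  have hnn : ∀ χ : IrrCharacter G, 0 ≤ (if χ ∈ XX M ζ then w χ ^ 2 else 0) := fun χ => by
    split_ifs
    · exact sq_nonneg _
    · exact le_refl _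
  have h4 : (1 : ℤ) ≤ ∑ χ : IrrCharacter G, (if χ ∈ XX M ζ then w χ ^ 2 else 0) := by
    have h5 := Finset.single_le_sum (fun χ _ => hnn χ) (Finset.mem_univ (irrOne G))
    rw [if_pos (show irrOne G ∈ XX M ζ from ⟨irrOne_mem, h3.1⟩), h3.2] at h5
    linarith
  have h2z : (2 : ℤ) ≤ Nat.card (YY ζ) := by exact_mod_cast h2
  obtain ⟨r, hr⟩ : ∃ r : ℤ, r = Nat.card (YY ζ) := ⟨_, rfl⟩
  rw [← hr] at h1 h2z
  have hdd : d = δ := by
    rcases D.sgn with h' | h'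
    · rw [h'] at h1 ⊢
      push_cast at h1
      have h5 : r * d ^ 2 ≤ 2 + 2 * d := by linarith
      have h6 : 2 * d ^ 2 ≤ r * d ^ 2 := by nlinarith [sq_nonneg d]
      have h7 : d ^ 2 ≤ 1 + d := by linarith
      have h8 : -1 < d := by nlinarith
      have h9 : d < 2 := by nlinarith
      omega
    · rw [h'] at h1 ⊢
      push_cast at h1
      have h5 : r * d ^ 2 ≤ 2 - 2 * d := by linarith
      have h6 : 2 * d ^ 2 ≤ r * d ^ 2 := by nlinarith [sq_nonneg d]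
      have h7 : d ^ 2 ≤ 1 - d := by linarith
      have h8 : -2 < d := by nlinarith
      have h9 : d < 1 := by nlinarith
      omega
  have hd2 : d ^ 2 = 1 := by rw [hdd, sq]; exact hδ2
  have hr4 : r ≤ 4 := by
    rw [hd2, hdd] at h1
    push_cast at h1
    have : 2 * δ * δ = 2 := by rw [mul_assoc, hδ2]; norm_num
    linarith
  have hcY := D.card_Y h
  rcases (by omega : r = 2 ∨ r = 3 ∨ r = 4) with h5 | h5 | h5
  · exact D.swap h hm (by omega) hdd
  · exfalso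
    have h6 : Nat.card (P : Subgroup G) = 10 := by omega
    obtain ⟨k, hk⟩ := IsPGroup.iff_card.1 P.2
    rw [h6] at hk
    have h7 : p ∣ 10 := by
      rw [hk]; apply dvd_pow_self; rintro rfl; rw [pow_zero] at hk; omega
    have h8 : p ≤ 10 := Nat.le_of_dvd (by norm_num) h7
    have h9 := hp.out
    have hp2 : p = 2 ∨ p = 5 := by
      interval_cases p <;> first | omega | (exfalso; revert h9; norm_num)
    rcases hp2 with rfl | rfl
    · have : k < 4 := by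
        by_contra hc
        have := Nat.pow_le_pow_right (n := 2) (by norm_num) (not_lt.1 hc)
        omega
      interval_cases k <;> omega
    · have : k < 2 := by
        by_contra hc
        have := Nat.pow_le_pow_right (n := 5) (by norm_num) (not_lt.1 hc)
        omega
      interval_cases k <;> omega
  · exfalso
    rw [hd2, hdd, h5] at h1
    push_cast at h1
    have h6 : 2 * δ * δ = 2 := by rw [mul_assoc, hδ2]; norm_num
    have h7 : ∑ χ : IrrCharacter G, (if χ ∈ XX M ζ then w χ ^ 2 else 0) = 1 := by linarith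
    -- X = {1}
    have h8 : ∀ χ, χ ∈ XX M ζ → χ = irrOne G := by
      intro χ hχ
      by_contra hne
      have h9 := Finset.add_le_sum (s := Finset.univ) (f := fun χ : IrrCharacter G => if χ ∈ XX M ζ then w χ ^ 2 else 0)
        (fun χ _ => hnn χ) (Finset.mem_univ χ) (Finset.mem_univ (irrOne G)) hne
      rw [if_pos hχ, if_pos (show irrOne G ∈ XX M ζ from ⟨irrOne_mem, h3.1⟩), h3.2, h7] at h9
      have h10 : 0 < w χ ^ 2 := by
        have := D.w_ne_zero hM h hm hχ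
        positivity
      omega
    obtain ⟨ψ, ψ', hψ, hψ', -⟩ := h.exists_nonrel hm
    have hηY : ζ ψ ∈ YY ζ := ⟨ψ, hψ, rfl⟩
    have h10 := D.reg hM hηY (g := 1) (by rw [orderOf_one]; exact hp.out.not_dvd_one)
    rw [Finset.sum_eq_single (irrOne G)] at h10
    · rw [if_pos (show irrOne G ∈ XX M ζ from ⟨irrOne_mem, h3.1⟩), h3.2, (IsIrr.one_eq (ζ ψ).2).1] at h10
      have h11 : (((irrOne G : IrrCharacter G) : G → ℂ) 1) = 1 := rfl
      have h12 : (Nat.card (YY ζ) : ℤ) = 4 := by rw [← hr]; exact h5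
      have h13 : (Nat.card (YY ζ) : ℂ) = 4 := by exact_mod_cast h12
      rw [h11, h13, hdd] at h10
      have h14 : (3 * (δ * (charDegree (ζ ψ : G → ℂ) : ℤ)) + 1 : ℤ) = 0 := by
        have : ((3 * (δ * (charDegree (ζ ψ : G → ℂ) : ℤ)) + 1 : ℤ) : ℂ) = 0 := by
          push_cast
          push_cast at h10
          linear_combination h10
        exact_mod_cast this
      omega
    · intro χ _ hχ
      rw [if_neg]
      intro h'; exact hχ (h8 χ h')
    · intro h'; exact absurd (Finset.mem_univ _) h'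

end Main

end CfsgH5
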