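import Cfsg.Agent.H5.FrobF

/-!
# The case `m = 3`, involutions
-/

set_option autoImplicit false

open Cfsg MonoidAlgebra
open CfsgH4 hiding centralChar sum_conj regInner_symm

namespace CfsgH5

open scoped ComplexConjugate

section Main

variable {G : Type*} [Group G] [Fintype G] {p : ℕ} [hp : Fact p.Prime]
variable {P : Sylow p G} {M : Ideal AlgInt}
variable {w : IrrCharacter G → ℤ} {d δ : ℤ} {ζ : ((P : Subgroup G) →* ℂˣ) → IrrCharacter G}

theorem FD.X3 (h : FH P 3) (hM : IsPModular p M) (D : FD M P 3 w 0 δ ζ) (hm : 3 + 1 < Nat.card (P : Subgroup G)) :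
    ∃ a b : IrrCharacter G, a ≠ b ∧ a ≠ irrOne G ∧ b ≠ irrOne G ∧
      (∀ χ, χ ∈ XX M ζ ↔ (χ = irrOne G ∨ χ = a ∨ χ = b)) ∧ (w a = 1 ∨ w a = -1) ∧ (w b = 1 ∨ w b = -1) := by
  classical
  haveI := IsPModular.isPrime hM
  have h1 := D.norm_split
  have h3 := D.irrOne_notMem h hm
  have h1X : irrOne G ∈ XX M ζ := ⟨irrOne_mem, h3.1⟩
  rw [show ((Nat.card (YY ζ) : ℤ) * 0 ^ 2) = 0 by ring, mul_zero, add_zero, add_zero] at h1
  have hnn : ∀ χ : IrrCharacter G, 0 ≤ (if χ ∈ XX M ζ then w χ ^ 2 else 0) := fun χ => by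
    split_ifs
    · exact sq_nonneg _
    · exact le_refl _
  have hone : ∀ χ ∈ XX M ζ, w χ = 1 ∨ w χ = -1 := by
    intro χ hχ
    have h4 := Finset.single_le_sum (fun χ _ => hnn χ) (Finset.mem_univ χ)
    rw [if_pos hχ, h1] at h4
    have h5 := D.w_ne_zero hM h hm hχ
    have h6 : w χ < 2 := by push_cast at h4; nlinarith
    have h7 : -2 < w χ := by push_cast at h4; nlinarith
    omega
  have h2 : (Finset.univ.filter fun χ : IrrCharacter G => χ ∈ XX M ζ).card = 3 := by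
    have h5 : ∑ χ : IrrCharacter G, (if χ ∈ XX M ζ then w χ ^ 2 else 0) =
        ∑ χ : IrrCharacter G, (if χ ∈ XX M ζ then (1 : ℤ) else 0) := by
      refine Finset.sum_congr rfl fun χ _ => ?_
      split_ifs with hχ
      · rcases hone χ hχ with h' | h' <;> rw [h'] <;> norm_num
      · rfl
    rw [h5, Finset.sum_boole] at h1
    exact_mod_cast h1
  have h3' : ((Finset.univ.filter fun χ : IrrCharacter G => χ ∈ XX M ζ).erase (irrOne G)).card = 2 := by
    rw [Finset.card_erase_of_mem (by rw [Finset.mem_filter]; exact ⟨Finset.mem_univ _, h1X⟩), h2]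
  obtain ⟨a, b, hab, hS⟩ := Finset.card_eq_two.1 h3'
  have hmem : ∀ χ, (χ ∈ XX M ζ ∧ χ ≠ irrOne G) ↔ (χ = a ∨ χ = b) := by
    intro χ
    have h4 : χ ∈ ((Finset.univ.filter fun χ : IrrCharacter G => χ ∈ XX M ζ).erase (irrOne G)) ↔
        χ ∈ ({a, b} : Finset (IrrCharacter G)) := by rw [hS]
    rw [Finset.mem_erase, Finset.mem_filter, Finset.mem_insert, Finset.mem_singleton] at h4
    rw [← h4]
    constructor
    · rintro ⟨h5, h6⟩; exact ⟨h6, Finset.mem_univ _, h5⟩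
    · rintro ⟨h5, -, h6⟩; exact ⟨h6, h5⟩
  have ha := (hmem a).2 (Or.inl rfl)
  have hb := (hmem b).2 (Or.inr rfl)
  refine ⟨a, b, hab, ha.2, hb.2, fun χ => ?_, hone a ha.1, hone b hb.1⟩
  constructor
  · intro hχ
    by_cases h4 : χ = irrOne G
    · exact Or.inl h4
    · exact Or.inr ((hmem χ).1 ⟨hχ, h4⟩)
  · rintro (rfl | h4)
    · exact h1X
    · exact ((hmem χ).2 h4).1

open Classical in
theorem sum_X3 {a b : IrrCharacter G} (hab : a ≠ b) (ha : a ≠ irrOne G) (hb : b ≠ irrOne G)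
    {X : Set (IrrCharacter G)} (hX : ∀ χ, χ ∈ X ↔ (χ = irrOne G ∨ χ = a ∨ χ = b)) {A : Type*} [AddCommMonoid A]
    (F : IrrCharacter G → A) :
    ∑ χ : IrrCharacter G, (if χ ∈ X then F χ else 0) = F (irrOne G) + (F a + F b) := by
  rw [← Finset.sum_filter]
  have h1 : (Finset.univ.filter fun χ : IrrCharacter G => χ ∈ X) = {irrOne G, a, b} := by
    ext χ
    rw [Finset.mem_filter, Finset.mem_insert, Finset.mem_insert, Finset.mem_singleton, hX]
    exact ⟨fun h => h.2, fun h => ⟨Finset.mem_univ _, h⟩⟩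
  rw [h1, Finset.sum_insert, Finset.sum_insert, Finset.sum_singleton]
  · rw [Finset.mem_singleton]; exact hab
  · rw [Finset.mem_insert, Finset.mem_singleton]
    rintro (h | h)
    · exact ha h.symm
    · exact hb h.symm

open Classical in
theorem FD.sum_val {m : ℕ} (h : FH P m) (D : FD M P m w d δ ζ) [Fintype ((P : Subgroup G) →* ℂˣ)] (F : IrrCharacter G → ℂ)
    {x : (P : Subgroup G)} (hx : x ≠ 1) :
    ∑ χ : IrrCharacter G, (if χ ∈ principalBlock M G then F χ * (χ : G → ℂ) x else 0) =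
      ∑ χ : IrrCharacter G, (if χ ∈ principalBlock M G then F χ * w χ else 0) +
        δ * ∑ ψ : (P : Subgroup G) →* ℂˣ, (if ψ ≠ 1 then F (ζ ψ) * (ψ x : ℂ) else 0) := by
  have h1 : ∀ χ : IrrCharacter G, (if χ ∈ principalBlock M G then F χ * (χ : G → ℂ) x else 0) =
      (if χ ∈ principalBlock M G then F χ * w χ else 0) +
        δ * ∑ ψ : (P : Subgroup G) →* ℂˣ, (if ψ ≠ 1 ∧ ζ ψ = χ then F χ * (ψ x : ℂ) else 0) := by
    intro χ
    by_cases hχ : χ ∈ principalBlock M G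
    · rw [if_pos hχ, if_pos hχ, D.values h hχ hx, mul_add]
      congr 1
      rw [mul_left_comm, Finset.mul_sum]
      congr 1
      refine Finset.sum_congr rfl fun ψ _ => ?_
      split_ifs <;> ring
    · rw [if_neg hχ, if_neg hχ, Finset.sum_eq_zero, mul_zero, add_zero]
      intro ψ _
      rw [if_neg]
      rintro ⟨-, rfl⟩
      exact hχ (D.mem ψ)
  rw [Finset.sum_congr rfl fun χ _ => h1 χ, Finset.sum_add_distrib, ← Finset.mul_sum, Finset.sum_comm]
  congr 2
  refine Finset.sum_congr rfl fun ψ _ => ?_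
  rw [Finset.sum_eq_single (ζ ψ)]
  · by_cases h2 : ψ = 1
    · rw [if_neg (fun h' => h'.1 h2), if_neg (not_not.2 h2)]
    · rw [if_pos ⟨h2, rfl⟩, if_pos h2]
  · intro χ _ hχ
    rw [if_neg]
    rintro ⟨-, h'⟩
    exact hχ h'.symm
  · intro h'; exact absurd (Finset.mem_univ _) h'

omit [Fintype G] in
theorem ppart_inv {g x : G} (h : IsPPart p g x) : IsPPart p g⁻¹ x⁻¹ := by
  obtain ⟨y, h1, h2, ⟨k, hk⟩, h4⟩ := h
  refine ⟨y⁻¹, ?_, ?_, ⟨k, by rw [orderOf_inv]; exact hk⟩, by rw [orderOf_inv]; exact h4⟩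
  · rw [← h1, mul_inv_rev, h2.inv_inv.eq]
  · exact h2.inv_inv

theorem conj_inv_of_pair {s u y : G} (hs : s * s = 1) (hu : u * u = 1) (h : IsPPart p (s * u) y) :
    s * y * s⁻¹ = y⁻¹ := by
  have h1 := ppart_conj h s
  have h2 := ppart_inv h
  have hs' : s⁻¹ = s := inv_eq_of_mul_eq_one_left hs
  have hu' : u⁻¹ = u := inv_eq_of_mul_eq_one_left hu
  have h3 : s * (s * u) * s⁻¹ = (s * u)⁻¹ := by
    rw [mul_inv_rev, hu', hs', ← mul_assoc s s u, hs, one_mul]
  rw [h3] at h1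
  exact ppart_unique h1 h2

theorem FH.pow3 (h : FH P 3) {n : G} (hn : n ∈ nP P) : n ^ 3 ∈ cP P := by
  haveI : ((cP P).subgroupOf (nP P)).Normal := by
    refine ⟨fun c hc g => ?_⟩
    rw [Subgroup.mem_subgroupOf] at hc ⊢
    rw [Subgroup.mem_centralizer_iff] at hc ⊢
    intro a ha
    have h1 : (g : G)⁻¹ * a * g ∈ (P : Subgroup G) := by
      have h2 := (Subgroup.mem_normalizer_iff.1 ((nP P).inv_mem g.2) a).1 ha
      rwa [inv_inv] at h2
    have h2 := hc _ h1
    push_cast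
    calc a * ((g : G) * c * (g : G)⁻¹) = g * ((g : G)⁻¹ * a * g * c) * (g : G)⁻¹ := by group
      _ = g * (c * ((g : G)⁻¹ * a * g)) * (g : G)⁻¹ := by rw [h2]
      _ = (g : G) * c * (g : G)⁻¹ * a := by group
  have h1 := Subgroup.pow_index_mem ((cP P).subgroupOf (nP P)) ⟨n, hn⟩
  have h2 : ((cP P).subgroupOf (nP P)).index = 3 := h.idx
  rw [h2, Subgroup.mem_subgroupOf] at h1
  exact h1

theorem FH.real (h : FH P 3) {y : G} (hy : y ∈ (P : Subgroup G)) (hr : IsConj y y⁻¹) : y * y = 1 := by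
  by_cases hy1 : y = 1
  · rw [hy1, one_mul]
  obtain ⟨n, hn, hny⟩ := h.fusion hy (inv_mem hy) hr
  have h2 : n ^ 2 ∈ cP P := by
    rw [← h.free y hy hy1]
    refine ⟨Subgroup.mem_centralizer_singleton_iff.2 ?_, (nP P).pow_mem hn 2⟩
    have e1 : n * y = y⁻¹ * n := by rw [← hny]; group
    have e2 : n * y⁻¹ = y * n := by
      have e3 : n * y⁻¹ * n⁻¹ = y := by
        have := congrArg (fun t => t⁻¹) hny
        simp only [mul_inv_rev, inv_inv] at this
        rw [← mul_assoc] at this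
        exact this
      calc n * y⁻¹ = n * y⁻¹ * n⁻¹ * n := by group
        _ = y * n := by rw [e3]
    calc n ^ 2 * y = n * (n * y) := by rw [pow_two, mul_assoc]
      _ = n * y⁻¹ * n := by rw [e1, mul_assoc]
      _ = y * n ^ 2 := by rw [e2, pow_two, mul_assoc]
  have h3 : n ∈ cP P := by
    have h4 := h.pow3 hn
    have h5 : n = n ^ 3 * (n ^ 2)⁻¹ := by group
    rw [h5]
    exact (cP P).mul_mem h4 ((cP P).inv_mem h2)
  have h4 : n * y * n⁻¹ = y := by
    rw [← Subgroup.mem_centralizer_iff.1 h3 y hy, mul_inv_cancel_right]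
  rw [h4] at hny
  exact mul_eq_one_iff_eq_inv.2 hny

/-- the vanishing sum, `p` odd -/
theorem FH.no_pair_odd (h : FH P 3) (hp2 : p ≠ 2) {t y : G} (ht : t * t = 1) (hy : y ∈ (P : Subgroup G)) (hy1 : y ≠ 1)
    (a b : G) : ¬ IsPPart p (a * t * a⁻¹ * (b * t * b⁻¹)) y := by
  intro hpp
  have hs : a * t * a⁻¹ * (a * t * a⁻¹) = 1 := by
    calc a * t * a⁻¹ * (a * t * a⁻¹) = a * (t * t) * a⁻¹ := by group
      _ = 1 := by rw [ht]; group
  have hu : b * t * b⁻¹ * (b * t * b⁻¹) = 1 := by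
    calc b * t * b⁻¹ * (b * t * b⁻¹) = b * (t * t) * b⁻¹ := by group
      _ = 1 := by rw [ht]; group
  have h1 := conj_inv_of_pair hs hu hpp
  have h2 := h.real hy (isConj_iff.2 ⟨_, h1⟩)
  have h3 : orderOf y = 2 := orderOf_eq_prime (by rw [pow_two]; exact h2) hy1
  obtain ⟨k, hk⟩ := FH.ppow P hy
  rw [h3] at hk
  have hk0 : k ≠ 0 := by rintro rfl; rw [pow_zero] at hk; omega
  have h4 : p ∣ 2 := by rw [hk]; exact dvd_pow_self p hk0
  exact hp2 ((Nat.prime_dvd_prime_iff_eq hp.out Nat.prime_two).1 h4)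

open Classical in
theorem FH.sum_zero {m : ℕ} (h : FH P m) (hM : IsPModular p M) {t y : G} (hy : y ∈ (P : Subgroup G)) (hy1 : y ≠ 1)
    (hno : ∀ a b : G, ¬ IsPPart p (a * t * a⁻¹ * (b * t * b⁻¹)) y) :
    ∑ χ : IrrCharacter G, (if χ ∈ principalBlock M G then
        conj ((χ : G → ℂ) t * (χ : G → ℂ) t) / (χ : G → ℂ) 1 * (χ : G → ℂ) y else 0) = 0 := by
  have h1 := sec_pairs hM (FH.ppow P hy) (h.npc hy hy1) t t
  have h2 : (∑ a : G, ∑ b : G, (if IsPPart p (a * t * a⁻¹ * (b * t * b⁻¹)) y then (1 : ℂ) else 0)) = 0 :=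
    Finset.sum_eq_zero fun a _ => Finset.sum_eq_zero fun b _ => if_neg (hno a b)
  rw [h2, mul_zero] at h1
  have h3 := (mul_eq_zero.1 h1.symm).resolve_left (mul_ne_zero (card_ne_zero G) (card_ne_zero _))
  refine Eq.trans (Finset.sum_congr rfl fun χ _ => ?_) h3
  split_ifs
  · ring
  · rfl

/-- kernels -/
theorem eq_irrOne_of_top {χ : IrrCharacter G} (h : ∀ g, (χ : G → ℂ) g = (χ : G → ℂ) 1) : χ = irrOne G := by
  by_contra hne
  have h1 := classInner_irr_ne χ.2 (irrOne G).2 (fun h' => hne (Subtype.ext h'))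
  rw [classInner_def] at h1
  have h2 := (mul_eq_zero.1 h1).resolve_left (inv_ne_zero (card_ne_zero G))
  have h3 : ∑ g : G, (χ : G → ℂ) g * conj (((irrOne G : IrrCharacter G) : G → ℂ) g) = Nat.card G * (χ : G → ℂ) 1 := by
    have h4 : ∀ g : G, (χ : G → ℂ) g * conj (((irrOne G : IrrCharacter G) : G → ℂ) g) = (χ : G → ℂ) 1 := by
      intro g
      have : ((irrOne G : IrrCharacter G) : G → ℂ) g = 1 := rfl
      rw [this, map_one, mul_one, h g]
    rw [Finset.sum_congr rfl fun g _ => h4 g, Finset.sum_const, nsmul_eq_mul, Finset.card_univ,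
      Nat.card_eq_fintype_card]
  rw [h3] at h2
  rcases mul_eq_zero.1 h2 with h4 | h4
  · exact card_ne_zero G h4
  · exact IsIrr.one_ne_zero χ.2 h4

theorem val_lt {t : G} (ht : t * t = 1) (htop : ∀ K : Subgroup G, K.Normal → t ∈ K → K = ⊤) {χ : IrrCharacter G}
    (hne : χ ≠ irrOne G) : ∃ n : ℤ, (χ : G → ℂ) t = n ∧ n < charDegree (χ : G → ℂ) ∧ |n| ≤ charDegree (χ : G → ℂ) := by
  obtain ⟨n, m, h1, h2, -, h4⟩ := invol_val (IsIrr.isCharacter χ.2) (u := t) (by rw [pow_two]; exact ht)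
  have h5 : m = charDegree (χ : G → ℂ) := by
    have := (IsIrr.one_eq χ.2).1
    rw [h2] at this
    exact_mod_cast this
  rw [h5] at h4
  refine ⟨n, h1, ?_, h4⟩
  rcases lt_or_eq_of_le ((le_abs_self n).trans h4) with h6 | h6
  · exact h6
  · exfalso
    apply hne
    have h7 : (χ : G → ℂ) t = (χ : G → ℂ) 1 := by
      rw [h1, h2, h5, h6]; push_cast; rfl
    have h8 := htop (charKerSub (IsIrr.isCharacter χ.2)) (charKerSub_normal _) h7
    exact eq_irrOne_of_top fun g => by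
      have : g ∈ charKerSub (IsIrr.isCharacter χ.2) := by rw [h8]; trivial
      exact this

end Main

end CfsgH5
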