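import Cfsg.Agent.H5.FrobG

/-!
# The case `m = 3`, final computations
-/

set_option autoImplicit false

open Cfsg MonoidAlgebra
open CfsgH4 hiding centralChar sum_conj regInner_symm

namespace CfsgH5

open scoped ComplexConjugate

section Main

variable {G : Type*} [Group G] [Fintype G] {p : ℕ} [hp : Fact p.Prime]
variable {P : Sylow p G} {M : Ideal AlgInt}
variable {w : IrrCharacter G → ℤ} {d δ : ℤ} {ζ : ((P : Subgroup G) →* ℂˣ) → IrrCharacter G}

/-- the setup -/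
structure SX (M : Ideal AlgInt) (P : Sylow p G) (w : IrrCharacter G → ℤ) (δ : ℤ)
    (ζ : ((P : Subgroup G) →* ℂˣ) → IrrCharacter G) (a b : IrrCharacter G) : Prop where
  D : FD M P 3 w 0 δ ζ
  ab : a ≠ b
  a1 : a ≠ irrOne G
  b1 : b ≠ irrOne G
  mem : ∀ χ, χ ∈ XX M ζ ↔ (χ = irrOne G ∨ χ = a ∨ χ = b)
  wa : w a = 1 ∨ w a = -1
  wb : w b = 1 ∨ w b = -1
  w1 : w (irrOne G) = 1

theorem FH.exists_SX (h : FH P 3) (hM : IsPModular p M) (hm : 3 + 1 < Nat.card (P : Subgroup G)) :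
    ∃ w δ ζ a b, SX M P w δ ζ a b := by
  haveI := IsPModular.isPrime hM
  obtain ⟨w, δ, ζ, D⟩ := h.main3 hM hm
  obtain ⟨a, b, h1, h2, h3, h4, h5, h6⟩ := D.X3 h hM hm
  exact ⟨w, δ, ζ, a, b, D, h1, h2, h3, h4, h5, h6, (D.irrOne_notMem h hm).2⟩

variable {a b : IrrCharacter G}

theorem SX.rel0 (hM : IsPModular p M) (S : SX M P w δ ζ a b) {η : IrrCharacter G} (hη : η ∈ YY ζ) {g : G}
    (hg : ¬ p ∣ orderOf g) : 1 + w a * (a : G → ℂ) g + w b * (b : G → ℂ) g + -δ * (η : G → ℂ) g = 0 := by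
  classical
  have h1 := S.D.reg hM hη hg
  rw [sum_X3 S.ab S.a1 S.b1 S.mem, S.w1] at h1
  have h2 : ((irrOne G : IrrCharacter G) : G → ℂ) g = 1 := rfl
  rw [h2] at h1
  push_cast at h1
  linear_combination h1

open Classical in
theorem SX.relF (h : FH P 3) (S : SX M P w δ ζ a b) [Fintype ((P : Subgroup G) →* ℂˣ)] (F : IrrCharacter G → ℂ)
    {x : (P : Subgroup G)} (hx : x ≠ 1) :
    ∑ χ : IrrCharacter G, (if χ ∈ principalBlock M G then F χ * (χ : G → ℂ) x else 0) =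
      F (irrOne G) + F a * w a + F b * w b +
        δ * ∑ ψ : (P : Subgroup G) →* ℂˣ, (if ψ ≠ 1 then F (ζ ψ) * (ψ x : ℂ) else 0) := by
  rw [S.D.sum_val h F hx]
  congr 1
  have h1 := sum_split S.D (fun χ => F χ * (w χ : ℂ))
  rw [h1, sum_X3 S.ab S.a1 S.b1 S.mem, S.w1]
  rw [Finset.sum_eq_zero (s := Finset.univ) (f := fun χ : IrrCharacter G => if χ ∈ YY ζ then F χ * (w χ : ℂ) else 0)]
  · push_cast; ring
  · intro χ _
    split_ifs with h2
    · obtain ⟨ψ, _, rfl⟩ := h2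
      rw [S.D.wd]; push_cast; ring
    · rfl

open Classical in
theorem FH.sum_ne_one {m : ℕ} (h : FH P m) [Fintype ((P : Subgroup G) →* ℂˣ)] {x : (P : Subgroup G)} (hx : x ≠ 1) :
    ∑ ψ : (P : Subgroup G) →* ℂˣ, (if ψ ≠ 1 then (ψ x : ℂ) else 0) = -1 := by
  haveI := Fintype.ofFinite (P : Subgroup G)
  have h1 := sum_hom_val h.pab x
  rw [if_neg hx, ← Finset.add_sum_erase _ _ (Finset.mem_univ (1 : (P : Subgroup G) →* ℂˣ)), MonoidHom.one_apply,
    Units.val_one] at h1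
  rw [← Finset.add_sum_erase _ _ (Finset.mem_univ (1 : (P : Subgroup G) →* ℂˣ)), if_neg (not_not.2 rfl), zero_add]
  refine Eq.trans (Finset.sum_congr rfl fun ψ hψ => if_pos (Finset.mem_erase.1 hψ).1) ?_
  linear_combination h1

theorem SX.concl (S : SX M P w δ ζ a b) {η : IrrCharacter G} (hη : η ∈ YY ζ) (hM : IsPModular p M) {z2 z3 z4 : ℚ}
    (e1 : 1 + ((w a : ℚ) * charDegree (a : G → ℂ)) * z2 + ((w b : ℚ) * charDegree (b : G → ℂ)) * z3 +
      (-(δ : ℚ) * charDegree (η : G → ℂ)) * z4 = 0)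
    (e2 : 1 + ((w a : ℚ) * charDegree (a : G → ℂ)) * z2 ^ 2 + ((w b : ℚ) * charDegree (b : G → ℂ)) * z3 ^ 2 +
      (-(δ : ℚ) * charDegree (η : G → ℂ)) * z4 ^ 2 = 0) (l2 : z2 < 1) (l3 : z3 < 1) (l4 : z4 < 1) :
    ((if w a = -1 then 1 else 0) + (if w b = -1 then 1 else 0) + (if δ = 1 then 1 else 0) = 2) ∧
      IsSquare (charDegree (η : G → ℂ) * (charDegree (a : G → ℂ) * charDegree (b : G → ℂ))) := by
  have da : (0 : ℚ) < charDegree (a : G → ℂ) := by exact_mod_cast (IsIrr.one_eq a.2).2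
  have db : (0 : ℚ) < charDegree (b : G → ℂ) := by exact_mod_cast (IsIrr.one_eq b.2).2
  have dη : (0 : ℚ) < charDegree (η : G → ℂ) := by exact_mod_cast (IsIrr.one_eq η.2).2
  have hwa := S.wa
  have hwb := S.wb
  have hδ := S.D.sgn
  have e0 : 1 + ((w a : ℚ) * charDegree (a : G → ℂ)) + ((w b : ℚ) * charDegree (b : G → ℂ)) +
      (-(δ : ℚ) * charDegree (η : G → ℂ)) = 0 := by
    have h1 := S.rel0 hM hη (g := 1) (by rw [orderOf_one]; exact hp.out.not_dvd_one)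
    rw [(IsIrr.one_eq a.2).1, (IsIrr.one_eq b.2).1, (IsIrr.one_eq η.2).1] at h1
    have h2 : ((1 + ((w a : ℚ) * charDegree (a : G → ℂ)) + ((w b : ℚ) * charDegree (b : G → ℂ)) +
      (-(δ : ℚ) * charDegree (η : G → ℂ)) : ℚ) : ℂ) = 0 := by
      push_cast
      exact h1
    exact_mod_cast h2
  have hwa0 : (w a : ℚ) ≠ 0 := by rcases hwa with h' | h' <;> rw [h'] <;> norm_num
  have hwb0 : (w b : ℚ) ≠ 0 := by rcases hwb with h' | h' <;> rw [h'] <;> norm_num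
  have hδ0 : -(δ : ℚ) ≠ 0 := by rcases hδ with h' | h' <;> rw [h'] <;> norm_num
  obtain ⟨l, hl0, hl⟩ := four_alg (mul_ne_zero hwa0 da.ne') (mul_ne_zero hwb0 db.ne') (mul_ne_zero hδ0 dη.ne')
    e0 e1 e2 l2 l3 l4
  have hlp : 0 < l ^ 2 := by positivity
  obtain ⟨A, hA⟩ : ∃ A : ℚ, A = charDegree (a : G → ℂ) := ⟨_, rfl⟩
  obtain ⟨B, hB⟩ : ∃ A : ℚ, A = charDegree (b : G → ℂ) := ⟨_, rfl⟩
  obtain ⟨E, hE⟩ : ∃ A : ℚ, A = charDegree (η : G → ℂ) := ⟨_, rfl⟩
  have hprod : IsSquare ((E * (A * B) : ℚ)) → IsSquare (charDegree (η : G → ℂ) * (charDegree (a : G → ℂ) * charDegree (b : G → ℂ))) := by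
    intro hs
    rw [hA, hB, hE] at hs
    have h3 : IsSquare (((charDegree (η : G → ℂ) * (charDegree (a : G → ℂ) * charDegree (b : G → ℂ)) : ℕ)) : ℚ) := by
      push_cast; exact hs
    exact Rat.isSquare_natCast_iff.1 h3
  rw [← hA, ← hB, ← hE] at e0 hl
  rw [← hA] at da
  rw [← hB] at db
  rw [← hE] at dη
  have hpos : 0 < A * B * E := by positivity
  rcases hwa with h1 | h1 <;> rcases hwb with h2 | h2 <;> rcases hδ with h3 | h3 <;>
    rw [h1, h2, h3] at hl e0 <;> rw [h1, h2, h3] <;> push_cast at hl e0 <;>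
    first
    | (exfalso; nlinarith)
    | (refine ⟨by norm_num, hprod ⟨l, ?_⟩⟩; linear_combination hl)

theorem val_ne_top {t : G} (htop : ∀ K : Subgroup G, K.Normal → t ∈ K → K = ⊤) {χ : IrrCharacter G}
    (hne : χ ≠ irrOne G) : (χ : G → ℂ) t ≠ (χ : G → ℂ) 1 := by
  intro h7
  apply hne
  have h8 := htop (charKerSub (IsIrr.isCharacter χ.2)) (charKerSub_normal _) h7
  exact eq_irrOne_of_top fun g => by
    have : g ∈ charKerSub (IsIrr.isCharacter χ.2) := by rw [h8]; trivial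
    exact this

/-- the odd case -/
theorem SX.odd (h : FH P 3) (S : SX M P w δ ζ a b) (hM : IsPModular p M) (hm : 3 + 1 < Nat.card (P : Subgroup G))
    (hp2 : p ≠ 2) {t : G} (ht : orderOf t = 2)
    (htop : ∀ K : Subgroup G, K.Normal → t ∈ K → K = ⊤) {η : IrrCharacter G} (hη : η ∈ YY ζ) :
    ((if w a = -1 then 1 else 0) + (if w b = -1 then 1 else 0) + (if δ = 1 then 1 else 0) = 2) ∧
      IsSquare (charDegree (η : G → ℂ) * (charDegree (a : G → ℂ) * charDegree (b : G → ℂ))) := by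
  classical
  haveI := IsPModular.isPrime hM
  haveI : Finite ((P : Subgroup G) →* ℂˣ) := finite_hom _
  haveI := Fintype.ofFinite ((P : Subgroup G) →* ℂˣ)
  have ht2 : t * t = 1 := by rw [← pow_two, ← ht]; exact pow_orderOf_eq_one t
  have hreg : ¬ p ∣ orderOf t := by
    rw [ht]; intro h1
    exact hp2 ((Nat.prime_dvd_prime_iff_eq hp.out Nat.prime_two).1 h1)
  have hη1 : η ≠ irrOne G := by
    rintro rfl
    exact (S.D.irrOne_notMem h hm).1 hη
  obtain ⟨na, ha, hla, -⟩ := val_lt ht2 htop S.a1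
  obtain ⟨nb, hb, hlb, -⟩ := val_lt ht2 htop S.b1
  obtain ⟨nη, hηt, hlη, -⟩ := val_lt ht2 htop hη1
  haveI : Nontrivial (P : Subgroup G) := by rw [← Finite.one_lt_card_iff_nontrivial]; omega
  obtain ⟨y, hy1⟩ := exists_ne (1 : (P : Subgroup G))
  have hyG : (y : G) ≠ 1 := fun h' => hy1 (Subtype.ext h')
  have h1 := h.sum_zero hM (t := t) y.2 hyG (h.no_pair_odd hp2 ht2 y.2 hyG)
  rw [S.relF h (fun χ => conj ((χ : G → ℂ) t * (χ : G → ℂ) t) / (χ : G → ℂ) 1) hy1] at h1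
  have h2 : ∀ ψ : (P : Subgroup G) →* ℂˣ, (if ψ ≠ 1 then
      (conj ((ζ ψ : G → ℂ) t * (ζ ψ : G → ℂ) t) / (ζ ψ : G → ℂ) 1) * (ψ y : ℂ) else 0) =
      (conj ((η : G → ℂ) t * (η : G → ℂ) t) / (η : G → ℂ) 1) * (if ψ ≠ 1 then (ψ y : ℂ) else 0) := by
    intro ψ
    split_ifs with hψ
    · rw [S.D.reg_agree hM ⟨ψ, hψ, rfl⟩ hη hreg,
        S.D.reg_agree hM ⟨ψ, hψ, rfl⟩ hη (g := 1) (by rw [orderOf_one]; exact hp.out.not_dvd_one)]
    · rw [mul_zero]
  rw [Finset.sum_congr rfl fun ψ _ => h2 ψ, ← Finset.mul_sum, h.sum_ne_one hy1, ha, hb, hηt,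
    (IsIrr.one_eq a.2).1, (IsIrr.one_eq b.2).1, (IsIrr.one_eq η.2).1] at h1
  have h1' : ((irrOne G : IrrCharacter G) : G → ℂ) t = 1 := rfl
  have h1'' : ((irrOne G : IrrCharacter G) : G → ℂ) 1 = 1 := rfl
  rw [h1', h1''] at h1
  simp only [map_mul, map_one, map_intCast] at h1
  have h0 := S.rel0 hM hη hreg
  rw [ha, hb, hηt] at h0
  have da : (charDegree (a : G → ℂ) : ℚ) ≠ 0 := by exact_mod_cast (IsIrr.one_eq a.2).2.ne'
  have db : (charDegree (b : G → ℂ) : ℚ) ≠ 0 := by exact_mod_cast (IsIrr.one_eq b.2).2.ne'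
  have dη : (charDegree (η : G → ℂ) : ℚ) ≠ 0 := by exact_mod_cast (IsIrr.one_eq η.2).2.ne'
  have hlt : ∀ (n : ℤ) (c : ℕ), n < c → (c : ℚ) ≠ 0 → (n : ℚ) / c < 1 := by
    intro n c hnc hc
    have hc' : (0 : ℚ) < c := lt_of_le_of_ne (Nat.cast_nonneg c) (Ne.symm hc)
    rw [div_lt_one hc']
    exact_mod_cast hnc
  refine S.concl hη hM (z2 := na / charDegree (a : G → ℂ)) (z3 := nb / charDegree (b : G → ℂ))
    (z4 := nη / charDegree (η : G → ℂ)) ?_ ?_ (hlt _ _ hla da) (hlt _ _ hlb db) (hlt _ _ hlη dη)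
  · have e : (1 + w a * na + w b * nb + -δ * nη : ℚ) = 0 := by
      have : ((1 + w a * na + w b * nb + -δ * nη : ℚ) : ℂ) = 0 := by
        push_cast; linear_combination h0
      exact_mod_cast this
    field_simp
    linear_combination e
  · have e : (1 + (na * na / charDegree (a : G → ℂ)) * w a + (nb * nb / charDegree (b : G → ℂ)) * w b -
        δ * (nη * nη / charDegree (η : G → ℂ)) : ℚ) = 0 := by
      have : ((1 + (na * na / charDegree (a : G → ℂ)) * w a + (nb * nb / charDegree (b : G → ℂ)) * w b -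
        δ * (nη * nη / charDegree (η : G → ℂ)) : ℚ) : ℂ) = 0 := by
        push_cast; linear_combination h1
      exact_mod_cast this
    have e1 : ((w a : ℚ) * charDegree (a : G → ℂ)) * (na / charDegree (a : G → ℂ)) ^ 2 =
        (na * na / charDegree (a : G → ℂ)) * w a := by field_simp
    have e2 : ((w b : ℚ) * charDegree (b : G → ℂ)) * (nb / charDegree (b : G → ℂ)) ^ 2 =
        (nb * nb / charDegree (b : G → ℂ)) * w b := by field_simp
    have e3 : (-(δ : ℚ) * charDegree (η : G → ℂ)) * (nη / charDegree (η : G → ℂ)) ^ 2 =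
        -(δ * (nη * nη / charDegree (η : G → ℂ))) := by field_simp
    rw [e1, e2, e3]
    linear_combination e

end Main

end CfsgH5
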