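import Cfsg.Agent.H5.GlNS1

/-!
# Glauberman correspondence with a normal Sylow subgroup: characters over a fixed character
-/

set_option autoImplicit false
open Cfsg
open CfsgH4 hiding centralChar sum_conj

namespace CfsgH5

open scoped ComplexConjugate

universe u v

variable {K : Type u} {S : Type v} [Group K] [Fintype K] [Group S] [Finite S] {p : ℕ} [Fact p.Prime]
  (φ : S →* MulAut K) (Q C : Subgroup K) [hQn : Q.Normal]

/-- the inertia group is stable -/
theorem act_inertia {θ : Q → ℂ} (hQφ : ∀ s, ∀ q ∈ Q, φ s q ∈ Q) (hθ : InvF (resAct φ Q hQφ) θ)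
    (s : S) (t : K) (ht : t ∈ inertia Q θ) : φ s t ∈ inertia Q θ := by
  rw [mem_inertia] at ht ⊢
  funext n
  obtain ⟨m, rfl⟩ := (resAct φ Q hQφ s).surjective n
  rw [conjFun_apply]
  have h1 : (⟨φ s t * (resAct φ Q hQφ s m : Q) * (φ s t)⁻¹, hQn.conj_mem _ (resAct φ Q hQφ s m).2 _⟩ : Q) =
      resAct φ Q hQφ s ⟨t * m * t⁻¹, hQn.conj_mem m m.2 t⟩ := Subtype.ext (by
    show φ s t * φ s m * (φ s t)⁻¹ = φ s (t * m * t⁻¹)
    rw [map_mul, map_mul, map_inv])
  rw [h1, hθ, hθ]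
  exact congrFun ht m

/-- induction commutes with automorphisms stabilising the subgroup -/
theorem indFun_aut {T : Subgroup K} [Fintype T] (α : MulAut K) (hα : ∀ t, α t ∈ T ↔ t ∈ T)
    (f : T → ℂ) (x : K) :
    indFun T f (α x) = indFun T (fun t : T => f ⟨α t, (hα t).2 t.2⟩) x := by
  classical
  rw [indFun_apply', indFun_apply']
  congr 1
  rw [← Equiv.sum_comp α.toEquiv]
  refine Finset.sum_congr rfl fun y _ => ?_
  show extendByZero T f (α y * α x * (α y)⁻¹) = _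
  rw [← map_inv, ← map_mul, ← map_mul]
  by_cases h : y * x * y⁻¹ ∈ T
  · rw [extendByZero_of_mem T f ((hα _).2 h), extendByZero_of_mem T _ h]
  · rw [extendByZero_of_not_mem T f (fun h' => h ((hα _).1 h')), extendByZero_of_not_mem T _ h]

theorem act_mem_iff {T : Subgroup K} (hT : ∀ s, ∀ t ∈ T, φ s t ∈ T) (s : S) (t : K) :
    φ s t ∈ T ↔ t ∈ T := by
  constructor
  · intro h
    have := hT s⁻¹ _ h
    rwa [← MulAut.mul_apply, ← map_mul, inv_mul_cancel, map_one, MulAut.one_apply] at this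
  · exact hT s t

theorem ns_param (hQp : IsPGroup p Q) (hidx : ¬ p ∣ Q.index)
    (hQφ : ∀ s, ∀ q ∈ Q, φ s q ∈ Q) (hC : ∀ k, k ∈ C ↔ ∀ s, φ s k * k⁻¹ ∈ Q)
    (hCφ : ∀ s, ∀ c ∈ C, φ s c ∈ C) (hQC : Q ≤ C) [Fintype Q] [Fintype C]
    (θ : Q → ℂ) (hθ : IsIrrCharacter Q θ) (hinv : InvF (resAct φ Q hQφ) θ) :
    ∃ (A : Type u) (_ : Group A) (_ : Fintype A) (ψ : S →* MulAut A) (_ : Fintype (fixS ψ))
      (ΨK : IrrCharacter A → IrrCharacter K) (ΨC : IrrCharacter (fixS ψ) → IrrCharacter C),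
      ¬ p ∣ Nat.card A ∧
      (∀ β, InvF φ (ΨK β : K → ℂ) ↔ InvF ψ (β : A → ℂ)) ∧
      (∀ χ : IrrCharacter K, classInner (fun n : Q => (χ : K → ℂ) n) θ ≠ 0 → ∃ β, χ = ΨK β) ∧
      (∀ ξ : IrrCharacter C, classInner (fun n : Q => (ξ : C → ℂ) ⟨n, hQC n.2⟩) θ ≠ 0 →
        ∃ γ, ξ = ΨC γ) ∧
      (∀ γ, InvF (resAct φ C hCφ) (ΨC γ : C → ℂ)) ∧
      Function.Injective ΨK ∧ Function.Injective ΨC ∧
      ∀ β γ, classInner (fun c : C => (ΨK β : K → ℂ) c) (ΨC γ : C → ℂ) =
        classInner (fun x : fixS ψ => (β : A → ℂ) x) (γ : fixS ψ → ℂ) := by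
  classical
  haveI : Fintype (inertia Q θ) := Fintype.ofFinite _
  have hQT : Q ≤ inertia Q θ := le_inertia Q (IsIrr.isClassFunction hθ)
  have hTφ : ∀ s, ∀ t ∈ inertia Q θ, φ s t ∈ inertia Q θ := fun s t ht =>
    act_inertia φ Q hQφ hinv s t ht
  -- the canonical extension
  have hcanon : ∃ η : inertia Q θ → ℂ, IsIrrCharacter (inertia Q θ) η ∧ resLE hQT η = θ ∧
      ∀ s (t : inertia Q θ), η ⟨φ s t, hTφ s t t.2⟩ = η t := by
    haveI := Fintype.ofFinite (Q.subgroupOf (inertia Q θ))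
    have e := Subgroup.subgroupOfEquivOfLe hQT
    obtain ⟨η, h1, h2, h3⟩ := exists_canon_ext p (Q.subgroupOf (inertia Q θ))
      (hQp.of_equiv (Subgroup.subgroupOfEquivOfLe hQT).symm) (by
        intro h4
        apply hidx
        exact h4.trans (Subgroup.relIndex_dvd_index_of_normal Q (inertia Q θ)))
      (θ := fun n => θ (Subgroup.subgroupOfEquivOfLe hQT n))
      ((isIrr_comp_equiv (Subgroup.subgroupOfEquivOfLe hQT)).2 hθ) (by
        intro t
        funext n
        exact congrFun ((mem_inertia Q θ t).1 t.2) (Subgroup.subgroupOfEquivOfLe hQT n))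
    refine ⟨η, h1, ?_, ?_⟩
    · funext n
      exact h2 ⟨⟨n, hQT n.2⟩, Subgroup.mem_subgroupOf.2 n.2⟩
    · intro s t
      refine h3 (resAct φ (inertia Q θ) hTφ s) (fun n => ?_) t
      refine ⟨Subgroup.mem_subgroupOf.2 (hQφ s n (Subgroup.mem_subgroupOf.1 n.2)), ?_⟩
      exact hinv s (Subgroup.subgroupOfEquivOfLe hQT n)
  obtain ⟨η, hη, hηN, hηinv⟩ := hcanon
  -- the quotient group
  have hQT' : ∀ s, ∀ n ∈ Q.subgroupOf (inertia Q θ),
      resAct φ (inertia Q θ) hTφ s n ∈ Q.subgroupOf (inertia Q θ) := fun s n hn =>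
    Subgroup.mem_subgroupOf.2 (hQφ s n (Subgroup.mem_subgroupOf.1 hn))
  let ψ : S →* MulAut (inertia Q θ ⧸ Q.subgroupOf (inertia Q θ)) :=
    quotAct (resAct φ (inertia Q θ) hTφ) (Q.subgroupOf (inertia Q θ)) hQT'
  haveI : Fintype (inertia Q θ ⧸ Q.subgroupOf (inertia Q θ)) := Fintype.ofFinite _
  haveI : Fintype (fixS ψ) := Fintype.ofFinite _
  let π : inertia Q θ →* inertia Q θ ⧸ Q.subgroupOf (inertia Q θ) :=
    QuotientGroup.mk' (Q.subgroupOf (inertia Q θ))
  have hπ : Function.Surjective π := QuotientGroup.mk'_surjective _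
  have hπk : ∀ t : inertia Q θ, π t = 1 ↔ (t : K) ∈ Q := fun t =>
    (QuotientGroup.eq_one_iff t).trans Subgroup.mem_subgroupOf
  have hψπ : ∀ s t, ψ s (π t) = π (resAct φ (inertia Q θ) hTφ s t) := fun s t => rfl
  -- the C side
  haveI : Fintype (Q.subgroupOf C) := Fintype.ofFinite _
  let θC : Q.subgroupOf C → ℂ := fun n => θ (Subgroup.subgroupOfEquivOfLe hQC n)
  have hθC : IsIrrCharacter (Q.subgroupOf C) θC := (isIrr_comp_equiv (Subgroup.subgroupOfEquivOfLe hQC)).2 hθ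
  haveI : Fintype (inertia (Q.subgroupOf C) θC) := Fintype.ofFinite _
  have hmemT : ∀ c : C, c ∈ inertia (Q.subgroupOf C) θC ↔ (c : K) ∈ inertia Q θ := by
    intro c
    rw [mem_inertia, mem_inertia]
    constructor
    · intro h
      funext n
      exact congrFun h ⟨⟨n, hQC n.2⟩, Subgroup.mem_subgroupOf.2 n.2⟩
    · intro h
      funext n
      exact congrFun h (Subgroup.subgroupOfEquivOfLe hQC n)
  have hQTC : Q.subgroupOf C ≤ inertia (Q.subgroupOf C) θC := le_inertia _ (IsIrr.isClassFunction hθC)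
  let i : inertia (Q.subgroupOf C) θC →* inertia Q θ :=
    { toFun := fun t => ⟨((t : C) : K), (hmemT t).1 t.2⟩
      map_one' := rfl
      map_mul' := fun a b => rfl }
  have hfix : ∀ t, (π.comp i) t ∈ fixS ψ := by
    intro t
    rw [mem_fixS]
    intro s
    show ψ s (π (i t)) = π (i t)
    rw [hψπ]
    have h1 := (hC ((t : C) : K)).1 (t : C).2 s
    have h2 : π (resAct φ (inertia Q θ) hTφ s (i t) * (i t)⁻¹) = 1 := (hπk _).2 h1
    rw [map_mul, map_inv, mul_inv_eq_one] at h2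
    exact h2
  let πC : inertia (Q.subgroupOf C) θC →* fixS ψ := (π.comp i).codRestrict (fixS ψ) hfix
  have hπC : Function.Surjective πC := by
    rintro ⟨a, ha⟩
    obtain ⟨x, rfl⟩ := hπ a
    have hxC : (x : K) ∈ C := by
      rw [hC]
      intro s
      have h1 : ψ s (π x) = π x := ha s
      rw [hψπ, ← mul_inv_eq_one, ← map_inv, ← map_mul, hπk] at h1
      exact h1
    exact ⟨⟨⟨x, hxC⟩, (hmemT _).2 x.2⟩, rfl⟩
  have hπCk : ∀ t : inertia (Q.subgroupOf C) θC, πC t = 1 ↔ ((t : C) : K) ∈ Q := by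
    intro t
    refine Iff.trans ?_ (hπk (i t))
    constructor
    · intro h; exact congrArg Subtype.val h
    · intro h; exact Subtype.ext h
  let ηC : inertia (Q.subgroupOf C) θC → ℂ := fun t => η (i t)
  have hηCc : IsCharacter (inertia (Q.subgroupOf C) θC) ηC := isCharacter_comp i (IsIrr.isCharacter hη)
  have hηCN : resLE hQTC ηC = θC := by
    funext n
    exact congrFun hηN (Subgroup.subgroupOfEquivOfLe hQC n)
  have hηC : IsIrrCharacter (inertia (Q.subgroupOf C) θC) ηC := by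
    refine isIrr_of_comp (Subgroup.inclusion hQTC) hηCc ?_
    have h1 : (fun x => ηC (Subgroup.inclusion hQTC x)) = θC := hηCN
    rw [h1]
    exact hθC
  -- β on T
  have hβT : ∀ β : IrrCharacter (inertia Q θ ⧸ Q.subgroupOf (inertia Q θ)),
      IsIrrCharacter (inertia Q θ) (fun t => (β : _ → ℂ) (π t)) ∧
      ∀ t : inertia Q θ, (t : K) ∈ Q → (β : _ → ℂ) (π t) = (β : _ → ℂ) (π 1) := by
    intro β
    refine ⟨isIrrCharacter_comp_surj π hπ β.2, fun t ht => ?_⟩
    rw [(hπk t).2 ht, map_one]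
  have hγT : ∀ γ : IrrCharacter (fixS ψ),
      IsIrrCharacter (inertia (Q.subgroupOf C) θC) (fun t => (γ : _ → ℂ) (πC t)) ∧
      ∀ t : inertia (Q.subgroupOf C) θC, (t : C) ∈ Q.subgroupOf C →
        (γ : _ → ℂ) (πC t) = (γ : _ → ℂ) (πC 1) := by
    intro γ
    refine ⟨isIrrCharacter_comp_surj πC hπC γ.2, fun t ht => ?_⟩
    rw [(hπCk t).2 (Subgroup.mem_subgroupOf.1 ht), map_one]
  have hKirr : ∀ β : IrrCharacter (inertia Q θ ⧸ Q.subgroupOf (inertia Q θ)),
      IsIrrCharacter K (indFun (inertia Q θ) ((fun t => (β : _ → ℂ) (π t)) * η)) := by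
    intro β
    obtain ⟨h1, h2⟩ := hβT β
    obtain ⟨h3, h4, h5⟩ := tri_irr Q hθ hQT hη hηN h1 h2
    exact clif_irr Q hθ hQT h3 h5
  have hCirr : ∀ γ : IrrCharacter (fixS ψ),
      IsIrrCharacter C (indFun (inertia (Q.subgroupOf C) θC) ((fun t => (γ : _ → ℂ) (πC t)) * ηC)) := by
    intro γ
    obtain ⟨h1, h2⟩ := hγT γ
    obtain ⟨h3, h4, h5⟩ := tri_irr (Q.subgroupOf C) hθC hQTC hηC hηCN h1 h2
    exact clif_irr (Q.subgroupOf C) hθC hQTC h3 h5
  refine ⟨inertia Q θ ⧸ Q.subgroupOf (inertia Q θ), inferInstance, inferInstance, ψ, inferInstance,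
    fun β => ⟨_, hKirr β⟩, fun γ => ⟨_, hCirr γ⟩, ?_, ?_, ?_, ?_, ?_, ?_, ?_, ?_⟩
  · intro h4
    apply hidx
    exact h4.trans (Subgroup.relIndex_dvd_index_of_normal Q (inertia Q θ))
  · -- invariance
    intro β
    have h1 : ∀ s x, indFun (inertia Q θ) ((fun t => (β : _ → ℂ) (π t)) * η) (φ s x) =
        indFun (inertia Q θ) ((fun t => (β : _ → ℂ) (ψ s (π t))) * η) x := by
      intro s x
      rw [indFun_aut (φ s) (act_mem_iff φ hTφ s)]
      refine congrFun (congrArg (indFun (inertia Q θ)) ?_) x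
      funext t
      show (β : _ → ℂ) (π ⟨φ s t, _⟩) * η ⟨φ s t, _⟩ = (β : _ → ℂ) (ψ s (π t)) * η t
      rw [hηinv s t, hψπ]
      rfl
    constructor
    · intro h s a
      obtain ⟨t, rfl⟩ := hπ a
      have h2 : indFun (inertia Q θ) ((fun t => (β : _ → ℂ) (ψ s (π t))) * η) =
          indFun (inertia Q θ) ((fun t => (β : _ → ℂ) (π t)) * η) := by
        funext x
        rw [← h1 s x]
        exact h s x
      obtain ⟨h3, h4⟩ := hβT β
      have h5 := tri_inj Q hθ hQT hη hηN (β := fun t => (β : _ → ℂ) (ψ s (π t)))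
        (isIrrCharacter_comp_surj ((ψ s).toMonoidHom.comp π) ((ψ s).surjective.comp hπ) β.2) (by
          intro t ht
          show (β : _ → ℂ) (ψ s (π t)) = (β : _ → ℂ) (ψ s (π 1))
          rw [(hπk t).2 ht]
          simp only [map_one]) h3 h4 h2
      exact congrFun h5 t
    · intro h s x
      show indFun (inertia Q θ) ((fun t => (β : _ → ℂ) (π t)) * η) (φ s x) =
        indFun (inertia Q θ) ((fun t => (β : _ → ℂ) (π t)) * η) x
      rw [h1 s x]
      refine congrFun (congrArg (indFun (inertia Q θ)) ?_) x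
      funext t
      show (β : _ → ℂ) (ψ s (π t)) * η t = (β : _ → ℂ) (π t) * η t
      rw [h s]
  · intro χ hχ
    obtain ⟨β', h1, h2, h3⟩ := tri_exists Q hθ hQT hη hηN χ.2 hχ
    obtain ⟨β, h4, h5⟩ := exists_irr_descend π hπ h1 (fun x hx => h2 x ((hπk x).1 hx))
    refine ⟨⟨β, h4⟩, Subtype.ext ?_⟩
    show (χ : K → ℂ) = indFun (inertia Q θ) ((fun t => β (π t)) * η)
    have h6 : (fun t => β (π t)) = β' := funext fun t => (h5 t).symm
    rw [h6]
    exact h3
  · intro ξ hξ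
    obtain ⟨γ', h1, h2, h3⟩ := tri_exists (Q.subgroupOf C) hθC hQTC hηC hηCN ξ.2 (by
      intro h0
      apply hξ
      have h4 := classInner_comp_equiv (Subgroup.subgroupOfEquivOfLe hQC)
        (fun n : Q => (ξ : C → ℂ) ⟨n, hQC n.2⟩) θ
      rw [← h4]
      exact h0)
    obtain ⟨γ, h4, h5⟩ := exists_irr_descend πC hπC h1
      (fun x hx => h2 x (Subgroup.mem_subgroupOf.2 ((hπCk x).1 hx)))
    refine ⟨⟨γ, h4⟩, Subtype.ext ?_⟩
    show (ξ : C → ℂ) = indFun (inertia (Q.subgroupOf C) θC) ((fun t => γ (πC t)) * ηC)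
    have h6 : (fun t => γ (πC t)) = γ' := funext fun t => (h5 t).symm
    rw [h6]
    exact h3
  · -- invariance on C
    intro γ s x
    show indFun (inertia (Q.subgroupOf C) θC) ((fun t => (γ : _ → ℂ) (πC t)) * ηC)
      (resAct φ C hCφ s x) = indFun (inertia (Q.subgroupOf C) θC) ((fun t => (γ : _ → ℂ) (πC t)) * ηC) x
    have hmem : ∀ c : C, resAct φ C hCφ s c ∈ inertia (Q.subgroupOf C) θC ↔
        c ∈ inertia (Q.subgroupOf C) θC := fun c => by
      rw [hmemT, hmemT]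
      exact act_mem_iff φ hTφ s c
    rw [indFun_aut (resAct φ C hCφ s) hmem]
    refine congrFun (congrArg (indFun (inertia (Q.subgroupOf C) θC)) ?_) x
    funext t
    have h1 : ηC ⟨resAct φ C hCφ s t, (hmem t).2 t.2⟩ = ηC t := hηinv s (i t)
    have h2 : πC ⟨resAct φ C hCφ s t, (hmem t).2 t.2⟩ = πC t := by
      apply Subtype.ext
      exact (hfix t) s
    show (γ : _ → ℂ) (πC ⟨resAct φ C hCφ s t, _⟩) * ηC ⟨resAct φ C hCφ s t, _⟩ = (γ : _ → ℂ) (πC t) * ηC t
    rw [h1, h2]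
  · intro β β' h
    have h0 : indFun (inertia Q θ) ((fun t => (β : _ → ℂ) (π t)) * η) =
        indFun (inertia Q θ) ((fun t => (β' : _ → ℂ) (π t)) * η) := congrArg Subtype.val h
    have h1 := tri_inj Q hθ hQT hη hηN (hβT β).1 (hβT β).2 (hβT β').1 (hβT β').2 h0
    apply Subtype.ext
    funext a
    obtain ⟨t, rfl⟩ := hπ a
    exact congrFun h1 t
  · intro γ γ' h
    have h0 : indFun (inertia (Q.subgroupOf C) θC) ((fun t => (γ : _ → ℂ) (πC t)) * ηC) =
        indFun (inertia (Q.subgroupOf C) θC) ((fun t => (γ' : _ → ℂ) (πC t)) * ηC) :=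
      congrArg Subtype.val h
    have h1 := tri_inj (Q.subgroupOf C) hθC hQTC hηC hηCN (hγT γ).1 (hγT γ).2 (hγT γ').1
      (hγT γ').2 h0
    apply Subtype.ext
    funext a
    obtain ⟨t, rfl⟩ := hπC a
    exact congrFun h1 t
  · intro β γ
    show classInner (fun c : C => indFun (inertia Q θ) ((fun t => (β : _ → ℂ) (π t)) * η) c)
      (indFun (inertia (Q.subgroupOf C) θC) ((fun t => (γ : _ → ℂ) (πC t)) * ηC)) = _
    rw [frobenius_right _ _ (isClassFunction_restrict C (IsIrr.isClassFunction (hKirr β)))]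
    obtain ⟨R, hR, hRe, hR0⟩ := tri_res Q hθ hQT hη hηN (hβT β).1 (hβT β).2
    obtain ⟨h3, h4, h5⟩ := tri_irr (Q.subgroupOf C) hθC hQTC hηC hηCN (hγT γ).1 (hγT γ).2
    have h6 : (fun h : inertia (Q.subgroupOf C) θC =>
        indFun (inertia Q θ) ((fun t => (β : _ → ℂ) (π t)) * η) ((h : C) : K)) =
        ((fun t => (β : inertia Q θ ⧸ Q.subgroupOf (inertia Q θ) → ℂ) (πC t)) * ηC) +
          fun t => R (i t) := by
      funext t
      exact congrFun hRe (i t)
    have h7 : classInner (fun t => R (i t)) ((fun t => (γ : _ → ℂ) (πC t)) * ηC) = 0 := by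
      refine inner_zero_of_below (Subgroup.inclusion hQTC) (isCharacter_comp i hR) h3 hθC ?_ h5
      have h8 := classInner_comp_equiv (Subgroup.subgroupOfEquivOfLe hQC) (resLE hQT R) θ
      rw [hR0] at h8
      exact h8
    haveI : Fintype ((Q.subgroupOf C).subgroupOf (inertia (Q.subgroupOf C) θC)) := Fintype.ofFinite _
    refine Eq.trans (congrArg (fun f => classInner f _) h6) ?_
    rw [classInner_add_left, h7, add_zero]
    refine Eq.trans (inner_mul_ext ((Q.subgroupOf C).subgroupOf (inertia (Q.subgroupOf C) θC)) hηC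
      (tri_sub (Q.subgroupOf C) hθC hQTC hηCN) ?_ ?_) ?_
    · intro n hn x
      have h8 := (hπCk n).2 (Subgroup.mem_subgroupOf.1 (Subgroup.mem_subgroupOf.1 hn))
      show (β : inertia Q θ ⧸ Q.subgroupOf (inertia Q θ) → ℂ) (πC (n * x)) =
        (β : inertia Q θ ⧸ Q.subgroupOf (inertia Q θ) → ℂ) (πC x)
      rw [map_mul, h8, one_mul]
    · intro n hn x
      have h8 := (hπCk n).2 (Subgroup.mem_subgroupOf.1 (Subgroup.mem_subgroupOf.1 hn))
      show (γ : _ → ℂ) (πC (n * x)) = (γ : _ → ℂ) (πC x)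
      rw [map_mul, h8, one_mul]
    · exact inner_comp_surj πC hπC
        (fun x : fixS ψ => (β : inertia Q θ ⧸ Q.subgroupOf (inertia Q θ) → ℂ) x) (γ : fixS ψ → ℂ)

end CfsgH5
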