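import Cfsg.Agent.H5.GlNS2

/-!
# Glauberman correspondence with a normal Sylow subgroup: main theorem
-/

set_option autoImplicit false
open Cfsg
open CfsgH4 hiding centralChar sum_conj

namespace CfsgH5

open scoped ComplexConjugate

universe u v

variable {K : Type u} {S : Type v} [Group K] [Fintype K] [Group S] [Finite S] {p : ℕ} [hp : Fact p.Prime]
  (φ : S →* MulAut K) (Q C : Subgroup K) [hQn : Q.Normal]

/-- an invariant character of `C` has an invariant constituent on `Q` -/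
theorem ns_below (hS : IsPGroup p S) (hidx : ¬ p ∣ Q.index)
    (hQφ : ∀ s, ∀ q ∈ Q, φ s q ∈ Q) (hCφ : ∀ s, ∀ c ∈ C, φ s c ∈ C) (hQC : Q ≤ C)
    [Fintype Q] [Fintype C] (ξ : IrrCharacter C) (hξ : InvF (resAct φ C hCφ) (ξ : C → ℂ)) :
    ∃ θ : Q → ℂ, IsIrrCharacter Q θ ∧ InvF (resAct φ Q hQφ) θ ∧
      classInner (fun n : Q => (ξ : C → ℂ) ⟨n, hQC n.2⟩) θ ≠ 0 := by
  classical
  haveI : Fintype (Q.subgroupOf C) := Fintype.ofFinite _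
  have h1 : ∀ s, ∀ n ∈ Q.subgroupOf C, resAct φ C hCφ s n ∈ Q.subgroupOf C := fun s n hn =>
    Subgroup.mem_subgroupOf.2 (hQφ s n (Subgroup.mem_subgroupOf.1 hn))
  obtain ⟨a, ha⟩ := IsPGroup.iff_card.1 hS
  have h2 : (Nat.card S).Coprime (Nat.card (C ⧸ Q.subgroupOf C)) := by
    rw [ha]
    refine Nat.Coprime.pow_left a ((hp.out.coprime_iff_not_dvd).2 fun h => hidx ?_)
    exact h.trans (Subgroup.relIndex_dvd_index_of_normal Q C)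
  obtain ⟨θ', hθ', hinv'⟩ := exists_inv_below (resAct φ C hCφ) (Q.subgroupOf C) h1 h2
    (Or.inl (CfsgH1.isSolvable_of_isPGroup hS)) ξ hξ
  refine ⟨fun q => (θ' : Q.subgroupOf C → ℂ) ((Subgroup.subgroupOfEquivOfLe hQC).symm q),
    (isIrr_comp_equiv (Subgroup.subgroupOfEquivOfLe hQC).symm).2 θ'.2, ?_, ?_⟩
  · intro s q
    exact hinv' s ((Subgroup.subgroupOfEquivOfLe hQC).symm q)
  · intro h0
    apply hθ'
    rw [← classInner_comp_equiv (Subgroup.subgroupOfEquivOfLe hQC).symm]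
    exact h0

/-- invariant characters of `Q` conjugate in `K` are conjugate in `C` -/
theorem ns_conj (hS : IsPGroup p S) (hidx : ¬ p ∣ Q.index)
    (hQφ : ∀ s, ∀ q ∈ Q, φ s q ∈ Q) (hC : ∀ k, k ∈ C ↔ ∀ s, φ s k * k⁻¹ ∈ Q)
    {θ θ' : Q → ℂ} (hθ : IsClassFunction Q θ) (hinv : InvF (resAct φ Q hQφ) θ)
    (hinv' : InvF (resAct φ Q hQφ) θ') {g : K} (hg : θ' = conjFun Q θ g) :
    ∃ c ∈ C, θ' = conjFun Q θ c := by
  classical
  have hX : ∀ s k, conjFun Q θ k = θ' → conjFun Q θ (φ s k) = θ' := by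
    intro s k hk
    funext n
    obtain ⟨m, rfl⟩ := (resAct φ Q hQφ s).surjective n
    rw [conjFun_apply]
    have h1 : (⟨φ s k * (resAct φ Q hQφ s m : Q) * (φ s k)⁻¹, hQn.conj_mem _ (resAct φ Q hQφ s m).2 _⟩ : Q) =
        resAct φ Q hQφ s ⟨k * m * k⁻¹, hQn.conj_mem m m.2 k⟩ := Subtype.ext (by
      show φ s k * φ s m * (φ s k)⁻¹ = φ s (k * m * k⁻¹)
      rw [map_mul, map_mul, map_inv])
    rw [h1, hinv, hinv']
    exact congrFun hk m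
  letI aS : MulAction S (K ⧸ Q) := MulAction.compHom _ (quotAct φ Q hQφ)
  have haS : ∀ (s : S) (k : K), s • (k : K ⧸ Q) = ((φ s k : K) : K ⧸ Q) := fun _ _ => rfl
  let X : SubMulAction S (K ⧸ Q) :=
    { carrier := {x | ∃ k : K, (k : K ⧸ Q) = x ∧ conjFun Q θ k = θ'}
      smul_mem' := by
        rintro s x ⟨k, rfl, hk⟩
        exact ⟨φ s k, (haS s k).symm, hX s k hk⟩ }
  have hcard : ¬ p ∣ Nat.card X := by
    intro h
    apply hidx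
    refine h.trans ?_
    have h1 : Nat.card X = Nat.card ((inertia Q θ).map (QuotientGroup.mk' Q)) := by
      symm
      refine Nat.card_congr (Equiv.ofBijective (fun x => (⟨(x : K ⧸ Q) * (g : K ⧸ Q), ?_⟩ : X)) ⟨?_, ?_⟩)
      · obtain ⟨t, ht, he⟩ := Subgroup.mem_map.1 x.2
        refine ⟨t * g, ?_, ?_⟩
        · rw [QuotientGroup.mk_mul]
          exact congrArg (· * (g : K ⧸ Q)) he
        · rw [← conjFun_mul, (mem_inertia Q θ t).1 ht, ← hg]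
      · intro x y h
        exact Subtype.ext (mul_right_cancel (congrArg Subtype.val h))
      · rintro ⟨x, k, rfl, hk⟩
        refine ⟨⟨((k * g⁻¹ : K) : K ⧸ Q), ?_⟩, ?_⟩
        · refine Subgroup.mem_map.2 ⟨k * g⁻¹, ?_, rfl⟩
          rw [← conjFun_eq_iff, hk, hg]
        · apply Subtype.ext
          show ((k * g⁻¹ : K) : K ⧸ Q) * (g : K ⧸ Q) = k
          rw [← QuotientGroup.mk_mul, inv_mul_cancel_right]
    rw [h1]
    exact Subgroup.card_subgroup_dvd_card _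
  obtain ⟨⟨x, k, rfl, hk⟩, hfix⟩ := hS.nonempty_fixed_point_of_prime_not_dvd_card X hcard
  refine ⟨k, ?_, hk.symm⟩
  rw [hC]
  intro s
  have h2 : s • (k : K ⧸ Q) = k := congrArg Subtype.val (hfix s)
  rw [haS, QuotientGroup.eq] at h2
  have h3 := hQn.conj_mem _ h2 (φ s k)
  have h4 := Q.inv_mem h3
  have h5 : (φ s k * ((φ s k)⁻¹ * k) * (φ s k)⁻¹)⁻¹ = φ s k * k⁻¹ := by group
  rwa [h5] at h4

theorem zmod_pm {m : ℕ} (h : (m : ℤ) ≡ 1 [ZMOD p] ∨ (m : ℤ) ≡ -1 [ZMOD p]) :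
    (m : ZMod p) = 1 ∨ (m : ZMod p) = -1 := by
  rcases h with h | h
  · left
    have := (ZMod.intCast_eq_intCast_iff _ _ p).2 h
    push_cast at this
    exact this
  · right
    have := (ZMod.intCast_eq_intCast_iff _ _ p).2 h
    push_cast at this
    exact this

/-- the relation: multiplicity not divisible by `p` -/
def NsR (p : ℕ) {C : Subgroup K} [Fintype C] (χ : IrrCharacter K) (ξ : IrrCharacter C) : Prop :=
  ∃ m : ℕ, classInner (fun c : C => (χ : K → ℂ) c) (ξ : C → ℂ) = (m : ℂ) ∧ ¬ p ∣ m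

theorem NsR.over (hQC : Q ≤ C) [Fintype Q] [Fintype C] {χ : IrrCharacter K} {ξ : IrrCharacter C}
    (h : NsR p χ ξ) {θ : Q → ℂ} (hθ : IsIrrCharacter Q θ)
    (hne : classInner (fun n : Q => (ξ : C → ℂ) ⟨n, hQC n.2⟩) θ ≠ 0) :
    classInner (fun n : Q => (χ : K → ℂ) n) θ ≠ 0 := by
  intro h0
  obtain ⟨m, hm, hpm⟩ := h
  have h1 := inner_zero_of_below (Subgroup.inclusion hQC)
    (isCharacter_restrict C (IsIrr.isCharacter χ.2)) ξ.2 hθ h0 hne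
  rw [hm] at h1
  have h2 : m = 0 := by exact_mod_cast h1
  exact hpm (h2 ▸ dvd_zero p)

theorem ns_main (hS : IsPGroup p S) (hQp : IsPGroup p Q) (hidx : ¬ p ∣ Q.index)
    (hQφ : ∀ s, ∀ q ∈ Q, φ s q ∈ Q) (hC : ∀ k, k ∈ C ↔ ∀ s, φ s k * k⁻¹ ∈ Q)
    (hCφ : ∀ s, ∀ c ∈ C, φ s c ∈ C) (hQC : Q ≤ C) [Fintype Q] [Fintype C] :
    (∀ χ : IrrCharacter K, InvF φ (χ : K → ℂ) → ∃ ξ : IrrCharacter C,
      InvF (resAct φ C hCφ) (ξ : C → ℂ) ∧ NsR p χ ξ) ∧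
    (∀ ξ : IrrCharacter C, InvF (resAct φ C hCφ) (ξ : C → ℂ) → ∃ χ : IrrCharacter K,
      InvF φ (χ : K → ℂ) ∧ NsR p χ ξ) ∧
    (∀ χ : IrrCharacter K, InvF φ (χ : K → ℂ) → ∀ ξ ξ' : IrrCharacter C,
      InvF (resAct φ C hCφ) (ξ : C → ℂ) → InvF (resAct φ C hCφ) (ξ' : C → ℂ) →
      NsR p χ ξ → NsR p χ ξ' → ξ = ξ') ∧
    (∀ χ χ' : IrrCharacter K, InvF φ (χ : K → ℂ) → InvF φ (χ' : K → ℂ) → ∀ ξ : IrrCharacter C,
      InvF (resAct φ C hCφ) (ξ : C → ℂ) → NsR p χ ξ → NsR p χ' ξ → χ = χ') ∧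
    (∀ χ : IrrCharacter K, InvF φ (χ : K → ℂ) → ∀ ξ : IrrCharacter C,
      InvF (resAct φ C hCφ) (ξ : C → ℂ) → ∀ m : ℕ,
      classInner (fun c : C => (χ : K → ℂ) c) (ξ : C → ℂ) = (m : ℂ) → ¬ p ∣ m →
      ((m : ZMod p) = 1 ∨ (m : ZMod p) = -1)) := by
  classical
  obtain ⟨a, ha⟩ := IsPGroup.iff_card.1 hS
  have hsolv := CfsgH1.isSolvable_of_isPGroup hS
  refine ⟨?_, ?_, ?_, ?_, ?_⟩
  · intro χ hχ
    have h2 : (Nat.card S).Coprime (Nat.card (K ⧸ Q)) := by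
      rw [ha]
      exact Nat.Coprime.pow_left a ((hp.out.coprime_iff_not_dvd).2 hidx)
    obtain ⟨θ, hθ, hinv⟩ := exists_inv_below φ Q hQφ h2 (Or.inl hsolv) χ hχ
    obtain ⟨A, _, _, ψ, _, ΨK, ΨC, h1, h2, h3, h4, h5, h6, h7, h8⟩ :=
      ns_param (p := p) φ Q C hQp hidx hQφ hC hCφ hQC (θ : Q → ℂ) θ.2 hinv
    obtain ⟨β, rfl⟩ := h3 χ hθ
    obtain ⟨g1, g2, g3, g4⟩ := glaub (p := p) (φ := ψ) (Or.inl ⟨h1, hS⟩)
    obtain ⟨γ, ⟨m, hm, hpm⟩, -⟩ := g1 β ((h2 β).1 hχ)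
    exact ⟨ΨC γ, h5 γ, m, (h8 β γ).trans hm, hpm⟩
  · intro ξ hξ
    obtain ⟨θ, hθ, hinv, hne⟩ := ns_below (p := p) φ Q C hS hidx hQφ hCφ hQC ξ hξ
    obtain ⟨A, _, _, ψ, _, ΨK, ΨC, h1, h2, h3, h4, h5, h6, h7, h8⟩ :=
      ns_param (p := p) φ Q C hQp hidx hQφ hC hCφ hQC θ hθ hinv
    obtain ⟨γ, rfl⟩ := h4 ξ hne
    obtain ⟨g1, g2, g3, g4⟩ := glaub (p := p) (φ := ψ) (Or.inl ⟨h1, hS⟩)
    obtain ⟨β, hβ, m, hm, hpm⟩ := g4 γ
    exact ⟨ΨK β, (h2 β).2 hβ, m, (h8 β γ).trans hm, hpm⟩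
  · intro χ hχ ξ ξ' hξ hξ' hR hR'
    obtain ⟨θ, hθ, hinv, hne⟩ := ns_below (p := p) φ Q C hS hidx hQφ hCφ hQC ξ hξ
    obtain ⟨θ', hθ', hinv', hne'⟩ := ns_below (p := p) φ Q C hS hidx hQφ hCφ hQC ξ' hξ'
    obtain ⟨g, hg⟩ := clifford_conj Q χ.2 hθ hθ' (NsR.over Q C hQC hR hθ hne)
      (NsR.over Q C hQC hR' hθ' hne')
    obtain ⟨c, hcC, hc⟩ := ns_conj (p := p) φ Q C hS hidx hQφ hC (IsIrr.isClassFunction hθ)
      hinv hinv' hg
    have hne2 : classInner (fun n : Q => (ξ' : C → ℂ) ⟨n, hQC n.2⟩) θ ≠ 0 := by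
      intro h0
      apply hne'
      rw [hc, ← h0, ← classInner_conjFun Q (fun n : Q => (ξ' : C → ℂ) ⟨n, hQC n.2⟩) θ c]
      refine congrArg (fun f => classInner f (conjFun Q θ c)) ?_
      funext n
      rw [conjFun_apply]
      have h9 := IsCharacter.conj_eq (IsIrr.isCharacter ξ'.2) ⟨n, hQC n.2⟩ ⟨c, hcC⟩
      exact h9.symm
    obtain ⟨A, _, _, ψ, _, ΨK, ΨC, h1, h2, h3, h4, h5, h6, h7, h8⟩ :=
      ns_param (p := p) φ Q C hQp hidx hQφ hC hCφ hQC θ hθ hinv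
    obtain ⟨β, rfl⟩ := h3 χ (NsR.over Q C hQC hR hθ hne)
    obtain ⟨γ, rfl⟩ := h4 ξ hne
    obtain ⟨γ', rfl⟩ := h4 ξ' hne2
    obtain ⟨g1, g2, g3, g4⟩ := glaub (p := p) (φ := ψ) (Or.inl ⟨h1, hS⟩)
    obtain ⟨m, hm, hpm⟩ := hR
    obtain ⟨m', hm', hpm'⟩ := hR'
    exact congrArg ΨC ((g1 β ((h2 β).1 hχ)).unique ⟨m, (h8 β γ).symm.trans hm, hpm⟩
      ⟨m', (h8 β γ').symm.trans hm', hpm'⟩)
  · intro χ χ' hχ hχ' ξ hξ hR hR'
    obtain ⟨θ, hθ, hinv, hne⟩ := ns_below (p := p) φ Q C hS hidx hQφ hCφ hQC ξ hξ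
    obtain ⟨A, _, _, ψ, _, ΨK, ΨC, h1, h2, h3, h4, h5, h6, h7, h8⟩ :=
      ns_param (p := p) φ Q C hQp hidx hQφ hC hCφ hQC θ hθ hinv
    obtain ⟨β, rfl⟩ := h3 χ (NsR.over Q C hQC hR hθ hne)
    obtain ⟨β', rfl⟩ := h3 χ' (NsR.over Q C hQC hR' hθ hne)
    obtain ⟨γ, rfl⟩ := h4 ξ hne
    obtain ⟨g1, g2, g3, g4⟩ := glaub (p := p) (φ := ψ) (Or.inl ⟨h1, hS⟩)
    obtain ⟨m, hm, hpm⟩ := hR
    obtain ⟨m', hm', hpm'⟩ := hR'
    exact congrArg ΨK (g3 β β' ((h2 β).1 hχ) ((h2 β').1 hχ') γ ⟨m, (h8 β γ).symm.trans hm, hpm⟩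
      ⟨m', (h8 β' γ).symm.trans hm', hpm'⟩)
  · intro χ hχ ξ hξ m hm hpm
    obtain ⟨θ, hθ, hinv, hne⟩ := ns_below (p := p) φ Q C hS hidx hQφ hCφ hQC ξ hξ
    obtain ⟨A, _, _, ψ, _, ΨK, ΨC, h1, h2, h3, h4, h5, h6, h7, h8⟩ :=
      ns_param (p := p) φ Q C hQp hidx hQφ hC hCφ hQC θ hθ hinv
    obtain ⟨β, rfl⟩ := h3 χ (NsR.over Q C hQC ⟨m, hm, hpm⟩ hθ hne)
    obtain ⟨γ, rfl⟩ := h4 ξ hne
    obtain ⟨g1, g2, g3, g4⟩ := glaub (p := p) (φ := ψ) (Or.inl ⟨h1, hS⟩)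
    exact zmod_pm (g2 β ((h2 β).1 hχ) γ m ((h8 β γ).symm.trans hm) hpm)

/-- degree congruence -/
theorem ns_degree (hS : IsPGroup p S) (hCφ : ∀ s, ∀ c ∈ C, φ s c ∈ C) [Fintype C]
    {χ : IrrCharacter K} (hχ : InvF φ (χ : K → ℂ)) {ξ : IrrCharacter C}
    (hξ : InvF (resAct φ C hCφ) (ξ : C → ℂ)) {m : ℕ}
    (hm : classInner (fun c : C => (χ : K → ℂ) c) (ξ : C → ℂ) = (m : ℂ))
    (hne : ∀ ξ' : IrrCharacter C, InvF (resAct φ C hCφ) (ξ' : C → ℂ) → ξ' ≠ ξ → ¬ NsR p χ ξ')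
    {d e : ℕ} (hd : (χ : K → ℂ) 1 = d) (he : (ξ : C → ℂ) 1 = e) : (d : ZMod p) = m * e := by
  classical
  letI aS : MulAction S (IrrCharacter C) := MulAction.compHom _ ((irrHom C).comp (resAct φ C hCφ))
  have haS : ∀ (s : S) (ξ' : IrrCharacter C), s • ξ' = irrE (resAct φ C hCφ s) ξ' := fun _ _ => rfl
  have hmul : ∀ ξ' : IrrCharacter C, ∃ n : ℕ,
      classInner (fun c : C => (χ : K → ℂ) c) (ξ' : C → ℂ) = (n : ℂ) := fun ξ' =>
    IsCharacter.inner_irr_nat (isCharacter_restrict C (IsIrr.isCharacter χ.2)) ξ'.2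
  choose μ hμ using hmul
  have hdeg : ∀ ξ' : IrrCharacter C, ∃ n : ℕ, (ξ' : C → ℂ) 1 = (n : ℂ) := fun ξ' =>
    IsCharacter.one_nat (IsIrr.isCharacter ξ'.2)
  choose δ hδ using hdeg
  have hinner : ∀ (s : S) (ξ' : IrrCharacter C), classInner (fun c : C => (χ : K → ℂ) c)
      (irrE (resAct φ C hCφ s) ξ' : C → ℂ) = classInner (fun c : C => (χ : K → ℂ) c) (ξ' : C → ℂ) := by
    intro s ξ'
    rw [← classInner_comp_equiv (resAct φ C hCφ s)]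
    have e1 : (fun a : C => (χ : K → ℂ) (resAct φ C hCφ s a : C)) = fun c : C => (χ : K → ℂ) c := by
      funext c
      exact hχ s c
    have e2 : (fun a : C => (irrE (resAct φ C hCφ s) ξ' : C → ℂ) (resAct φ C hCφ s a)) = (ξ' : C → ℂ) := by
      funext c
      rw [irrE_apply']
    rw [e1, e2]
  obtain ⟨t, -, ht⟩ := orbit_sum hS (fun ξ' : IrrCharacter C => ((μ ξ' : ZMod p) * (δ ξ' : ZMod p)))
    (by
      intro s ξ'
      have h1 : μ (s • ξ') = μ ξ' := by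
        have := hinner s ξ'
        rw [← haS, hμ, hμ] at this
        exact_mod_cast this
      have h2 : δ (s • ξ') = δ ξ' := by
        have h3 : ((s • ξ' : IrrCharacter C) : C → ℂ) 1 = (ξ' : C → ℂ) 1 := by
          rw [haS]
          have := irrE_apply' (resAct φ C hCφ s) ξ' 1
          rwa [map_one] at this
        rw [hδ, hδ] at h3
        exact_mod_cast h3
      show ((μ (s • ξ') : ZMod p) * (δ (s • ξ') : ZMod p)) = _
      rw [h1, h2]) ⊤ (fun _ => AddSubgroup.mem_top _)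
  have h1 : (d : ℂ) = ((∑ ξ' : IrrCharacter C, μ ξ' * δ ξ' : ℕ) : ℂ) := by
    rw [← hd]
    have h2 := classFun_expand_apply (isClassFunction_restrict C (IsIrr.isClassFunction χ.2)) 1
    refine Eq.trans h2 ?_
    push_cast
    refine Finset.sum_congr rfl fun ξ' _ => ?_
    rw [hμ, hδ]
  have h2 : d = ∑ ξ' : IrrCharacter C, μ ξ' * δ ξ' := by exact_mod_cast h1
  have h3 : (d : ZMod p) = ∑ ξ' : IrrCharacter C, (μ ξ' : ZMod p) * (δ ξ' : ZMod p) := by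
    rw [h2]; push_cast; rfl
  rw [h3, ht]
  have h4 : p • t = 0 := by rw [nsmul_eq_mul, CharP.cast_eq_zero, zero_mul]
  rw [h4, add_zero]
  have hfix : ∀ ξ' : IrrCharacter C, ξ' ∈ MulAction.fixedPoints S (IrrCharacter C) ↔
      InvF (resAct φ C hCφ) (ξ' : C → ℂ) := fun ξ' => (invF_iff_irrE _ _).symm
  rw [Finset.sum_eq_single ξ]
  · rw [if_pos ((hfix ξ).2 hξ)]
    have h5 : μ ξ = m := by
      have := (hμ ξ).symm.trans hm
      exact_mod_cast this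
    have h6 : δ ξ = e := by
      have := (hδ ξ).symm.trans he
      exact_mod_cast this
    rw [h5, h6]
  · intro ξ' _ hne'
    split_ifs with h5
    · have h6 : p ∣ μ ξ' := by
        by_contra h7
        exact hne ξ' ((hfix ξ').1 h5) hne' ⟨μ ξ', hμ ξ', h7⟩
      have h7 : (μ ξ' : ZMod p) = 0 := (ZMod.natCast_eq_zero_iff _ _).2 h6
      rw [h7, zero_mul]
    · rfl
  · intro h; exact absurd (Finset.mem_univ _) h

end CfsgH5
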