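import Cfsg.Agent.H5.CentP
import Cfsg.Agent.H4.Bp14

/-!
# Characterization of maximal Brauer pairs
-/

set_option autoImplicit false
open Cfsg MonoidAlgebra
open CfsgH4 hiding centralChar sum_conj

namespace CfsgH5

open scoped ComplexConjugate

variable {G : Type*} [Group G] [Finite G] {p : ℕ} [hp : Fact p.Prime] {M : Ideal AlgInt} [hMp : M.IsPrime]

theorem LE.exists_bot {a b : Subgroup G × MonoidAlgebra (kk M) G} (h : LE p a b) (hne : a.1 ≠ b.1) :
    ∃ c, a.1 ≠ c.1 ∧ NS p a c ∧ LE p c b := by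
  induction h using Relation.ReflTransGen.head_induction_on with
  | refl => exact absurd rfl hne
  | head h1 h2 ih =>
    rename_i a' c
    by_cases h3 : a'.1 = c.1
    · have h4 := h1.eq h3
      subst h4
      exact ih hne
    · exact ⟨c, h3, h1, h2⟩

theorem central_subgroupOf (Q : Subgroup G) : Q.subgroupOf (cz Q) ≤ Subgroup.center (cz Q) := by
  intro w hw
  rw [Subgroup.mem_center_iff]
  intro c
  exact Subtype.ext (Subgroup.mem_centralizer_iff.1 c.2 _ (Subgroup.mem_subgroupOf.1 hw)).symm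

theorem mp_centric (hM : IsPModular p M) {B : MonoidAlgebra (kk M) G} (hB : IsBl (⊤ : Subgroup G) B) {Q : Subgroup G}
    {f : MonoidAlgebra (kk M) G} (hmax : MP p ⊤ B (Q, f)) : DG p (cz Q) f (Q ⊓ cz Q) := by
  obtain ⟨hof, -⟩ := id hmax
  have hbl : IsBl (cz Q) f := hof.2.2.2.1
  obtain ⟨x, -, h1, h2⟩ := pair_defect hM hB hmax (LE.refl (Q, f)) (le_refl (cz Q)) (cz_le_nz Q) hbl le_top
  have h3 : cj x Q ≤ Q := h1.le
  have h4 : cj x Q = Q := by
    apply Subgroup.eq_of_le_of_card_ge h3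
    exact (Subgroup.card_map_of_injective (MulAut.conj x).injective).ge
  have h5 : cp x (Q, f) = (Q, f) := h1.eq h4
  have h6 : ca x f = f := congrArg Prod.snd h5
  have h7 : cj x (cz Q) = cz Q := by rw [← cz_cj, h4]
  rw [h6, h7] at h2
  exact h2

theorem max_pair_iff (hM : IsPModular p M) {Q : Subgroup G} {e : Set (IrrCharacter (cz Q))} (he : IsBrauerPair p M Q e) :
    (∃ B : Set (IrrCharacter G), IsMaximalBrauerPair p M B Q e) ↔
      ∃ θ ∈ e, (∀ z : cz Q, (z : G) ∈ Q → (θ : cz Q → ℂ) z = (θ : cz Q → ℂ) 1) ∧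
        (charDegree (θ : cz Q → ℂ)).factorization p + (Nat.card ↥(Q ⊓ cz Q)).factorization p = (Nat.card (cz Q)).factorization p ∧
        (∀ g : G, g ∈ nz Q → StabilizesBlock (cz Q) e g → (∃ k : ℕ, orderOf g = p ^ k) → g ∈ Q ⊔ cz Q) := by
  classical
  haveI := Fintype.ofFinite (cz Q)
  obtain ⟨hQ, heb⟩ := he
  have hZc := central_subgroupOf Q
  have hZp : IsPGroup p (Q.subgroupOf (cz Q)) := isPGroup_subgroupOf hQ
  have hcard : Nat.card (Q.subgroupOf (cz Q)) = Nat.card ↥(Q ⊓ cz Q) := by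
    rw [← Subgroup.inf_subgroupOf_right]
    exact Nat.card_congr (Subgroup.subgroupOfEquivOfLe inf_le_right).toEquiv
  have hDGiff : IsDefectGroup p M e (Q.subgroupOf (cz Q)) ↔ DG p (cz Q) (idH M (cz Q) e) (Q ⊓ cz Q) := by
    rw [← isDefectGroup_iff_DG' hM heb inf_le_right, Subgroup.inf_subgroupOf_right]
  obtain ⟨κ, hκ⟩ := exists_pexp p (cz Q)
  constructor
  · rintro ⟨B, hB⟩
    obtain ⟨hBb, -, hmax⟩ := (isMaximalBrauerPair_iff hM).1 hB
    have hdg := hDGiff.2 (mp_centric hM (isBl_top hBb) hmax)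
    obtain ⟨η0, hη0, h00⟩ := exists_height_zero p (B := e) (IsPBlock.nonempty heb)
    have hdeg : (charDegree (η0 : cz Q → ℂ)).factorization p + (Nat.card (Q.subgroupOf (cz Q))).factorization p = (Nat.card (cz Q)).factorization p := by
      have h1 := degree_eq (p := p) hη0
      have h2 := defectGroup_card hM heb hdg
      rw [h2, Nat.factorization_pow, Finsupp.smul_apply, Nat.Prime.factorization_self hp.out, smul_eq_mul, mul_one]
      omega
    obtain ⟨-, hmem⟩ := cent_main hM hκ hZp hZc heb hη0 hdeg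
    let θ : IrrCharacter (cz Q) := ⟨_, cent_irr hM hκ hZp hZc hdeg 1⟩
    have hval : ∀ z : Q.subgroupOf (cz Q), (θ : cz Q → ℂ) z = (η0 : cz Q → ℂ) 1 := by
      intro z
      have h := tw_mul hκ hZp (fun z => (((1 : (Q.subgroupOf (cz Q)) →* ℂˣ) z : ℂˣ) : ℂ)) (η0 : cz Q → ℂ) z (x := 1)
        (by simpa using hp.out.one_lt.ne') (Commute.one_right _)
      rw [mul_one, MonoidHom.one_apply, Units.val_one, one_mul] at h
      exact h
    have hval1 : (θ : cz Q → ℂ) 1 = (η0 : cz Q → ℂ) 1 := hval 1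
    refine ⟨θ, (hmem θ).2 ⟨1, rfl⟩, fun z hz => ?_, ?_, ?_⟩
    · have := hval ⟨z, Subgroup.mem_subgroupOf.2 hz⟩
      rw [hval1]; exact this
    · rw [← hcard, ← hdeg, charDegree, hval1]; rfl
    · intro g hg hst ⟨k, hk⟩
      have h1 := inertial_index hM (isBl_top hBb) hmax
      have hgst : g ∈ st (Q, idH M (cz Q) e) := (mem_st_iff heb).2 ⟨hg, hst⟩
      apply mem_of_coprime_pow hk h1
      have hbl : IsBl (cz Q) (idH M (cz Q) e) := isBl_idH heb
      have hle : Q ⊔ cz Q ≤ st (Q, idH M (cz Q) e) := sup_le (self_le_st (a := (Q, idH M (cz Q) e)) hbl.sup) (cz_le_st (a := (Q, idH M (cz Q) e)) hbl.fx)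
      haveI : ((Q ⊔ cz Q).subgroupOf (st (Q, idH M (cz Q) e))).Normal := by
        have h2 : st (Q, idH M (cz Q) e) ≤ nz (Q ⊔ cz Q) := by
          refine (st_le_nz _).trans ?_
          intro x hx
          rw [Subgroup.mem_normalizer_iff'']
          have h1 : cj x (Q ⊔ cz Q) = Q ⊔ cz Q := by
            show (Q ⊔ cz Q).map _ = _
            rw [Subgroup.map_sup]
            have h2 := cj_eq_of_mem_normalizer hx
            have h3 : cj x (cz Q) = cz Q := by rw [← cz_cj, h2]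
            exact congrArg₂ _ h2 h3
          intro y
          rw [← mem_cj, h1]
        exact Subgroup.normal_subgroupOf_of_le_normalizer h2
      have h3 := Subgroup.pow_index_mem ((Q ⊔ cz Q).subgroupOf (st (Q, idH M (cz Q) e))) ⟨g, hgst⟩
      exact Subgroup.mem_subgroupOf.1 h3
  · rintro ⟨θ, hθ, h1, h2, h3⟩
    rw [← hcard] at h2
    obtain ⟨hdg, -⟩ := cent_main hM hκ hZp hZc heb hθ h2
    rw [hDGiff] at hdg
    have hbl : IsBl (cz Q) (idH M (cz Q) e) := isBl_idH heb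
    obtain ⟨B', ⟨hB', hB'e⟩, -⟩ := exists_unique_above hM hQ (le_top : Q ≤ ⊤) le_top hbl
    obtain ⟨B, hB, rfl⟩ := exists_block_of_top hB'
    refine ⟨B, (isMaximalBrauerPair_iff hM).2 ⟨hB, heb, ⟨hQ, le_top, le_top, hbl, hB'e⟩, fun c hc hle => ?_⟩⟩
    by_contra hne
    obtain ⟨d, hd1, hd2, -⟩ := LE.exists_bot hle (fun h => hne h.symm)
    apply hd1
    refine le_antisymm hd2.le ?_
    have hdp : IsPGroup p d.1 := hd2.pb
    have h4 : d.1 ≤ Q ⊔ cz Q := by
      intro x hx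
      refine h3 x (hd2.nle hx) ?_ (orderOf_of_mem_pgroup hdp hx)
      exact (stabilizesBlock_iff heb).2 ⟨nz_le_nz_cz Q (hd2.nle hx), hd2.fx.ca_eq hx⟩
    refine le_of_centric hM hQ hbl hdg h4 hdp ?_
    intro h5
    have h6 := hd2.mul
    simp only at h6
    rw [h5, zero_mul] at h6
    exact hd2.bb.ne h6.symm

end CfsgH5
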