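import Cfsg.Agent.H5.Misc1

/-!
# Miscellaneous block statements, II
-/

set_option autoImplicit false
open Cfsg MonoidAlgebra
open CfsgH4 hiding centralChar sum_conj

namespace CfsgH5

open scoped ComplexConjugate

section indep

variable {G : Type*} [Group G] [Fintype G] {p : ℕ} [hp : Fact p.Prime]

/-- block idempotents for one maximal ideal are integral for the other ones -/
theorem inS_other {M M' : Ideal AlgInt} (hM : IsPModular p M) (hM' : IsPModular p M') {B : Set (IrrCharacter G)} (hB : IsPBlock M' B) :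
    InS M (eSet B) := by
  classical
  haveI := IsPModular.isPrime hM
  haveI := IsPModular.isPrime hM'
  intro y
  rw [coeff_eSet]
  by_cases hy : p ∣ orderOf y
  · rw [blockCoeff_singular hM' (inS_eSet hB) hy]; exact memLocalRing_zero
  · obtain ⟨P⟩ : Nonempty (Sylow p G) := inferInstance
    haveI := Fintype.ofFinite (P : Subgroup G)
    obtain ⟨w, hw, h⟩ := one_of_vanish (a := fun χ : IrrCharacter G => if χ ∈ B then (χ : G → ℂ) y⁻¹ else 0) (by
      intro χ
      split_ifs
      · exact IsCharacter.isIntegral (IsIrr.isCharacter χ.2) _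
      · exact isIntegral_zero) (P : Subgroup G) (by
      intro u hu hu1
      obtain ⟨k, hk⟩ : ∃ k, orderOf u = p ^ k := by
        obtain ⟨k, hk⟩ := P.2 ⟨u, hu⟩
        have h1 : u ^ p ^ k = 1 := congrArg Subtype.val hk
        obtain ⟨m, -, hm⟩ := (Nat.dvd_prime_pow hp.out).1 (orderOf_dvd_of_pow_eq_one h1)
        exact ⟨m, hm⟩
      have hup : p ∣ orderOf u := by
        rcases Nat.eq_zero_or_pos k with rfl | hk0
        · rw [pow_zero, orderOf_eq_one_iff] at hk
          exact absurd hk hu1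
        · rw [hk]; exact dvd_pow_self p hk0.ne'
      have h1 := weak_orth hM' (inS_eSet hB) (x := y⁻¹) (by rw [orderOf_inv]; exact hy) (y := u⁻¹) (by rw [orderOf_inv]; exact hup)
      rw [inv_inv] at h1
      refine Eq.trans (Finset.sum_congr rfl fun χ _ => ?_) h1
      split_ifs
      · rfl
      · rw [zero_mul])
    have h2 : blockCoeff B y = (Nat.card G : ℂ)⁻¹ * ((Nat.card (P : Subgroup G) : ℂ) * w) := by
      rw [blockCoeff_eq, ← h]
      congr 1
      refine Finset.sum_congr rfl fun χ _ => ?_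
      split_ifs
      · ring
      · simp
    have h3 : (Nat.card G : ℂ) = (Nat.card (P : Subgroup G) : ℂ) * ((P : Subgroup G).index : ℂ) := by
      rw [← Nat.cast_mul, Subgroup.card_mul_index]
    have h4 : (Nat.card (P : Subgroup G) : ℂ) ≠ 0 := by exact_mod_cast Nat.card_pos.ne'
    have h5 : ((P : Subgroup G).index : ℂ) ≠ 0 := by exact_mod_cast Subgroup.FiniteIndex.index_ne_zero
    have h6 : blockCoeff B y = ((1 : ℕ) : ℂ) / ((P : Subgroup G).index : ℂ) * w := by
      rw [h2, h3]
      field_simp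
      push_cast; ring
    rw [h6]
    refine MemLocalRing.mul (memLocalRing_div hM one_ne_zero Subgroup.FiniteIndex.index_ne_zero ?_) (memLocalRing_of_isIntegral hw)
    rw [Nat.factorization_eq_zero_of_not_dvd P.not_dvd_index]
    exact Nat.zero_le _

/-- S0902 -/
theorem block_indep {M M' : Ideal AlgInt} (hM : IsPModular p M) (hM' : IsPModular p M') {χ ψ : IrrCharacter G}
    (h : SameBlock M (χ : G → ℂ) (ψ : G → ℂ)) : SameBlock M' (χ : G → ℂ) (ψ : G → ℂ) := by
  haveI := IsPModular.isPrime hM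
  haveI := IsPModular.isPrime hM'
  have h1 := sameBlock_om χ.2 ψ.2 h (isCen_eSet (blockOf M' (χ : G → ℂ))) (inS_other hM hM' (isPBlock_blockOf χ))
  rw [om_eSet, om_eSet, if_pos (mem_blockOf_self χ)] at h1
  split_ifs at h1 with h2
  · exact mem_blockOf.1 h2
  · rw [sub_zero] at h1
    exact absurd h1 not_memLocalIdeal_one

end indep

section ind

variable {G : Type*} [Group G] [Fintype G] {p : ℕ} [hp : Fact p.Prime] {M : Ideal AlgInt}

/-- S4725 -/
theorem mult_height_zero (hM : IsPModular p M) {H : Subgroup G} {b : Set (IrrCharacter H)} {B : Set (IrrCharacter G)}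
    (hind : IsInducedBlock M H b B) (hdef : blockDefect p b = blockDefect p B) {ζ : IrrCharacter H} (hζ : ζ ∈ b)
    (h0 : blockHeight p b (ζ : H → ℂ) = 0) : ∃ χ ∈ B, blockHeight p B (χ : G → ℂ) = 0 ∧
      ∃ a : ℕ, classInner (indFun H (ζ : H → ℂ)) (χ : G → ℂ) = (a : ℂ) ∧ ¬ p ∣ a := by
  classical
  haveI := IsPModular.isPrime hM
  haveI := Fintype.ofFinite H
  have hB := hind.2.1
  obtain ⟨χ0, hχ0⟩ := IsPBlock.nonempty hB
  have h1 := induced_om hind hζ hχ0 (isCen_eSet B) (inS_eSet hB)
  rw [om_eSet, if_pos hχ0] at h1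
  have hn : ∀ χ : IrrCharacter G, ∃ a : ℕ, classInner (indFun H (ζ : H → ℂ)) (χ : G → ℂ) = (a : ℂ) := fun χ =>
    IsCharacter.inner_irr_nat (isCharacter_indFun H (IsIrr.isCharacter ζ.2)) χ.2
  choose n hn' using hn
  have hG : (Nat.card G : ℂ) ≠ 0 := by exact_mod_cast Nat.card_pos.ne'
  have hH : (Nat.card H : ℂ) ≠ 0 := by exact_mod_cast Nat.card_pos.ne'
  have hζ1 : (charDegree (ζ : H → ℂ) : ℂ) ≠ 0 := by exact_mod_cast charDegree_ne_zero ζ
  -- the value of the central character
  have h2 : om (ζ : H → ℂ) (resA H (eSet B)) = ∑ χ : IrrCharacter G, if χ ∈ B then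
      ((charDegree (χ : G → ℂ) * Nat.card H * n χ : ℕ) : ℂ) / ((Nat.card G * charDegree (ζ : H → ℂ) : ℕ) : ℂ) else 0 := by
    rw [om, ev_eq_sum, (IsIrr.one_eq ζ.2).1, div_eq_iff hζ1, Finset.sum_mul]
    have h3 : ∀ h : H, (resA H (eSet B)).coeff h * (ζ : H → ℂ) h = ∑ χ : IrrCharacter G, if χ ∈ B then
        (Nat.card G : ℂ)⁻¹ * ((charDegree (χ : G → ℂ) : ℂ) * ((ζ : H → ℂ) h * conj ((χ : G → ℂ) (h : G)))) else 0 := by
      intro h
      rw [coeff_resA, coeff_eSet, blockCoeff_eq, Finset.mul_sum, Finset.sum_mul]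
      refine Finset.sum_congr rfl fun χ _ => ?_
      split_ifs
      · rw [(IsIrr.one_eq χ.2).1, IsCharacter.inv_eq (IsIrr.isCharacter χ.2)]; ring
      · simp
    rw [Finset.sum_congr rfl fun h _ => h3 h, Finset.sum_comm]
    refine Finset.sum_congr rfl fun χ _ => ?_
    split_ifs
    · rw [← Finset.mul_sum, ← Finset.mul_sum]
      have h4 : ∑ h : H, (ζ : H → ℂ) h * conj ((χ : G → ℂ) (h : G)) = (Nat.card H : ℂ) * n χ := by
        rw [← hn', frobenius H _ (IsIrr.isClassFunction χ.2), classInner, ← mul_assoc, mul_inv_cancel₀ hH, one_mul]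
      rw [h4]
      push_cast
      field_simp
    · simp
  by_contra hcon
  push Not at hcon
  have h3 : MemLocalIdeal M (om (ζ : H → ℂ) (resA H (eSet B))) := by
    rw [h2]
    refine memLocalIdeal_sum _ _ fun χ _ => ?_
    split_ifs with hχ
    · rcases Nat.eq_zero_or_pos (n χ) with h4 | h4
      · rw [h4]; simpa using memLocalIdeal_zero
      · apply memLocalIdeal_div hM
          (Nat.mul_ne_zero (Nat.mul_ne_zero (charDegree_ne_zero χ) Nat.card_pos.ne') h4.ne')
          (Nat.mul_ne_zero Nat.card_pos.ne' (charDegree_ne_zero ζ))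
        rw [Nat.factorization_mul Nat.card_pos.ne' (charDegree_ne_zero ζ),
          Nat.factorization_mul (Nat.mul_ne_zero (charDegree_ne_zero χ) Nat.card_pos.ne') h4.ne',
          Nat.factorization_mul (charDegree_ne_zero χ) Nat.card_pos.ne', Finsupp.add_apply, Finsupp.add_apply, Finsupp.add_apply]
        have h5 := degree_eq (p := p) hζ
        have h6 := degree_eq (p := p) hχ
        by_cases h7 : blockHeight p B (χ : G → ℂ) = 0
        · have h8 := hcon χ hχ h7 (n χ) (hn' χ)
          have h9 : 0 < (n χ).factorization p := Nat.Prime.factorization_pos_of_dvd hp.out h4.ne' h8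
          omega
        · omega
    · exact memLocalIdeal_zero
  have h4 := MemLocalIdeal.sub h3 h1
  rw [sub_sub_cancel] at h4
  exact not_memLocalIdeal_one h4

end ind

end CfsgH5
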