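import Cfsg.Agent.H5.Misc2
import Cfsg.Agent.H4.Burnside
import Cfsg.Agent.H4.Cover
import Cfsg.Agent.H4.Extend

/-!
# Characters of the principal block of small degree
-/

set_option autoImplicit false
open Cfsg MonoidAlgebra
open CfsgH4 hiding centralChar sum_conj

namespace CfsgH5

open scoped ComplexConjugate

section det

variable {G : Type*} [Group G] [Finite G]

theorem detChar_add {χ ψ : G → ℂ} (hχ : IsCharacter G χ) (hψ : IsCharacter G ψ) (g : G) :
    detChar (χ + ψ) g = detChar χ g * detChar ψ g := by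
  obtain ⟨n, ρ, rfl⟩ := hχ
  obtain ⟨m, σ, rfl⟩ := hψ
  let τ : Representation ℂ G ((Fin n → ℂ) × (Fin m → ℂ)) :=
    { toFun := fun g => LinearMap.prodMap (ρ g) (σ g)
      map_one' := by rw [map_one, map_one]; ext <;> simp
      map_mul' := fun a b => by rw [map_mul, map_mul]; ext <;> simp }
  have h1 : τ.character = ρ.character + σ.character := by
    funext g
    show LinearMap.trace ℂ _ (LinearMap.prodMap (ρ g) (σ g)) = _
    rw [LinearMap.trace_prodMap']
    rfl
  rw [← h1, detChar_eq, detChar_eq, detChar_eq]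
  exact LinearMap.det_prodMap _ _

theorem detChar_nsmul {χ : G → ℂ} (hχ : IsCharacter G χ) (n : ℕ) (g : G) : detChar (n • χ) g = detChar χ g ^ n := by
  induction n with
  | zero =>
    rw [zero_smul, pow_zero]
    have h1 : ((1 : Representation ℂ G (Fin 0 → ℂ))).character = 0 := by
      funext g
      show LinearMap.trace ℂ _ _ = _
      rw [Subsingleton.elim ((1 : Representation ℂ G (Fin 0 → ℂ)) g) 0, map_zero]; rfl
    rw [← h1, detChar_eq]
    exact LinearMap.det_eq_one_of_subsingleton _
  | succ n ih =>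
    rw [succ_nsmul, detChar_add (isCharacter_nsmul hχ n) hχ, ih, pow_succ]

end det

section small

variable {G : Type*} [Group G] [Fintype G] {p : ℕ} [hp : Fact p.Prime] {M : Ideal AlgInt}

/-- values of principal block characters on elements centralizing a Sylow subgroup -/
theorem principal_val (hM : IsPModular p M) {χ : IrrCharacter G} (hχ : χ ∈ principalBlock M G) (P : Sylow p G) {y : G}
    (hy : y ∈ Subgroup.centralizer ((P : Subgroup G) : Set G)) :
    ¬ p ∣ (Subgroup.centralizer ({y} : Set G)).index ∧ MemLocalIdeal M ((χ : G → ℂ) y / (χ : G → ℂ) 1 - 1) := by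
  haveI := IsPModular.isPrime hM
  have h1 : ¬ p ∣ (Subgroup.centralizer ({y} : Set G)).index := by
    have h2 : (P : Subgroup G) ≤ Subgroup.centralizer ({y} : Set G) := by
      intro x hx
      rw [Subgroup.mem_centralizer_singleton_iff]
      exact Subgroup.mem_centralizer_iff.1 hy x hx
    intro h3
    exact P.not_dvd_index (h3.trans (Subgroup.index_dvd_of_le h2))
  refine ⟨h1, ?_⟩
  have h2 := (IsPBlock.mem_iff isPBlock_principalBlock irrOne_mem).1 hχ y
  have h3 : centralChar ((irrOne G : IrrCharacter G) : G → ℂ) y = ((Subgroup.centralizer ({y} : Set G)).index : ℂ) := by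
    rw [centralChar_eq_mul]
    have h4 : ((irrOne G : IrrCharacter G) : G → ℂ) = fun _ => 1 := rfl
    rw [h4, charDegree_one]; simp
  rw [h3, centralChar_eq_mul] at h2
  have h5 : (charDegree (χ : G → ℂ) : ℂ) ≠ 0 := by exact_mod_cast charDegree_ne_zero χ
  have h6 : ((Subgroup.centralizer ({y} : Set G)).index : ℂ) - ((Subgroup.centralizer ({y} : Set G)).index : ℂ) / (charDegree (χ : G → ℂ) : ℂ) * (χ : G → ℂ) y =
      -(((Subgroup.centralizer ({y} : Set G)).index : ℂ) * ((χ : G → ℂ) y / (χ : G → ℂ) 1 - 1)) := by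
    rw [(IsIrr.one_eq χ.2).1]
    field_simp
    ring
  rw [h6] at h2
  replace h2 := MemLocalIdeal.neg h2
  rw [neg_neg] at h2
  have hi0 : (Subgroup.centralizer ({y} : Set G)).index ≠ 0 := Subgroup.FiniteIndex.index_ne_zero
  have h7 : MemLocalRing M (((1 : ℕ) : ℂ) / ((Subgroup.centralizer ({y} : Set G)).index : ℂ)) := by
    apply memLocalRing_div hM one_ne_zero hi0
    rw [Nat.factorization_eq_zero_of_not_dvd h1]
    exact Nat.zero_le _
  have h8 := MemLocalIdeal.mul_left h7 h2
  have h9 : (((1 : ℕ) : ℂ) / ((Subgroup.centralizer ({y} : Set G)).index : ℂ)) * (((Subgroup.centralizer ({y} : Set G)).index : ℂ) * ((χ : G → ℂ) y / (χ : G → ℂ) 1 - 1)) =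
      ((χ : G → ℂ) y / (χ : G → ℂ) 1 - 1) := by
    have : ((Subgroup.centralizer ({y} : Set G)).index : ℂ) ≠ 0 := by exact_mod_cast hi0
    field_simp
    push_cast
    ring
  rwa [h9] at h8

/-- S0910 -/
theorem simple_power (hM : IsPModular p M) [IsSimpleGroup G] (hna : ∃ a b : G, a * b ≠ b * a) {χ : IrrCharacter G}
    (hχ : χ ∈ principalBlock M G) {k : ℕ} (hdeg : (χ : G → ℂ) 1 = (p : ℂ) ^ k) : (χ : G → ℂ) = fun _ => 1 := by
  classical
  haveI := IsPModular.isPrime hM
  by_contra hne
  have hne' : χ ≠ irrOne G := fun h => hne (congrArg Subtype.val h)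
  obtain ⟨P⟩ : Nonempty (Sylow p G) := inferInstance
  by_cases hP : (P : Subgroup G) = ⊥
  · -- `p` does not divide the order
    have h1 : ¬ p ∣ Nat.card G := by
      intro h2
      exact P.ne_bot_of_dvd_card h2 hP
    obtain ⟨A, a1, -, -, -, -, -, -, a8, -⟩ := contr hM isPBlock_principalBlock hχ
    apply a8 (irrOne G) irrOne_mem (height_principal _)
    have h3 : regInner p (χ : G → ℂ) ((irrOne G : IrrCharacter G) : G → ℂ) = (Nat.card G : ℂ) * classInner (χ : G → ℂ) ((irrOne G : IrrCharacter G) : G → ℂ) := by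
      rw [classInner, ← mul_assoc, mul_inv_cancel₀ (by exact_mod_cast Nat.card_pos.ne'), one_mul, regInner]
      refine Finset.sum_congr rfl fun x _ => ?_
      rw [if_neg (fun h => h1 (h.trans (orderOf_dvd_natCard x)))]
    rw [classInner_irr', if_neg hne', mul_zero] at h3
    have h4 := a1 (irrOne G)
    rw [h3, mul_zero] at h4
    have h5 : A (irrOne G) = 0 := by
      have := (mul_eq_zero.1 h4.symm).resolve_left (by exact_mod_cast Nat.card_pos.ne')
      exact_mod_cast this
    rw [h5]; exact dvd_zero _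
  · -- a central element of `P`
    haveI : Nontrivial (P : Subgroup G) := by rwa [Subgroup.nontrivial_iff_ne_bot]
    haveI := P.2.center_nontrivial
    obtain ⟨z, hz⟩ := exists_ne (1 : Subgroup.center (P : Subgroup G))
    have hz1 : ((z : (P : Subgroup G)) : G) ≠ 1 := by
      intro h
      apply hz
      exact Subtype.ext (Subtype.ext h)
    have hzC : ((z : (P : Subgroup G)) : G) ∈ Subgroup.centralizer ((P : Subgroup G) : Set G) := by
      rw [Subgroup.mem_centralizer_iff]
      intro x hx
      have := Subgroup.mem_center_iff.1 z.2 ⟨x, hx⟩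
      exact congrArg Subtype.val this
    set g : G := ((z : (P : Subgroup G)) : G) with hg
    obtain ⟨h1, h2⟩ := principal_val hM hχ P hzC
    have hd : (χ : G → ℂ) 1 = ((p ^ k : ℕ) : ℂ) := by rw [hdeg]; push_cast; rfl
    have hcop : Nat.Coprime (p ^ k) (Nat.card {x : G // IsConj g x}) := by
      have h3 : Nat.card {x : G // IsConj g x} * Nat.card (Subgroup.centralizer ({g} : Set G)) = Nat.card G := card_isConj_mul_centralizer g
      have h4 := Subgroup.index_mul_card (Subgroup.centralizer ({g} : Set G))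
      have h5 : Nat.card {x : G // IsConj g x} = (Subgroup.centralizer ({g} : Set G)).index :=
        Nat.eq_of_mul_eq_mul_right Nat.card_pos (h3.trans h4.symm)
      rw [h5]
      exact Nat.Coprime.pow_left k ((Nat.Prime.coprime_iff_not_dvd hp.out).2 h1)
    rcases burnside_zero_or_norm χ.2 hd g hcop with h3 | h3
    · rw [h3, zero_div, zero_sub] at h2
      replace h2 := MemLocalIdeal.neg h2
      rw [neg_neg] at h2
      exact not_memLocalIdeal_one h2
    · -- faithful
      have hker : ∀ x : G, (χ : G → ℂ) x = (χ : G → ℂ) 1 → x = 1 := by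
        have hn := charKerSub_normal (IsIrr.isCharacter χ.2)
        rcases hn.eq_bot_or_eq_top with h4 | h4
        · intro x hx
          have h5 : x ∈ charKerSub (IsIrr.isCharacter χ.2) := hx
          rw [h4] at h5
          exact Subgroup.mem_bot.1 h5
        · exfalso
          apply hne
          have h5 : ∀ x : G, (χ : G → ℂ) x = (χ : G → ℂ) 1 := by
            intro x
            have h6 : x ∈ charKerSub (IsIrr.isCharacter χ.2) := by rw [h4]; trivial
            exact h6
          have h6 := classInner_irr' χ χ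
          have h7 := classInner_irr' χ (irrOne G)
          rw [if_neg hne'] at h7
          exfalso
          have h8 : classInner (χ : G → ℂ) ((irrOne G : IrrCharacter G) : G → ℂ) = (χ : G → ℂ) 1 := by
            rw [classInner]
            have h9 : ∀ x : G, (χ : G → ℂ) x * conj (((irrOne G : IrrCharacter G) : G → ℂ) x) = (χ : G → ℂ) 1 := by
              intro x
              rw [h5 x]
              show (χ : G → ℂ) 1 * conj (1 : ℂ) = _
              rw [map_one, mul_one]
            rw [Finset.sum_congr rfl fun x _ => h9 x, Finset.sum_const, Finset.card_univ, nsmul_eq_mul, ← Nat.card_eq_fintype_card,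
              ← mul_assoc, inv_mul_cancel₀ (by exact_mod_cast Nat.card_pos.ne'), one_mul]
          rw [h8] at h7
          exact IsIrr.one_ne_zero χ.2 h7
      have h4 := central_of_norm (IsIrr.isCharacter χ.2) hker (g := g) (by rw [h3, hd]; simp)
      have h5 : Subgroup.center G = ⊥ := by
        rcases (inferInstance : (Subgroup.center G).Normal).eq_bot_or_eq_top with h6 | h6
        · exact h6
        · exfalso
          obtain ⟨a, b, hab⟩ := hna
          apply hab
          have h7 : b ∈ Subgroup.center G := by rw [h6]; trivial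
          exact Subgroup.mem_center_iff.1 h7 a
      rw [h5] at h4
      exact hz1 (Subgroup.mem_bot.1 h4)

theorem hom_eq_one_of_perfect (hperf : commutator G = ⊤) (f : G →* ℂˣ) (g : G) : f g = 1 := by
  have h1 : commutator G ≤ f.ker := Abelianization.commutator_subset_ker f
  have h2 : g ∈ f.ker := h1 (by rw [hperf]; trivial)
  exact h2

/-- S4729, element version -/
theorem perfect_small (hM : IsPModular p M) (hperf : commutator G = ⊤) (P : Sylow p G) {χ : IrrCharacter G}
    (hχ : χ ∈ principalBlock M G) (hfaith : ∀ g : G, (χ : G → ℂ) g = (χ : G → ℂ) 1 → g = 1)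
    (hdeg : charDegree (χ : G → ℂ) < 2 * p) {y : G} (hy : y ∈ Subgroup.centralizer ((P : Subgroup G) : Set G)) (hreg : ¬ p ∣ orderOf y) :
    y = 1 := by
  classical
  haveI := IsPModular.isPrime hM
  set C : Subgroup G := Subgroup.zpowers y with hC
  haveI := Fintype.ofFinite C
  have hCc : ∀ c : C, (c : G) ∈ Subgroup.centralizer ((P : Subgroup G) : Set G) := fun c => by
    obtain ⟨n, hn⟩ := c.2
    rw [← hn]
    exact Subgroup.zpow_mem _ hy n
  have hcardC : ¬ p ∣ Nat.card C := by rw [hC, Nat.card_zpowers]; exact hreg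
  have hCne : (Nat.card C : ℂ) ≠ 0 := by exact_mod_cast Nat.card_pos.ne'
  have hχ1 : (χ : G → ℂ) 1 ≠ 0 := IsIrr.one_ne_zero χ.2
  -- values are congruent to the degree
  have hval : ∀ c : C, MemLocalIdeal M ((χ : G → ℂ) c - (χ : G → ℂ) 1) := by
    intro c
    have h1 := (principal_val hM hχ P (hCc c)).2
    have h2 := MemLocalIdeal.mul_left (memLocalRing_char (IsIrr.isCharacter χ.2) 1) h1
    have h3 : (χ : G → ℂ) 1 * ((χ : G → ℂ) c / (χ : G → ℂ) 1 - 1) = (χ : G → ℂ) c - (χ : G → ℂ) 1 := by
      field_simp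
    rwa [h3] at h2
  have hres := isCharacter_restrict C (IsIrr.isCharacter χ.2)
  have hn : ∀ ξ : IrrCharacter C, ∃ n : ℕ, classInner (fun c : C => (χ : G → ℂ) c) (ξ : C → ℂ) = n := fun ξ =>
    IsCharacter.inner_irr_nat hres ξ.2
  choose n hn using hn
  -- the irreducible characters of `C` are linear
  have hlin : ∀ ξ : IrrCharacter C, ∃ f : C →* ℂˣ, (ξ : C → ℂ) = fun c => (f c : ℂ) := by
    intro ξ
    apply linear_of_comm_image ξ.2
    intro a b z
    have h1 : a * b * a⁻¹ * b⁻¹ = 1 := by
      have : a * b = b * a := mul_comm' a b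
      rw [this]; group
    rw [h1, mul_one]
  -- the multiplicity of nontrivial characters is divisible by `p`
  have hdvd : ∀ ξ : IrrCharacter C, ξ ≠ irrOne C → p ∣ n ξ := by
    intro ξ hξ
    have h1 : MemLocalIdeal M ((n ξ : ℂ)) := by
      have h2 : classInner ((irrOne C : IrrCharacter C) : C → ℂ) (ξ : C → ℂ) = 0 := by
        rw [classInner_irr', if_neg (fun h => hξ h.symm)]
      have h3 : (n ξ : ℂ) = classInner (fun c : C => (χ : G → ℂ) c) (ξ : C → ℂ) - (χ : G → ℂ) 1 * classInner ((irrOne C : IrrCharacter C) : C → ℂ) (ξ : C → ℂ) := by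
        rw [h2, hn]; ring
      have h4 : (n ξ : ℂ) = ((1 : ℕ) : ℂ) / (Nat.card C : ℂ) * ∑ c : C, ((χ : G → ℂ) c - (χ : G → ℂ) 1) * conj ((ξ : C → ℂ) c) := by
        rw [h3, classInner, classInner, Nat.cast_one, one_div, mul_left_comm, ← mul_sub, Finset.mul_sum, ← Finset.sum_sub_distrib]
        congr 1
        refine Finset.sum_congr rfl fun c _ => ?_
        show _ - (χ : G → ℂ) 1 * ((1 : ℂ) * _) = _
        ring
      rw [h4]
      refine MemLocalIdeal.mul_left (memLocalRing_div hM one_ne_zero Nat.card_pos.ne' ?_) (memLocalIdeal_sum _ _ fun c _ => ?_)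
      · rw [Nat.factorization_eq_zero_of_not_dvd hcardC]; exact Nat.zero_le _
      · refine MemLocalIdeal.mul_right (hval c) ?_
        rw [← IsCharacter.inv_eq (IsIrr.isCharacter ξ.2)]
        exact memLocalRing_char (IsIrr.isCharacter ξ.2) _
    exact (memLocalIdeal_natCast_iff hM _).1 h1
  -- expansion
  have hexp : ∀ c : C, (χ : G → ℂ) c = ∑ ξ : IrrCharacter C, (n ξ : ℂ) * (ξ : C → ℂ) c := by
    intro c
    have h1 := classFun_apply (IsCharacter.isClassFunction hres) c
    have h2 : (χ : G → ℂ) c = ∑ ξ : IrrCharacter C, classInner (fun c : C => (χ : G → ℂ) c) (ξ : C → ℂ) * (ξ : C → ℂ) c := h1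
    rw [h2]
    exact Finset.sum_congr rfl fun ξ _ => by rw [hn]
  have hsum : charDegree (χ : G → ℂ) = ∑ ξ : IrrCharacter C, n ξ := by
    have h1 := hexp 1
    rw [Subgroup.coe_one, (IsIrr.one_eq χ.2).1] at h1
    have h2 : ∀ ξ : IrrCharacter C, (ξ : C → ℂ) 1 = 1 := by
      intro ξ
      obtain ⟨f, hf⟩ := hlin ξ
      rw [hf]; simp
    simp only [h2, mul_one] at h1
    exact_mod_cast h1
  by_contra hy1
  set yC : C := ⟨y, Subgroup.mem_zpowers y⟩ with hyC
  -- some nontrivial character occurs
  have hex : ∃ ξ : IrrCharacter C, ξ ≠ irrOne C ∧ n ξ ≠ 0 := by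
    by_contra hcon
    push Not at hcon
    apply hy1
    apply hfaith
    have h1 := hexp yC
    have h2 := hexp 1
    have h3 : ∀ c : C, ∑ ξ : IrrCharacter C, (n ξ : ℂ) * (ξ : C → ℂ) c = (n (irrOne C) : ℂ) := by
      intro c
      rw [Finset.sum_eq_single (irrOne C)]
      · show _ * (1 : ℂ) = _
        rw [mul_one]
      · intro ξ _ hξ
        rw [hcon ξ hξ]; simp
      · intro h; exact absurd (Finset.mem_univ _) h
    rw [h3] at h1 h2
    rw [Subgroup.coe_one] at h2
    show (χ : G → ℂ) y = _
    rw [h2]; exact h1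
  obtain ⟨ξ, hξ, hnξ⟩ := hex
  have hpξ : p ≤ n ξ := Nat.le_of_dvd (Nat.pos_of_ne_zero hnξ) (hdvd ξ hξ)
  have hothers : ∀ ξ' : IrrCharacter C, ξ' ≠ irrOne C → ξ' ≠ ξ → n ξ' = 0 := by
    intro ξ' h1 h2
    by_contra h3
    have h4 : p ≤ n ξ' := Nat.le_of_dvd (Nat.pos_of_ne_zero h3) (hdvd ξ' h1)
    have h5 : n ξ + n ξ' ≤ ∑ ξ : IrrCharacter C, n ξ := by
      rw [← Finset.sum_pair (f := n) (fun h => h2 h.symm)]
      exact Finset.sum_le_sum_of_subset (Finset.subset_univ _)
    omega
  have hnp : n ξ = p := by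
    obtain ⟨k, hk⟩ := hdvd ξ hξ
    have h5 : n ξ ≤ ∑ ξ : IrrCharacter C, n ξ := Finset.single_le_sum (fun _ _ => Nat.zero_le _) (Finset.mem_univ ξ)
    have h6 : k < 2 := by
      by_contra h7
      push Not at h7
      have : p * 2 ≤ p * k := Nat.mul_le_mul_left p h7
      omega
    have h7 : k ≠ 0 := by rintro rfl; exact hnξ (by rw [hk, mul_zero])
    have h8 : k = 1 := by omega
    rw [hk, h8, mul_one]
  obtain ⟨f, hf⟩ := hlin ξ
  -- the restriction
  have hform : (fun c : C => (χ : G → ℂ) c) = n (irrOne C) • ((irrOne C : IrrCharacter C) : C → ℂ) + p • (ξ : C → ℂ) := by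
    funext c
    rw [Pi.add_apply, Pi.smul_apply, Pi.smul_apply, nsmul_eq_mul, nsmul_eq_mul]
    show (χ : G → ℂ) c = _
    rw [hexp c, ← Finset.sum_subset (Finset.subset_univ ({irrOne C, ξ} : Finset (IrrCharacter C)))]
    · rw [Finset.sum_pair (fun h => hξ h.symm), hnp]
    · intro ξ' _ h1
      rw [Finset.mem_insert, Finset.mem_singleton, not_or] at h1
      rw [hothers ξ' h1.1 h1.2]; simp
  -- determinants
  obtain ⟨d, hd⟩ := exists_det_hom (IsIrr.isCharacter χ.2)
  have h1 : detChar (fun c : C => (χ : G → ℂ) c) yC = 1 := by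
    have h2 := detChar_comp C.subtype (IsIrr.isCharacter χ.2) yC
    have h3 : detChar (fun c : C => (χ : G → ℂ) c) yC = detChar (χ : G → ℂ) y := h2
    rw [h3, hd, hom_eq_one_of_perfect hperf d y, Units.val_one]
  have hone : ((irrOne C : IrrCharacter C) : C → ℂ) = fun c => ((1 : C →* ℂˣ) c : ℂ) := by
    funext c
    show (1 : ℂ) = _
    simp
  rw [hform, detChar_add (isCharacter_nsmul (IsIrr.isCharacter (irrOne C).2) _) (isCharacter_nsmul (IsIrr.isCharacter ξ.2) _),
    detChar_nsmul (IsIrr.isCharacter (irrOne C).2), detChar_nsmul (IsIrr.isCharacter ξ.2), hone, hf, detChar_linear, detChar_linear] at h1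
  simp only [MonoidHom.one_apply, Units.val_one, one_pow, one_mul] at h1
  -- the order
  have h2 : f yC ^ p = 1 := by
    apply Units.ext
    rw [Units.val_pow_eq_pow_val, h1, Units.val_one]
  have h3 : f yC ^ Nat.card C = 1 := by
    rw [← map_pow, pow_card_eq_one', map_one]
  have h4 : f yC = 1 := by
    have h5 : orderOf (f yC) ∣ Nat.gcd p (Nat.card C) := Nat.dvd_gcd (orderOf_dvd_of_pow_eq_one h2) (orderOf_dvd_of_pow_eq_one h3)
    rw [(Nat.Prime.coprime_iff_not_dvd hp.out).2 hcardC |>.gcd_eq_one] at h5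
    exact orderOf_eq_one_iff.1 (Nat.dvd_one.1 h5)
  apply hξ
  apply Subtype.ext
  rw [hf, hone]
  funext c
  have h5 : c = yC ^ (c.2.choose) := by
    apply Subtype.ext
    rw [Subgroup.coe_zpow]
    exact c.2.choose_spec.symm
  rw [h5, map_zpow, h4, one_zpow]
  simp

end small

end CfsgH5
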