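import Cfsg.Agent.H5.ItoM
import Cfsg.Agent.H5.Cover2
import Cfsg.Agent.H5.NExt
import Cfsg.Agent.H4.HB
import Cfsg.Agent.H4.Glb5
import Cfsg.Agent.H4.Degrees
import Cfsg.Agent.H3.Simp
import Cfsg.Agent.H3.PCentral

/-!
# Groups with a normal complement and one irreducible character of degree divisible by the prime
-/

set_option autoImplicit false

open Cfsg CfsgH4

namespace CfsgH5

universe u

variable {G : Type u} [Group G] [Finite G] {p : ℕ} [hp : Fact p.Prime]

theorem carrier_mul (g : G) :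
    Nat.card (ConjClasses.mk g).carrier * Nat.card (Subgroup.centralizer ({g} : Set G)) = Nat.card G := by
  rw [← CfsgH3.Simp.card_class_mul' g]
  congr 1
  exact Nat.card_congr (Equiv.subtypeEquivRight fun h => ConjClasses.mem_carrier_iff_mk_eq)

theorem carrier_index (g : G) : Nat.card (ConjClasses.mk g).carrier = (Subgroup.centralizer ({g} : Set G)).index := by
  have h1 := carrier_mul g
  rw [← Subgroup.index_mul_card (Subgroup.centralizer ({g} : Set G))] at h1
  exact Nat.eq_of_mul_eq_mul_right Nat.card_pos h1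

/-- classes of size prime to the prime when the normalizer of a Sylow subgroup is its centralizer -/
theorem card_pclass (P : Sylow p G) (hD : Subgroup.normalizer ((P : Subgroup G) : Set G) ≤ Subgroup.centralizer ((P : Subgroup G) : Set G)) :
    Nat.card {K : ConjClasses G // ¬ p ∣ Nat.card K.carrier} =
      Nat.card (ConjClasses (Subgroup.normalizer ((P : Subgroup G) : Set G))) := by
  symm
  have hmem : ∀ K : ConjClasses (Subgroup.normalizer ((P : Subgroup G) : Set G)),
      ¬ p ∣ Nat.card (ConjClasses.map (Subgroup.normalizer ((P : Subgroup G) : Set G)).subtype K).carrier := by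
    intro K
    obtain ⟨d, rfl⟩ := ConjClasses.mk_surjective K
    have h1 : ConjClasses.map (Subgroup.normalizer ((P : Subgroup G) : Set G)).subtype (ConjClasses.mk d) = ConjClasses.mk (d : G) := rfl
    rw [h1, carrier_index]
    have h2 : (P : Subgroup G) ≤ Subgroup.centralizer ({(d : G)} : Set G) := by
      intro x hx
      rw [Subgroup.mem_centralizer_singleton_iff]
      exact Subgroup.mem_centralizer_iff.1 (hD d.2) x hx
    exact fun h3 => P.not_dvd_index (h3.trans (Subgroup.index_dvd_of_le h2))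
  apply Nat.card_congr
  refine Equiv.ofBijective (fun K => ⟨ConjClasses.map (Subgroup.normalizer ((P : Subgroup G) : Set G)).subtype K, hmem K⟩) ⟨?_, ?_⟩
  · intro K K' h
    obtain ⟨d, rfl⟩ := ConjClasses.mk_surjective K
    obtain ⟨d', rfl⟩ := ConjClasses.mk_surjective K'
    have h1 : ConjClasses.mk (d : G) = ConjClasses.mk (d' : G) := congrArg Subtype.val h
    rw [ConjClasses.mk_eq_mk_iff_isConj, isConj_iff] at h1
    obtain ⟨x, hx⟩ := h1
    obtain ⟨n, hn, hn2⟩ := P.conj_eq_normalizer_conj_of_mem_centralizer (d : G) x⁻¹ (hD d.2) (by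
      rw [inv_inv, hx]; exact hD d'.2)
    rw [inv_inv, hx] at hn2
    rw [ConjClasses.mk_eq_mk_iff_isConj, isConj_iff]
    refine ⟨⟨n, hn⟩⁻¹, Subtype.ext ?_⟩
    change n⁻¹ * (d : G) * n⁻¹⁻¹ = d'
    rw [inv_inv, hn2]
  · rintro ⟨K, hK⟩
    obtain ⟨g, rfl⟩ := ConjClasses.mk_surjective K
    rw [carrier_index] at hK
    obtain ⟨Q, hQ⟩ := CfsgH3.exists_sylow_le_of_not_dvd _ hK
    obtain ⟨x, hx⟩ := MulAction.exists_smul_eq G P Q
    have h1 : x⁻¹ * g * x ∈ Subgroup.centralizer ((P : Subgroup G) : Set G) := by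
      rw [Subgroup.mem_centralizer_iff]
      intro y hy
      have h2 : x * y * x⁻¹ ∈ (Q : Subgroup G) := by
        rw [← hx]
        exact Subgroup.smul_mem_pointwise_smul y (MulAut.conj x) (P : Subgroup G) hy
      have h3 := Subgroup.mem_centralizer_singleton_iff.1 (hQ h2)
      calc y * (x⁻¹ * g * x) = x⁻¹ * ((x * y * x⁻¹) * g) * x := by group
        _ = x⁻¹ * (g * (x * y * x⁻¹)) * x := by rw [h3]
        _ = x⁻¹ * g * x * y := by group
    refine ⟨ConjClasses.mk ⟨x⁻¹ * g * x, Subgroup.centralizer_le_normalizer _ h1⟩, ?_⟩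
    apply Subtype.ext
    change ConjClasses.mk (x⁻¹ * g * x) = ConjClasses.mk g
    rw [ConjClasses.mk_eq_mk_iff_isConj, isConj_comm, isConj_iff]
    exact ⟨x⁻¹, by group⟩

/-- the normalizer of an abelian Sylow subgroup with a normal complement -/
theorem norm_le_cent (N : Subgroup G) [hN : N.Normal] (hpN : ¬ p ∣ Nat.card N) (P : Sylow p G) (hNP : N ⊔ (P : Subgroup G) = ⊤)
    (hab : ∀ x ∈ (P : Subgroup G), ∀ y ∈ (P : Subgroup G), x * y = y * x) :
    Subgroup.normalizer ((P : Subgroup G) : Set G) ≤ Subgroup.centralizer ((P : Subgroup G) : Set G) := by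
  have hdisj : N ⊓ (P : Subgroup G) = ⊥ := by
    obtain ⟨n, hn⟩ := IsPGroup.iff_card.1 P.isPGroup'
    exact disjoint_iff.1 (Subgroup.disjoint_of_coprime_natCard (by
      rw [hn]; exact (Nat.Coprime.pow_left n ((Nat.Prime.coprime_iff_not_dvd hp.out).2 hpN)).symm))
  intro g hg
  have h1 : g ∈ N ⊔ (P : Subgroup G) := by rw [hNP]; trivial
  obtain ⟨n, hn, x, hx, rfl⟩ := Subgroup.mem_sup_of_normal_left.1 h1
  have hnN : n ∈ Subgroup.normalizer ((P : Subgroup G) : Set G) := by
    have := mul_mem hg (inv_mem (Subgroup.le_normalizer hx))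
    rwa [mul_inv_cancel_right] at this
  rw [Subgroup.mem_centralizer_iff]
  intro y hy
  have hny : n * y * n⁻¹ = y := by
    have h2 : n * y * n⁻¹ * y⁻¹ ∈ N ⊓ (P : Subgroup G) := by
      refine Subgroup.mem_inf.2 ⟨?_, (P : Subgroup G).mul_mem ((Subgroup.mem_normalizer_iff.1 hnN y).1 hy) ((P : Subgroup G).inv_mem hy)⟩
      have h3 : n * y * n⁻¹ * y⁻¹ = n * (y * n⁻¹ * y⁻¹) := by group
      rw [h3]
      exact N.mul_mem hn (hN.conj_mem _ (N.inv_mem hn) y)
    rw [hdisj, Subgroup.mem_bot, mul_inv_eq_one] at h2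
    exact h2
  have hny' : n * y = y * n := mul_inv_eq_iff_eq_mul.1 hny
  rw [← mul_assoc, ← hny', mul_assoc, hab y hy x hx, ← mul_assoc]

theorem card_pchar (N : Subgroup G) [hN : N.Normal] (hpN : ¬ p ∣ Nat.card N) (P : Sylow p G) (hNP : N ⊔ (P : Subgroup G) = ⊤)
    (hab : ∀ x ∈ (P : Subgroup G), ∀ y ∈ (P : Subgroup G), x * y = y * x) :
    Nat.card {χ : IrrCharacter G // ¬ p ∣ charDegree (χ : G → ℂ)} =
      Nat.card (ConjClasses (Subgroup.normalizer ((P : Subgroup G) : Set G))) := by
  classical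
  haveI := Fintype.ofFinite G
  obtain ⟨n, hn⟩ := IsPGroup.iff_card.1 P.isPGroup'
  have hcop : (Nat.card N).Coprime (Nat.card (P : Subgroup G)) := by
    rw [hn]; exact (Nat.Coprime.pow_left n ((Nat.Prime.coprime_iff_not_dvd hp.out).2 hpN)).symm
  have hsolv : Group.IsSolvable (P : Subgroup G) := by
    haveI := P.isPGroup'.isNilpotent
    infer_instance
  have h1 := count_main N (P : Subgroup G) hNP hcop hsolv
  rcases Nat.eq_zero_or_pos n with h0 | h0
  · -- trivial Sylow subgroup
    rw [h0, pow_zero] at hn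
    have hPb : (P : Subgroup G) = ⊥ := Subgroup.card_eq_one.1 hn
    have hpG : ¬ p ∣ Nat.card G := by
      have := P.not_dvd_index
      rwa [hPb, Subgroup.index_bot] at this
    have h2 : Nat.card {χ : IrrCharacter G // ¬ p ∣ charDegree (χ : G → ℂ)} = Nat.card (IrrCharacter G) := by
      apply Nat.card_congr
      exact Equiv.subtypeUnivEquiv fun χ h => hpG (h.trans (irr_degree_dvd χ))
    have h3 : Nat.card {χ : IrrCharacter G // (charDegree (χ : G → ℂ)).Coprime (Nat.card (P : Subgroup G))} = Nat.card (IrrCharacter G) := by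
      apply Nat.card_congr
      exact Equiv.subtypeUnivEquiv fun χ => by rw [hn]; exact Nat.coprime_one_right _
    have h4 : Nat.card {η : IrrCharacter (Subgroup.normalizer ((P : Subgroup G) : Set G)) //
        (charDegree (η : Subgroup.normalizer ((P : Subgroup G) : Set G) → ℂ)).Coprime (Nat.card (P : Subgroup G))} =
        Nat.card (IrrCharacter (Subgroup.normalizer ((P : Subgroup G) : Set G))) := by
      apply Nat.card_congr
      exact Equiv.subtypeUnivEquiv fun χ => by rw [hn]; exact Nat.coprime_one_right _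
    rw [h2, ← h3, h1, h4]
    exact card_irr
  · have hcp : ∀ m : ℕ, m.Coprime (Nat.card (P : Subgroup G)) ↔ ¬ p ∣ m := by
      intro m
      rw [hn, Nat.coprime_pow_right_iff h0, Nat.coprime_comm, Nat.Prime.coprime_iff_not_dvd hp.out]
    have h2 : Nat.card {χ : IrrCharacter G // ¬ p ∣ charDegree (χ : G → ℂ)} =
        Nat.card {χ : IrrCharacter G // (charDegree (χ : G → ℂ)).Coprime (Nat.card (P : Subgroup G))} :=
      Nat.card_congr (Equiv.subtypeEquivRight fun χ => (hcp _).symm)
    rw [h2, h1, ← card_irr]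
    apply Nat.card_congr
    refine Equiv.subtypeUnivEquiv fun η => ?_
    rw [hcp]
    have hPD : (P : Subgroup G) ≤ Subgroup.normalizer ((P : Subgroup G) : Set G) := Subgroup.le_normalizer
    haveI := Fintype.ofFinite (Subgroup.normalizer ((P : Subgroup G) : Set G))
    haveI : ((P : Subgroup G).subgroupOf (Subgroup.normalizer ((P : Subgroup G) : Set G))).Normal := Subgroup.normal_in_normalizer
    obtain ⟨d, hd, hd2⟩ := ito ((P : Subgroup G).subgroupOf (Subgroup.normalizer ((P : Subgroup G) : Set G)))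
      (fun a ha b hb => Subtype.ext (hab a ha b hb)) η.2
    have hd3 : charDegree (η : Subgroup.normalizer ((P : Subgroup G) : Set G) → ℂ) = d := by
      have := (IsIrr.one_eq η.2).1
      rw [hd] at this
      exact_mod_cast this.symm
    rw [hd3]
    intro h5
    have h6 : ¬ p ∣ ((P : Subgroup G).subgroupOf (Subgroup.normalizer ((P : Subgroup G) : Set G))).index :=
      (P.subtype hPD).not_dvd_index
    exact h6 (h5.trans hd2)

/-- the Sylow subgroup is abelian -/
theorem ab_of_one (N : Subgroup G) [hN : N.Normal] (hNb : N ≠ ⊥) (hpN : ¬ p ∣ Nat.card N) (hidx : ∃ k : ℕ, N.index = p ^ k)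
    (hone : Nat.card {χ : IrrCharacter G // p ∣ charDegree (χ : G → ℂ)} = 1) (a b : G ⧸ N) : a * b = b * a := by
  classical
  haveI := Fintype.ofFinite G
  haveI : Fintype N := Fintype.ofFinite N
  obtain ⟨k, hk⟩ := hidx
  have huniq : ∀ χ ψ : IrrCharacter G, p ∣ charDegree (χ : G → ℂ) → p ∣ charDegree (ψ : G → ℂ) → χ = ψ := by
    intro χ ψ h1 h2
    haveI := (Nat.card_eq_one_iff_unique.1 hone).1
    exact congrArg Subtype.val (Subsingleton.elim (⟨χ, h1⟩ : {χ : IrrCharacter G // p ∣ charDegree (χ : G → ℂ)}) ⟨ψ, h2⟩)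
  revert a b
  apply comm_of_linear
  intro χ'
  by_contra hχ'
  -- a character with `N` in its kernel
  have hd0 : charDegree (inflI N χ' : G → ℂ) = charDegree (χ' : G ⧸ N → ℂ) := by
    have h1 := (IsIrr.one_eq (inflI N χ').2).1
    have h2 := (IsIrr.one_eq χ'.2).1
    have h3 : (inflI N χ' : G → ℂ) 1 = (χ' : G ⧸ N → ℂ) 1 := rfl
    rw [h1, h2] at h3
    exact_mod_cast h3
  have hdne : charDegree (χ' : G ⧸ N → ℂ) ≠ 1 := by
    intro h1
    apply hχ'
    rw [(IsIrr.one_eq χ'.2).1, h1, Nat.cast_one]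
  have hpχ : p ∣ charDegree (inflI N χ' : G → ℂ) := by
    rw [hd0]
    have h1 := irr_degree_dvd χ'
    have h2 : Nat.card (G ⧸ N) = p ^ k := hk
    rw [h2] at h1
    obtain ⟨j, -, hj⟩ := (Nat.dvd_prime_pow hp.out).1 h1
    rw [hj]
    apply dvd_pow_self
    rintro rfl
    rw [pow_zero] at hj
    exact hdne hj
  obtain ⟨n0, hn0⟩ : ∃ n : N, n ≠ 1 := by
    by_contra hcon
    push Not at hcon
    apply hNb
    rw [Subgroup.eq_bot_iff_forall]
    intro x hx
    exact congrArg Subtype.val (hcon ⟨x, hx⟩)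
  obtain ⟨θ, hθ⟩ := exists_irr_ne_one hn0
  by_cases hinv : ∀ g : G, cjI N g θ = θ
  · obtain ⟨χ, hχ, hχN⟩ := extend_coprime θ.2 (fun g n => by
      have := congrArg (fun f : IrrCharacter N => (f : N → ℂ) n) (hinv g)
      exact this) (by
        rw [hk]
        exact Nat.Coprime.pow_left k ((Nat.Prime.coprime_iff_not_dvd hp.out).2 hpN))
    have hχN' : (fun n : N => χ n) = (θ : N → ℂ) := funext hχN
    obtain ⟨h1, -, -⟩ := gallagher N (IsIrr.isCharacter hχ) (by rw [hχN']; exact θ.2)
    have h2 := h1 (inflI N χ' : G → ℂ) (inflI N χ').2 (fun n hn => inflI_ker N χ' n hn)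
    have h3 : p ∣ charDegree ((⟨(inflI N χ' : G → ℂ) * χ, h2⟩ : IrrCharacter G) : G → ℂ) := by
      have h4 : charDegree ((inflI N χ' : G → ℂ) * χ) = charDegree (inflI N χ' : G → ℂ) * charDegree χ := by
        have h5 := (IsIrr.one_eq h2).1
        have h6 := (IsIrr.one_eq (inflI N χ').2).1
        have h7 := (IsIrr.one_eq hχ).1
        rw [Pi.mul_apply, h6, h7] at h5
        exact_mod_cast h5.symm
      change p ∣ charDegree ((inflI N χ' : G → ℂ) * χ)
      rw [h4]
      exact hpχ.mul_right _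
    have h4 := huniq _ _ h3 hpχ
    have h5 : ∀ g : G, (inflI N χ' : G → ℂ) g * χ g = (inflI N χ' : G → ℂ) g := fun g =>
      congrArg (fun f : IrrCharacter G => (f : G → ℂ) g) h4
    apply hθ
    have h6 : (inflI N χ' : G → ℂ) (n0 : G) = (inflI N χ' : G → ℂ) 1 := inflI_ker N χ' _ n0.2
    have h7 := h5 (n0 : G)
    have h8 := h5 1
    rw [h6] at h7
    have h9 : (inflI N χ' : G → ℂ) 1 ≠ 0 := IsIrr.one_ne_zero (inflI N χ').2
    have h10 : χ (n0 : G) = χ 1 := mul_left_cancel₀ h9 (h7.trans h8.symm)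
    rw [← hχN n0, h10]
    exact hχN 1
  · obtain ⟨ψ, hψ⟩ := exists_over (N := N) θ
    obtain ⟨e, he, hed⟩ := charDegree_dvd_over N hψ
    rw [hk] at hed
    obtain ⟨j, -, hj⟩ := (Nat.dvd_prime_pow hp.out).1 hed
    have hj0 : j ≠ 0 := by
      rintro rfl
      rw [pow_zero] at hj
      rw [hj, one_mul] at he
      exact hinv (fun g => inv_of_deg hψ he g)
    have hpψ : p ∣ charDegree (ψ : G → ℂ) := by
      rw [he, hj]
      exact (dvd_pow_self p hj0).mul_right _
    have h4 := huniq _ _ hpψ hpχ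
    apply hψ
    rw [h4]
    have h5 : (fun n : N => (inflI N χ' : G → ℂ) n) = (inflI N χ' : G → ℂ) 1 • (fun _ : N => (1 : ℂ)) := by
      funext n
      rw [Pi.smul_apply, smul_eq_mul, mul_one]
      exact inflI_ker N χ' _ n.2
    rw [h5, classInner_smul_left]
    have h6 : classInner (fun _ : N => (1 : ℂ)) (θ : N → ℂ) = 0 := by
      apply classInner_irr_ne isIrrCharacter_one θ.2
      intro h8
      apply hθ
      rw [← h8]
    rw [h6, mul_zero]

end CfsgH5
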