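import Cfsg.Agent.H5.Over2
import Cfsg.Agent.H5.Second2
import Cfsg.Agent.H4.Clifford
import Cfsg.Agent.H4.Induce
import Cfsg.Agent.H5.OneChar

/-!
# Characters of p'-degree in a block over a character of a normal subgroup
-/

set_option autoImplicit false
open Cfsg MonoidAlgebra
open CfsgH4 hiding centralChar sum_conj

namespace CfsgH5

section

variable {G : Type*} [Group G] [Fintype G] {M : Ideal AlgInt} {p : ℕ} [hp : Fact p.Prime]
variable (N : Subgroup G) [hN : N.Normal] [Fintype N]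

open Classical in
theorem over_sum_zero (hM : IsPModular p M) {B : Set (IrrCharacter G)} (hB : IsPBlock M B)
    (θ : IrrCharacter N) {x : G} (hx : ∃ k, orderOf x = p ^ k) (hxN : x ∉ N) :
    ∑ χ : IrrCharacter G, (if χ ∈ B then (rmlt N χ θ : ℂ) * (χ : G → ℂ) x else 0) = 0 := by
  classical
  have hclass : IsClassFunction G (indFun N (θ : N → ℂ)) :=
    IsCharacter.isClassFunction (isCharacter_indFun _ (IsIrr.isCharacter θ.2))
  have h1 := blockPart_section hM hclass (x := x) (B := B) (u := x) (z := x) ?_ hB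
    ⟨1, by rw [mul_one], Commute.one_right x, hx, by rw [orderOf_one]; exact hp.out.not_dvd_one⟩ (IsConj.refl x)
  · rw [blockPart_sum] at h1
    refine (Finset.sum_congr rfl fun χ _ => ?_).trans h1
    split_ifs
    · congr 1
      rw [frobenius N _ (IsIrr.isClassFunction χ.2)]
      have h2 := rmlt_spec N χ θ
      rw [← classInner_conj_symm, h2, Complex.conj_natCast]
    · rfl
  · intro u z hu hz
    apply indFun_eq_zero
    intro g hg
    apply hxN
    have h2 : u ∈ N := by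
      have h3 := hN.conj_mem _ hg g⁻¹
      have h4 : g⁻¹ * (g * u * g⁻¹) * g⁻¹⁻¹ = u := by group
      rwa [h4] at h3
    have h3 : z ∈ N := ppart_mem hu h2
    obtain ⟨c, hc⟩ := isConj_iff.1 hz
    have h4 := hN.conj_mem _ h3 c⁻¹
    rw [← hc] at h4
    have h5 : c⁻¹ * (c * x * c⁻¹) * c⁻¹⁻¹ = x := by group
    rwa [h5] at h4

theorem sum_mod (hM : IsPModular p M) {B : Set (IrrCharacter G)} (hB : IsPBlock M B)
    (P : Sylow p G) (hPN : ¬ (P : Subgroup G) ≤ N) (θ : IrrCharacter N)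
    (S : Finset (IrrCharacter G)) (hS : ∀ χ, χ ∈ S ↔ (χ ∈ B ∧ ¬ p ∣ charDegree (χ : G → ℂ) ∧
      classInner (fun n : N => (χ : G → ℂ) n) (θ : N → ℂ) ≠ 0)) :
    p ∣ ∑ χ ∈ S, rmlt N χ θ * charDegree (χ : G → ℂ) := by
  classical
  haveI := IsPModular.isPrime hM
  obtain ⟨x, hxP, hxN⟩ := Set.not_subset.1 hPN
  have hx : ∃ k, orderOf x = p ^ k := by
    obtain ⟨k, hk⟩ := (IsPGroup.iff_orderOf (p := p)).1 P.isPGroup' ⟨x, hxP⟩
    rw [Subgroup.orderOf_mk] at hk
    exact ⟨k, hk⟩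
  have h1 := over_sum_zero N hM hB θ hx hxN
  have h2 : MemLocalIdeal M (∑ χ : IrrCharacter G, (if χ ∈ B then (rmlt N χ θ : ℂ) * (charDegree (χ : G → ℂ) : ℂ) else 0)) := by
    have h3 : MemLocalIdeal M (∑ χ : IrrCharacter G,
        (if χ ∈ B then (rmlt N χ θ : ℂ) * ((χ : G → ℂ) x - (χ : G → ℂ) 1) else 0)) := by
      apply memLocalIdeal_sum
      intro χ _
      split_ifs
      · apply MemLocalIdeal.mul_left (memLocalRing_natCast _)
        have := char_cong' hM (IsIrr.isCharacter χ.2) (Commute.one_right x) hx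
        rwa [mul_one] at this
      · exact memLocalIdeal_zero
    have h4 : ∑ χ : IrrCharacter G, (if χ ∈ B then (rmlt N χ θ : ℂ) * (charDegree (χ : G → ℂ) : ℂ) else 0) =
        ∑ χ : IrrCharacter G, (if χ ∈ B then (rmlt N χ θ : ℂ) * (χ : G → ℂ) x else 0) -
        ∑ χ : IrrCharacter G, (if χ ∈ B then (rmlt N χ θ : ℂ) * ((χ : G → ℂ) x - (χ : G → ℂ) 1) else 0) := by
      rw [← Finset.sum_sub_distrib]
      refine Finset.sum_congr rfl fun χ _ => ?_
      split_ifs
      · rw [(IsIrr.one_eq χ.2).1]; ring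
      · ring
    rw [h4, h1, zero_sub]
    exact MemLocalIdeal.neg h3
  have h5 : (∑ χ : IrrCharacter G, (if χ ∈ B then (rmlt N χ θ : ℂ) * (charDegree (χ : G → ℂ) : ℂ) else 0)) =
      ((∑ χ : IrrCharacter G, (if χ ∈ B then rmlt N χ θ * charDegree (χ : G → ℂ) else 0) : ℕ) : ℂ) := by
    push_cast; rfl
  rw [h5, memLocalIdeal_natCast_iff hM] at h2
  have h6 : ∑ χ : IrrCharacter G, (if χ ∈ B then rmlt N χ θ * charDegree (χ : G → ℂ) else 0) =
      ∑ χ ∈ S, rmlt N χ θ * charDegree (χ : G → ℂ) +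
      ∑ χ ∈ Finset.univ.filter (fun χ => χ ∉ S), (if χ ∈ B then rmlt N χ θ * charDegree (χ : G → ℂ) else 0) := by
    rw [← Finset.sum_filter_add_sum_filter_not Finset.univ (fun χ => χ ∈ S)]
    congr 1
    rw [Finset.filter_mem_eq_inter, Finset.univ_inter]
    refine Finset.sum_congr rfl fun χ hχ => ?_
    rw [if_pos ((hS χ).1 hχ).1]
  rw [h6] at h2
  refine (Nat.dvd_add_left ?_).1 h2
  apply Finset.dvd_sum
  intro χ hχ
  rw [Finset.mem_filter] at hχ
  split_ifs with hB'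
  · by_cases hd : p ∣ charDegree (χ : G → ℂ)
    · exact hd.mul_left _
    · have h7 : classInner (fun n : N => (χ : G → ℂ) n) (θ : N → ℂ) = 0 := by
        by_contra hc
        exact hχ.2 ((hS χ).2 ⟨hB', hd, hc⟩)
      have h8 : rmlt N χ θ = 0 := by
        by_contra hc
        exact (rmlt_ne_zero_iff (N := N) χ θ).1 hc h7
      rw [h8, zero_mul]; exact dvd_zero _
  · exact dvd_zero _

theorem s4825_main (hM : IsPModular p M) {B : Set (IrrCharacter G)} (hB : IsPBlock M B)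
    (P : Sylow p G) (hPN : ¬ (P : Subgroup G) ≤ N) (θ : IrrCharacter N) :
    (Nat.card {χ : IrrCharacter G // χ ∈ B ∧ ¬ p ∣ charDegree (χ : G → ℂ) ∧
      classInner (fun n : N => (χ : G → ℂ) n) (θ : N → ℂ) ≠ 0} = 0 ∨
      2 ≤ Nat.card {χ : IrrCharacter G // χ ∈ B ∧ ¬ p ∣ charDegree (χ : G → ℂ) ∧
      classInner (fun n : N => (χ : G → ℂ) n) (θ : N → ℂ) ≠ 0}) ∧
    (p ≤ 3 → p ∣ Nat.card {χ : IrrCharacter G // χ ∈ B ∧ ¬ p ∣ charDegree (χ : G → ℂ) ∧
      classInner (fun n : N => (χ : G → ℂ) n) (θ : N → ℂ) ≠ 0}) := by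
  classical
  obtain ⟨S, hSdef⟩ : ∃ S : Finset (IrrCharacter G), S = Finset.univ.filter (fun χ : IrrCharacter G =>
    χ ∈ B ∧ ¬ p ∣ charDegree (χ : G → ℂ) ∧ classInner (fun n : N => (χ : G → ℂ) n) (θ : N → ℂ) ≠ 0) := ⟨_, rfl⟩
  have hS : ∀ χ, χ ∈ S ↔ (χ ∈ B ∧ ¬ p ∣ charDegree (χ : G → ℂ) ∧
      classInner (fun n : N => (χ : G → ℂ) n) (θ : N → ℂ) ≠ 0) := by
    intro χ; rw [hSdef, Finset.mem_filter]; simp
  have hcard : Nat.card {χ : IrrCharacter G // χ ∈ B ∧ ¬ p ∣ charDegree (χ : G → ℂ) ∧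
      classInner (fun n : N => (χ : G → ℂ) n) (θ : N → ℂ) ≠ 0} = S.card := by
    rw [Nat.card_eq_fintype_card, Fintype.card_subtype, hSdef]
  rw [hcard]
  have hsum := sum_mod N hM hB P hPN θ S hS
  -- each term
  have hterm : ∀ χ ∈ S, charDegree (χ : G → ℂ) =
      rmlt N χ θ * ((inertia N (θ : N → ℂ)).index * charDegree (θ : N → ℂ)) := by
    intro χ hχ
    have h1 := clifford_degree N χ.2 θ.2 ((hS χ).1 hχ).2.2
    rw [rmlt_spec, (IsIrr.one_eq χ.2).1, (IsIrr.one_eq θ.2).1] at h1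
    rw [← mul_assoc]
    exact_mod_cast h1
  obtain ⟨c, hc⟩ : ∃ c, c = (inertia N (θ : N → ℂ)).index * charDegree (θ : N → ℂ) := ⟨_, rfl⟩
  rw [← hc] at hterm
  have hprime : ∀ χ ∈ S, ¬ p ∣ rmlt N χ θ ∧ ¬ p ∣ c := by
    intro χ hχ
    have h1 := ((hS χ).1 hχ).2.1
    rw [hterm χ hχ] at h1
    exact ⟨fun h => h1 (h.mul_right _), fun h => h1 (h.mul_left _)⟩
  constructor
  · rcases Nat.lt_or_ge S.card 2 with h | h
    · left
      by_contra h0
      have h1 : S.card = 1 := by omega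
      obtain ⟨χ, hχ⟩ := Finset.card_eq_one.1 h1
      rw [hχ, Finset.sum_singleton] at hsum
      have hχS : χ ∈ S := by rw [hχ]; exact Finset.mem_singleton_self χ
      rcases (hp.out.dvd_mul).1 hsum with h2 | h2
      · exact (hprime χ hχS).1 h2
      · exact ((hS χ).1 hχS).2.1 h2
    · right; exact h
  · intro hp3
    rcases Finset.eq_empty_or_nonempty S with h | ⟨χ0, hχ0⟩
    · rw [h, Finset.card_empty]; exact dvd_zero _
    have hpc := (hprime χ0 hχ0).2
    have hmod : ∀ χ ∈ S, (rmlt N χ θ * charDegree (χ : G → ℂ)) ≡ c [MOD p] := by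
      intro χ hχ
      rw [hterm χ hχ, ← mul_assoc]
      have h1 : rmlt N χ θ * rmlt N χ θ ≡ 1 [MOD p] := by
        have h2 := (hprime χ hχ).1
        have hp2 := hp.out.two_le
        obtain ⟨r, hr⟩ : ∃ r, r = rmlt N χ θ := ⟨_, rfl⟩
        rw [← hr] at h2 ⊢
        have h3 : p = 2 ∨ p = 3 := by omega
        rcases h3 with rfl | rfl
        · have h4 : r % 2 = 1 := by omega
          show r * r % 2 = 1 % 2
          rw [Nat.mul_mod, h4]
        · have h4 : r % 3 = 1 ∨ r % 3 = 2 := by omega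
          show r * r % 3 = 1 % 3
          rcases h4 with h4 | h4 <;> rw [Nat.mul_mod, h4]
      have := h1.mul_right c
      rwa [one_mul] at this
    have h2 : ∑ χ ∈ S, rmlt N χ θ * charDegree (χ : G → ℂ) ≡ S.card * c [MOD p] := by
      rw [← smul_eq_mul, ← Finset.sum_const]
      exact Nat.ModEq.sum hmod
    have h3 : p ∣ S.card * c := (h2.dvd_iff (dvd_refl p)).1 hsum
    exact (hp.out.dvd_mul.1 h3).resolve_right hpc

end

end CfsgH5
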