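import Cfsg.Agent.H5.Princ2
import Cfsg.Agent.H5.Contr

/-!
# Characters of height zero over a linear character of a central subgroup
-/

set_option autoImplicit false
open Cfsg MonoidAlgebra
open CfsgH4 hiding centralChar sum_conj

namespace CfsgH5

open scoped ComplexConjugate

/-- two functions which are multiplied by scalars under translation by `z` -/
theorem inner_translate {K : Type*} [Group K] [Fintype K] {φ ψ : K → ℂ} {z : K} {a b : ℂ}
    (hφ : ∀ x, φ (z * x) = a * φ x) (hψ : ∀ x, ψ (z * x) = b * ψ x) (hne : classInner φ ψ ≠ 0) : a * conj b = 1 := by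
  have h1 : classInner φ ψ = a * conj b * classInner φ ψ := by
    have h2 : ∑ g : K, φ (z * g) * conj (ψ (z * g)) = ∑ g : K, φ g * conj (ψ g) :=
      (Equiv.sum_comp (Equiv.mulLeft z) (fun g => φ g * conj (ψ g)))
    rw [classInner_def]
    conv_lhs => rw [← h2]
    simp only [hφ, hψ, map_mul]
    have h3 : ∀ g : K, a * φ g * (conj b * conj (ψ g)) = a * conj b * (φ g * conj (ψ g)) := fun g => by ring
    simp only [h3]
    rw [← Finset.mul_sum]; ring
  have h2 : (a * conj b - 1) * classInner φ ψ = 0 := by linear_combination -h1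
  rcases mul_eq_zero.1 h2 with h3 | h3
  · exact sub_eq_zero.1 h3
  · exact absurd h3 hne

/-- a character of a `p`-group of degree prime to `p` has a linear constituent -/
theorem exists_linear_constituent {p : ℕ} [hp : Fact p.Prime] {D : Type*} [Group D] [Fintype D] (hD : IsPGroup p D)
    {μ : D → ℂ} (hμ : IsCharacter D μ) {n : ℕ} (hn : μ 1 = n) (hpn : ¬ p ∣ n) :
    ∃ f : D →* ℂˣ, classInner μ (fun x => (f x : ℂ)) ≠ 0 := by
  by_contra hcon
  push Not at hcon
  obtain ⟨m, hm⟩ := IsCharacter.expand hμ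
  have hm' : ∀ ψ : IrrCharacter D, classInner μ (ψ : D → ℂ) = m ψ := by
    intro ψ
    rw [hm, classInner_sum_left]
    simp only [classInner_smul_left, classInner_irr']
    simp
  have h1 : (n : ℂ) = ∑ ψ : IrrCharacter D, (m ψ : ℂ) * (charDegree (ψ : D → ℂ) : ℂ) := by
    rw [← hn]
    conv_lhs => rw [hm]
    rw [Finset.sum_apply]
    exact Finset.sum_congr rfl fun ψ _ => by rw [Pi.smul_apply, smul_eq_mul, (IsIrr.one_eq ψ.2).1]
  have h2 : n = ∑ ψ : IrrCharacter D, m ψ * charDegree (ψ : D → ℂ) := by exact_mod_cast h1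
  apply hpn
  rw [h2]
  refine Finset.dvd_sum fun ψ _ => ?_
  by_cases hm0 : m ψ = 0
  · rw [hm0, zero_mul]; exact dvd_zero _
  · have h3 := charDegree_dvd ψ
    obtain ⟨k, hk⟩ := (IsPGroup.iff_card.1 hD)
    rw [hk] at h3
    obtain ⟨j, -, hj⟩ := (Nat.dvd_prime_pow hp.out).1 h3
    rcases Nat.eq_zero_or_pos j with h0 | h0
    · exfalso
      rw [h0, pow_zero] at hj
      have h4 : (ψ : D → ℂ) 1 = 1 := by rw [(IsIrr.one_eq ψ.2).1, hj]; simp
      obtain ⟨f, hf⟩ := IsCharacter.linear_of_one (IsIrr.isCharacter ψ.2) h4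
      have h5 := hcon f
      rw [← hf, hm'] at h5
      exact hm0 (by exact_mod_cast h5)
    · rw [hj]
      exact Dvd.dvd.mul_left (dvd_pow_self p h0.ne') _

variable {G : Type*} [Group G] [Finite G] {p : ℕ} [hp : Fact p.Prime] {M : Ideal AlgInt}

theorem extends_of_height_zero (hM : IsPModular p M) {B : Set (IrrCharacter G)} (hB : IsPBlock M B) {D : Subgroup G}
    (hD : IsDefectGroup p M B D) {χ : IrrCharacter G} (hχ : χ ∈ B) (h0 : blockHeight p B (χ : G → ℂ) = 0)
    (Z : Subgroup G) (hZc : Z ≤ Subgroup.center G) (hZD : Z ≤ D) (lam : Z →* ℂˣ)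
    (hover : ∀ z : Z, (χ : G → ℂ) z = (χ : G → ℂ) 1 * (lam z : ℂ)) :
    ∃ μ : D →* ℂˣ, ∀ z : Z, μ ⟨(z : G), hZD z.2⟩ = lam z := by
  classical
  haveI := IsPModular.isPrime hM
  obtain ⟨g, hg, hS⟩ := isDefectGroup_iff.1 hD
  have hDC := hS.1
  set C := Subgroup.centralizer ({g} : Set G) with hC
  haveI : Fintype C := Fintype.ofFinite _
  haveI : Fintype D := Fintype.ofFinite _
  have hgC : g ∈ C := Subgroup.mem_centralizer_singleton_iff.2 rfl
  have hgz : (⟨g, hgC⟩ : C) ∈ Subgroup.center C := by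
    rw [Subgroup.mem_center_iff]
    intro c
    exact Subtype.ext (Subgroup.mem_centralizer_singleton_iff.1 c.2)
  have hval : ¬ MemLocalIdeal M ((χ : G → ℂ) g) := height_zero_val hM hB hg hχ h0
  have hχC : IsCharacter C (fun c : C => (χ : G → ℂ) c) := isCharacter_restrict C (IsIrr.isCharacter χ.2)
  -- a constituent of degree prime to `p`
  obtain ⟨μ, hμne, hμp⟩ : ∃ μ : IrrCharacter C, classInner (fun c : C => (χ : G → ℂ) c) (μ : C → ℂ) ≠ 0 ∧
      ¬ p ∣ charDegree (μ : C → ℂ) := by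
    by_contra hcon
    push Not at hcon
    apply hval
    have h1 := classFun_expand_apply (IsCharacter.isClassFunction hχC) (⟨g, hgC⟩ : C)
    have h1' : (χ : G → ℂ) g = ∑ χ_1 : IrrCharacter C, classInner (fun c : C => (χ : G → ℂ) c) (χ_1 : C → ℂ) * (χ_1 : C → ℂ) ⟨g, hgC⟩ := h1
    rw [h1']
    refine memLocalIdeal_sum _ _ fun μ _ => ?_
    by_cases hz : classInner (fun c : C => (χ : G → ℂ) c) (μ : C → ℂ) = 0
    · rw [hz, zero_mul]; exact memLocalIdeal_zero
    · obtain ⟨k, hk⟩ := IsCharacter.inner_irr_nat hχC μ.2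
      have h2 := hcon μ hz
      have h3 : (μ : C → ℂ) ⟨g, hgC⟩ = (charDegree (μ : C → ℂ) : ℂ) * Cfsg.centralChar (μ : C → ℂ) ⟨g, hgC⟩ := by
        have h4 : (Subgroup.centralizer ({⟨g, hgC⟩} : Set C)).index = 1 := by
          rw [Subgroup.index_eq_one, eq_top_iff]
          intro c _
          rw [Subgroup.mem_centralizer_singleton_iff]
          exact (Subgroup.mem_center_iff.1 hgz c)
        rw [Cfsg.centralChar, h4, ← (IsIrr.one_eq μ.2).1]
        field_simp [IsIrr.one_ne_zero μ.2]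
        simp
      rw [hk, h3]
      exact MemLocalIdeal.mul_left (memLocalRing_natCast k)
        (MemLocalIdeal.mul_right ((memLocalIdeal_natCast_iff hM _).2 h2) (memLocalRing_centralChar μ.2 _))
  -- restrict to `D`
  let ι : D →* C := Subgroup.inclusion hDC
  have hμD : IsCharacter D (fun x => (μ : C → ℂ) (ι x)) := isCharacter_comp ι (IsIrr.isCharacter μ.2)
  obtain ⟨f, hf⟩ := exists_linear_constituent (CfsgH5.IsDefectGroup.isPGroup hD) hμD (n := charDegree (μ : C → ℂ))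
    (by show (μ : C → ℂ) (ι 1) = _; rw [map_one, (IsIrr.one_eq μ.2).1]) hμp
  refine ⟨f, fun z => ?_⟩
  have hzC : (z : G) ∈ C := hDC (hZD z.2)
  have hzcen : (z : G) ∈ Subgroup.center G := hZc z.2
  have hzcC : (⟨(z : G), hzC⟩ : C) ∈ Subgroup.center C := by
    rw [Subgroup.mem_center_iff]
    intro c
    exact Subtype.ext (Subgroup.mem_center_iff.1 hzcen c)
  have hχ1 := IsIrr.one_ne_zero χ.2
  have hμ1 := IsIrr.one_ne_zero μ.2
  set b : ℂ := (μ : C → ℂ) ⟨(z : G), hzC⟩ / (μ : C → ℂ) 1 with hb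
  have e1 : ∀ x : C, (χ : G → ℂ) (((⟨(z : G), hzC⟩ : C) * x : C) : G) = (lam z : ℂ) * (χ : G → ℂ) x := by
    intro x
    have h1 := irr_central_mul χ.2 hzcen (x : G)
    rw [hover z] at h1
    apply mul_left_cancel₀ hχ1
    show (χ : G → ℂ) 1 * (χ : G → ℂ) ((z : G) * x) = _
    rw [← h1]; ring
  have e2 : ∀ x : C, (μ : C → ℂ) ((⟨(z : G), hzC⟩ : C) * x) = b * (μ : C → ℂ) x := by
    intro x
    have h1 := irr_central_mul μ.2 hzcC x
    rw [hb, div_mul_eq_mul_div, h1]
    field_simp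
  have h1 := inner_translate (z := (⟨(z : G), hzC⟩ : C)) e1 e2 hμne
  have e3 : ∀ x : D, (μ : C → ℂ) (ι ((⟨(z : G), hZD z.2⟩ : D) * x)) = b * (μ : C → ℂ) (ι x) := by
    intro x
    rw [map_mul]
    exact e2 (ι x)
  have e4 : ∀ x : D, ((f ((⟨(z : G), hZD z.2⟩ : D) * x) : ℂˣ) : ℂ) = (f ⟨(z : G), hZD z.2⟩ : ℂ) * (f x : ℂ) := by
    intro x
    rw [map_mul]; push_cast; rfl
  have h2 := inner_translate (z := (⟨(z : G), hZD z.2⟩ : D)) e3 e4 hf
  have hbn : ‖b‖ = 1 := by
    rw [hb, norm_div, norm_irr_central μ.2 hzcC, div_self (norm_ne_zero_iff.2 hμ1)]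
  have hbc : b * conj b = 1 := by
    rw [Complex.mul_conj, Complex.normSq_eq_norm_sq, hbn]; norm_num
  have hb0 : conj b ≠ 0 := right_ne_zero_of_mul (a := b) (by rw [hbc]; exact one_ne_zero)
  have h3 : (lam z : ℂ) = b := mul_right_cancel₀ hb0 (by rw [h1, hbc])
  have h4 : (f ⟨(z : G), hZD z.2⟩ : ℂ) = b := by
    have h5 := congrArg conj h2
    rw [map_mul, map_one, Complex.conj_conj] at h5
    exact mul_left_cancel₀ hb0 (by rw [h5, mul_comm, hbc])
  apply Units.ext
  rw [h3, h4]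

end CfsgH5
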