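import Cfsg.Agent.H5.CentP
import Cfsg.Agent.H4.Bp10
import Cfsg.Agent.H4.Cov3
import Cfsg.Agent.H4.Prod

/-!
# Blocks of `G = P C(P)` with defect group `P`
-/

set_option autoImplicit false
open Cfsg MonoidAlgebra
open CfsgH4 hiding centralChar sum_conj

namespace CfsgH5

open scoped ComplexConjugate

section chars

variable {G : Type*} [Group G] [Finite G] {P : Subgroup G}

/-- the multiplication homomorphism -/
def muPC (P : Subgroup G) : P × cz P →* G where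
  toFun a := (a.1 : G) * (a.2 : G)
  map_one' := by simp
  map_mul' a b := by
    have h1 : (b.1 : G) * (a.2 : G) = (a.2 : G) * (b.1 : G) := Subgroup.mem_centralizer_iff.1 a.2.2 _ b.1.2
    show ((a.1 * b.1 : P) : G) * ((a.2 * b.2 : cz P) : G) = (a.1 : G) * (a.2 : G) * ((b.1 : G) * (b.2 : G))
    push_cast
    calc (a.1 : G) * b.1 * (a.2 * b.2) = a.1 * (b.1 * a.2) * b.2 := by group
      _ = a.1 * (a.2 * b.1) * b.2 := by rw [h1]
      _ = _ := by group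

theorem muPC_surj (hG : P ⊔ cz P = ⊤) : Function.Surjective (muPC P) := by
  intro g
  have h1 : g ∈ P ⊔ cz P := by rw [hG]; trivial
  have h2 : P ≤ nz (cz P) := (Subgroup.le_normalizer).trans (nz_le_nz_cz P)
  obtain ⟨a, ha, c, hc, rfl⟩ := mem_sup_of_le_nz h2 h1
  exact ⟨(⟨a, ha⟩, ⟨c, hc⟩), rfl⟩

theorem cp_split (hG : P ⊔ cz P = ⊤) (ψ : IrrCharacter G) :
    ∃ (ζ : IrrCharacter P) (η : IrrCharacter (cz P)), ∀ (z : P) (c : cz P), (ψ : G → ℂ) (z * c) = (ζ : P → ℂ) z * (η : cz P → ℂ) c := by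
  have h1 := isIrrCharacter_comp_surj (muPC P) (muPC_surj hG) ψ.2
  obtain ⟨ζ, η, hζ, hη, he⟩ := (isIrrCharacter_prod_iff _).1 h1
  exact ⟨⟨ζ, hζ⟩, ⟨η, hη⟩, fun z c => congrFun he (z, c)⟩

/-- the linear character of `P ∩ C(P)` under an irreducible character of `P` -/
theorem exists_lam_P (ζ : IrrCharacter P) : ∃ lam : (P.subgroupOf (cz P)) →* ℂˣ, ∀ (w : P) (w' : P.subgroupOf (cz P)),
    (w : G) = ((w' : cz P) : G) → ∀ z : P, (ζ : P → ℂ) (w * z) = lam w' * (ζ : P → ℂ) z := by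
  have hle : (cz P).subgroupOf P ≤ Subgroup.center P := by
    intro w hw
    rw [Subgroup.mem_subgroupOf] at hw
    rw [Subgroup.mem_center_iff]
    intro z
    exact Subtype.ext (Subgroup.mem_centralizer_iff.1 hw z z.2)
  obtain ⟨lam, hlam⟩ := exists_central_char ζ.2 _ hle
  let f : (P.subgroupOf (cz P)) →* ((cz P).subgroupOf P) :=
    { toFun := fun w => ⟨⟨((w : cz P) : G), Subgroup.mem_subgroupOf.1 w.2⟩, by rw [Subgroup.mem_subgroupOf]; exact (w : cz P).2⟩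
      map_one' := rfl
      map_mul' := fun _ _ => rfl }
  refine ⟨lam.comp f, fun w w' h z => ?_⟩
  have h1 : w = ((f w' : (cz P).subgroupOf P) : P) := Subtype.ext h
  have h2 : w * z = z * w := by
    have h3 : w ∈ Subgroup.center P := by rw [h1]; exact hle (f w').2
    exact (Subgroup.mem_center_iff.1 h3 z).symm
  rw [h2, h1, hlam]
  rfl

theorem cp_join (hG : P ⊔ cz P = ⊤) (ζ : IrrCharacter P) (η : IrrCharacter (cz P)) (lam : (P.subgroupOf (cz P)) →* ℂˣ)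
    (hζ : ∀ (w : P) (w' : P.subgroupOf (cz P)), (w : G) = ((w' : cz P) : G) → (ζ : P → ℂ) w = lam w' * (ζ : P → ℂ) 1)
    (hη : ∀ w' : P.subgroupOf (cz P), (η : cz P → ℂ) w' = lam w' * (η : cz P → ℂ) 1) :
    ∃ ψ : IrrCharacter G, ∀ (z : P) (c : cz P), (ψ : G → ℂ) (z * c) = (ζ : P → ℂ) z * (η : cz P → ℂ) c := by
  have h1 : IsIrrCharacter (P × cz P) (fun x => (ζ : P → ℂ) x.1 * (η : cz P → ℂ) x.2) := isIrrCharacter_prod ζ.2 η.2
  obtain ⟨ψ, hψ, he⟩ := exists_irr_descend (muPC P) (muPC_surj hG) h1 (by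
    rintro ⟨z, c⟩ hzc
    have h2 : (z : G) * (c : G) = 1 := hzc
    have h3 : (z : G)⁻¹ = (c : G) := by rw [inv_eq_iff_mul_eq_one]; exact h2
    have h4 : c ∈ P.subgroupOf (cz P) := by rw [Subgroup.mem_subgroupOf, ← h3]; exact P.inv_mem z.2
    have h5 : (z : G) = (((⟨c, h4⟩⁻¹ : P.subgroupOf (cz P)) : cz P) : G) := by
      show (z : G) = (c : G)⁻¹
      rw [← h3, inv_inv]
    have h6 := hζ z (⟨c, h4⟩⁻¹) h5
    have h7 := hη ⟨c, h4⟩
    show (ζ : P → ℂ) z * (η : cz P → ℂ) c = (ζ : P → ℂ) 1 * (η : cz P → ℂ) 1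
    have h8 : (η : cz P → ℂ) c = lam ⟨c, h4⟩ * (η : cz P → ℂ) 1 := h7
    rw [h6, h8, map_inv, Units.val_inv_eq_inv_val]
    field_simp)
  exact ⟨⟨ψ, hψ⟩, fun z c => (he (z, c)).symm⟩

end chars

section blocks

variable {G : Type*} [Group G] [Finite G] {p : ℕ} [hp : Fact p.Prime] {M : Ideal AlgInt} [hMp : M.IsPrime] {P : Subgroup G}

theorem normal_of_pcp (hG : P ⊔ cz P = ⊤) : nz P = ⊤ := by
  rw [eq_top_iff, ← hG]
  exact sup_le Subgroup.le_normalizer (cz_le_nz P)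

theorem isBl_cz_of_pcp (hM : IsPModular p M) (hP : IsPGroup p P) (hG : P ⊔ cz P = ⊤) {z : MonoidAlgebra (kk M) G}
    (hz : IsBl (⊤ : Subgroup G) z) : IsBl (cz P) z := by
  have hN := normal_of_pcp hG
  have hs : Sup (cz P) z := IsBl.sup_cz hM hP le_top (by rw [hN]) hz
  refine ⟨hz.ne, hz.idem, hs, hz.fx.mono le_top, fun w hw hwf hww => ?_⟩
  apply hz.prim w (sup_top w) _ hww
  rw [fx_iff_le, ← hG]
  exact sup_le (fx_iff_le.1 (fx_of_sup_centralizer hw)) (fx_iff_le.1 hwf)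

theorem dg_cz_of_pcp (hP : IsPGroup p P) {z : MonoidAlgebra (kk M) G} (hz0 : z ≠ 0) (hzs : Sup (cz P) z)
    (hD : DG p (⊤ : Subgroup G) z P) : DG p (cz P) z (P ⊓ cz P) := by
  refine ⟨inf_le_right, hP.to_le inf_le_left, ?_, ?_⟩
  · have h1 : br (P ⊓ cz P) z = z := by
      apply br_of_sup
      exact hzs.mono (cz_le_cz inf_le_left)
    rw [h1]; exact hz0
  · intro R hRC hRp hle hne
    have h1 : br (P ⊔ R) z = br R z := br_sup_eq hzs
    have h2 : IsPGroup p (P ⊔ R : Subgroup G) := by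
      have h3 : R ≤ nz P := hRC.trans (cz_le_nz P)
      exact IsPGroup.to_sup_of_normal_left' hP hRp h3
    have h3 := hD.max (P ⊔ R) le_top h2 le_sup_left (by rw [h1]; exact hne)
    have h4 : R ≤ P := by rw [← h3]; exact le_sup_right
    exact le_antisymm (le_inf h4 hRC) hle

/-- the block of the centralizer -/
theorem exists_cz_block (hM : IsPModular p M) (hP : IsPGroup p P) (hG : P ⊔ cz P = ⊤) {B : Set (IrrCharacter G)} (hB : IsPBlock M B)
    (hD : IsDefectGroup p M B P) : ∃ e : Set (IrrCharacter (cz P)), IsPBlock M e ∧ idB M B = idH M (cz P) e ∧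
      IsDefectGroup p M e (P.subgroupOf (cz P)) := by
  have h1 := isBl_cz_of_pcp hM hP hG (isBl_top hB)
  obtain ⟨e, he, h2⟩ := exists_block_of_isBl h1
  refine ⟨e, he, h2, ?_⟩
  have h3 := dg_cz_of_pcp hP h1.ne h1.sup ((isDefectGroup_iff_DG hM hB).1 hD)
  rw [h2, ← isDefectGroup_iff_DG' hM he inf_le_right] at h3
  rwa [Subgroup.inf_subgroupOf_right] at h3

theorem mem_block_iff (hM : IsPModular p M) (hG : P ⊔ cz P = ⊤) {B : Set (IrrCharacter G)} (hB : IsPBlock M B)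
    {e : Set (IrrCharacter (cz P))} (he : IsPBlock M e) (hBe : idB M B = idH M (cz P) e) {ψ : IrrCharacter G} {ζ : IrrCharacter P}
    {η : IrrCharacter (cz P)} (h : ∀ (z : P) (c : cz P), (ψ : G → ℂ) (z * c) = (ζ : P → ℂ) z * (η : cz P → ℂ) c) :
    ψ ∈ B ↔ η ∈ e := by
  haveI := Fintype.ofFinite G
  haveI := Fintype.ofFinite (cz P)
  haveI hn : (cz P).Normal := by
    have h1 : nz (cz P) = ⊤ := by
      rw [eq_top_iff, ← normal_of_pcp hG]; exact nz_le_nz_cz P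
    exact Subgroup.normalizer_eq_top_iff.1 h1
  have hinn : classInner (fun n : cz P => (ψ : G → ℂ) n) (η : cz P → ℂ) ≠ 0 := by
    have h1 : (fun n : cz P => (ψ : G → ℂ) n) = ((ζ : P → ℂ) 1) • (η : cz P → ℂ) := by
      funext n
      have := h 1 n
      rw [Subgroup.coe_one, one_mul] at this
      rw [this]; rfl
    rw [h1, classInner_smul_left, classInner_irr' η η, if_pos rfl, mul_one]
    exact IsIrr.one_ne_zero ζ.2
  constructor
  · intro hψ
    have h1 := (cover_iff hB (isPBlock_blockOf (M := M) η)).1 ⟨ψ, hψ, η, mem_blockOf_self η, hinn⟩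
    rw [hBe] at h1
    have h2 := IsBl.eq_of_mul (isBl_idH he) (isBl_idH (isPBlock_blockOf (M := M) η)) h1
    rw [idH_injective he (isPBlock_blockOf (M := M) η) h2]
    exact mem_blockOf_self η
  · intro hη
    have h1 := (cover_iff (isPBlock_blockOf (M := M) ψ) he).1 ⟨ψ, mem_blockOf_self ψ, η, hη, hinn⟩
    rw [← hBe] at h1
    by_contra hψ
    apply h1
    apply idB_mul_of_ne (isPBlock_blockOf (M := M) ψ) hB
    rintro rfl
    exact hψ (mem_blockOf_self ψ)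

theorem IsPExp.subgroup {κ : ℕ} (hκ : IsPExp p κ G) (H : Subgroup G) : IsPExp p κ H := by
  intro h z
  rw [ppart_coe, hκ, ← Subgroup.coe_pow]
  exact ⟨fun h => Subtype.ext h, fun h => congrArg Subtype.val h⟩

theorem pow_mul_pc {κ : ℕ} (hκ : IsPExp p κ G) (hP : IsPGroup p P) (z : P) (c : cz P) : ((z : G) * c) ^ κ = z * ((c ^ κ : cz P) : G) := by
  have hzc : ∀ c : cz P, Commute (z : G) (c : G) := fun c => Subgroup.mem_centralizer_iff.1 c.2 _ z.2
  obtain ⟨y, hy, hc, ⟨k, hk⟩, hy'⟩ := (hκ (c : G) ((c : G) ^ κ)).2 rfl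
  symm
  rw [← hκ]
  obtain ⟨m, hm⟩ := orderOf_of_mem_pgroup hP z.2
  have hyc : y = ((c : G) ^ κ)⁻¹ * c := by rw [eq_inv_mul_iff_mul_eq]; exact hy
  have hyC : y ∈ cz P := by
    rw [hyc]
    exact (cz P).mul_mem ((cz P).inv_mem ((cz P).pow_mem c.2 _)) c.2
  refine ⟨y, ?_, ?_, ?_, hy'⟩
  · push_cast
    rw [mul_assoc, hy]
  · push_cast
    exact Commute.mul_left (hzc ⟨y, hyC⟩) hc
  · push_cast
    have h1 : Commute (z : G) ((c : G) ^ κ) := hzc (c ^ κ)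
    have h2 : ((z : G) * (c : G) ^ κ) ^ (p ^ (m + k)) = 1 := by
      rw [h1.mul_pow, pow_add, pow_mul, ← hm, pow_orderOf_eq_one, one_pow, one_mul, mul_comm, pow_mul, ← hk, pow_orderOf_eq_one, one_pow]
    obtain ⟨j, -, hj⟩ := (Nat.dvd_prime_pow hp.out).1 (orderOf_dvd_of_pow_eq_one h2)
    exact ⟨j, hj⟩

/-- regular elements centralize `P` -/
theorem reg_mem_cz {κ : ℕ} (hκ : IsPExp p κ G) (hP : IsPGroup p P) (hG : P ⊔ cz P = ⊤) {x : G} (hx : ¬ p ∣ orderOf x) : x ∈ cz P := by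
  obtain ⟨⟨z, c⟩, rfl⟩ := muPC_surj hG x
  have h1 := pow_mul_pc hκ hP z c
  have h2 : ((z : G) * c) ^ κ = 1 := hκ.one hx
  rw [h2] at h1
  have h3 : (z : G) ∈ cz P := by
    have : (z : G) = (((c ^ κ : cz P) : G))⁻¹ := eq_inv_of_mul_eq_one_left h1.symm
    rw [this]
    exact (cz P).inv_mem (c ^ κ).2
  exact (cz P).mul_mem h3 c.2

local notation "CC" => cz P

omit hp hMp in
theorem card_subgroupOf' (H K : Subgroup G) : Nat.card (H.subgroupOf K) = Nat.card (H ⊓ K : Subgroup G) := by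
  rw [← Subgroup.inf_subgroupOf_right]
  exact Nat.card_congr (Subgroup.subgroupOfEquivOfLe inf_le_right).toEquiv

omit hp hMp in
theorem card_pcp (hG : P ⊔ cz P = ⊤) : Nat.card G * Nat.card (P.subgroupOf (cz P)) = Nat.card P * Nat.card (cz P) := by
  haveI hn : (cz P).Normal := by
    have h1 : nz (cz P) = ⊤ := by
      rw [eq_top_iff, ← normal_of_pcp hG]; exact nz_le_nz_cz P
    exact Subgroup.normalizer_eq_top_iff.1 h1
  have h1 := Subgroup.card_mul_index (cz P)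
  have h2 := Subgroup.card_mul_index ((cz P).subgroupOf P)
  have h3 : ((cz P).subgroupOf P).index = (cz P).index := by
    have h4 : (cz P).relIndex (P ⊔ cz P) = (cz P).relIndex P := Subgroup.relIndex_sup_right P (cz P)
    rw [hG, Subgroup.relIndex_top_right] at h4
    exact h4.symm
  have h5 : Nat.card ((cz P).subgroupOf P) = Nat.card (P.subgroupOf (cz P)) := by
    rw [card_subgroupOf', card_subgroupOf', inf_comm]
  rw [h3, h5] at h2
  rw [← h1, ← h2]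
  ring

/-- the structure of a block of `P C(P)` with defect group `P` -/
theorem pcp_main (hM : IsPModular p M) {κ : ℕ} (hκ : IsPExp p κ G) (hP : IsPGroup p P) (hG : P ⊔ cz P = ⊤)
    {B : Set (IrrCharacter G)} (hB : IsPBlock M B) (hD : IsDefectGroup p M B P) :
    ∃ θ ∈ B, (∀ x ∈ P, (θ : G → ℂ) x = (θ : G → ℂ) 1) ∧
      (charDegree (θ : G → ℂ)).factorization p = P.index.factorization p ∧
      (∀ ψ ∈ B, ∃ ζ : IrrCharacter P, (ψ : G → ℂ) = tw κ P (ζ : P → ℂ) (θ : G → ℂ)) ∧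
      (∀ ζ : IrrCharacter P, ∃ ψ ∈ B, (ψ : G → ℂ) = tw κ P (ζ : P → ℂ) (θ : G → ℂ)) := by
  classical
  haveI := Fintype.ofFinite G
  haveI := Fintype.ofFinite (cz P)
  obtain ⟨e, he, hBe, heD⟩ := exists_cz_block hM hP hG hB hD
  set Z : Subgroup CC := P.subgroupOf CC with hZdef
  have hZc : Z ≤ Subgroup.center CC := by
    intro w hw
    rw [Subgroup.mem_center_iff]
    intro c
    exact Subtype.ext (Subgroup.mem_centralizer_iff.1 c.2 _ (Subgroup.mem_subgroupOf.1 hw)).symm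
  have hZp : IsPGroup p Z := isPGroup_subgroupOf hP
  have hκCC : IsPExp p κ CC := hκ.subgroup CC
  obtain ⟨η0, hη0, h00⟩ := exists_height_zero p (B := e) (IsPBlock.nonempty he)
  have hdeg : (charDegree (η0 : CC → ℂ)).factorization p + (Nat.card Z).factorization p = (Nat.card CC).factorization p := by
    have h1 := degree_eq (p := p) hη0
    have h2 := defectGroup_card hM he heD
    rw [h2, Nat.factorization_pow, Finsupp.smul_apply, Nat.Prime.factorization_self hp.out, smul_eq_mul, mul_one]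
    omega
  obtain ⟨-, hmem⟩ := cent_main hM hκCC hZp hZc he hη0 hdeg
  -- the members of `e`
  have hmk : ∀ lam : Z →* ℂˣ, ∃ η ∈ e, (η : CC → ℂ) = tw κ Z (fun z => (lam z : ℂ)) (η0 : CC → ℂ) := by
    intro lam
    refine ⟨⟨_, cent_irr hM hκCC hZp hZc hdeg lam⟩, ?_, rfl⟩
    exact (hmem _).2 ⟨lam, rfl⟩
  have hval : ∀ (lam : Z →* ℂˣ) (η : IrrCharacter CC), (η : CC → ℂ) = tw κ Z (fun z => (lam z : ℂ)) (η0 : CC → ℂ) →
      ∀ (w : Z) (x : CC), ¬ p ∣ orderOf x → (η : CC → ℂ) (w * x) = lam w * (η0 : CC → ℂ) x := by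
    intro lam η h w x hx
    rw [h]
    exact tw_mul hκCC hZp _ _ w hx (Subgroup.mem_center_iff.1 (hZc w.2) x).symm
  have h1reg : ¬ p ∣ orderOf (1 : CC) := by simpa using hp.out.one_lt.ne'
  have hval1 : ∀ (lam : Z →* ℂˣ) (η : IrrCharacter CC), (η : CC → ℂ) = tw κ Z (fun z => (lam z : ℂ)) (η0 : CC → ℂ) →
      (η : CC → ℂ) 1 = (η0 : CC → ℂ) 1 := by
    intro lam η h
    have := hval lam η h 1 1 h1reg
    simpa using this
  have hvalw : ∀ (lam : Z →* ℂˣ) (η : IrrCharacter CC), (η : CC → ℂ) = tw κ Z (fun z => (lam z : ℂ)) (η0 : CC → ℂ) →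
      ∀ w : Z, (η : CC → ℂ) w = lam w * (η : CC → ℂ) 1 := by
    intro lam η h w
    rw [hval1 lam η h]
    have := hval lam η h w 1 h1reg
    simpa using this
  -- the characters `ψ_ζ`
  have hpsi : ∀ ζ : IrrCharacter P, ∃ ψ ∈ B, ∃ lam : Z →* ℂˣ, (∀ (w : P) (w' : Z), (w : G) = ((w' : CC) : G) → ∀ z : P, (ζ : P → ℂ) (w * z) = lam w' * (ζ : P → ℂ) z) ∧
      ∀ (z : P) (c : CC), (ψ : G → ℂ) (z * c) = (ζ : P → ℂ) z * tw κ Z (fun z => (lam z : ℂ)) (η0 : CC → ℂ) c := by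
    intro ζ
    obtain ⟨lam, hlam⟩ := exists_lam_P ζ
    obtain ⟨η, hη, hηe⟩ := hmk lam
    obtain ⟨ψ, hψ⟩ := cp_join hG ζ η lam (fun w w' h => by simpa using hlam w w' h 1) (hvalw lam η hηe)
    refine ⟨ψ, (mem_block_iff hM hG hB he hBe hψ).2 hη, lam, hlam, fun z c => ?_⟩
    rw [hψ, hηe]
  -- the canonical character
  let one : IrrCharacter P := ⟨fun _ => 1, by simpa using isCharacter_one_dim (1 : P →* ℂˣ)⟩
  obtain ⟨θ, hθB, lam1, hlam1, hθ⟩ := hpsi one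
  have hlam1' : ∀ w : Z, (lam1 w : ℂ) = 1 := by
    intro w
    have := hlam1 ⟨((w : CC) : G), Subgroup.mem_subgroupOf.1 w.2⟩ w rfl 1
    have h2 : (1 : ℂ) = lam1 w * 1 := this
    rw [mul_one] at h2
    exact h2.symm
  have hθ1 : ∀ (z : P) (x : CC), ¬ p ∣ orderOf x → (θ : G → ℂ) (z * x) = (η0 : CC → ℂ) x := by
    intro z x hx
    rw [hθ]
    have h2 := tw_mul hκCC hZp (fun z => (lam1 z : ℂ)) (η0 : CC → ℂ) (1 : Z) hx (Commute.one_left _)
    simp only [Subgroup.coe_one, one_mul, map_one, Units.val_one] at h2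
    rw [h2]
    show (1 : ℂ) * _ = _
    rw [one_mul]
  have hreg : ∀ x : G, ¬ p ∣ orderOf x → ∃ c : CC, (c : G) = x ∧ ¬ p ∣ orderOf c := by
    intro x hx
    exact ⟨⟨x, reg_mem_cz hκ hP hG hx⟩, rfl, by rwa [← Subgroup.orderOf_coe]⟩
  -- all `ψ_ζ` are twists
  have htw : ∀ (ζ : IrrCharacter P) (ψ : G → ℂ) (lam : Z →* ℂˣ),
      (∀ (w : P) (w' : Z), (w : G) = ((w' : CC) : G) → ∀ z : P, (ζ : P → ℂ) (w * z) = lam w' * (ζ : P → ℂ) z) →
      (∀ (z : P) (c : CC), ψ (z * c) = (ζ : P → ℂ) z * tw κ Z (fun z => (lam z : ℂ)) (η0 : CC → ℂ) c) →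
      ψ = tw κ P (ζ : P → ℂ) (θ : G → ℂ) := by
    intro ζ ψ lam hlam hψ
    funext g
    obtain ⟨⟨z, c⟩, rfl⟩ := muPC_surj hG g
    show ψ (z * c) = tw κ P (ζ : P → ℂ) (θ : G → ℂ) (z * c)
    have h1 := pow_mul_pc hκ hP z c
    rw [hψ]
    by_cases hc : c ^ κ ∈ Z
    · have h2 : ((z : G) * c) ^ κ ∈ P := by rw [h1]; exact P.mul_mem z.2 (Subgroup.mem_subgroupOf.1 hc)
      rw [tw_of_mem _ _ h2, tw_of_mem _ _ hc]
      have h3 : (⟨((z : G) * c) ^ κ, h2⟩ : P) = ⟨((c ^ κ : CC) : G), Subgroup.mem_subgroupOf.1 hc⟩ * z := by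
        apply Subtype.ext
        show ((z : G) * c) ^ κ = ((c ^ κ : CC) : G) * z
        rw [h1]
        exact Subgroup.mem_centralizer_iff.1 (c ^ κ).2 _ z.2
      have h4 : (((z : G) * c) ^ κ)⁻¹ * (z * c) = ((1 : P) : G) * (((c ^ κ)⁻¹ * c : CC) : G) := by
        rw [h1]
        push_cast
        group
      rw [h3, h4, hθ1 1 _ (hκCC.reg c), hlam _ ⟨c ^ κ, hc⟩ rfl z]
      ring
    · have h2 : ((z : G) * c) ^ κ ∉ P := by
        rw [h1]
        intro h3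
        apply hc
        rw [Subgroup.mem_subgroupOf]
        have := P.mul_mem (P.inv_mem z.2) h3
        rwa [inv_mul_cancel_left] at this
      rw [tw_of_notMem _ _ h2, tw_of_notMem _ _ hc, mul_zero]
  refine ⟨θ, hθB, ?_, ?_, ?_, ?_⟩
  · intro x hx
    have h1 := hθ1 ⟨x, hx⟩ 1 h1reg
    have h2 := hθ1 1 1 h1reg
    simp only [Subgroup.coe_one, mul_one] at h1 h2
    rw [h1, h2]
  · -- degrees
    have h1 : charDegree (θ : G → ℂ) = charDegree (η0 : CC → ℂ) := by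
      have h2 := hθ1 1 1 h1reg
      simp only [Subgroup.coe_one, mul_one] at h2
      rw [charDegree, charDegree, h2]
    rw [h1]
    have h3 := index_factorization (p := p) P
    have h4 : Nat.card G * Nat.card Z = Nat.card P * Nat.card CC := card_pcp hG
    have h5 : (Nat.card G * Nat.card Z).factorization p = (Nat.card P * Nat.card CC).factorization p := by rw [h4]
    rw [Nat.factorization_mul Nat.card_pos.ne' Nat.card_pos.ne', Nat.factorization_mul Nat.card_pos.ne' Nat.card_pos.ne',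
      Finsupp.add_apply, Finsupp.add_apply] at h5
    omega
  · intro ψ hψ
    obtain ⟨ζ, η, hsp⟩ := cp_split hG ψ
    have hη := (mem_block_iff hM hG hB he hBe hsp).1 hψ
    obtain ⟨lam, hlam⟩ := (hmem η).1 hη
    refine ⟨ζ, htw ζ _ lam ?_ ?_⟩
    · obtain ⟨lam', hlam'⟩ := exists_lam_P ζ
      intro w w' hw z
      rw [hlam' w w' hw z]
      congr 1
      -- compare
      have h1 := hsp w 1
      have h2 := hsp 1 w'
      have h3 : ((w : P) : G) * ((1 : CC) : G) = ((1 : P) : G) * ((w' : CC) : G) := by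
        rw [hw]; simp
      rw [h3, h2] at h1
      have h4 := hlam' w w' hw 1
      rw [mul_one] at h4
      rw [h4, hvalw lam η hlam w'] at h1
      have h5 : (ζ : P → ℂ) 1 ≠ 0 := IsIrr.one_ne_zero ζ.2
      have h6 : (η : CC → ℂ) 1 ≠ 0 := IsIrr.one_ne_zero η.2
      have h7 : (lam w' : ℂ) * ((ζ : P → ℂ) 1 * (η : CC → ℂ) 1) = lam' w' * ((ζ : P → ℂ) 1 * (η : CC → ℂ) 1) := by
        linear_combination h1
      exact (mul_right_cancel₀ (mul_ne_zero h5 h6) h7).symm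
    · intro z c
      rw [hsp, hlam]
  · intro ζ
    obtain ⟨ψ, hψ, lam, hlam, h⟩ := hpsi ζ
    exact ⟨ψ, hψ, htw ζ _ lam hlam h⟩

omit hMp in
theorem tw_val {κ : ℕ} (hκ : IsPExp p κ G) (hP : IsPGroup p P) (ζ : P → ℂ) (θ : G → ℂ) (z : P) : tw κ P ζ θ z = ζ z * θ 1 := by
  have h := tw_mul hκ hP ζ θ z (x := 1) (by simpa using hp.out.one_lt.ne') (Commute.one_right _)
  rwa [mul_one] at h

omit hMp in
theorem tw_injective {κ : ℕ} (hκ : IsPExp p κ G) (hP : IsPGroup p P) {θ : IrrCharacter G} {ζ ζ' : P → ℂ}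
    (h : tw κ P ζ (θ : G → ℂ) = tw κ P ζ' (θ : G → ℂ)) : ζ = ζ' := by
  funext z
  have h1 := congrFun h z
  rw [tw_val hκ hP, tw_val hκ hP] at h1
  exact mul_right_cancel₀ (IsIrr.one_ne_zero θ.2) h1

omit hMp in
/-- an irreducible character all of whose values are equal is trivial -/
theorem irr_const (ζ : IrrCharacter P) (h : ∀ z : P, (ζ : P → ℂ) z = (ζ : P → ℂ) 1) : (ζ : P → ℂ) = fun _ => 1 := by
  haveI := Fintype.ofFinite P
  have h1 := classInner_irr' ζ ζ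
  rw [if_pos rfl, classInner] at h1
  have h2 : (Nat.card P : ℂ) ≠ 0 := by exact_mod_cast Nat.card_pos.ne'
  have h3 : (Nat.card P : ℂ)⁻¹ * ∑ g : P, (ζ : P → ℂ) g * (starRingEnd ℂ) ((ζ : P → ℂ) g) = (ζ : P → ℂ) 1 * (ζ : P → ℂ) 1 := by
    have h4 : ∀ g : P, (ζ : P → ℂ) g * (starRingEnd ℂ) ((ζ : P → ℂ) g) = (ζ : P → ℂ) 1 * (ζ : P → ℂ) 1 := by
      intro g
      rw [h g]
      obtain ⟨n, hn⟩ := IsCharacter.one_nat (IsIrr.isCharacter ζ.2)
      rw [hn, Complex.conj_natCast]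
    rw [Finset.sum_congr rfl fun g _ => h4 g, Finset.sum_const, Finset.card_univ, nsmul_eq_mul, ← Nat.card_eq_fintype_card, ← mul_assoc,
      inv_mul_cancel₀ h2, one_mul]
  rw [h3] at h1
  obtain ⟨n, hn⟩ := IsCharacter.one_nat (IsIrr.isCharacter ζ.2)
  rw [hn] at h1
  have h4 : n * n = 1 := by exact_mod_cast h1
  have h5 : n = 1 := Nat.eq_one_of_mul_eq_one_left h4
  funext z
  rw [h z, hn, h5]; simp

/-- Theorem S0968 -/
theorem pcp_thm (hM : IsPModular p M) (hP : IsPGroup p P) (hG : P ⊔ cz P = ⊤)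
    {B : Set (IrrCharacter G)} (hB : IsPBlock M B) (hD : IsDefectGroup p M B P) :
    (∃! θ : IrrCharacter G, θ ∈ B ∧ ∀ x ∈ P, (θ : G → ℂ) x = (θ : G → ℂ) 1) ∧
    (∀ θ ∈ B, (∀ x ∈ P, (θ : G → ℂ) x = (θ : G → ℂ) 1) → (charDegree (θ : G → ℂ)).factorization p = P.index.factorization p) ∧
    Nat.card B = Nat.card (ConjClasses P) := by
  classical
  haveI := Fintype.ofFinite P
  obtain ⟨κ, hκ⟩ := exists_pexp p G
  obtain ⟨θ, hθ, h1, h2, h3, h4⟩ := pcp_main hM hκ hP hG hB hD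
  have huniq : ∀ θ' : IrrCharacter G, θ' ∈ B → (∀ x ∈ P, (θ' : G → ℂ) x = (θ' : G → ℂ) 1) → θ' = θ := by
    intro θ' h5 h6
    obtain ⟨ζ, hζ⟩ := h3 θ' h5
    obtain ⟨ζ', hζ'⟩ := h3 θ hθ
    have h7 : ∀ (χ : IrrCharacter G) (ξ : IrrCharacter P), (∀ x ∈ P, (χ : G → ℂ) x = (χ : G → ℂ) 1) →
        (χ : G → ℂ) = tw κ P (ξ : P → ℂ) (θ : G → ℂ) → (ξ : P → ℂ) = fun _ => 1 := by
      intro χ ξ ha hb
      apply irr_const
      intro z
      have hc := ha z z.2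
      have hd := ha 1 (P.one_mem)
      rw [hb, tw_val hκ hP] at hc
      have he : tw κ P (ξ : P → ℂ) (θ : G → ℂ) 1 = (ξ : P → ℂ) 1 * (θ : G → ℂ) 1 := tw_val hκ hP (ξ : P → ℂ) (θ : G → ℂ) 1
      rw [he] at hc
      exact mul_right_cancel₀ (IsIrr.one_ne_zero θ.2) hc
    apply Subtype.ext
    have h8 := h7 θ ζ' h1 hζ'
    have h9 := h7 θ' ζ h6 hζ
    exact hζ.trans (by rw [h9, ← h8]; exact hζ'.symm)
  refine ⟨⟨θ, ⟨hθ, h1⟩, fun θ' h => huniq θ' h.1 h.2⟩, fun θ' h5 h6 => by rw [huniq θ' h5 h6]; exact h2, ?_⟩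
  rw [← card_irr]
  choose f hf hf' using h4
  refine (Nat.card_congr (Equiv.ofBijective (fun ζ : IrrCharacter P => (⟨f ζ, hf ζ⟩ : B)) ⟨?_, ?_⟩)).symm
  · intro ζ ζ' h
    have h5 : f ζ = f ζ' := congrArg Subtype.val h
    have h6 : ((f ζ : IrrCharacter G) : G → ℂ) = (f ζ' : G → ℂ) := by rw [h5]
    rw [hf', hf'] at h6
    exact Subtype.ext (tw_injective hκ hP h6)
  · rintro ⟨ψ, hψ⟩
    obtain ⟨ζ, hζ⟩ := h3 ψ hψ
    refine ⟨ζ, Subtype.ext (Subtype.ext ?_)⟩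
    show ((f ζ : IrrCharacter G) : G → ℂ) = ψ
    rw [hf', hζ]

end blocks

end CfsgH5
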