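import Cfsg.Agent.H5.RealOrb
import Cfsg.Agent.H5.SymSq
import Cfsg.Agent.H4.Odd

/-!
# Real characters over a normal subgroup of odd index
-/

set_option autoImplicit false
open Cfsg
open CfsgH4 hiding centralChar sum_conj

namespace CfsgH5

open scoped ComplexConjugate

variable {G : Type*} [Group G] [Fintype G]

/-- a real element of `G` lies in a normal subgroup of odd index and is real in it -/
theorem real_mem_of_odd (N : Subgroup G) [hN : N.Normal] (hodd : Odd N.index) {g : G} (h : IsConj g g⁻¹) :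
    ∃ hg : g ∈ N, IsConj (⟨g, hg⟩ : N) (⟨g, hg⟩ : N)⁻¹ := by
  have h1 : IsConj (g : G ⧸ N) (g : G ⧸ N)⁻¹ := by
    have h2 := (QuotientGroup.mk' N).map_isConj h
    simpa using h2
  have h2 : (g : G ⧸ N) = 1 := by
    apply eq_one_of_isConj_inv _ h1
    have : Nat.card (G ⧸ N) = N.index := rfl
    rw [this]
    exact hodd
  have hg : g ∈ N := (QuotientGroup.eq_one_iff _).1 h2
  refine ⟨hg, ?_⟩
  rw [isConj_iff] at h ⊢
  obtain ⟨c, hc⟩ := h
  have h3 : ∀ j : ℕ, c ^ (2 * j) * g * (c ^ (2 * j))⁻¹ = g := by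
    intro j
    induction j with
    | zero => simp
    | succ j ih =>
      have h4 : c ^ (2 * (j + 1)) = c ^ (2 * j) * c * c := by
        rw [mul_add, pow_add]; group
      rw [h4]
      have h5 : c * g⁻¹ * c⁻¹ = g := by
        have h6 : c * g⁻¹ * c⁻¹ = (c * g * c⁻¹)⁻¹ := by group
        rw [h6, hc, inv_inv]
      calc c ^ (2 * j) * c * c * g * (c ^ (2 * j) * c * c)⁻¹ = c ^ (2 * j) * (c * (c * g * c⁻¹) * c⁻¹) * (c ^ (2 * j))⁻¹ := by group
        _ = c ^ (2 * j) * g * (c ^ (2 * j))⁻¹ := by rw [hc, h5]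
        _ = g := ih
  obtain ⟨j, hj⟩ := hodd
  refine ⟨⟨c ^ N.index, Subgroup.pow_index_mem N c⟩, Subtype.ext ?_⟩
  show c ^ N.index * g * (c ^ N.index)⁻¹ = g⁻¹
  rw [hj, pow_succ' c (2 * j)]
  calc c * c ^ (2 * j) * g * (c * c ^ (2 * j))⁻¹ = c * (c ^ (2 * j) * g * (c ^ (2 * j))⁻¹) * c⁻¹ := by group
    _ = g⁻¹ := by rw [h3, hc]

/-- any constituent of the restriction of a real character to a normal subgroup of odd index is real -/
theorem constituent_real (N : Subgroup G) [hN : N.Normal] [Fintype N] (hodd : Odd N.index) {χ : G → ℂ} (hχ : IsIrrCharacter G χ)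
    (hr : ∀ g, conj (χ g) = χ g) {θ : N → ℂ} (hθ : IsIrrCharacter N θ) (hne : classInner (fun n : N => χ n) θ ≠ 0) :
    ∀ n, conj (θ n) = θ n := by
  have h1 : classInner (fun n : N => χ n) (fun n => conj (θ n)) ≠ 0 := by
    have h2 : classInner (fun n : N => χ n) (fun n => conj (θ n)) = conj (classInner (fun n : N => χ n) θ) := by
      rw [← classInner_conj_conj]
      congr 1
      ext n
      exact (hr n).symm
    rw [h2]
    intro h3
    apply hne
    rw [← Complex.conj_conj (classInner (fun n : N => χ n) θ), h3, map_zero]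
  obtain ⟨g, hg⟩ := clifford_conj N hχ hθ (isIrrCharacter_conj hθ) hne h1
  have h2 : conjFun N (conjFun N θ g) g = θ := by
    rw [← hg, conjFun_conj, ← hg]
    ext n
    simp
  have h3 : ∀ j : ℕ, conjFun N θ (g ^ (2 * j)) = θ := by
    intro j
    induction j with
    | zero => simp [conjFun_one]
    | succ j ih =>
      rw [show g ^ (2 * (j + 1)) = g * g * g ^ (2 * j) by rw [mul_add, pow_add]; group, ← conjFun_mul, ← conjFun_mul, h2, ih]
  obtain ⟨j, hj⟩ := id hodd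
  have h4 : conjFun N θ (g ^ N.index) = conjFun N θ g := by
    rw [hj, pow_succ, ← conjFun_mul, h3]
  have h5 : conjFun N θ (g ^ N.index) = θ := by
    have h6 := conjFun_mem N (IsIrr.isClassFunction hθ) ⟨g ^ N.index, Subgroup.pow_index_mem N g⟩
    exact h6
  rw [← h4, h5] at hg
  intro n
  exact congrFun hg n

theorem exists_real_over (N : Subgroup G) [hN : N.Normal] [Fintype N] (hodd : Odd N.index) {θ : N → ℂ} (hθ : IsIrrCharacter N θ)
    (hr : ∀ n, conj (θ n) = θ n) : ∃ χ : IrrCharacter G, (∀ g, ((χ : G → ℂ) g).im = 0) ∧ classInner (fun n : N => (χ : G → ℂ) n) θ ≠ 0 := by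
  by_contra hcon
  push Not at hcon
  have h1 := fs_sum_odd N hodd θ
  rw [Finset.sum_eq_zero] at h1
  · rcases fs_main hθ with ⟨⟨s, hs⟩, -⟩ | ⟨-, h2 | h2⟩
    · exact hs (Complex.conj_eq_iff_im.1 (hr s))
    · rw [h2] at h1; simp at h1
    · rw [h2] at h1; simp at h1
  · intro χ _
    rcases fs_main χ.2 with ⟨-, h2⟩ | ⟨h2, -⟩
    · rw [h2, zero_mul]
    · rw [hcon χ h2, mul_zero]

theorem card_real_classes (N : Subgroup G) [hN : N.Normal] (hodd : Odd N.index) :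
    Nat.card (Quot (fun x y : {x : ↥N // IsConj x x⁻¹} => ∃ g : G, (y.1 : G) = g * x.1 * g⁻¹)) =
      Nat.card {C : ConjClasses G // ∀ g : G, ConjClasses.mk g = C → IsConj g g⁻¹} := by
  have hreal : ∀ x : {x : ↥N // IsConj x x⁻¹}, ∀ g : G, ConjClasses.mk g = ConjClasses.mk ((x.1 : N) : G) → IsConj g g⁻¹ := by
    intro x g hg
    rw [ConjClasses.mk_eq_mk_iff_isConj] at hg
    have h1 : IsConj ((x.1 : N) : G) ((x.1 : N) : G)⁻¹ := N.subtype.map_isConj x.2
    exact (hg.trans h1).trans (isConj_inv' hg).symm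
  have hwd : ∀ x y : {x : ↥N // IsConj x x⁻¹}, (∃ g : G, (y.1 : G) = g * x.1 * g⁻¹) →
      (⟨ConjClasses.mk ((x.1 : N) : G), hreal x⟩ : {C : ConjClasses G // ∀ g : G, ConjClasses.mk g = C → IsConj g g⁻¹}) =
        ⟨ConjClasses.mk ((y.1 : N) : G), hreal y⟩ := by
    rintro x y ⟨g, hg⟩
    apply Subtype.ext
    show ConjClasses.mk _ = ConjClasses.mk _
    rw [ConjClasses.mk_eq_mk_iff_isConj, isConj_iff]
    exact ⟨g, hg.symm⟩
  apply Nat.card_congr
  refine Equiv.ofBijective (Quot.lift _ hwd) ⟨?_, ?_⟩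
  · intro a b hab
    induction a using Quot.ind with
    | _ x =>
    induction b using Quot.ind with
    | _ y =>
    have h1 : ConjClasses.mk ((x.1 : N) : G) = ConjClasses.mk ((y.1 : N) : G) := congrArg Subtype.val hab
    rw [ConjClasses.mk_eq_mk_iff_isConj, isConj_iff] at h1
    obtain ⟨c, hc⟩ := h1
    exact Quot.sound ⟨c, hc.symm⟩
  · rintro ⟨C, hC⟩
    obtain ⟨g, rfl⟩ := ConjClasses.mk_surjective C
    obtain ⟨hg, hg'⟩ := real_mem_of_odd N hodd (hC g rfl)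
    exact ⟨Quot.mk _ ⟨⟨g, hg⟩, hg'⟩, rfl⟩

theorem unique_real_over (N : Subgroup G) [hN : N.Normal] [Fintype N] (hodd : Odd N.index) {θ : N → ℂ} (hθ : IsIrrCharacter N θ)
    {χ χ' : IrrCharacter G} (hr : ∀ g, ((χ : G → ℂ) g).im = 0) (hr' : ∀ g, ((χ' : G → ℂ) g).im = 0)
    (hne : classInner (fun n : N => (χ : G → ℂ) n) θ ≠ 0) (hne' : classInner (fun n : N => (χ' : G → ℂ) n) θ ≠ 0) : χ = χ' := by
  classical
  set r := (fun θ η : {θ : IrrCharacter ↥N // (∀ k : ↥N, ((θ : ↥N → ℂ) k).im = 0)} =>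
      ∃ g : G, ∀ k k' : ↥N, (k' : G) = g * (k : G) * g⁻¹ → (η.1 : ↥N → ℂ) k' = (θ.1 : ↥N → ℂ) k) with hrdef
  have hcard : Nat.card {χ : IrrCharacter G // ∀ g : G, ((χ : G → ℂ) g).im = 0} = Nat.card (Quot r) := by
    rw [card_real_irr, ← card_real_classes N hodd, hrdef, real_orbits N hodd]
  -- constituents
  have hex : ∀ χ : {χ : IrrCharacter G // ∀ g : G, ((χ : G → ℂ) g).im = 0}, ∃ θ : {θ : IrrCharacter ↥N // (∀ k : ↥N, ((θ : ↥N → ℂ) k).im = 0)},
      classInner (fun n : N => (χ.1 : G → ℂ) n) (θ.1 : N → ℂ) ≠ 0 := by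
    intro χ
    obtain ⟨θ, hθ, h1⟩ := exists_constituent_restrict N χ.1.2
    refine ⟨⟨⟨θ, hθ⟩, fun k => ?_⟩, h1⟩
    exact Complex.conj_eq_iff_im.1 (constituent_real N hodd χ.1.2 (fun g => Complex.conj_eq_iff_im.2 (χ.2 g)) hθ h1 k)
  choose f hf using hex
  have hF : ∀ (χ : {χ : IrrCharacter G // ∀ g : G, ((χ : G → ℂ) g).im = 0}) (θ : {θ : IrrCharacter ↥N // (∀ k : ↥N, ((θ : ↥N → ℂ) k).im = 0)}),
      classInner (fun n : N => (χ.1 : G → ℂ) n) (θ.1 : N → ℂ) ≠ 0 → Quot.mk r (f χ) = Quot.mk r θ := by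
    intro χ θ h1
    obtain ⟨g, hg⟩ := clifford_conj N χ.1.2 θ.1.2 (f χ).1.2 h1 (hf χ)
    apply Quot.sound
    refine ⟨g, fun k k' hk => ?_⟩
    rw [hg, conjFun_apply]
    exact congrArg (θ.1 : N → ℂ) (Subtype.ext hk)
  have hsurj : Function.Surjective (fun χ : {χ : IrrCharacter G // ∀ g : G, ((χ : G → ℂ) g).im = 0} => Quot.mk r (f χ)) := by
    intro q
    induction q using Quot.ind with
    | _ θ =>
    obtain ⟨χ, hχ, hχ'⟩ := exists_real_over N hodd θ.1.2 (fun n => Complex.conj_eq_iff_im.2 (θ.2 n))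
    exact ⟨⟨χ, hχ⟩, hF ⟨χ, hχ⟩ θ hχ'⟩
  have hbij := hsurj.bijective_of_nat_card_le hcard.le
  have hθr : ∀ k, (θ k).im = 0 := fun k =>
    Complex.conj_eq_iff_im.1 (constituent_real N hodd χ.2 (fun g => Complex.conj_eq_iff_im.2 (hr g)) hθ hne k)
  have h1 := hF ⟨χ, hr⟩ ⟨⟨θ, hθ⟩, hθr⟩ hne
  have h2 := hF ⟨χ', hr'⟩ ⟨⟨θ, hθ⟩, hθr⟩ hne'
  have h3 := hbij.1 (h1.trans h2.symm)
  exact congrArg Subtype.val h3

/-- S4873 -/
theorem fs_unique_over (N : Subgroup G) [hN : N.Normal] [Fintype N] (hodd : Odd N.index) {φ : N → ℂ} (hφ : IsIrrCharacter N φ)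
    (hφ1 : fs φ = 1) : ∃! χ : IrrCharacter G, fs (χ : G → ℂ) = 1 ∧ classInner (fun n : N => (χ : G → ℂ) n) φ ≠ 0 := by
  classical
  obtain ⟨χ, hr, hne⟩ := exists_real_over N hodd hφ (real_of_fs hφ (by rw [hφ1]; exact one_ne_zero))
  have himp : ∀ ψ : IrrCharacter G, fs (ψ : G → ℂ) ≠ 0 → ∀ g, ((ψ : G → ℂ) g).im = 0 := fun ψ h g =>
    Complex.conj_eq_iff_im.1 (real_of_fs ψ.2 h g)
  refine ⟨χ, ⟨?_, hne⟩, fun ψ hψ => unique_real_over N hodd hφ (himp ψ (by rw [hψ.1]; exact one_ne_zero)) hr hψ.2 hne⟩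
  have h1 := fs_sum_odd N hodd φ
  rw [Finset.sum_eq_single χ, hφ1, map_one] at h1
  · obtain ⟨m, hm⟩ := IsCharacter.inner_irr_nat (isCharacter_restrict N (IsIrr.isCharacter χ.2)) hφ
    rw [hm] at h1
    rcases fs_main χ.2 with ⟨-, h2⟩ | ⟨-, h2 | h2⟩
    · rw [h2] at h1; simp at h1
    · exact h2
    · rw [h2] at h1
      exfalso
      have h3 : (0 : ℂ) = 1 + m := by linear_combination h1
      have h4 : (0 : ℕ) = 1 + m := by exact_mod_cast h3
      omega
  · intro ψ _ hψ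
    by_cases h2 : fs (ψ : G → ℂ) = 0
    · rw [h2, zero_mul]
    · by_cases h3 : classInner (fun n : N => (ψ : G → ℂ) n) φ = 0
      · rw [h3, mul_zero]
      · exact absurd (unique_real_over N hodd hφ (himp ψ h2) hr h3 hne) hψ
  · intro h; exact absurd (Finset.mem_univ _) h

end CfsgH5
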