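import Cfsg.Agent.H5.FrobH
import Cfsg.Agent.H5.BSd
import Cfsg.Agent.H3.NPC2

/-!
# Simple groups whose order is divisible by a prime to the first power: degree equations
-/

set_option autoImplicit false

open Cfsg MonoidAlgebra
open CfsgH4 hiding centralChar sum_conj regInner_symm

namespace CfsgH5

open scoped ComplexConjugate

section Main

variable {G : Type*} [Group G] [Fintype G] {p : ℕ} [hp : Fact p.Prime]
variable {P : Sylow p G} {M : Ideal AlgInt}

/-- the index of the centralizer in the normalizer -/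
noncomputable def eP (P : Sylow p G) : ℕ := (cP P).relIndex (nP P)

theorem zpowers_eq_of_prime (hP : Nat.card (P : Subgroup G) = p) {y : G} (hy : y ∈ (P : Subgroup G)) (hy1 : y ≠ 1) :
    Subgroup.zpowers y = (P : Subgroup G) := by
  have h1 : Subgroup.zpowers y ≤ (P : Subgroup G) := by rw [Subgroup.zpowers_le]; exact hy
  apply Subgroup.eq_of_le_of_card_ge h1
  rw [hP, Nat.card_zpowers]
  have h2 : orderOf y ∣ p := by
    have := orderOf_dvd_natCard (⟨y, hy⟩ : (P : Subgroup G))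
    rw [hP, Subgroup.orderOf_mk] at this
    exact this
  rcases (Nat.dvd_prime hp.out).1 h2 with h3 | h3
  · exact absurd (orderOf_eq_one_iff.1 h3) hy1
  · exact h3.ge

theorem FH.of_prime (hP : Nat.card (P : Subgroup G) = p) : FH P (eP P) := by
  haveI hcyc : IsCyclic (P : Subgroup G) := isCyclic_of_prime_card hP
  refine ⟨?_, rfl, ?_⟩
  · intro a ha b hb
    have h1 := hcyc.commutative.is_comm.comm (⟨a, ha⟩ : (P : Subgroup G)) ⟨b, hb⟩
    exact congrArg Subtype.val h1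
  · intro y hy hy1
    apply le_antisymm
    · intro c hc
      have h1 := Subgroup.mem_centralizer_singleton_iff.1 (Subgroup.mem_inf.1 hc).1
      rw [Subgroup.mem_centralizer_iff]
      intro a ha
      rw [SetLike.mem_coe, ← zpowers_eq_of_prime hP hy hy1] at ha
      obtain ⟨k, rfl⟩ := Subgroup.mem_zpowers_iff.1 ha
      exact (show Commute y c from h1.symm).zpow_left k
    · intro c hc
      refine Subgroup.mem_inf.2 ⟨Subgroup.mem_centralizer_singleton_iff.2 (Subgroup.mem_centralizer_iff.1 hc y hy).symm, ?_⟩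
      exact Subgroup.centralizer_le_normalizer _ hc

theorem eP_dvd (hP : Nat.card (P : Subgroup G) = p) : eP P ∣ p - 1 := by
  haveI hcyc : IsCyclic (P : Subgroup G) := isCyclic_of_prime_card hP
  have h1 : Nat.card (MulAut (P : Subgroup G)) = p - 1 := by
    rw [IsCyclic.card_mulAut, hP, Nat.totient_prime hp.out]
  have h2 : eP P = Nat.card ((P : Subgroup G).normalizerMonoidHom).range := by
    unfold eP
    rw [Subgroup.relIndex, ← Subgroup.normalizerMonoidHom_ker, Subgroup.index_ker]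
  rw [h2, ← h1]
  exact Subgroup.card_subgroup_dvd_card _

theorem eP_mul (hP : Nat.card (P : Subgroup G) = p) : Nat.card (nP P) = eP P * Nat.card (cP P) := card_nP (FH.of_prime hP)

theorem eP_ne_one [IsSimpleGroup G] (hn : Nat.card G ≠ p) (hpG : p ∣ Nat.card G) : eP P ≠ 1 := by
  intro h
  have h1 : nP P ≤ cP P := Subgroup.relIndex_eq_one.1 h
  rcases (CfsgH3.hasNPC_burnside P h1).simple with h2 | h2
  · exact h2 hpG
  · exact hn h2

theorem deg_ne_one [IsSimpleGroup G] (hG : ¬ (Nat.card G).Prime) {χ : IrrCharacter G} (hχ : χ ≠ irrOne G) : charDegree (χ : G → ℂ) ≠ 1 := by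
  intro h
  obtain ⟨f, hf⟩ := exists_hom_of_degree_one h
  rcases (inferInstance : f.ker.Normal).eq_bot_or_eq_top with h1 | h1
  · have hinj : Function.Injective f := (MonoidHom.ker_eq_bot_iff f).1 h1
    have hcomm : ∀ a b : G, a * b = b * a := fun a b => hinj (by rw [map_mul, map_mul, mul_comm])
    letI : CommGroup G := { (inferInstance : Group G) with mul_comm := hcomm }
    exact hG (IsSimpleGroup.prime_card (α := G))
  · apply hχ
    apply Subtype.ext
    rw [hf]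
    funext g
    have h2 : g ∈ f.ker := by rw [h1]; trivial
    rw [MonoidHom.mem_ker.1 h2]; rfl

/-- the data for `m = 2` -/
structure S2 (M : Ideal AlgInt) (P : Sylow p G) (w : IrrCharacter G → ℤ) (δ : ℤ)
    (ζ : ((P : Subgroup G) →* ℂˣ) → IrrCharacter G) (a : IrrCharacter G) : Prop where
  D : FD M P 2 w 0 δ ζ
  a1 : a ≠ irrOne G
  mem : ∀ χ, χ ∈ XX M ζ ↔ (χ = irrOne G ∨ χ = a)
  wa : w a = 1 ∨ w a = -1
  w1 : w (irrOne G) = 1

variable {w : IrrCharacter G → ℤ} {δ : ℤ} {ζ : ((P : Subgroup G) →* ℂˣ) → IrrCharacter G}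

theorem FH.exists_S2 (h : FH P 2) (hM : IsPModular p M) (hm : 7 ≤ Nat.card (P : Subgroup G)) :
    ∃ w δ ζ a, S2 M P w δ ζ a := by
  classical
  haveI := IsPModular.isPrime hM
  obtain ⟨w, d, δ, ζ, D⟩ := h.main hM (by omega)
  have h1 := D.norm_split
  have h2 := D.card_Y h
  have h3 := D.irrOne_notMem h (by omega)
  have h1X : irrOne G ∈ XX M ζ := ⟨irrOne_mem, h3.1⟩
  have hnn : ∀ χ : IrrCharacter G, 0 ≤ (if χ ∈ XX M ζ then w χ ^ 2 else 0) := fun χ => by
    split_ifs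
    · exact sq_nonneg _
    · exact le_refl _
  have h4 : (1 : ℤ) ≤ ∑ χ : IrrCharacter G, (if χ ∈ XX M ζ then w χ ^ 2 else 0) := by
    have h5 := Finset.single_le_sum (fun χ _ => hnn χ) (Finset.mem_univ (irrOne G))
    rw [if_pos h1X, h3.2] at h5
    linarith
  have h2z : (3 : ℤ) ≤ Nat.card (YY ζ) := by
    have : 3 ≤ Nat.card (YY ζ) := by omega
    exact_mod_cast this
  obtain ⟨r, hr⟩ : ∃ r : ℤ, r = Nat.card (YY ζ) := ⟨_, rfl⟩
  rw [← hr] at h1 h2z
  have hd0 : d = 0 := by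
    by_contra hd0
    have hd1 : 1 ≤ d ^ 2 := by
      have := sq_nonneg d
      have h6 : d ^ 2 ≠ 0 := pow_ne_zero 2 hd0
      omega
    have h5 : r * d ^ 2 ≤ 1 + 2 * (δ * d) := by
      have : (2 : ℤ) * δ * d = 2 * (δ * d) := by ring
      push_cast at h1; linarith
    have h6 : 3 * d ^ 2 ≤ r * d ^ 2 := by nlinarith
    have hdd : d = δ ∧ r = 3 := by
      rcases D.sgn with h' | h'
      · rw [h'] at h5 ⊢
        have h7 : d < 2 := by nlinarith
        have h8 : 0 ≤ d := by nlinarith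
        have h9 : d = 1 := by
          rcases lt_or_eq_of_le h8 with h10 | h10
          · omega
          · exact absurd h10.symm hd0
        subst h9
        refine ⟨rfl, ?_⟩
        linarith
      · rw [h'] at h5 ⊢
        have h7 : -2 < d := by nlinarith
        have h8 : d ≤ 0 := by nlinarith
        have h9 : d = -1 := by
          rcases lt_or_eq_of_le h8 with h10 | h10
          · omega
          · exact absurd h10 hd0
        subst h9
        refine ⟨rfl, ?_⟩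
        linarith
    -- then X = {1} and a parity contradiction
    have hδ2 : δ * δ = 1 := by rcases D.sgn with h' | h' <;> rw [h'] <;> norm_num
    obtain ⟨hdδ, hr3⟩ := hdd
    have h10 : ∑ χ : IrrCharacter G, (if χ ∈ XX M ζ then w χ ^ 2 else 0) = 1 := by
      rw [hr3, hdδ] at h1
      push_cast at h1
      nlinarith [hδ2]
    have h11 : ∀ χ ∈ XX M ζ, χ = irrOne G := by
      intro χ hχ
      by_contra hne
      have h12 : ∑ χ ∈ ({irrOne G, χ} : Finset (IrrCharacter G)), (if χ ∈ XX M ζ then w χ ^ 2 else 0) ≤ 1 := by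
        rw [← h10]
        exact Finset.sum_le_sum_of_subset_of_nonneg (Finset.subset_univ _) (fun χ _ _ => hnn χ)
      rw [Finset.sum_pair (fun h' => hne h'.symm), if_pos h1X, if_pos hχ, h3.2] at h12
      have h13 := D.w_ne_zero hM h (by omega) hχ
      have h14 : 0 < w χ ^ 2 := by positivity
      linarith
    obtain ⟨ψ, -, hψ, -⟩ := h.exists_nonrel (by omega)
    have h12 := D.reg hM (η := ζ ψ) ⟨ψ, hψ, rfl⟩ (g := 1) (by rw [orderOf_one]; exact hp.out.not_dvd_one)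
    have h13 : ∑ χ : IrrCharacter G, (if χ ∈ XX M ζ then (w χ : ℂ) * (χ : G → ℂ) 1 else 0) = 1 := by
      rw [Finset.sum_eq_single (irrOne G)]
      · rw [if_pos h1X, h3.2]
        show ((1 : ℤ) : ℂ) * 1 = 1
        push_cast; ring
      · intro χ _ hne
        rw [if_neg (fun h' => hne (h11 χ h'))]
      · intro h'; exact absurd (Finset.mem_univ _) h'
    rw [h13, (IsIrr.one_eq (ζ ψ).2).1] at h12
    have h14 : ((((Nat.card (YY ζ) : ℤ) * d - δ) * (charDegree (ζ ψ : G → ℂ) : ℤ) + 1 : ℤ) : ℂ) = 0 := by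
      push_cast; exact h12
    have h15 : (((Nat.card (YY ζ) : ℤ) * d - δ) * (charDegree (ζ ψ : G → ℂ) : ℤ) + 1 : ℤ) = 0 := by exact_mod_cast h14
    rw [← hr, hr3, hdδ] at h15
    have h16 : 2 * (δ * (charDegree (ζ ψ : G → ℂ) : ℤ)) = -1 := by linarith
    omega
  subst hd0
  rw [show (r * 0 ^ 2) = 0 by ring, mul_zero, add_zero, add_zero] at h1
  have hone : ∀ χ ∈ XX M ζ, w χ = 1 ∨ w χ = -1 := by
    intro χ hχ
    have h4 := Finset.single_le_sum (fun χ _ => hnn χ) (Finset.mem_univ χ)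
    rw [if_pos hχ, h1] at h4
    have h5 := D.w_ne_zero hM h (by omega) hχ
    have h6 : w χ < 2 := by push_cast at h4; nlinarith
    have h7 : -2 < w χ := by push_cast at h4; nlinarith
    omega
  have h2 : (Finset.univ.filter fun χ : IrrCharacter G => χ ∈ XX M ζ).card = 2 := by
    have h5 : ∑ χ : IrrCharacter G, (if χ ∈ XX M ζ then w χ ^ 2 else 0) =
        ∑ χ : IrrCharacter G, (if χ ∈ XX M ζ then (1 : ℤ) else 0) := by
      refine Finset.sum_congr rfl fun χ _ => ?_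
      split_ifs with hχ
      · rcases hone χ hχ with h' | h' <;> rw [h'] <;> norm_num
      · rfl
    rw [h5, Finset.sum_boole] at h1
    exact_mod_cast h1
  have h3' : ((Finset.univ.filter fun χ : IrrCharacter G => χ ∈ XX M ζ).erase (irrOne G)).card = 1 := by
    rw [Finset.card_erase_of_mem (by rw [Finset.mem_filter]; exact ⟨Finset.mem_univ _, h1X⟩), h2]
  obtain ⟨a, hS⟩ := Finset.card_eq_one.1 h3'
  have hmem : ∀ χ, (χ ∈ XX M ζ ∧ χ ≠ irrOne G) ↔ χ = a := by
    intro χ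
    have h4 : χ ∈ ((Finset.univ.filter fun χ : IrrCharacter G => χ ∈ XX M ζ).erase (irrOne G)) ↔
        χ ∈ ({a} : Finset (IrrCharacter G)) := by rw [hS]
    rw [Finset.mem_erase, Finset.mem_filter, Finset.mem_singleton] at h4
    rw [← h4]
    constructor
    · rintro ⟨h5, h6⟩; exact ⟨h6, Finset.mem_univ _, h5⟩
    · rintro ⟨h5, -, h6⟩; exact ⟨h6, h5⟩
  have ha := (hmem a).2 rfl
  refine ⟨w, δ, ζ, a, D, ha.2, fun χ => ?_, hone a ha.1, h3.2⟩
  constructor
  · intro hχ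
    by_cases h4 : χ = irrOne G
    · exact Or.inl h4
    · exact Or.inr ((hmem χ).1 ⟨hχ, h4⟩)
  · rintro (rfl | h4)
    · exact h1X
    · exact ((hmem χ).2 h4).1

variable {a b : IrrCharacter G}

theorem S2.rel0 (hM : IsPModular p M) (S : S2 M P w δ ζ a) {η : IrrCharacter G} (hη : η ∈ YY ζ) {g : G}
    (hg : ¬ p ∣ orderOf g) : 1 + w a * (a : G → ℂ) g - δ * (η : G → ℂ) g = 0 := by
  classical
  have h1 := S.D.reg hM hη hg
  have h2 : ∑ χ : IrrCharacter G, (if χ ∈ XX M ζ then (w χ : ℂ) * (χ : G → ℂ) g else 0) = 1 + w a * (a : G → ℂ) g := by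
    rw [← Finset.sum_filter]
    have h3 : (Finset.univ.filter fun χ : IrrCharacter G => χ ∈ XX M ζ) = {irrOne G, a} := by
      ext χ
      rw [Finset.mem_filter, Finset.mem_insert, Finset.mem_singleton, S.mem]
      exact ⟨fun h => h.2, fun h => ⟨Finset.mem_univ _, h⟩⟩
    rw [h3, Finset.sum_pair (fun h => S.a1 h.symm), S.w1]
    show ((1 : ℤ) : ℂ) * 1 + _ = _
    push_cast; ring
  rw [h2] at h1
  push_cast at h1
  linear_combination h1

theorem FD.degX {m : ℕ} {d : ℤ} (h : FH P m) (D : FD M P m w d δ ζ) {χ : IrrCharacter G} (hχ : χ ∈ XX M ζ) :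
    (Nat.card (P : Subgroup G) : ℤ) ∣ charDegree (χ : G → ℂ) - w χ := by
  obtain ⟨k, hk⟩ := D.degree h (χ := χ) hχ.1
  have h1 : Nat.card {ψ : (P : Subgroup G) →* ℂˣ // ψ ≠ 1 ∧ ζ ψ = χ} = 0 := by
    rw [Nat.card_eq_zero]
    left
    exact ⟨fun x => hχ.2 ⟨x.1, x.2⟩⟩
  rw [h1] at hk
  exact ⟨k - w χ, by rw [hk]; push_cast; ring⟩

theorem FD.degY {m : ℕ} (h : FH P m) (D : FD M P m w 0 δ ζ) {η : IrrCharacter G} (hη : η ∈ YY ζ) :
    (Nat.card (P : Subgroup G) : ℤ) ∣ charDegree (η : G → ℂ) - m * δ := by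
  obtain ⟨ψ, hψ, rfl⟩ := hη
  have hmemB : ζ ψ ∈ principalBlock M G := D.mem ψ
  obtain ⟨k, hk⟩ := D.degree h hmemB
  rw [D.fib_card h hψ, D.wd] at hk
  exact ⟨k, by rw [hk]; push_cast; ring⟩

theorem two_eq [IsSimpleGroup G] (hP : Nat.card (P : Subgroup G) = p) (he : eP P = 2) (hp7 : 7 ≤ p) (hG : ¬ (Nat.card G).Prime) :
    ∃ (a η : ℕ) (ε δ : ℤ), (ε = 1 ∨ ε = -1) ∧ (δ = 1 ∨ δ = -1) ∧ a ∣ Nat.card G ∧ η ∣ Nat.card G ∧ (p : ℤ) ∣ a - ε ∧
      (p : ℤ) ∣ η - 2 * δ ∧ a ≠ 1 ∧ 1 + ε * a - δ * η = 0 := by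
  obtain ⟨M, hM⟩ := exists_isPModular p
  have h : FH P 2 := by rw [← he]; exact FH.of_prime hP
  obtain ⟨w, δ, ζ, a, S⟩ := h.exists_S2 hM (by rw [hP]; exact hp7)
  obtain ⟨ψ, -, hψ, -⟩ := h.exists_nonrel (by rw [hP]; omega)
  have hη : ζ ψ ∈ YY ζ := ⟨ψ, hψ, rfl⟩
  refine ⟨charDegree (a : G → ℂ), charDegree (ζ ψ : G → ℂ), w a, δ, S.wa, S.D.sgn, irr_degree_dvd a, irr_degree_dvd (ζ ψ), ?_, ?_, deg_ne_one hG S.a1, ?_⟩
  · rw [← hP]; exact S.D.degX h ((S.mem a).2 (Or.inr rfl))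
  · have := S.D.degY h hη
    rw [hP] at this
    exact_mod_cast this
  · have h1 := S.rel0 hM hη (g := 1) (by rw [orderOf_one]; exact hp.out.not_dvd_one)
    rw [(IsIrr.one_eq a.2).1, (IsIrr.one_eq (ζ ψ).2).1] at h1
    have h2 : ((1 + w a * (charDegree (a : G → ℂ) : ℤ) - δ * (charDegree (ζ ψ : G → ℂ) : ℤ) : ℤ) : ℂ) = 0 := by
      push_cast; exact h1
    exact_mod_cast h2

theorem three_eq [IsSimpleGroup G] (hP : Nat.card (P : Subgroup G) = p) (he : eP P = 3) (hp7 : 5 ≤ p) (hG : ¬ (Nat.card G).Prime) :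
    ∃ (a b η : ℕ) (ε ε' δ : ℤ), (ε = 1 ∨ ε = -1) ∧ (ε' = 1 ∨ ε' = -1) ∧ (δ = 1 ∨ δ = -1) ∧ a ∣ Nat.card G ∧ b ∣ Nat.card G ∧ η ∣ Nat.card G ∧
      (p : ℤ) ∣ a - ε ∧ (p : ℤ) ∣ b - ε' ∧ (p : ℤ) ∣ η - 3 * δ ∧ a ≠ 1 ∧ b ≠ 1 ∧ 1 + ε * a + ε' * b - δ * η = 0 := by
  obtain ⟨M, hM⟩ := exists_isPModular p
  have h : FH P 3 := by rw [← he]; exact FH.of_prime hP
  obtain ⟨w, δ, ζ, a, b, S⟩ := h.exists_SX hM (by rw [hP]; omega)
  obtain ⟨ψ, -, hψ, -⟩ := h.exists_nonrel (by rw [hP]; omega)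
  have hη : ζ ψ ∈ YY ζ := ⟨ψ, hψ, rfl⟩
  refine ⟨charDegree (a : G → ℂ), charDegree (b : G → ℂ), charDegree (ζ ψ : G → ℂ), w a, w b, δ, S.wa, S.wb, S.D.sgn,
    irr_degree_dvd a, irr_degree_dvd b, irr_degree_dvd (ζ ψ), ?_, ?_, ?_, deg_ne_one hG S.a1, deg_ne_one hG S.b1, ?_⟩
  · rw [← hP]; exact S.D.degX h ((S.mem a).2 (Or.inr (Or.inl rfl)))
  · rw [← hP]; exact S.D.degX h ((S.mem b).2 (Or.inr (Or.inr rfl)))
  · have := S.D.degY h hη
    rw [hP] at this
    exact_mod_cast this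
  · have h1 := S.rel0 hM hη (g := 1) (by rw [orderOf_one]; exact hp.out.not_dvd_one)
    rw [(IsIrr.one_eq a.2).1, (IsIrr.one_eq b.2).1, (IsIrr.one_eq (ζ ψ).2).1] at h1
    have h2 : ((1 + w a * (charDegree (a : G → ℂ) : ℤ) + w b * (charDegree (b : G → ℂ) : ℤ) - δ * (charDegree (ζ ψ : G → ℂ) : ℤ) : ℤ) : ℂ) = 0 := by
      push_cast; linear_combination h1
    exact_mod_cast h2

end Main

end CfsgH5
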