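import Cfsg.Agent.H5.SmS9

/-!
# Sylow subgroups of order `5`, inertial index `2`; the orders 1440 and 5760
-/

set_option autoImplicit false

open Cfsg MonoidAlgebra
open CfsgH4 hiding centralChar sum_conj regInner_symm

namespace CfsgH5

open scoped ComplexConjugate

section R2

variable {G : Type*} [Group G] [Fintype G] {p : ℕ} [hp : Fact p.Prime]

open Classical in
/-- data of the principal block for `|P| = 5`, `e = 2` -/
structure R2 (M : Ideal AlgInt) (P : Sylow p G) (a η : IrrCharacter G) (w ε : ℤ) : Prop where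
  wpm : w = 1 ∨ w = -1
  epm : ε = 1 ∨ ε = -1
  a1 : a ≠ irrOne G
  cv : CV P a w
  real : ∀ g, conj ((a : G → ℂ) g) = (a : G → ℂ) g
  rel : ∀ g : G, ¬ p ∣ orderOf g → 1 + w * (a : G → ℂ) g = ε * (η : G → ℂ) g
  deg : (p : ℤ) ∣ charDegree (a : G → ℂ) - w
  degη : (p : ℤ) ∣ charDegree (η : G → ℂ) - 2 * ε
  key : ∀ t y : G, t * t = 1 → y ∈ (P : Subgroup G) → y ≠ 1 →
    ∑ χ : IrrCharacter G, (if χ ∈ principalBlock M G then (conj ((χ : G → ℂ) t * (χ : G → ℂ) t) / (χ : G → ℂ) 1) * (χ : G → ℂ) y else 0) =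
      1 + conj ((a : G → ℂ) t * (a : G → ℂ) t) / (a : G → ℂ) 1 * w - ε * (conj ((η : G → ℂ) t * (η : G → ℂ) t) / (η : G → ℂ) 1)

variable {P : Sylow p G} {M : Ideal AlgInt}

theorem R2_exists (hM : IsPModular p M) (hP : Nat.card (P : Subgroup G) = p) (h : FH P 2) (hp5 : p = 5) :
    ∃ (a η : IrrCharacter G) (w ε : ℤ), R2 M P a η w ε := by
  classical
  haveI := IsPModular.isPrime hM
  obtain ⟨w, d, δ, ζ, D⟩ := h.main hM (by rw [hP, hp5]; norm_num)
  have hm3 : 2 + 1 < Nat.card (P : Subgroup G) := by rw [hP, hp5]; norm_num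
  have h1 := D.norm_split
  have h2 := D.card_Y h
  rw [hP] at h2
  have hr : Nat.card (YY ζ) = 2 := by omega
  have h3 := D.irrOne_notMem h hm3
  have h1X : irrOne G ∈ XX M ζ := ⟨irrOne_mem, h3.1⟩
  have hnn : ∀ χ : IrrCharacter G, 0 ≤ (if χ ∈ XX M ζ then w χ ^ 2 else 0) := fun χ => by
    split_ifs
    · exact sq_nonneg _
    · exact le_refl _
  have h4 : (1 : ℤ) ≤ ∑ χ : IrrCharacter G, (if χ ∈ XX M ζ then w χ ^ 2 else 0) := by
    have h5 := Finset.single_le_sum (fun χ _ => hnn χ) (Finset.mem_univ (irrOne G))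
    rw [if_pos h1X, h3.2] at h5
    linarith
  rw [hr] at h1
  have hdd : d = 0 ∨ d = δ := by
    have h5 : 2 * d ^ 2 ≤ 1 + 2 * (δ * d) := by
      have : (2 : ℤ) * δ * d = 2 * (δ * d) := by ring
      push_cast at h1; linarith
    rcases D.sgn with h' | h'
    · rw [h'] at h5 ⊢
      have h7 : d < 2 := by nlinarith
      have h8 : -1 < d := by nlinarith
      omega
    · rw [h'] at h5 ⊢
      have h7 : -2 < d := by nlinarith
      have h8 : d < 1 := by nlinarith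
      omega
  have hδ2 : δ * δ = 1 := by rcases D.sgn with h' | h' <;> rw [h'] <;> norm_num
  have hX2 : ∑ χ : IrrCharacter G, (if χ ∈ XX M ζ then w χ ^ 2 else 0) = 2 := by
    rcases hdd with h' | h'
    · rw [h'] at h1; push_cast at h1; linarith
    · rw [h'] at h1; push_cast at h1
      nlinarith
  obtain ⟨ε, hε⟩ : ∃ ε : ℤ, ε = δ - 2 * d := ⟨_, rfl⟩
  have hεpm : ε = 1 ∨ ε = -1 := by
    rcases hdd with h' | h' <;> rcases D.sgn with h'' | h'' <;> rw [hε, h', h''] <;> norm_num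
  have hone : ∀ χ ∈ XX M ζ, w χ = 1 ∨ w χ = -1 := by
    intro χ hχ
    have h4 := Finset.single_le_sum (fun χ _ => hnn χ) (Finset.mem_univ χ)
    rw [if_pos hχ, hX2] at h4
    have h5 := D.w_ne_zero hM h hm3 hχ
    have h6 : w χ < 2 := by nlinarith
    have h7 : -2 < w χ := by nlinarith
    omega
  have h2' : (Finset.univ.filter fun χ : IrrCharacter G => χ ∈ XX M ζ).card = 2 := by
    have h5 : ∑ χ : IrrCharacter G, (if χ ∈ XX M ζ then w χ ^ 2 else 0) =
        ∑ χ : IrrCharacter G, (if χ ∈ XX M ζ then (1 : ℤ) else 0) := by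
      refine Finset.sum_congr rfl fun χ _ => ?_
      split_ifs with hχ
      · rcases hone χ hχ with h' | h' <;> rw [h'] <;> norm_num
      · rfl
    rw [h5, Finset.sum_boole] at hX2
    exact_mod_cast hX2
  have h3' : ((Finset.univ.filter fun χ : IrrCharacter G => χ ∈ XX M ζ).erase (irrOne G)).card = 1 := by
    rw [Finset.card_erase_of_mem (by rw [Finset.mem_filter]; exact ⟨Finset.mem_univ _, h1X⟩), h2']
  obtain ⟨a, hS⟩ := Finset.card_eq_one.1 h3'
  have hmem : ∀ χ, (χ ∈ XX M ζ ∧ χ ≠ irrOne G) ↔ χ = a := by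
    intro χ
    have h4 : χ ∈ ((Finset.univ.filter fun χ : IrrCharacter G => χ ∈ XX M ζ).erase (irrOne G)) ↔
        χ ∈ ({a} : Finset (IrrCharacter G)) := by rw [hS]
    rw [Finset.mem_erase, Finset.mem_filter, Finset.mem_singleton] at h4
    rw [← h4]
    constructor
    · rintro ⟨h5, h6⟩; exact ⟨h6, Finset.mem_univ _, h5⟩
    · rintro ⟨h5, -, h6⟩; exact ⟨h6, h5⟩
  have ha := (hmem a).2 rfl
  have hXmem : ∀ χ, χ ∈ XX M ζ ↔ (χ = irrOne G ∨ χ = a) := by
    intro χ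
    constructor
    · intro hχ
      by_cases h4 : χ = irrOne G
      · exact Or.inl h4
      · exact Or.inr ((hmem χ).1 ⟨hχ, h4⟩)
    · rintro (rfl | h4)
      · exact h1X
      · exact ((hmem χ).2 h4).1
  have hsumX : ∀ F : IrrCharacter G → ℂ, ∑ χ : IrrCharacter G, (if χ ∈ XX M ζ then F χ else 0) = F (irrOne G) + F a := by
    intro F
    rw [← Finset.sum_filter]
    have h3 : (Finset.univ.filter fun χ : IrrCharacter G => χ ∈ XX M ζ) = {irrOne G, a} := by
      ext χ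
      rw [Finset.mem_filter, Finset.mem_insert, Finset.mem_singleton, hXmem]
      exact ⟨fun h => h.2, fun h => ⟨Finset.mem_univ _, h⟩⟩
    rw [h3, Finset.sum_pair (fun h => ha.2 h.symm)]
  obtain ⟨ψ0, -, hψ0, -⟩ := h.exists_nonrel hm3
  have hη : ζ ψ0 ∈ YY ζ := ⟨ψ0, hψ0, rfl⟩
  have hdX := D.degX h ha.1
  rw [hP] at hdX
  have hdY : ∀ χ ∈ YY ζ, (p : ℤ) ∣ charDegree (χ : G → ℂ) - (d + 2 * δ) := by
    rintro χ ⟨ψ, hψ, rfl⟩
    obtain ⟨k, hk⟩ := D.degree h (D.mem ψ)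
    rw [D.fib_card h hψ, D.wd, hP] at hk
    exact ⟨k - d, by rw [hk]; push_cast; ring⟩
  have hrel : ∀ η ∈ YY ζ, ∀ g : G, ¬ p ∣ orderOf g → 1 + (w a : ℂ) * (a : G → ℂ) g = ε * (η : G → ℂ) g := by
    intro η hη g hg
    have h5 := D.reg hM hη hg
    rw [hsumX (fun χ => (w χ : ℂ) * (χ : G → ℂ) g), h3.2, hr] at h5
    have h6 : ((irrOne G : IrrCharacter G) : G → ℂ) g = 1 := rfl
    rw [h6] at h5
    rw [hε]
    push_cast at h5 ⊢
    linear_combination h5
  refine ⟨a, ζ ψ0, w a, ε, hone a ha.1, hεpm, ha.2, ?_, ?_, fun g hg => hrel _ hη g hg, hdX, ?_, ?_⟩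
  · intro z y hz hy hy1
    exact D.val_X' hM h ha.1 hz hy hy1
  · -- reality
    have hB : irrConj a ∈ principalBlock M G := principal_conj ha.1.1
    have hdegc : charDegree ((irrConj a : IrrCharacter G) : G → ℂ) = charDegree (a : G → ℂ) := by
      have h1 := (IsIrr.one_eq (irrConj a).2).1
      have h2 : ((irrConj a : IrrCharacter G) : G → ℂ) 1 = conj ((a : G → ℂ) 1) := rfl
      rw [h2, (IsIrr.one_eq a.2).1, map_natCast] at h1
      exact_mod_cast h1.symm
    have hnY : irrConj a ∉ YY ζ := by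
      intro hY
      have h5 := hdY _ hY
      rw [hdegc] at h5
      have h6 : (p : ℤ) ∣ w a - (d + 2 * δ) := by
        have := dvd_sub h5 hdX
        have e : (charDegree (a : G → ℂ) : ℤ) - (d + 2 * δ) - (charDegree (a : G → ℂ) - w a) = w a - (d + 2 * δ) := by ring
        rwa [e] at this
      rw [hp5] at h6
      rcases hone a ha.1 with h' | h' <;> rcases hdd with h'' | h'' <;> rcases D.sgn with h3 | h3 <;> rw [h', h'', h3] at h6 <;> norm_num at h6
    have hX : irrConj a ∈ XX M ζ := ⟨hB, hnY⟩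
    have heq : irrConj a = a := by
      rcases (hXmem _).1 hX with h' | h'
      · exfalso
        apply ha.2
        rw [← irrConj_irrConj a, h']
        apply Subtype.ext
        funext g
        show conj (1 : ℂ) = 1
        exact map_one _
      · exact h'
    intro g
    exact congrFun (congrArg Subtype.val heq) g
  · have h5 := hdY _ hη
    rw [hε]
    have e : (charDegree (ζ ψ0 : G → ℂ) : ℤ) - 2 * (δ - 2 * d) = (charDegree (ζ ψ0 : G → ℂ) - (d + 2 * δ)) + p * d := by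
      rw [hp5]; push_cast; ring
    rw [e]
    exact dvd_add h5 (dvd_mul_right _ _)
  · intro t y ht hy hy1
    haveI : Finite ((P : Subgroup G) →* ℂˣ) := finite_hom _
    haveI := Fintype.ofFinite ((P : Subgroup G) →* ℂˣ)
    have ht2 : ¬ p ∣ orderOf t := by
      intro h6
      have h7 : orderOf t ∣ 2 := orderOf_dvd_of_pow_eq_one (by rw [sq]; exact ht)
      have h8 := Nat.le_of_dvd (by norm_num) (h6.trans h7)
      omega
    have h11 : ¬ p ∣ orderOf (1 : G) := by rw [orderOf_one]; exact hp.out.not_dvd_one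
    have hF : ∀ χ ∈ YY ζ, conj ((χ : G → ℂ) t * (χ : G → ℂ) t) / (χ : G → ℂ) 1 =
        conj ((ζ ψ0 : G → ℂ) t * (ζ ψ0 : G → ℂ) t) / (ζ ψ0 : G → ℂ) 1 := by
      intro χ hχ
      rw [D.reg_agree hM hχ hη ht2, D.reg_agree hM hχ hη h11]
    have h5 := D.sum_val h (fun χ => conj ((χ : G → ℂ) t * (χ : G → ℂ) t) / (χ : G → ℂ) 1) (x := ⟨y, hy⟩) (fun h' => hy1 (congrArg Subtype.val h'))
    have h6 := sum_split D (fun χ => conj ((χ : G → ℂ) t * (χ : G → ℂ) t) / (χ : G → ℂ) 1 * (w χ : ℂ))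
    have h7 : ∑ χ : IrrCharacter G, (if χ ∈ YY ζ then conj ((χ : G → ℂ) t * (χ : G → ℂ) t) / (χ : G → ℂ) 1 * (w χ : ℂ) else 0) =
        2 * (conj ((ζ ψ0 : G → ℂ) t * (ζ ψ0 : G → ℂ) t) / (ζ ψ0 : G → ℂ) 1 * d) := by
      have h8 : ∀ χ : IrrCharacter G, (if χ ∈ YY ζ then conj ((χ : G → ℂ) t * (χ : G → ℂ) t) / (χ : G → ℂ) 1 * (w χ : ℂ) else 0) =
          if χ ∈ YY ζ then (conj ((ζ ψ0 : G → ℂ) t * (ζ ψ0 : G → ℂ) t) / (ζ ψ0 : G → ℂ) 1 * d) else 0 := by
        intro χ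
        split_ifs with h9
        · rw [hF χ h9]
          obtain ⟨ψ, hψ, rfl⟩ := h9
          rw [D.wd]
        · rfl
      rw [Finset.sum_congr rfl fun χ _ => h8 χ, sum_const_set, hr]
      push_cast; rfl
    have h8 : ∑ ψ : (P : Subgroup G) →* ℂˣ, (if ψ ≠ 1 then (conj ((ζ ψ : G → ℂ) t * (ζ ψ : G → ℂ) t) / (ζ ψ : G → ℂ) 1) *
        (ψ (⟨y, hy⟩ : (P : Subgroup G)) : ℂ) else 0) = (conj ((ζ ψ0 : G → ℂ) t * (ζ ψ0 : G → ℂ) t) / (ζ ψ0 : G → ℂ) 1) * (-1) := by
      rw [← h.sum_ne_one (x := ⟨y, hy⟩) (fun h' => hy1 (congrArg Subtype.val h')), Finset.mul_sum]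
      refine Finset.sum_congr rfl fun ψ _ => ?_
      split_ifs with h7
      · rw [hF (ζ ψ) ⟨ψ, h7, rfl⟩]
      · ring
    rw [h6, hsumX, h7, h8, h3.2] at h5
    refine Eq.trans h5 ?_
    have h9 : ((irrOne G : IrrCharacter G) : G → ℂ) t = 1 := rfl
    have h10 : ((irrOne G : IrrCharacter G) : G → ℂ) 1 = 1 := rfl
    rw [h9, h10, map_mul, map_one, hε]
    push_cast
    ring

end R2

end CfsgH5
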