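import Cfsg.Agent.H5.SmS10

/-!
# The orders 1440 and 5760
-/

set_option autoImplicit false

open Cfsg MonoidAlgebra
open CfsgH4 hiding centralChar sum_conj regInner_symm

namespace CfsgH5

open scoped ComplexConjugate

section Pair

variable {G : Type*} [Group G] [Fintype G] {p : ℕ} [hp : Fact p.Prime] {P : Sylow p G} {M : Ideal AlgInt}

open Classical in
theorem pair_formula {m : ℕ} (hM : IsPModular p M) (hP : Nat.card (P : Subgroup G) = p) (hc : cP P = P) (h : FH P m)
    (t : G) {y : G} (hy : y ∈ (P : Subgroup G)) (hy1 : y ≠ 1) :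
    (Nat.card (Subgroup.centralizer ({t} : Set G)) : ℂ) ^ 2 * (pairN t y : ℂ) = (Nat.card G : ℂ) *
      ∑ χ : IrrCharacter G, (if χ ∈ principalBlock M G then (conj ((χ : G → ℂ) t * (χ : G → ℂ) t) / (χ : G → ℂ) 1) * (χ : G → ℂ) y else 0) := by
  have hcy : Subgroup.centralizer ({y} : Set G) = P := by
    apply le_antisymm
    · rw [← hc]
      intro c hc'
      rw [Subgroup.mem_centralizer_iff]
      intro a ha
      rw [SetLike.mem_coe, ← zpowers_eq_of_prime hP hy hy1] at ha
      obtain ⟨k, rfl⟩ := Subgroup.mem_zpowers_iff.1 ha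
      have h1 := Subgroup.mem_centralizer_singleton_iff.1 hc'
      exact (show Commute y c from h1.symm).zpow_left k
    · exact h.P_le_cent hy
  have h1 := sec_pairs hM (FH.ppow P hy) (h.npc hy hy1) t t
  have hcard : Nat.card (Subgroup.centralizer ({y} : Set G)) = p := by rw [hcy, hP]
  have hfac : p ^ (Nat.card (Subgroup.centralizer ({y} : Set G))).factorization p = p := by rw [h.card_cent hy, hP]
  rw [hfac, hcard] at h1
  have hpp : ∀ g : G, IsPPart p g y ↔ g = y := by
    intro g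
    constructor
    · rintro ⟨v, hv1, hv2, -, hv4⟩
      have h2 : v ∈ (P : Subgroup G) := by rw [← hcy, Subgroup.mem_centralizer_singleton_iff]; exact hv2.symm
      have h3 : orderOf v ∣ p := by
        have := orderOf_dvd_natCard (⟨v, h2⟩ : (P : Subgroup G))
        rw [hP, Subgroup.orderOf_mk] at this; exact this
      rcases (Nat.dvd_prime hp.out).1 h3 with h4 | h4
      · rw [← hv1, orderOf_eq_one_iff.1 h4, mul_one]
      · exact absurd (by rw [h4]) hv4
    · rintro rfl
      exact ⟨1, mul_one _, Commute.one_right _, FH.ppow P hy, by rw [orderOf_one]; exact hp.out.not_dvd_one⟩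
  have h2 : (∑ a : G, ∑ b : G, (if IsPPart p (a * t * a⁻¹ * (b * t * b⁻¹)) y then (1 : ℂ) else 0)) =
      ∑ a : G, ∑ b : G, (if a * t * a⁻¹ * (b * t * b⁻¹) = y then (1 : ℂ) else 0) := by
    refine Finset.sum_congr rfl fun a _ => Finset.sum_congr rfl fun b _ => ?_
    by_cases h3 : a * t * a⁻¹ * (b * t * b⁻¹) = y
    · rw [if_pos ((hpp _).2 h3), if_pos h3]
    · rw [if_neg (fun h4 => h3 ((hpp _).1 h4)), if_neg h3]
  rw [h2, pair_sum] at h1
  have hp0 : (p : ℂ) ≠ 0 := by exact_mod_cast hp.out.ne_zero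
  apply mul_left_cancel₀ hp0
  have hSig : ∑ ζ : IrrCharacter G, (if ζ ∈ principalBlock M G then
        (ζ : G → ℂ) y * conj ((ζ : G → ℂ) t * (ζ : G → ℂ) t) / (ζ : G → ℂ) 1 else 0) =
      ∑ χ : IrrCharacter G, (if χ ∈ principalBlock M G then (conj ((χ : G → ℂ) t * (χ : G → ℂ) t) / (χ : G → ℂ) 1) * (χ : G → ℂ) y else 0) := by
    refine Finset.sum_congr rfl fun χ _ => ?_
    split_ifs
    · ring
    · rfl
  rw [h1, hSig]
  ring

end Pair

section Five

variable {G : Type*} [Group G] [Fintype G] [IsSimpleGroup G]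

theorem eP_five [Fact (Nat.Prime 5)] (P : Sylow 5 G) (h4 : eP P ∣ 5 - 1) (h5 : eP P ≠ 1) : eP P = 2 ∨ eP P = 4 := by
  have h6 := Nat.le_of_dvd (by norm_num) h4
  have h7 : eP P ≠ 0 := by intro h'; rw [h'] at h4; revert h4; decide
  have h8 : eP P ≠ 3 := by intro h'; rw [h'] at h4; revert h4; decide
  omega

theorem c_one_five [Fact (Nat.Prime 5)] (P : Sylow 5 G) (hP : Nat.card (P : Subgroup G) = 5) {k : ℕ} (hk : Nat.card G = 5 * k) (hk1 : k ≠ 1)
    (h5k : ¬ 5 ∣ k) (hN2 : ∀ x : ℤ, x.natAbs ∣ k → x % 5 = 1 → x.natAbs ≠ 1 → (1 + x).natAbs ∣ k → x.natAbs < 10)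
    (hN4 : ∀ d : ℕ, d ∣ k → Odd d → (d % 5 = 1 ∨ d % 5 = 4) → d ≠ 1 → d < 10)
    (he : eP P = 2 ∨ eP P = 4) {c : ℕ} (hc : Nat.card (cP P) = 5 * c) : c = 1 := by
  obtain ⟨M, hM⟩ := exists_isPModular 5
  have hnp := not_prime_of hk hk1
  rcases he with he | he
  · have h : FH P 2 := by rw [← he]; exact FH.of_prime hP
    obtain ⟨a, η, w, ε, R⟩ := R2_exists hM hP h rfl
    have h3 := irr_degree_dvd a
    have h4 := irr_degree_dvd η
    rw [hk] at h3 h4
    have h9 : 1 + w * charDegree (a : G → ℂ) = ε * charDegree (η : G → ℂ) := by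
      have h1 := R.rel 1 (by rw [orderOf_one]; norm_num)
      rw [(IsIrr.one_eq a.2).1, (IsIrr.one_eq η.2).1] at h1
      exact_mod_cast h1
    have hd := hN2 (w * charDegree (a : G → ℂ)) (by
        rw [natAbs_sgn R.wpm]
        have := cop_pm (p := 5) (m := 1) R.wpm (Nat.coprime_one_left 5)
        rw [Nat.cast_one, one_mul] at this
        exact dvd_of_sub this h3 R.deg) (by exact_mod_cast mod_one_of (p := 5) R.wpm (by norm_num) R.deg)
      (by rw [natAbs_sgn R.wpm]; exact deg_ne_one hnp R.a1) (by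
        rw [h9, natAbs_sgn R.epm]
        have := cop_pm (p := 5) (m := 2) R.epm (by norm_num)
        exact dvd_of_sub this h4 R.degη)
    rw [natAbs_sgn R.wpm] at hd
    exact cent_one (by norm_num) hk hk1 h5k hP R.cv R.a1 R.real (by omega) hc
  · have h : FH P (5 - 1) := by
      have := FH.of_prime hP
      rw [he] at this
      exact this
    obtain ⟨T, w, h1T, hone, hT, hsum⟩ := E4_exists hM hP h rfl
    obtain ⟨χ, hχT, hχ1, hodd, hreal⟩ := E4_real T w h1T hone (fun χ hχ => ⟨(hT χ hχ).1, (hT χ hχ).2.2.1⟩) hsum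
    obtain ⟨hw, hcv, -, hdw⟩ := hT χ hχT
    have h3 := irr_degree_dvd χ
    rw [hk] at h3
    have h3' : charDegree (χ : G → ℂ) ∣ k := by
      have := cop_pm (p := 5) (m := 1) hw (Nat.coprime_one_left 5)
      rw [Nat.cast_one, one_mul] at this
      exact dvd_of_sub this h3 hdw
    have hd := hN4 _ h3' hodd (by push_cast at hdw; rcases hw with h' | h' <;> rw [h'] at hdw <;> omega) (deg_ne_one hnp hχ1)
    exact cent_one (by norm_num) hk hk1 h5k hP hcv hχ1 hreal (by omega) hc

end Five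

section Orders

variable {G : Type*} [Group G] [Finite G] [IsSimpleGroup G]

theorem order1440 : Nat.card G ≠ 1440 := by
  intro hG
  haveI := Fintype.ofFinite G
  haveI : Fact (Nat.Prime 5) := ⟨by norm_num⟩
  obtain ⟨P⟩ : Nonempty (Sylow 5 G) := inferInstance
  have hP := sylow_card_prime P (by rw [hG]; norm_num) (by rw [hG]; norm_num)
  have hk : Nat.card G = 5 * 288 := by rw [hG]
  obtain ⟨n, c, -, hc, h1, h2, h3, h4, h5⟩ := syl_data P hP hk (by norm_num)
  have he := eP_five P h4 h5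
  have key2 : ∀ x ∈ Finset.Icc (-((288 : ℕ) : ℤ)) ((288 : ℕ) : ℤ), x.natAbs ∣ 288 → x % 5 = 1 → x.natAbs ≠ 1 → (1 + x).natAbs ∣ 288 → x.natAbs < 10 := by
    decide +kernel
  have key4 : ∀ d ∈ Finset.range 289, d ∣ 288 → Odd d → (d % 5 = 1 ∨ d % 5 = 4) → d ≠ 1 → d < 10 := by decide +kernel
  have hc1 := c_one_five P hP hk (by norm_num) (by norm_num) (fun x hx => key2 x (mem_Icc_of_natAbs_dvd (by norm_num) hx) hx)
    (fun d hd => key4 d (by rw [Finset.mem_range]; have := Nat.le_of_dvd (by norm_num) hd; omega) hd) he hc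
  subst hc1
  rcases he with he | he <;> rw [he] at h1 <;> omega

theorem order5760 : Nat.card G ≠ 5760 := by
  intro hG
  haveI := Fintype.ofFinite G
  haveI : Fact (Nat.Prime 5) := ⟨by norm_num⟩
  haveI : Fact (Nat.Prime 2) := ⟨Nat.prime_two⟩
  obtain ⟨P⟩ : Nonempty (Sylow 5 G) := inferInstance
  have hP := sylow_card_prime P (by rw [hG]; norm_num) (by rw [hG]; norm_num)
  have hk : Nat.card G = 5 * 1152 := by rw [hG]
  obtain ⟨n, c, -, hc, h1, h2, h3, h4, h5⟩ := syl_data P hP hk (by norm_num)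
  have he := eP_five P h4 h5
  have key2' : ∀ x ∈ Finset.Icc (-((1152 : ℕ) : ℤ)) ((1152 : ℕ) : ℤ), x.natAbs ∣ 1152 → x % 5 = 1 → x.natAbs ≠ 1 → (1 + x).natAbs ∣ 1152 → x = -4 ∨ x = -9 := by
    decide +kernel
  have key2 : ∀ x : ℤ, x.natAbs ∣ 1152 → x % 5 = 1 → x.natAbs ≠ 1 → (1 + x).natAbs ∣ 1152 → x = -4 ∨ x = -9 :=
    fun x hx => key2' x (mem_Icc_of_natAbs_dvd (by norm_num) hx) hx
  have key4 : ∀ d ∈ Finset.range 1153, d ∣ 1152 → Odd d → (d % 5 = 1 ∨ d % 5 = 4) → d ≠ 1 → d < 10 := by decide +kernel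
  have hc1 := c_one_five P hP hk (by norm_num) (by norm_num) (fun x hx1 hx2 hx3 hx4 => by
      rcases key2 x hx1 hx2 hx3 hx4 with h' | h' <;> rw [h'] <;> decide)
    (fun d hd => key4 d (by rw [Finset.mem_range]; have := Nat.le_of_dvd (by norm_num) hd; omega) hd) he hc
  subst hc1
  rcases he with he | he
  swap
  · rw [he] at h1; omega
  have hPc : cP P = P := by
    have h9 : (P : Subgroup G) ≤ cP P := by
      intro a ha
      rw [Subgroup.mem_centralizer_iff]
      intro b hb
      exact (FH.of_prime hP).ab b hb a ha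
    exact (Subgroup.eq_of_le_of_card_ge h9 (by rw [hc, hP])).symm
  obtain ⟨M, hM⟩ := exists_isPModular 5
  have hnp := not_prime_of hk (by norm_num)
  have h : FH P 2 := by rw [← he]; exact FH.of_prime hP
  obtain ⟨a, η, w, ε, R⟩ := R2_exists hM hP h rfl
  have d3 := irr_degree_dvd a
  have d4 := irr_degree_dvd η
  rw [hk] at d3 d4
  have h9 : 1 + w * charDegree (a : G → ℂ) = ε * charDegree (η : G → ℂ) := by
    have h1 := R.rel 1 (by rw [orderOf_one]; norm_num)
    rw [(IsIrr.one_eq a.2).1, (IsIrr.one_eq η.2).1] at h1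
    exact_mod_cast h1
  have hx := key2 (w * charDegree (a : G → ℂ)) (by
      rw [natAbs_sgn R.wpm]
      have := cop_pm (p := 5) (m := 1) R.wpm (Nat.coprime_one_left 5)
      rw [Nat.cast_one, one_mul] at this
      exact dvd_of_sub this d3 R.deg) (by exact_mod_cast mod_one_of (p := 5) R.wpm (by norm_num) R.deg)
    (by rw [natAbs_sgn R.wpm]; exact deg_ne_one hnp R.a1) (by
      rw [h9, natAbs_sgn R.epm]
      have := cop_pm (p := 5) (m := 2) R.epm (by norm_num)
      exact dvd_of_sub this d4 R.degη)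
  -- a central involution of a Sylow 2-subgroup
  obtain ⟨S⟩ : Nonempty (Sylow 2 G) := inferInstance
  have hS : 128 ∣ Nat.card (S : Subgroup G) := by
    have := S.pow_dvd_card_of_pow_dvd_card (n := 7) (by rw [hG]; norm_num)
    norm_num at this
    exact this
  haveI : Nontrivial (S : Subgroup G) := by
    rw [← Finite.one_lt_card_iff_nontrivial]
    have := Nat.le_of_dvd Nat.card_pos hS
    omega
  haveI := S.isPGroup'.center_nontrivial
  have hZ : 2 ∣ Nat.card (Subgroup.center (S : Subgroup G)) := by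
    obtain ⟨j, hj⟩ := IsPGroup.iff_card.1 (S.isPGroup'.to_subgroup (Subgroup.center (S : Subgroup G)))
    rw [hj]
    apply dvd_pow_self
    rintro rfl
    have := (Finite.one_lt_card_iff_nontrivial (α := Subgroup.center (S : Subgroup G))).2 inferInstance
    rw [hj] at this
    norm_num at this
  obtain ⟨t0, ht0⟩ := exists_prime_orderOf_dvd_card' (G := Subgroup.center (S : Subgroup G)) 2 hZ
  obtain ⟨t, htd⟩ : ∃ t : G, t = ((t0 : (S : Subgroup G)) : G) := ⟨_, rfl⟩
  have ht : orderOf t = 2 := by rw [htd, Subgroup.orderOf_coe, Subgroup.orderOf_coe, ht0]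
  have hSC : (S : Subgroup G) ≤ Subgroup.centralizer ({t} : Set G) := by
    intro s hs
    rw [Subgroup.mem_centralizer_singleton_iff, htd]
    exact congrArg Subtype.val (Subgroup.mem_center_iff.1 t0.2 ⟨s, hs⟩)
  have hC128 : 128 ≤ Nat.card (Subgroup.centralizer ({t} : Set G)) :=
    Nat.le_of_dvd Nat.card_pos (hS.trans (Subgroup.card_dvd_of_le hSC))
  have htt : t * t = 1 := by rw [← sq, ← ht]; exact pow_orderOf_eq_one t
  have ht1 : t ≠ 1 := by rintro rfl; rw [orderOf_one] at ht; omega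
  obtain ⟨y, hy⟩ := exists_prime_orderOf_dvd_card' (G := (P : Subgroup G)) 5 (by rw [hP])
  have hy' : orderOf (y : G) = 5 := by rw [Subgroup.orderOf_coe, hy]
  have hy1 : (y : G) ≠ 1 := by intro h'; rw [h', orderOf_one] at hy'; omega
  have hkey := pair_formula hM hP hPc h t y.2 hy1
  rw [R.key t y htt y.2 hy1] at hkey
  obtain ⟨x, hx1, hx2, hx3⟩ := val_lt htt (simple_htop ht1) R.a1
  have hrel := R.rel t (by rw [ht]; norm_num)
  obtain ⟨C, hC⟩ : ∃ C : ℕ, C = Nat.card (Subgroup.centralizer ({t} : Set G)) := ⟨_, rfl⟩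
  rw [← hC] at hkey hC128
  have hC2 : (16384 : ℤ) ≤ (C : ℤ) ^ 2 := by
    have : (128 : ℤ) ≤ C := by exact_mod_cast hC128
    nlinarith
  rw [abs_le] at hx3
  have hdegpos := (IsIrr.one_eq a.2).2
  rcases hx with hx | hx
  · have hdeg : charDegree (a : G → ℂ) = 4 := by
      have := natAbs_sgn (a := charDegree (a : G → ℂ)) R.wpm
      rw [hx] at this
      exact this.symm
    have hwa : w = -1 := by
      rcases R.wpm with h' | h'
      · rw [h', hdeg] at hx; norm_num at hx
      · exact h'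
    rw [hx] at h9
    have hε : ε = -1 := by
      rcases R.epm with h' | h'
      · rw [h'] at h9; omega
      · exact h'
    have hdη : charDegree (η : G → ℂ) = 3 := by rw [hε] at h9; omega
    rw [hwa, hε, hx1] at hrel
    have hηt : (η : G → ℂ) t = (x : ℂ) - 1 := by push_cast at hrel; linear_combination hrel
    rw [hx1, hηt, (IsIrr.one_eq a.2).1, (IsIrr.one_eq η.2).1, hdeg, hdη, hwa, hε, hG] at hkey
    have h9' : ((C : ℂ)) ^ 2 * (pairN t (y : G) : ℂ) = 480 * ((x : ℂ) - 4) ^ 2 := by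
      rw [hkey]
      simp only [map_mul, map_sub, map_one, map_intCast]
      push_cast
      ring
    have h10 : (C : ℤ) ^ 2 * (pairN t (y : G) : ℤ) = 480 * (x - 4) ^ 2 := by exact_mod_cast h9'
    rw [hdeg] at hx2 hx3
    push_cast at hx2 hx3
    rcases pairN_eq hP (by norm_num) hPc htt y.2 hy1 with h11 | h11
    · rw [h11] at h10
      push_cast at h10
      have : 0 < (x - 4) ^ 2 := by nlinarith
      nlinarith
    · rw [h11] at h10
      push_cast at h10
      have : (x - 4) ^ 2 ≤ 64 := by nlinarith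
      nlinarith
  · have hdeg : charDegree (a : G → ℂ) = 9 := by
      have := natAbs_sgn (a := charDegree (a : G → ℂ)) R.wpm
      rw [hx] at this
      exact this.symm
    have hwa : w = -1 := by
      rcases R.wpm with h' | h'
      · rw [h', hdeg] at hx; norm_num at hx
      · exact h'
    rw [hx] at h9
    have hε : ε = -1 := by
      rcases R.epm with h' | h'
      · rw [h'] at h9; omega
      · exact h'
    have hdη : charDegree (η : G → ℂ) = 8 := by rw [hε] at h9; omega
    rw [hwa, hε, hx1] at hrel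
    have hηt : (η : G → ℂ) t = (x : ℂ) - 1 := by push_cast at hrel; linear_combination hrel
    rw [hx1, hηt, (IsIrr.one_eq a.2).1, (IsIrr.one_eq η.2).1, hdeg, hdη, hwa, hε, hG] at hkey
    have h9' : ((C : ℂ)) ^ 2 * (pairN t (y : G) : ℂ) = 80 * ((x : ℂ) - 9) ^ 2 := by
      rw [hkey]
      simp only [map_mul, map_sub, map_one, map_intCast]
      push_cast
      ring
    have h10 : (C : ℤ) ^ 2 * (pairN t (y : G) : ℤ) = 80 * (x - 9) ^ 2 := by exact_mod_cast h9'
    rw [hdeg] at hx2 hx3
    push_cast at hx2 hx3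
    rcases pairN_eq hP (by norm_num) hPc htt y.2 hy1 with h11 | h11
    · rw [h11] at h10
      push_cast at h10
      have : 0 < (x - 9) ^ 2 := by nlinarith
      nlinarith
    · rw [h11] at h10
      push_cast at h10
      have : (x - 9) ^ 2 ≤ 324 := by nlinarith
      nlinarith

end Orders

end CfsgH5
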