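import Cfsg.Agent.H5.SmS12
import Cfsg.Agent.H5.KGV1

/-!
# Twenty-one Sylow `5`-subgroups: numerical contradiction
-/

set_option autoImplicit false

open Cfsg MonoidAlgebra
open CfsgH4 hiding centralChar sum_conj regInner_symm

namespace CfsgH5

open scoped ComplexConjugate

/-- the possible triples (sign, degree, value at an involution) -/
def LP : List (ℤ × ℤ × ℤ) := [(1,16,-4),(1,21,1),(1,21,-19),(1,36,16),(1,36,-4),(1,56,16),(1,56,-4),(1,96,16),(1,96,-4),(-1,14,-6),(-1,24,4),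
  (-1,24,-16),(-1,84,4),(-1,84,-16)]

theorem LP_num : ∀ a ∈ LP, ∀ b ∈ LP, ∀ c ∈ LP, ∀ e ∈ LP, a.1 * a.2.1 + b.1 * b.2.1 + c.1 * c.2.1 + e.1 * e.2.1 = -1 →
    a.2.1 * a.2.1 + b.2.1 * b.2.1 + c.2.1 * c.2.1 + e.2.1 * e.2.1 ≤ 10079 →
    a.1 * a.2.2 + b.1 * b.2.2 + c.1 * c.2.2 + e.1 * e.2.2 = -1 →
    a.2.2 * a.2.2 + b.2.2 * b.2.2 + c.2.2 * c.2.2 + e.2.2 * e.2.2 ≤ 479 →
    -2016 ≤ a.1 * (a.2.2 * a.2.2) * (2016 / a.2.1) + b.1 * (b.2.2 * b.2.2) * (2016 / b.2.1) + c.1 * (c.2.2 * c.2.2) * (2016 / c.2.1) +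
      e.1 * (e.2.2 * e.2.2) * (2016 / e.2.1) → False := by
  decide +kernel

theorem LP_mem {w d t j : ℤ} (hw : w = 1 ∨ w = -1) (hd : d ∣ 2016) (hd10 : 10 ≤ d) (hd100 : d * d ≤ 10079) (h5 : (5 : ℤ) ∣ d - w)
    (ht : t = d - 20 * j) (hj : 1 ≤ j) (hj2 : 10 * j ≤ d) (ht2 : t * t ≤ 479) : (w, d, t) ∈ LP := by
  have h1 : d ≤ 100 := by nlinarith
  have h2 : t ≤ 21 := by nlinarith
  have h3 : -21 ≤ t := by nlinarith
  have h4 : j ≤ 10 := by omega
  have hd' : d = 16 ∨ d = 21 ∨ d = 36 ∨ d = 56 ∨ d = 96 ∨ d = 14 ∨ d = 24 ∨ d = 84 := by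
    have key : ∀ d ∈ Finset.Icc (10 : ℤ) 100, d ∣ 2016 → (d % 5 = 1 ∨ d % 5 = 4) →
        d = 16 ∨ d = 21 ∨ d = 36 ∨ d = 56 ∨ d = 96 ∨ d = 14 ∨ d = 24 ∨ d = 84 := by decide +kernel
    apply key d (by rw [Finset.mem_Icc]; omega) hd
    rcases hw with rfl | rfl <;> omega
  have hw' : w = if d % 5 = 1 then 1 else -1 := by
    split_ifs with h6
    · rcases hw with rfl | rfl
      · rfl
      · omega
    · rcases hw with rfl | rfl
      · omega
      · rfl
  subst ht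
  rw [hw']
  rcases hd' with rfl | rfl | rfl | rfl | rfl | rfl | rfl | rfl <;> interval_cases j <;> first | (exfalso; omega) | decide

section Main

variable {G : Type*} [Group G] [Fintype G]

theorem even_contra [IsSimpleGroup G] [Fact (Nat.Prime 5)] (P : Sylow 5 G) (hP : Nat.card (P : Subgroup G) = 5) {k : ℕ} (hk : Nat.card G = 5 * k)
    (hk2 : k ∣ 2016) (hk1 : k ≠ 1) (he : eP P = 4) {v : G} (hv : v ∈ cP P) (hv2 : orderOf v = 2)
    (hCv : Nat.card (Subgroup.centralizer ({v} : Set G)) ≤ 480) : False := by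
  classical
  haveI := Fintype.ofFinite (Subgroup.zpowers v)
  obtain ⟨M, hM⟩ := exists_isPModular 5
  haveI := IsPModular.isPrime hM
  have hnp := not_prime_of hk hk1
  have h : FH P (5 - 1) := by
    have := FH.of_prime hP
    rw [he] at this
    exact this
  obtain ⟨T, w, y, h1T, hone, hT, hsum, hcard, hy, hy1, hF⟩ := E4_full hM hP h rfl
  have hv1 : v ≠ 1 := by rintro rfl; rw [orderOf_one] at hv2; omega
  have hvinv : v⁻¹ = v := by
    have h1 : v * v = 1 := by rw [← sq, ← hv2]; exact pow_orderOf_eq_one v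
    exact inv_eq_of_mul_eq_one_left h1
  have hvp : ¬ 5 ∣ orderOf v := by rw [hv2]; norm_num
  obtain ⟨s, hs⟩ := exists_lin_ne (G := Subgroup.zpowers v) (g := ⟨v, Subgroup.mem_zpowers v⟩) (by
    rw [commutator_bot_of (zpow_ab v), Subgroup.mem_bot]
    exact fun h' => hv1 (congrArg Subtype.val h'))
  have hs1 : s ≠ 1 := by rintro rfl; exact hs rfl
  -- values
  have hval : ∀ χ ∈ T, χ ≠ irrOne G → ∃ j : ℤ, (χ : G → ℂ) v = ((charDegree (χ : G → ℂ) : ℤ) - 20 * j : ℤ) ∧ 1 ≤ j ∧ 10 * j ≤ charDegree (χ : G → ℂ) := by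
    intro χ hχ hχ1
    obtain ⟨i, hi⟩ := mult_centC hP (hT χ hχ).2.1 hv hvp s hs1
    obtain ⟨k1, kk, e1, e2, e3⟩ := even_mult hnp (χ := χ) hv2 s hs1
    rw [e1] at hi
    have h4 : 2 * kk = 5 * i := by exact_mod_cast hi
    obtain ⟨j, hj⟩ : ∃ j, i = 2 * j := ⟨i / 2, by omega⟩
    have hkk : kk = 5 * j := by omega
    refine ⟨j, ?_, ?_, ?_⟩
    · rw [e3, e2, hkk]; push_cast; ring
    · rcases Nat.eq_zero_or_pos j with h5 | h5
      · exfalso
        have h6 : (χ : G → ℂ) v = (χ : G → ℂ) 1 := by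
          rw [e3, (IsIrr.one_eq χ.2).1, e2, hkk, h5]; push_cast; ring
        exact val_ne_top (simple_htop hv1) hχ1 h6
      · exact_mod_cast h5
    · rw [e2, hkk]; push_cast; omega
  choose! jj hj1 hj2 hj3 using hval
  obtain ⟨tt, htt⟩ : ∃ tt : IrrCharacter G → ℤ, tt = fun χ => if χ = irrOne G then 1 else (charDegree (χ : G → ℂ) : ℤ) - 20 * jj χ := ⟨_, rfl⟩
  have htv : ∀ χ ∈ T, (χ : G → ℂ) v = tt χ := by
    intro χ hχ
    rw [htt]
    by_cases h1 : χ = irrOne G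
    · subst h1
      show (1 : ℂ) = (((if irrOne G = irrOne G then (1 : ℤ) else _) : ℤ) : ℂ)
      rw [if_pos rfl]; push_cast; rfl
    · show _ = (((if χ = irrOne G then (1 : ℤ) else _) : ℤ) : ℂ)
      rw [if_neg h1]
      exact hj1 χ hχ h1
  have htt1 : tt (irrOne G) = 1 := by rw [htt]; simp
  have hdeg1 : charDegree ((irrOne G : IrrCharacter G) : G → ℂ) = 1 := charDegree_one
  -- F2
  have F2 : ∑ χ ∈ T, w χ * tt χ = 0 := by
    have h1 := block_orth hM (g := y) (h := v) (x := y) (y := 1) ⟨1, mul_one y, Commute.one_right y, FH.ppow P hy, by rw [orderOf_one]; norm_num⟩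
      ⟨v, one_mul v, Commute.one_left v, ⟨0, by rw [orderOf_one, pow_zero]⟩, hvp⟩
      (fun hc => hy1 (by
        obtain ⟨c, hc⟩ := isConj_iff.1 hc
        calc y = c⁻¹ * (c * y * c⁻¹) * c := by group
          _ = 1 := by rw [hc]; group)) (isPBlock_principal (M := M) (G := G))
    rw [hvinv, hF (fun χ => (χ : G → ℂ) v)] at h1
    have h2 : ((∑ χ ∈ T, w χ * tt χ : ℤ) : ℂ) = 0 := by
      rw [← h1]
      push_cast
      exact Finset.sum_congr rfl fun χ hχ => by rw [htv χ hχ]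
    exact_mod_cast h2
  -- F3
  have F3 : ∑ χ ∈ T, (charDegree (χ : G → ℂ) : ℤ) * charDegree (χ : G → ℂ) ≤ 10080 := by
    have h1 := sum_norm_sq G
    have h2 : ∑ χ ∈ T, ‖(χ : G → ℂ) 1‖ ^ 2 ≤ ∑ χ : IrrCharacter G, ‖(χ : G → ℂ) 1‖ ^ 2 :=
      Finset.sum_le_sum_of_subset_of_nonneg (Finset.subset_univ _) (fun _ _ _ => by positivity)
    rw [h1] at h2
    have h3 : ∑ χ ∈ T, ‖(χ : G → ℂ) 1‖ ^ 2 = ((∑ χ ∈ T, (charDegree (χ : G → ℂ) : ℤ) * charDegree (χ : G → ℂ) : ℤ) : ℝ) := by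
      push_cast
      refine Finset.sum_congr rfl fun χ _ => ?_
      rw [(IsIrr.one_eq χ.2).1, Complex.norm_natCast, sq]
    rw [h3] at h2
    have h4 : (∑ χ ∈ T, (charDegree (χ : G → ℂ) : ℤ) * charDegree (χ : G → ℂ) : ℤ) ≤ (Nat.card G : ℤ) := by exact_mod_cast h2
    have h5 : k ≤ 2016 := Nat.le_of_dvd (by norm_num) hk2
    rw [hk] at h4
    push_cast at h4
    omega
  -- F4
  have F4 : ∑ χ ∈ T, tt χ * tt χ ≤ 480 := by
    have h1 := sum_sq_centralizer v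
    have h2 : ∑ χ ∈ T, ‖(χ : G → ℂ) v‖ ^ 2 ≤ ∑ χ : IrrCharacter G, ‖(χ : G → ℂ) v‖ ^ 2 :=
      Finset.sum_le_sum_of_subset_of_nonneg (Finset.subset_univ _) (fun _ _ _ => by positivity)
    rw [h1] at h2
    have h3 : ∑ χ ∈ T, ‖(χ : G → ℂ) v‖ ^ 2 = ((∑ χ ∈ T, tt χ * tt χ : ℤ) : ℝ) := by
      push_cast
      refine Finset.sum_congr rfl fun χ hχ => ?_
      rw [htv χ hχ, Complex.norm_intCast, sq_abs, sq]
    rw [h3] at h2
    have h4 : (∑ χ ∈ T, tt χ * tt χ : ℤ) ≤ (Nat.card (Subgroup.centralizer ({v} : Set G)) : ℤ) := by exact_mod_cast h2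
    have h5 : (Nat.card (Subgroup.centralizer ({v} : Set G)) : ℤ) ≤ 480 := by exact_mod_cast hCv
    exact h4.trans h5
  -- F5
  have F5 : 0 ≤ ∑ χ ∈ T, (w χ : ℝ) * ((tt χ : ℝ) * (tt χ : ℝ) / (charDegree (χ : G → ℂ) : ℝ)) := by
    have h1 := sec_pairs hM (FH.ppow P hy) (h.npc hy hy1) v v
    have h2 : ∑ ζ : IrrCharacter G, (if ζ ∈ principalBlock M G then
        (ζ : G → ℂ) y * conj ((ζ : G → ℂ) v * (ζ : G → ℂ) v) / (ζ : G → ℂ) 1 else 0) =
        ((∑ χ ∈ T, (w χ : ℝ) * ((tt χ : ℝ) * (tt χ : ℝ) / (charDegree (χ : G → ℂ) : ℝ)) : ℝ) : ℂ) := by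
      have h3 := hF (fun χ => conj ((χ : G → ℂ) v * (χ : G → ℂ) v) / (χ : G → ℂ) 1)
      have h4 : ∑ ζ : IrrCharacter G, (if ζ ∈ principalBlock M G then
        (ζ : G → ℂ) y * conj ((ζ : G → ℂ) v * (ζ : G → ℂ) v) / (ζ : G → ℂ) 1 else 0) =
        ∑ χ : IrrCharacter G, (if χ ∈ principalBlock M G then (χ : G → ℂ) y * (conj ((χ : G → ℂ) v * (χ : G → ℂ) v) / (χ : G → ℂ) 1) else 0) := by
        refine Finset.sum_congr rfl fun χ _ => ?_
        split_ifs
        · ring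
        · rfl
      rw [h4, h3]
      push_cast
      refine Finset.sum_congr rfl fun χ hχ => ?_
      rw [htv χ hχ, (IsIrr.one_eq χ.2).1, map_mul, map_intCast]
    rw [h2] at h1
    obtain ⟨n, hn⟩ : ∃ n : ℕ, (∑ a : G, ∑ b : G, (if IsPPart 5 (a * v * a⁻¹ * (b * v * b⁻¹)) y then (1 : ℂ) else 0)) = n := by
      refine ⟨∑ a : G, ∑ b : G, (if IsPPart 5 (a * v * a⁻¹ * (b * v * b⁻¹)) y then 1 else 0), ?_⟩
      push_cast
      rfl
    rw [hn] at h1
    obtain ⟨r, hr⟩ : ∃ r : ℝ, r = ∑ χ ∈ T, (w χ : ℝ) * ((tt χ : ℝ) * (tt χ : ℝ) / (charDegree (χ : G → ℂ) : ℝ)) := ⟨_, rfl⟩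
    rw [← hr] at h1 ⊢
    have h3 : ((5 ^ (Nat.card (Subgroup.centralizer ({y} : Set G))).factorization 5 : ℕ) : ℝ) * (n : ℝ) =
        (Nat.card G : ℝ) * (Nat.card (Subgroup.centralizer ({y} : Set G)) : ℝ) * r := by exact_mod_cast h1
    by_contra hneg
    push Not at hneg
    have hpos : (0 : ℝ) < (Nat.card G : ℝ) * (Nat.card (Subgroup.centralizer ({y} : Set G)) : ℝ) := by
      have e1 : (0 : ℝ) < (Nat.card G : ℝ) := by exact_mod_cast Nat.card_pos
      have e2 : (0 : ℝ) < (Nat.card (Subgroup.centralizer ({y} : Set G)) : ℝ) := by exact_mod_cast Nat.card_pos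
      positivity
    have h4 : (Nat.card G : ℝ) * (Nat.card (Subgroup.centralizer ({y} : Set G)) : ℝ) * r < 0 := mul_neg_of_pos_of_neg hpos hneg
    have h5 : (0 : ℝ) ≤ ((5 ^ (Nat.card (Subgroup.centralizer ({y} : Set G))).factorization 5 : ℕ) : ℝ) * (n : ℝ) := by positivity
    linarith
  -- membership in LP
  have hmemLP : ∀ χ ∈ T.erase (irrOne G), (w χ, (charDegree (χ : G → ℂ) : ℤ), tt χ) ∈ LP := by
    intro χ hχ
    have hχ1 := Finset.ne_of_mem_erase hχ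
    have hχT := Finset.mem_of_mem_erase hχ
    obtain ⟨hw, hcv, -, hdw⟩ := hT χ hχT
    have htχ : tt χ = (charDegree (χ : G → ℂ) : ℤ) - 20 * jj χ := by rw [htt]; simp [hχ1]
    have hd : charDegree (χ : G → ℂ) ∣ k := by
      have h3 := irr_degree_dvd χ
      rw [hk] at h3
      have := cop_pm (p := 5) (m := 1) hw (Nat.coprime_one_left 5)
      rw [Nat.cast_one, one_mul] at this
      exact dvd_of_sub this h3 hdw
    have hd10 : 10 ≤ charDegree (χ : G → ℂ) := by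
      by_contra hcon
      exact no_involC hnp (by norm_num) hP hcv hχ1 (by omega) hv hv2
    refine LP_mem hw (by exact_mod_cast hd.trans hk2) (by exact_mod_cast hd10) ?_ hdw htχ (hj2 χ hχT hχ1) (hj3 χ hχT hχ1) ?_
    · have h5 : ∑ φ ∈ ({irrOne G, χ} : Finset (IrrCharacter G)), (charDegree (φ : G → ℂ) : ℤ) * charDegree (φ : G → ℂ) ≤
          ∑ χ ∈ T, (charDegree (χ : G → ℂ) : ℤ) * charDegree (χ : G → ℂ) := by
        apply Finset.sum_le_sum_of_subset_of_nonneg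
        · intro φ hφ
          rw [Finset.mem_insert, Finset.mem_singleton] at hφ
          rcases hφ with rfl | rfl
          · exact h1T
          · exact hχT
        · intro φ _ _; positivity
      rw [Finset.sum_pair (fun h' => hχ1 h'.symm), hdeg1] at h5
      push_cast at h5
      linarith
    · have h5 : ∑ φ ∈ ({irrOne G, χ} : Finset (IrrCharacter G)), tt φ * tt φ ≤ ∑ χ ∈ T, tt χ * tt χ := by
        apply Finset.sum_le_sum_of_subset_of_nonneg
        · intro φ hφ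
          rw [Finset.mem_insert, Finset.mem_singleton] at hφ
          rcases hφ with rfl | rfl
          · exact h1T
          · exact hχT
        · intro φ _ _; exact mul_self_nonneg _
      rw [Finset.sum_pair (fun h' => hχ1 h'.symm), htt1] at h5
      linarith
  -- the four characters
  have hc4 : (T.erase (irrOne G)).card = 4 := by rw [Finset.card_erase_of_mem h1T, hcard]
  obtain ⟨a, ha⟩ : (T.erase (irrOne G)).Nonempty := by rw [← Finset.card_pos, hc4]; norm_num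
  have hc3 : ((T.erase (irrOne G)).erase a).card = 3 := by rw [Finset.card_erase_of_mem ha, hc4]
  obtain ⟨b, c, e, hbc, hbe, hce, heq⟩ := Finset.card_eq_three.1 hc3
  have hsum4 : ∀ f : IrrCharacter G → ℝ, ∑ χ ∈ T, f χ = f (irrOne G) + (f a + (f b + (f c + f e))) := by
    intro f
    rw [← Finset.add_sum_erase T f h1T, ← Finset.add_sum_erase _ f ha, heq, Finset.sum_insert, Finset.sum_pair hce]
    rw [Finset.mem_insert, Finset.mem_singleton]
    rintro (h' | h')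
    · exact hbc h'
    · exact hbe h'
  have hbT : b ∈ T.erase (irrOne G) := Finset.mem_of_mem_erase (by rw [heq]; simp)
  have hcT : c ∈ T.erase (irrOne G) := Finset.mem_of_mem_erase (by rw [heq]; simp)
  have heT : e ∈ T.erase (irrOne G) := Finset.mem_of_mem_erase (by rw [heq]; simp)
  have hsum4' : ∀ f : IrrCharacter G → ℤ, ∑ χ ∈ T, f χ = f (irrOne G) + (f a + (f b + (f c + f e))) := by
    intro f
    have := hsum4 (fun χ => (f χ : ℝ))
    exact_mod_cast this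
  rw [hsum4'] at hsum F2 F3 F4
  rw [hsum4] at F5
  rw [hone, hdeg1] at hsum F5
  rw [hone, htt1] at F2
  rw [hdeg1] at F3
  rw [htt1] at F4 F5
  have hq : ∀ χ ∈ T.erase (irrOne G), (w χ : ℝ) * ((tt χ : ℝ) * (tt χ : ℝ) / (charDegree (χ : G → ℂ) : ℝ)) * 2016 =
      ((w χ * (tt χ * tt χ) * (2016 / (charDegree (χ : G → ℂ) : ℤ)) : ℤ) : ℝ) := by
    intro χ hχ
    have hχT := Finset.mem_of_mem_erase hχ
    obtain ⟨hw, hcv, -, hdw⟩ := hT χ hχT
    have hd : charDegree (χ : G → ℂ) ∣ k := by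
      have h3 := irr_degree_dvd χ
      rw [hk] at h3
      have := cop_pm (p := 5) (m := 1) hw (Nat.coprime_one_left 5)
      rw [Nat.cast_one, one_mul] at this
      exact dvd_of_sub this h3 hdw
    obtain ⟨q, hq⟩ := hd.trans hk2
    have hpos := (IsIrr.one_eq χ.2).2
    have h6 : (2016 / (charDegree (χ : G → ℂ) : ℤ)) = q := by
      have : (2016 : ℤ) = (charDegree (χ : G → ℂ) : ℤ) * q := by exact_mod_cast hq
      rw [this, Int.mul_ediv_cancel_left _ (by exact_mod_cast hpos.ne')]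
    rw [h6]
    have h7 : (2016 : ℝ) = (charDegree (χ : G → ℂ) : ℝ) * q := by exact_mod_cast hq
    have h8 : (charDegree (χ : G → ℂ) : ℝ) ≠ 0 := by exact_mod_cast hpos.ne'
    rw [h7]
    push_cast
    field_simp
  have F5' : (-2016 : ℤ) ≤ w a * (tt a * tt a) * (2016 / (charDegree (a : G → ℂ) : ℤ)) + w b * (tt b * tt b) * (2016 / (charDegree (b : G → ℂ) : ℤ)) +
      w c * (tt c * tt c) * (2016 / (charDegree (c : G → ℂ) : ℤ)) + w e * (tt e * tt e) * (2016 / (charDegree (e : G → ℂ) : ℤ)) := by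
    have h1 := hq a ha
    have h2 := hq b hbT
    have h3 := hq c hcT
    have h4 := hq e heT
    have h5 : (-2016 : ℝ) ≤ ((w a * (tt a * tt a) * (2016 / (charDegree (a : G → ℂ) : ℤ)) : ℤ) : ℝ) + ((w b * (tt b * tt b) * (2016 / (charDegree (b : G → ℂ) : ℤ)) : ℤ) : ℝ) +
      ((w c * (tt c * tt c) * (2016 / (charDegree (c : G → ℂ) : ℤ)) : ℤ) : ℝ) + ((w e * (tt e * tt e) * (2016 / (charDegree (e : G → ℂ) : ℤ)) : ℤ) : ℝ) := by
      rw [← h1, ← h2, ← h3, ← h4]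
      push_cast at F5
      nlinarith [F5]
    exact_mod_cast h5
  exact LP_num _ (hmemLP a ha) _ (hmemLP b hbT) _ (hmemLP c hcT) _ (hmemLP e heT) (by push_cast at hsum ⊢; linarith)
    (by push_cast at F3 ⊢; linarith) (by linarith) (by linarith) F5'

end Main

end CfsgH5
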