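import Mathlib
import Cfsg.Agent.H3.SylNum
import Cfsg.Agent.H3.Simp
import Cfsg.Agent.S1009

/-!
# Twenty-one Sylow `5`-subgroups: the action on the Sylow subgroups
-/

set_option autoImplicit false

open Cfsg
open scoped Pointwise

namespace CfsgH5

section Act

variable {G : Type*} [Group G] [Finite G] [IsSimpleGroup G]

theorem s21_nab (hcard : Nat.card (Sylow 5 G) = 21) : ¬ IsMulCommutative G := by
  intro hc
  haveI : Fact (Nat.Prime 5) := ⟨by norm_num⟩
  obtain ⟨P⟩ : Nonempty (Sylow 5 G) := inferInstance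
  have h1 : Nat.card (Sylow 5 G) = (Subgroup.normalizer ((P : Subgroup G) : Set G)).index := P.card_eq_index_normalizer
  have h2 : Subgroup.normalizer ((P : Subgroup G) : Set G) = ⊤ := by
    rw [Subgroup.normalizer_eq_top_iff]
    refine ⟨fun n hn g => ?_⟩
    have h3 : g * n = n * g := hc.is_comm.comm g n
    rw [h3, mul_inv_cancel_right]; exact hn
  rw [h2, Subgroup.index_top, hcard] at h1
  omega

theorem s21_faithful (hcard : Nat.card (Sylow 5 G) = 21) : Function.Injective (MulAction.toPermHom G (Sylow 5 G)) := by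
  haveI : Fact (Nat.Prime 5) := ⟨by norm_num⟩
  rw [← MonoidHom.ker_eq_bot_iff]
  rcases (Subgroup.Normal.eq_bot_or_eq_top (inferInstance : (MulAction.toPermHom G (Sylow 5 G)).ker.Normal)) with h | h
  · exact h
  · exfalso
    have h1 : Subsingleton (Sylow 5 G) := by
      refine ⟨fun P Q => ?_⟩
      obtain ⟨g, hg⟩ := MulAction.exists_smul_eq G P Q
      have h2 : g ∈ (MulAction.toPermHom G (Sylow 5 G)).ker := by rw [h]; trivial
      rw [MonoidHom.mem_ker] at h2
      have h3 := congrArg (fun f : Equiv.Perm (Sylow 5 G) => f P) h2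
      have h4 : g • P = P := h3
      rw [← hg, h4]
    have h2 := Finite.card_le_one_iff_subsingleton.2 h1
    omega

theorem s21_sign [Fintype (Sylow 5 G)] [DecidableEq (Sylow 5 G)] (hcard : Nat.card (Sylow 5 G) = 21) (g : G) :
    Equiv.Perm.sign (MulAction.toPermHom G (Sylow 5 G) g) = 1 := by
  let s : G →* ℤˣ := (Equiv.Perm.sign).comp (MulAction.toPermHom G (Sylow 5 G))
  rcases (Subgroup.Normal.eq_bot_or_eq_top (inferInstance : s.ker.Normal)) with h | h
  · exfalso
    apply s21_nab hcard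
    have hsi : Function.Injective s := (MonoidHom.ker_eq_bot_iff s).1 h
    exact ⟨⟨fun a b => hsi (by rw [map_mul, map_mul, mul_comm])⟩⟩
  · have : g ∈ s.ker := by rw [h]; trivial
    exact this

theorem s21_orbit (hcard : Nat.card (Sylow 5 G) = 21) {P Q : Sylow 5 G} (h : P ≠ Q) : 5 * Nat.card ↥((P : Subgroup G) ⊓ Q) = Nat.card P := by
  haveI : Fact (Nat.Prime 5) := ⟨by norm_num⟩
  obtain ⟨k, hk1, hk⟩ := CfsgH3.exists_card_orbit_sylow h
  have h1 := CfsgH3.card_orbit_sylow_lt h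
  have h2 := CfsgH3.card_orbit_sylow P Q
  rw [hk, hcard] at h1
  have h3 : k < 2 := by
    by_contra h3
    have : 5 ^ 2 ≤ 5 ^ k := Nat.pow_le_pow_right (by norm_num) (by omega)
    omega
  have h4 : k = 1 := by omega
  rw [hk, h4, pow_one] at h2
  exact h2

theorem s21_comm (hcard : Nat.card (Sylow 5 G) = 21) (P Q : Sylow 5 G) {x y : G} (hx : x ∈ (P : Subgroup G)) (hy : y ∈ (P : Subgroup G)) :
    x⁻¹ * y⁻¹ * (x * y) ∈ (Q : Subgroup G) := by
  haveI : Fact (Nat.Prime 5) := ⟨by norm_num⟩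
  by_cases h : P = Q
  · rw [← h]
    exact mul_mem (mul_mem (inv_mem hx) (inv_mem hy)) (mul_mem hx hy)
  have h1 := s21_orbit hcard h
  have hidx : (((P : Subgroup G) ⊓ Q).subgroupOf P).index = 5 := by
    have h2 := Subgroup.card_mul_index (((P : Subgroup G) ⊓ Q).subgroupOf P)
    rw [Nat.card_congr (Subgroup.subgroupOfEquivOfLe (inf_le_left : (P : Subgroup G) ⊓ Q ≤ P)).toEquiv, ← h1, mul_comm 5] at h2
    exact Nat.eq_of_mul_eq_mul_left Nat.card_pos h2
  have hmin : (Nat.card (P : Subgroup G)).minFac = 5 := by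
    obtain ⟨n, hn⟩ := IsPGroup.iff_card.1 P.isPGroup'
    rw [hn, Nat.Prime.pow_minFac (by norm_num)]
    rintro rfl
    rw [hn, pow_zero] at h1
    omega
  haveI : (((P : Subgroup G) ⊓ Q).subgroupOf P).Normal := Subgroup.normal_of_index_eq_minFac_card (by rw [hidx, hmin])
  have hc5 : Nat.card ((P : Subgroup G) ⧸ (((P : Subgroup G) ⊓ Q).subgroupOf P)) = 5 := hidx
  haveI : IsCyclic ((P : Subgroup G) ⧸ (((P : Subgroup G) ⊓ Q).subgroupOf P)) := isCyclic_of_prime_card hc5
  letI := IsCyclic.commGroup (α := ((P : Subgroup G) ⧸ (((P : Subgroup G) ⊓ Q).subgroupOf P)))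
  have h5 : (((⟨x, hx⟩ : (P : Subgroup G))⁻¹ * (⟨y, hy⟩ : (P : Subgroup G))⁻¹ * ((⟨x, hx⟩ : (P : Subgroup G)) * ⟨y, hy⟩) : (P : Subgroup G)) :
      (P : Subgroup G) ⧸ (((P : Subgroup G) ⊓ Q).subgroupOf P)) = 1 := by
    rw [QuotientGroup.mk_mul, QuotientGroup.mk_mul, QuotientGroup.mk_mul, QuotientGroup.mk_inv, QuotientGroup.mk_inv]
    have hcm : ∀ a b : (P : Subgroup G) ⧸ (((P : Subgroup G) ⊓ Q).subgroupOf P), a * b = b * a := fun a b =>
      (IsCyclic.isMulCommutative (α := (P : Subgroup G) ⧸ (((P : Subgroup G) ⊓ Q).subgroupOf P))).is_comm.comm a b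
    rw [hcm (((⟨x, hx⟩ : (P : Subgroup G)) : (P : Subgroup G) ⧸ (((P : Subgroup G) ⊓ Q).subgroupOf P))⁻¹)]
    group
  rw [QuotientGroup.eq_one_iff, Subgroup.mem_subgroupOf] at h5
  exact h5.2

theorem s21_five (hcard : Nat.card (Sylow 5 G) = 21) (P : Sylow 5 G) : Nat.card (P : Subgroup G) = 5 := by
  haveI : Fact (Nat.Prime 5) := ⟨by norm_num⟩
  obtain ⟨O, hO⟩ : ∃ O : Subgroup G, O = ⨅ R : Sylow 5 G, (R : Subgroup G) := ⟨_, rfl⟩
  have hOn : O.Normal := by
    refine ⟨fun n hn g => ?_⟩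
    rw [hO, Subgroup.mem_iInf] at hn ⊢
    intro R
    have h1 := hn (g⁻¹ • R)
    have h2 : n ∈ (MulAut.conj g⁻¹) • (R : Subgroup G) := h1
    rw [Subgroup.mem_pointwise_smul_iff_inv_smul_mem] at h2
    have h3 : (MulAut.conj g⁻¹)⁻¹ • n = g * n * g⁻¹ := by
      rw [← map_inv, inv_inv]; rfl
    rwa [h3] at h2
  have hObot : O = ⊥ := by
    rcases hOn.eq_bot_or_eq_top with h | h
    · exact h
    · exfalso
      have h1 : Subsingleton (Sylow 5 G) := by
        refine ⟨fun P Q => Sylow.ext ?_⟩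
        have h2 : ∀ R : Sylow 5 G, (R : Subgroup G) = ⊤ := fun R => top_le_iff.1 (by rw [← h, hO]; exact iInf_le _ R)
        rw [h2 P, h2 Q]
      have h2 := Finite.card_le_one_iff_subsingleton.2 h1
      omega
  have hab : ∀ P : Sylow 5 G, IsMulCommutative ↥(P : Subgroup G) := by
    intro P
    refine ⟨⟨fun a b => ?_⟩⟩
    have h1 : (a : G)⁻¹ * (b : G)⁻¹ * ((a : G) * b) ∈ O := by
      rw [hO, Subgroup.mem_iInf]
      exact fun R => s21_comm hcard P R a.2 b.2
    rw [hObot, Subgroup.mem_bot] at h1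
    apply Subtype.ext
    change (a : G) * b = b * a
    calc (a : G) * b = (b * a) * ((a : G)⁻¹ * (b : G)⁻¹ * ((a : G) * b)) := by group
      _ = b * a := by rw [h1, mul_one]
  obtain ⟨A, B, hAB⟩ := Cfsg.Agent.S1009.result 5 hab
  rw [← hO, hObot] at hAB
  have hne : A ≠ B := by
    rintro rfl
    rw [inf_idem] at hAB
    have h1 : Nat.card (Sylow 5 G) = (Subgroup.normalizer ((A : Subgroup G) : Set G)).index := A.card_eq_index_normalizer
    have h2 : Subgroup.normalizer ((A : Subgroup G) : Set G) = ⊤ := by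
      rw [Subgroup.normalizer_eq_top_iff, hAB]; infer_instance
    rw [h2, Subgroup.index_top, hcard] at h1
    omega
  have h1 := s21_orbit hcard hne
  rw [hAB, Subgroup.card_bot] at h1
  have h2 : Nat.card (P : Subgroup G) = Nat.card (A : Subgroup G) := P.card_eq_multiplicity.trans A.card_eq_multiplicity.symm
  rw [h2, ← h1]

end Act

end CfsgH5
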