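import Mathlib
import Cfsg.Agent.H5.SmS15

/-!
# Twenty-one Sylow `5`-subgroups: centralizers
-/

set_option autoImplicit false

open Cfsg
open scoped Pointwise

namespace CfsgH5

section Cen

variable {G : Type*} [Group G] [Finite G] [IsSimpleGroup G]

theorem s21_fix [Fact (Nat.Prime 5)] {P Q : Sylow 5 G} (hP : Nat.card (P : Subgroup G) = 5) {y : G} (hy : y ∈ (P : Subgroup G)) (hy1 : y ≠ 1)
    (h : y • Q = Q) : Q = P := by
  have h1 : y ∈ Subgroup.normalizer ((Q : Subgroup G) : Set G) := Sylow.smul_eq_iff_mem_normalizer.1 h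
  have h2 : Subgroup.zpowers y = (P : Subgroup G) := by
    have h3 : Subgroup.zpowers y ≤ (P : Subgroup G) := by rw [Subgroup.zpowers_le]; exact hy
    apply Subgroup.eq_of_le_of_card_ge h3
    rw [hP, Nat.card_zpowers]
    have h4 : orderOf y ∣ 5 := by
      have := orderOf_dvd_natCard (⟨y, hy⟩ : (P : Subgroup G))
      rwa [hP, Subgroup.orderOf_mk] at this
    rcases (Nat.dvd_prime (by norm_num)).1 h4 with h5 | h5
    · exact absurd (orderOf_eq_one_iff.1 h5) hy1
    · rw [h5]
  exact (CfsgH3.eq_of_le_normalizer P Q (by rw [← h2, Subgroup.zpowers_le]; exact h1)).symm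

theorem s21_cent (hcard : Nat.card (Sylow 5 G) = 21) (P : Sylow 5 G) (hP : Nat.card (P : Subgroup G) = 5) :
    Nat.card (Subgroup.centralizer ((P : Subgroup G) : Set G)) ∣ 625 * 24 := by
  classical
  haveI : Fact (Nat.Prime 5) := ⟨by norm_num⟩
  haveI := Fintype.ofFinite (Sylow 5 G)
  obtain ⟨y0, hy0⟩ := exists_prime_orderOf_dvd_card' (G := (P : Subgroup G)) 5 (by rw [hP])
  obtain ⟨y, hyd⟩ : ∃ y : G, y = (y0 : G) := ⟨_, rfl⟩
  have hy : y ∈ (P : Subgroup G) := by rw [hyd]; exact y0.2
  have hyo : orderOf y = 5 := by rw [hyd, Subgroup.orderOf_coe, hy0]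
  have hy1 : y ≠ 1 := by rintro rfl; rw [orderOf_one] at hyo; omega
  obtain ⟨σ, hσ⟩ : ∃ σ, σ = MulAction.toPermHom G (Sylow 5 G) y := ⟨_, rfl⟩
  have hσo : orderOf σ = 5 := by rw [hσ, orderOf_injective _ (s21_faithful hcard), hyo]
  have hcard' : Fintype.card (Sylow 5 G) = 21 := by rw [← Nat.card_eq_fintype_card, hcard]
  have hsupp : σ.support = Finset.univ.erase P := by
    ext Q
    rw [Equiv.Perm.mem_support, Finset.mem_erase]
    constructor
    · intro h
      refine ⟨?_, Finset.mem_univ _⟩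
      rintro rfl
      apply h
      rw [hσ]
      exact Sylow.smul_eq_iff_mem_normalizer.2 (Subgroup.le_normalizer hy)
    · rintro ⟨h, -⟩ h2
      apply h
      rw [hσ] at h2
      exact s21_fix hP hy hy1 h2
  have hs20 : σ.support.card = 20 := by
    rw [hsupp, Finset.card_erase_of_mem (Finset.mem_univ _), Finset.card_univ, hcard']
  obtain ⟨n, hn⟩ := Equiv.Perm.cycleType_prime_order (σ := σ) (by rw [hσo]; norm_num)
  have h1 := Equiv.Perm.sum_cycleType σ
  rw [hs20, hn, Multiset.sum_replicate, hσo, smul_eq_mul] at h1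
  have hn3 : n = 3 := by omega
  rw [hn3, hσo] at hn
  have h2 := Equiv.Perm.nat_card_centralizer σ
  have h3 : (Multiset.replicate (3 + 1) 5).toFinset = {5} := by decide
  rw [hn, h3, Finset.prod_singleton, Multiset.sum_replicate, Multiset.prod_replicate, Multiset.count_replicate_self, hcard'] at h2
  have h4 : Nat.card (Subgroup.centralizer {σ}) = 625 * 24 := by
    rw [h2]; decide
  rw [← h4]
  have h5 : (Subgroup.centralizer ((P : Subgroup G) : Set G)).map (MulAction.toPermHom G (Sylow 5 G)) ≤ Subgroup.centralizer {σ} := by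
    rintro _ ⟨c, hc, rfl⟩
    rw [Subgroup.mem_centralizer_singleton_iff, hσ, ← map_mul, ← map_mul, Subgroup.mem_centralizer_iff.1 hc y hy]
  have h6 : Nat.card ((Subgroup.centralizer ((P : Subgroup G) : Set G)).map (MulAction.toPermHom G (Sylow 5 G))) =
      Nat.card (Subgroup.centralizer ((P : Subgroup G) : Set G)) :=
    Nat.card_congr ((Subgroup.centralizer ((P : Subgroup G) : Set G)).equivMapOfInjective _ (s21_faithful hcard)).toEquiv.symm
  rw [← h6]
  exact Subgroup.card_dvd_of_le h5

theorem s21_invol (hcard : Nat.card (Sylow 5 G) = 21) (P : Sylow 5 G) (hP : Nat.card (P : Subgroup G) = 5) {v : G}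
    (hv : v ∈ Subgroup.centralizer ((P : Subgroup G) : Set G)) (hv2 : orderOf v = 2) :
    Subgroup.centralizer ({v} : Set G) ≤ Subgroup.normalizer ((P : Subgroup G) : Set G) := by
  classical
  haveI : Fact (Nat.Prime 5) := ⟨by norm_num⟩
  haveI := Fintype.ofFinite (Sylow 5 G)
  obtain ⟨y0, hy0⟩ := exists_prime_orderOf_dvd_card' (G := (P : Subgroup G)) 5 (by rw [hP])
  have hyo : orderOf (y0 : G) = 5 := by rw [Subgroup.orderOf_coe, hy0]
  have hy1 : (y0 : G) ≠ 1 := by intro h; rw [h, orderOf_one] at hyo; omega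
  have hcard' : Fintype.card (Sylow 5 G) = 21 := by rw [← Nat.card_eq_fintype_card, hcard]
  let S : SubMulAction (P : Subgroup G) (Sylow 5 G) :=
    { carrier := {Q | v • Q = Q}
      smul_mem' := by
        intro u Q hQ
        change v • ((u : G) • Q) = (u : G) • Q
        have hQ' : v • Q = Q := hQ
        rw [smul_smul, ← Subgroup.mem_centralizer_iff.1 hv u u.2, ← smul_smul, hQ'] }
  have hvP : v • P = P := Sylow.smul_eq_iff_mem_normalizer.2 (Subgroup.centralizer_le_normalizer _ hv)
  have hPS : P ∈ S := hvP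
  have hmod := P.isPGroup'.card_modEq_card_fixedPoints S
  have hfix : Nat.card (MulAction.fixedPoints (P : Subgroup G) S) = 1 := by
    rw [Nat.card_eq_one_iff_unique]
    refine ⟨⟨?_⟩, ⟨⟨⟨P, hPS⟩, ?_⟩⟩⟩
    · have key : ∀ Q : MulAction.fixedPoints (P : Subgroup G) S, ((Q : S) : Sylow 5 G) = P := by
        intro Q
        have h1 := Q.2 y0
        have h2 : (y0 : G) • ((Q : S) : Sylow 5 G) = ((Q : S) : Sylow 5 G) := congrArg Subtype.val h1
        exact s21_fix hP y0.2 hy1 h2
      intro Q R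
      exact Subtype.ext (Subtype.ext ((key Q).trans (key R).symm))
    · intro u
      apply Subtype.ext
      change (u : G) • P = P
      exact Sylow.smul_eq_iff_mem_normalizer.2 (Subgroup.le_normalizer u.2)
  rw [hfix] at hmod
  obtain ⟨τ, hτ⟩ : ∃ τ, τ = MulAction.toPermHom G (Sylow 5 G) v := ⟨_, rfl⟩
  have hτo : orderOf τ = 2 := by rw [hτ, orderOf_injective _ (s21_faithful hcard), hv2]
  obtain ⟨n, hn⟩ := Equiv.Perm.cycleType_prime_order (σ := τ) (by rw [hτo]; norm_num)
  have h1 := Equiv.Perm.sum_cycleType τ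
  rw [hn, Multiset.sum_replicate, hτo, smul_eq_mul] at h1
  have hsg := Equiv.Perm.sign_of_cycleType τ
  rw [hn, hτo, Multiset.sum_replicate, Multiset.card_replicate, hτ, s21_sign hcard, smul_eq_mul] at hsg
  have hev : Even (n + 1) := by
    by_contra hodd
    rw [Nat.not_even_iff_odd] at hodd
    have h2 : Odd ((n + 1) * 2 + (n + 1)) := by
      rw [Nat.odd_iff] at hodd ⊢; omega
    rw [h2.neg_one_pow] at hsg
    exact absurd hsg (by decide)
  have hS : Nat.card S + τ.support.card = 21 := by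
    have h2 : Nat.card S = (Finset.univ.filter (fun Q : Sylow 5 G => τ Q = Q)).card := by
      rw [← Fintype.card_subtype, ← Nat.card_eq_fintype_card]
      apply Nat.card_congr
      refine Equiv.subtypeEquivRight (fun Q => ?_)
      rw [hτ]; rfl
    have h3 := Finset.card_filter_add_card_filter_not (s := (Finset.univ : Finset (Sylow 5 G))) (fun Q => τ Q = Q)
    rw [Finset.card_univ, hcard'] at h3
    rw [h2]
    have h4 : τ.support = Finset.univ.filter (fun a => ¬ τ a = a) := by ext a; simp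
    rw [h4]; exact h3
  have hS1 : Nat.card S = 1 := by
    have h5 : Nat.card S % 5 = 1 := hmod
    obtain ⟨m, hm⟩ := hev
    omega
  intro g hg
  rw [Subgroup.mem_centralizer_singleton_iff] at hg
  have hgS : g • P ∈ S := by
    change v • (g • P) = g • P
    rw [smul_smul, ← hg, ← smul_smul, hvP]
  have h6 := (Nat.card_eq_one_iff_unique.1 hS1).1
  have h7 : (⟨g • P, hgS⟩ : S) = ⟨P, hPS⟩ := Subsingleton.elim _ _
  exact Sylow.smul_eq_iff_mem_normalizer.1 (congrArg Subtype.val h7)

end Cen

end CfsgH5
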