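import Cfsg.Agent.H5.SmS13
import Cfsg.Agent.H5.SmS16
import Cfsg.Agent.H5.BSa

/-!
# Twenty-one Sylow `5`-subgroups: the end
-/

set_option autoImplicit false

open Cfsg MonoidAlgebra
open CfsgH4 hiding centralChar sum_conj regInner_symm

namespace CfsgH5

open scoped ComplexConjugate

section E2

variable {G : Type*} [Group G] [Fintype G] [IsSimpleGroup G]

theorem c_one_e2 [Fact (Nat.Prime 5)] (P : Sylow 5 G) (hP : Nat.card (P : Subgroup G) = 5) {k : ℕ} (hk : Nat.card G = 5 * k) (hk1 : k ≠ 1)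
    (h5k : ¬ 5 ∣ k) (hN2 : ∀ x : ℤ, x.natAbs ∣ k → x % 5 = 1 → x.natAbs ≠ 1 → (1 + x).natAbs ∣ k → x.natAbs < 10)
    (he : eP P = 2) {c : ℕ} (hc : Nat.card (cP P) = 5 * c) : c = 1 := by
  obtain ⟨M, hM⟩ := exists_isPModular 5
  have hnp := not_prime_of hk hk1
  have h : FH P 2 := by rw [← he]; exact FH.of_prime hP
  obtain ⟨a, η, w, ε, R⟩ := R2_exists hM hP h rfl
  have h3 := irr_degree_dvd a
  have h4 := irr_degree_dvd η
  rw [hk] at h3 h4
  have h9 : 1 + w * charDegree (a : G → ℂ) = ε * charDegree (η : G → ℂ) := by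
    have h1 := R.rel 1 (by rw [orderOf_one]; norm_num)
    rw [(IsIrr.one_eq a.2).1, (IsIrr.one_eq η.2).1] at h1
    exact_mod_cast h1
  have hd := hN2 (w * charDegree (a : G → ℂ)) (by
      rw [natAbs_sgn R.wpm]
      have := cop_pm (p := 5) (m := 1) R.wpm (Nat.coprime_one_left 5)
      rw [Nat.cast_one, one_mul] at this
      exact dvd_of_sub this h3 R.deg) (by exact_mod_cast mod_one_of (p := 5) R.wpm (by norm_num) R.deg)
    (by rw [natAbs_sgn R.wpm]; exact deg_ne_one hnp R.a1) (by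
      rw [h9, natAbs_sgn R.epm]
      have := cop_pm (p := 5) (m := 2) R.epm (by norm_num)
      exact dvd_of_sub this h4 R.degη)
  rw [natAbs_sgn R.wpm] at hd
  exact cent_one (by norm_num) hk hk1 h5k hP R.cv R.a1 R.real (by omega) hc

theorem s21_num2 : ∀ x ∈ Finset.Icc (-((1008 : ℕ) : ℤ)) ((1008 : ℕ) : ℤ), x.natAbs ∣ 1008 → x % 5 = 1 → x.natAbs ≠ 1 →
    (1 + x).natAbs ∣ 1008 → x.natAbs < 10 := by
  decide +kernel

end E2

section Fin

variable {G : Type*} [Group G] [Finite G] [IsSimpleGroup G]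

/-- cyclic Sylow 2-subgroups -/
theorem s21_cyc [Fact (Nat.Prime 5)] (hcard : Nat.card (Sylow 5 G) = 21) (P : Sylow 5 G) (hP : Nat.card (P : Subgroup G) = 5) {c : ℕ}
    (hc : Nat.card (cP P) = 5 * c) (hcodd : ¬ 2 ∣ c) (hN : Nat.card (nP P) = 20 * c) (hG : Nat.card G = 420 * c) : False := by
  haveI : Fact (Nat.Prime 2) := ⟨Nat.prime_two⟩
  haveI : IsCyclic (P : Subgroup G) := isCyclic_of_prime_card hP
  obtain ⟨T⟩ : Nonempty (Sylow 2 (nP P)) := inferInstance
  have hT : Nat.card (T : Subgroup (nP P)) = 2 ^ 2 := by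
    apply CfsgH3.Simp.card_syl (m := 5 * c) (by rw [hN]; ring)
    intro h
    rcases (Nat.Prime.dvd_mul Nat.prime_two).1 h with h | h
    · norm_num at h
    · exact hcodd h
  obtain ⟨φ, hφ⟩ : ∃ φ : nP P →* MulAut (P : Subgroup G), φ = (P : Subgroup G).normalizerMonoidHom := ⟨_, rfl⟩
  let e := IsCyclic.mulAutMulEquiv (G := (P : Subgroup G))
  let ψ : (T : Subgroup (nP P)) →* (ZMod (Nat.card (P : Subgroup G)))ˣ := e.toMonoidHom.comp (φ.comp (T : Subgroup (nP P)).subtype)
  have hψ : Function.Injective ψ := by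
    rw [← MonoidHom.ker_eq_bot_iff, eq_bot_iff]
    intro t ht
    rw [MonoidHom.mem_ker] at ht
    have h1 : φ (t : nP P) = 1 := by
      have h2 : e (φ (t : nP P)) = 1 := ht
      exact (MulEquiv.map_eq_one_iff e).1 h2
    have h2 : (t : nP P) ∈ φ.ker := h1
    rw [hφ, Subgroup.normalizerMonoidHom_ker, Subgroup.mem_subgroupOf] at h2
    rw [Subgroup.mem_bot]
    have h3 : orderOf (((t : nP P)) : G) ∣ 5 * c := by
      rw [← hc]
      have := orderOf_dvd_natCard (⟨((t : nP P) : G), h2⟩ : cP P)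
      rwa [Subgroup.orderOf_mk] at this
    have h4 : orderOf (((t : nP P)) : G) ∣ 2 ^ 2 := by
      rw [← hT, Subgroup.orderOf_coe, Subgroup.orderOf_coe]
      exact orderOf_dvd_natCard t
    have h5 : Nat.Coprime (2 ^ 2) (5 * c) := by
      apply Nat.Coprime.pow_left
      rw [Nat.Prime.coprime_iff_not_dvd Nat.prime_two]
      intro h
      rcases (Nat.Prime.dvd_mul Nat.prime_two).1 h with h | h
      · norm_num at h
      · exact hcodd h
    have h6 : orderOf (((t : nP P)) : G) = 1 := Nat.eq_one_of_dvd_coprimes h5 h4 h3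
    exact Subtype.ext (Subtype.ext (orderOf_eq_one_iff.1 h6))
  have hTc : IsCyclic (T : Subgroup (nP P)) := by
    have h1 : IsCyclic (ZMod (Nat.card (P : Subgroup G)))ˣ := by
      rw [hP]; infer_instance
    exact isCyclic_of_injective ψ hψ
  -- a Sylow 2-subgroup of the group
  have hTG : Nat.card ((T : Subgroup (nP P)).map (nP P).subtype) = 2 ^ 2 := by
    rw [← hT]
    exact Nat.card_congr ((T : Subgroup (nP P)).equivMapOfInjective _ (nP P).subtype_injective).toEquiv.symm
  obtain ⟨S⟩ : Nonempty (Sylow 2 G) := inferInstance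
  have hS : Nat.card (S : Subgroup G) = 2 ^ 2 := by
    apply CfsgH3.Simp.card_syl (m := 105 * c) (by rw [hG]; ring)
    intro h
    rcases (Nat.Prime.dvd_mul Nat.prime_two).1 h with h | h
    · norm_num at h
    · exact hcodd h
  obtain ⟨S', hS'⟩ := (IsPGroup.of_card hTG).exists_le_sylow
  have hS'c : Nat.card (S' : Subgroup G) = 2 ^ 2 := by rw [← hS]; exact S'.card_eq_multiplicity.trans S.card_eq_multiplicity.symm
  have heq : (T : Subgroup (nP P)).map (nP P).subtype = S' := Subgroup.eq_of_le_of_card_ge hS' (by rw [hS'c, hTG])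
  have hcyc : IsCyclic (S' : Subgroup G) := by
    rw [← heq]
    exact isCyclic_of_surjective ((T : Subgroup (nP P)).equivMapOfInjective _ (nP P).subtype_injective)
      ((T : Subgroup (nP P)).equivMapOfInjective _ (nP P).subtype_injective).surjective
  exact CfsgH3.Simp.not_npc (s21_nab hcard) (by rw [hG]; omega) (npc_of_cyclic S' hcyc)

theorem s21_simple : Nat.card (Sylow 5 G) ≠ 21 := by
  intro hcard
  haveI := Fintype.ofFinite G
  haveI : Fact (Nat.Prime 5) := ⟨by norm_num⟩
  obtain ⟨P⟩ : Nonempty (Sylow 5 G) := inferInstance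
  have hP := s21_five hcard P
  obtain ⟨k, hk⟩ : 5 ∣ Nat.card G := by rw [← hP]; exact Subgroup.card_subgroup_dvd_card _
  have hk0 : 0 < k := by have : 0 < Nat.card G := Nat.card_pos; omega
  have h5k : ¬ 5 ∣ k := by
    have h1 := P.not_dvd_index
    have h2 := Subgroup.card_mul_index (P : Subgroup G)
    rw [hP, hk] at h2
    have h3 : (P : Subgroup G).index = k := Nat.eq_of_mul_eq_mul_left (by norm_num) h2
    rwa [h3] at h1
  have hNk := CfsgH3.Simp.card_norm P
  rw [hcard, hk] at hNk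
  have hk1 : k ≠ 1 := by rintro rfl; omega
  obtain ⟨n, c, hn, hc, h1, h2, h3, h4, h5⟩ := syl_data P hP hk hk1
  rw [hcard] at hn
  rw [hn] at h1
  have hck : c ∣ k := ⟨21 * eP P, by rw [← h1]; ring⟩
  have h5c : ¬ 5 ∣ c := fun h => h5k (h.trans hck)
  have hc24 : c ∣ 24 := by
    have h6 := s21_cent hcard P hP
    have h7 : Nat.card (Subgroup.centralizer ((P : Subgroup G) : Set G)) = 5 * c := hc
    rw [h7, show 625 * 24 = 5 * (5 ^ 3 * 24) by norm_num] at h6
    have h8 := Nat.dvd_of_mul_dvd_mul_left (by norm_num) h6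
    exact Nat.Coprime.dvd_of_dvd_mul_left (Nat.Coprime.pow_right 3 ((Nat.Prime.coprime_iff_not_dvd (by norm_num)).2 h5c).symm) h8
  have hcle : c ≤ 24 := Nat.le_of_dvd (by norm_num) hc24
  have hc0 : 0 < c := Nat.pos_of_ne_zero (by rintro rfl; omega)
  rcases eP_five P h4 h5 with he | he
  · rw [he] at h1
    have hkc : k = 42 * c := by omega
    have hk1008 : k ∣ 1008 := by rw [hkc, show 1008 = 42 * 24 by norm_num]; exact Nat.mul_dvd_mul_left _ hc24
    have hc1 := c_one_e2 P hP hk hk1 h5k (fun x hx1 hx2 hx3 hx4 =>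
      s21_num2 x (mem_Icc_of_natAbs_dvd (by norm_num) (hx1.trans hk1008)) (hx1.trans hk1008) hx2 hx3 (hx4.trans hk1008)) he hc
    haveI : Fact (Nat.Prime 2) := ⟨Nat.prime_two⟩
    apply no_smallest (G := G) (q := 2) (k := 105) (by rw [hk, hkc, hc1]) (by norm_num) (by norm_num)
    intro r hr hr2
    have h6 := hr.two_le
    rcases Nat.lt_or_ge 2 r with h7 | h7
    · exact h7
    · have : r = 2 := by omega
      rw [this] at hr2
      norm_num at hr2
  · rw [he] at h1
    have hkc : k = 84 * c := by omega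
    have hk2016 : k ∣ 2016 := by rw [hkc, show 2016 = 84 * 24 by norm_num]; exact Nat.mul_dvd_mul_left _ hc24
    have hNc : Nat.card (nP P) = 20 * c := by
      have h6 : 21 * Nat.card (nP P) = 5 * k := hNk
      omega
    by_cases h2c : 2 ∣ c
    · obtain ⟨v0, hv0⟩ := exists_prime_orderOf_dvd_card' (G := cP P) 2 (by rw [hc]; exact Dvd.dvd.mul_left h2c 5)
      have hv2 : orderOf (v0 : G) = 2 := by rw [Subgroup.orderOf_coe, hv0]
      have h6 := s21_invol hcard P hP v0.2 hv2
      have h7 : Nat.card (Subgroup.centralizer ({(v0 : G)} : Set G)) ≤ 480 := by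
        have h8 : Nat.card (Subgroup.centralizer ({(v0 : G)} : Set G)) ≤ Nat.card (nP P) :=
          Nat.le_of_dvd Nat.card_pos (Subgroup.card_dvd_of_le h6)
        omega
      exact even_contra P hP hk hk2016 hk1 he v0.2 hv2 h7
    · exact s21_cyc hcard P hP hc h2c hNc (by rw [hk, hkc]; ring)

end Fin

end CfsgH5
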