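import Cfsg.Agent.H5.SmS17
import Cfsg.Agent.H3.SylIdx

/-!
# The order 5040
-/

set_option autoImplicit false

open Cfsg MonoidAlgebra
open CfsgH4 hiding centralChar sum_conj regInner_symm

namespace CfsgH5

open scoped ComplexConjugate

variable {G : Type*} [Group G] [Finite G] [IsSimpleGroup G]

theorem conj_mem_cP {p : ℕ} (P : Sylow p G) {g c : G} (hg : g ∈ nP P) (hc : c ∈ cP P) : g * c * g⁻¹ ∈ cP P := by
  rw [Subgroup.mem_centralizer_iff] at hc ⊢
  intro y hy
  have h1 : g⁻¹ * y * g ∈ (P : Subgroup G) := by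
    have := (Subgroup.mem_normalizer_iff.1 (Subgroup.inv_mem _ hg) y).1 hy
    rwa [inv_inv] at this
  have h2 := hc _ h1
  calc y * (g * c * g⁻¹) = g * ((g⁻¹ * y * g) * c) * g⁻¹ := by group
    _ = g * (c * (g⁻¹ * y * g)) * g⁻¹ := by rw [h2]
    _ = g * c * g⁻¹ * y := by group

theorem s5040_I [Fact (Nat.Prime 5)] (hG : Nat.card G = 5040) (P : Sylow 5 G) (hP : Nat.card (P : Subgroup G) = 5) (he : eP P = 4)
    (hn : Nat.card (Sylow 5 G) = 126) (hc : Nat.card (cP P) = 10) : False := by
  classical
  haveI := Fintype.ofFinite G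
  have hnc := CfsgH3.Simp.not_comm_of_card (G := G) (by rw [hG]; norm_num)
  have hN0 := CfsgH3.Simp.card_norm P
  rw [hn, hG] at hN0
  have hN : Nat.card (nP P) = 40 := by
    have : 126 * Nat.card (nP P) = 5040 := hN0
    omega
  haveI : Fact (Nat.Prime 2) := ⟨Nat.prime_two⟩
  obtain ⟨v0, hv0⟩ := exists_prime_orderOf_dvd_card' (G := cP P) 2 (by rw [hc]; norm_num)
  obtain ⟨v, hvd⟩ : ∃ v : G, v = (v0 : G) := ⟨_, rfl⟩
  have hv : v ∈ cP P := by rw [hvd]; exact v0.2
  have hv2 : orderOf v = 2 := by rw [hvd, Subgroup.orderOf_coe, hv0]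
  have hPc : (P : Subgroup G) ≤ cP P := by
    intro a ha
    rw [Subgroup.mem_centralizer_iff]
    intro b hb
    exact (FH.of_prime hP).ab b hb a ha
  have hidx : ((P : Subgroup G).subgroupOf (cP P)).index = 2 := by
    have h1 := Subgroup.card_mul_index ((P : Subgroup G).subgroupOf (cP P))
    rw [Nat.card_congr (Subgroup.subgroupOfEquivOfLe hPc).toEquiv, hP, hc] at h1
    omega
  have hordP : ∀ x ∈ (P : Subgroup G), orderOf x ∣ 5 := by
    intro x hx
    have := orderOf_dvd_natCard (⟨x, hx⟩ : (P : Subgroup G))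
    rwa [hP, Subgroup.orderOf_mk] at this
  have hnotP : ∀ x : G, orderOf x = 2 → x ∉ (P : Subgroup G) := by
    intro x hx hxP
    have := hordP x hxP
    rw [hx] at this
    norm_num at this
  have huniq : ∀ g ∈ nP P, g * v * g⁻¹ = v := by
    intro g hg
    have h1 := conj_mem_cP P hg hv
    have h2 : orderOf (g * v * g⁻¹) = 2 := by
      have h3 : g * v * g⁻¹ = MulAut.conj g v := rfl
      rw [h3, MulEquiv.orderOf_eq, hv2]
    have h3 : v * (g * v * g⁻¹) ∈ (P : Subgroup G) := by
      have h4 := (Subgroup.mul_mem_iff_of_index_two hidx (a := ⟨v, hv⟩) (b := ⟨g * v * g⁻¹, h1⟩)).2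
        ⟨fun h5 => absurd h5 (hnotP v hv2), fun h5 => absurd h5 (hnotP _ h2)⟩
      exact h4
    obtain ⟨w, hw⟩ : ∃ w, w = v * (g * v * g⁻¹) := ⟨_, rfl⟩
    rw [← hw] at h3
    have hvv : v * v = 1 := by rw [← sq, ← hv2]; exact pow_orderOf_eq_one v
    have h6 : g * v * g⁻¹ = v * w := by rw [hw, ← mul_assoc, hvv, one_mul]
    have hvw : w * v = v * w := Subgroup.mem_centralizer_iff.1 hv w h3
    have h7 : (g * v * g⁻¹) * (g * v * g⁻¹) = 1 := by rw [← sq, ← h2]; exact pow_orderOf_eq_one _
    have h8 : w * w = 1 := by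
      rw [h6] at h7
      calc w * w = (v * v) * (w * w) := by rw [hvv, one_mul]
        _ = v * (v * w) * w := by group
        _ = v * (w * v) * w := by rw [hvw]
        _ = v * w * (v * w) := by group
        _ = 1 := h7
    have h9 : orderOf w ∣ 2 := orderOf_dvd_of_pow_eq_one (by rw [sq]; exact h8)
    have h10 : w = 1 := orderOf_eq_one_iff.1 (Nat.eq_one_of_dvd_coprimes (by norm_num : Nat.Coprime 5 2) (hordP w h3) h9)
    rw [h6, h10, mul_one]
  have hNC : nP P ≤ Subgroup.centralizer ({v} : Set G) := by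
    intro g hg
    rw [Subgroup.mem_centralizer_singleton_iff]
    exact mul_inv_eq_iff_eq_mul.1 (huniq g hg)
  have hPC : (P : Subgroup G) ≤ Subgroup.centralizer ({v} : Set G) := Subgroup.le_normalizer.trans hNC
  obtain ⟨m, hm⟩ : ∃ m, m = (nP P).relIndex (Subgroup.centralizer ({v} : Set G)) := ⟨_, rfl⟩
  have h1 := CfsgH3.card_sylow_subgroup_eq P hPC
  have hm5 : m % 5 = 1 := by
    rw [hm, ← h1]
    exact CfsgH3.Simp.syl_mod
  have hCm : Nat.card (Subgroup.centralizer ({v} : Set G)) = 40 * m := by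
    have h2 := Subgroup.card_mul_index ((nP P).subgroupOf (Subgroup.centralizer ({v} : Set G)))
    rw [Nat.card_congr (Subgroup.subgroupOfEquivOfLe hNC).toEquiv, hN] at h2
    rw [← h2, hm]; rfl
  have hj := Subgroup.card_mul_index (Subgroup.centralizer ({v} : Set G))
  rw [hCm, hG] at hj
  by_cases h480 : Nat.card (Subgroup.centralizer ({v} : Set G)) ≤ 480
  · exact even_contra P hP (k := 1008) (by rw [hG]) (by norm_num) (by norm_num) he hv hv2 h480
  · rw [hCm] at h480
    obtain ⟨j, hjd⟩ : ∃ j, j = (Subgroup.centralizer ({v} : Set G)).index := ⟨_, rfl⟩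
    rw [← hjd] at hj
    have hj9 : j < 10 := by
      by_contra h5
      have : 13 * 10 ≤ m * j := Nat.mul_le_mul (by omega) (by omega)
      nlinarith
    have htop : Subgroup.centralizer ({v} : Set G) ≠ ⊤ := by
      intro h
      apply hnc
      have h2 : v ∈ Subgroup.center G := by
        rw [Subgroup.mem_center_iff]
        intro g
        have : g ∈ Subgroup.centralizer ({v} : Set G) := by rw [h]; trivial
        exact Subgroup.mem_centralizer_singleton_iff.1 this
      rcases (Subgroup.Normal.eq_bot_or_eq_top (inferInstance : (Subgroup.center G).Normal)) with h3 | h3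
      · rw [h3, Subgroup.mem_bot] at h2
        rw [h2, orderOf_one] at hv2
        omega
      · exact ⟨⟨fun a b => by
          have : b ∈ Subgroup.center G := by rw [h3]; trivial
          exact Subgroup.mem_center_iff.1 this a⟩⟩
    have hfac := CfsgH3.Simp.two_card_dvd_factorial hnc _ htop
    rw [hG, ← hjd] at hfac
    interval_cases j
    all_goals first
      | omega
      | (revert hfac; decide)

/-- a constant value on the nontrivial elements of a subgroup of order five -/
theorem five_val {u : G} (hu : orderOf u = 5) [Fintype (Subgroup.zpowers u)] {f : G → ℂ} {α : ℂ}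
    (hf : ∀ c ∈ Subgroup.zpowers u, c ≠ 1 → f c = α) (μ : Subgroup.zpowers u →* ℂˣ) (hμ : μ ≠ 1) :
    5 * classInner (fun c : Subgroup.zpowers u => f c) (lch μ) = f 1 - α := by
  classical
  have hc5 : (Nat.card (Subgroup.zpowers u) : ℂ) = 5 := by
    rw [Nat.card_zpowers, hu]; norm_num
  have h1 : ∑ c : Subgroup.zpowers u, conj (lch μ c) = 0 := by
    have h2 : classInner (lch (1 : Subgroup.zpowers u →* ℂˣ)) (lch μ) = 0 := by
      apply classInner_irr_ne (isCharacter_one_dim _) (isCharacter_one_dim _)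
      intro h3
      exact hμ (linHom_injective h3).symm
    rw [classInner] at h2
    have h3 := (mul_eq_zero.1 h2).resolve_left (inv_ne_zero (by rw [hc5]; norm_num))
    rw [← h3]
    refine Finset.sum_congr rfl fun c _ => ?_
    simp [lch]
  have h2 : ∑ c : Subgroup.zpowers u, f c * conj (lch μ c) = f 1 - α := by
    have h3 : ∀ c : Subgroup.zpowers u, f c * conj (lch μ c) = α * conj (lch μ c) + (if c = 1 then f 1 - α else 0) := by
      intro c
      by_cases hc : c = 1
      · subst hc
        have h4 : conj (lch μ (1 : Subgroup.zpowers u)) = 1 := by simp [lch]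
        rw [if_pos rfl, h4, Subgroup.coe_one]
        ring
      · rw [if_neg hc, add_zero, hf c c.2 (fun h => hc (Subtype.ext h))]
    rw [Finset.sum_congr rfl (fun c _ => h3 c), Finset.sum_add_distrib, ← Finset.mul_sum, h1, mul_zero, zero_add,
      Finset.sum_ite_eq' Finset.univ, if_pos (Finset.mem_univ _)]
  rw [classInner, hc5, ← mul_assoc, mul_inv_cancel₀ (by norm_num), one_mul]
  exact h2

end CfsgH5
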