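import Cfsg.Agent.H5.SmS18

/-!
# The order 5040, continued
-/

set_option autoImplicit false

open Cfsg MonoidAlgebra
open CfsgH4 hiding centralChar sum_conj regInner_symm

namespace CfsgH5

open scoped ComplexConjugate Pointwise

variable {G : Type*} [Group G] [Finite G] [IsSimpleGroup G]

theorem s5040_num : ∀ x ∈ Finset.Icc (-((720 : ℕ) : ℤ)) ((720 : ℕ) : ℤ), x.natAbs ∣ 720 → x % 7 = 1 → x.natAbs ≠ 1 →
    (1 + x).natAbs ∣ 720 → x.natAbs < 16 := by
  decide +kernel

theorem s5040_II [Fact (Nat.Prime 5)] (hG : Nat.card G = 5040) (P : Sylow 5 G) (hP : Nat.card (P : Subgroup G) = 5) (he : eP P = 4)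
    (hn : Nat.card (Sylow 5 G) = 36) (hc : Nat.card (cP P) = 35) : False := by
  classical
  haveI := Fintype.ofFinite G
  haveI : Fact (Nat.Prime 7) := ⟨by norm_num⟩
  have hN0 := CfsgH3.Simp.card_norm P
  rw [hn, hG] at hN0
  have hN : Nat.card (nP P) = 140 := by
    have : 36 * Nat.card (nP P) = 5040 := hN0
    omega
  have hPc : (P : Subgroup G) ≤ cP P := by
    intro a ha
    rw [Subgroup.mem_centralizer_iff]
    intro b hb
    exact (FH.of_prime hP).ab b hb a ha
  obtain ⟨r0, hr0⟩ := exists_prime_orderOf_dvd_card' (G := cP P) 7 (by rw [hc]; norm_num)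
  obtain ⟨r, hrd⟩ : ∃ r : G, r = (r0 : G) := ⟨_, rfl⟩
  have hr : r ∈ cP P := by rw [hrd]; exact r0.2
  have hro : orderOf r = 7 := by rw [hrd, Subgroup.orderOf_coe, hr0]
  have hRc : Nat.card (Subgroup.zpowers r) = 7 ^ 1 := by rw [Nat.card_zpowers, hro, pow_one]
  obtain ⟨R, hR⟩ := (IsPGroup.of_card hRc).exists_le_sylow
  have hR7 : Nat.card (R : Subgroup G) = 7 := sylow_card_prime R (by rw [hG]; norm_num) (by rw [hG]; norm_num)
  have hRz : Subgroup.zpowers r = (R : Subgroup G) := Subgroup.eq_of_le_of_card_ge hR (by rw [hR7, hRc]; norm_num)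
  have hrcP : (R : Subgroup G) ≤ cP P := by rw [← hRz, Subgroup.zpowers_le]; exact hr
  -- the centralizer of `P` centralizes `R`
  have hcc : cP P ≤ Subgroup.centralizer ({r} : Set G) := by
    have h1 : (P : Subgroup G) ≤ cP P ⊓ Subgroup.centralizer ({r} : Set G) := by
      refine le_inf hPc ?_
      intro y hy
      rw [Subgroup.mem_centralizer_singleton_iff]
      exact Subgroup.mem_centralizer_iff.1 hr y hy
    have h2 : Subgroup.zpowers r ≤ cP P ⊓ Subgroup.centralizer ({r} : Set G) := by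
      rw [Subgroup.zpowers_le]
      exact Subgroup.mem_inf.2 ⟨hr, Subgroup.mem_centralizer_singleton_iff.2 rfl⟩
    have h3 := Subgroup.card_dvd_of_le h1
    have h4 := Subgroup.card_dvd_of_le h2
    rw [hP] at h3
    rw [hRc] at h4
    have h5 : 5 * 7 ^ 1 ∣ Nat.card ↥(cP P ⊓ Subgroup.centralizer ({r} : Set G)) :=
      Nat.Coprime.mul_dvd_of_dvd_of_dvd (by norm_num) h3 h4
    have h6 : cP P ⊓ Subgroup.centralizer ({r} : Set G) = cP P := by
      apply Subgroup.eq_of_le_of_card_ge inf_le_left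
      rw [hc]
      exact Nat.le_of_dvd Nat.card_pos h5
    rw [← h6]; exact inf_le_right
  have hcR : cP P ≤ cP R := by
    intro x hx
    have h1 := Subgroup.mem_centralizer_singleton_iff.1 (hcc hx)
    rw [Subgroup.mem_centralizer_iff]
    intro y hy
    rw [SetLike.mem_coe, ← hRz] at hy
    obtain ⟨k, rfl⟩ := Subgroup.mem_zpowers_iff.1 hy
    exact (show Commute r x from h1.symm).zpow_left k
  have hNN : nP P ≤ nP R := by
    intro g hg
    have h1 : ((g • R : Sylow 7 G) : Subgroup G) ≤ nP R := by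
      intro y hy
      have h2 : g⁻¹ * y * g ∈ (R : Subgroup G) := by
        have h3 : y ∈ MulAut.conj g • (R : Subgroup G) := hy
        rw [Subgroup.mem_pointwise_smul_iff_inv_smul_mem] at h3
        have h4 : (MulAut.conj g)⁻¹ • y = g⁻¹ * y * g := by
          rw [← map_inv]
          change g⁻¹ * y * g⁻¹⁻¹ = _
          rw [inv_inv]
        rwa [h4] at h3
      have h5 : g * (g⁻¹ * y * g) * g⁻¹ ∈ cP P := conj_mem_cP P hg (hrcP h2)
      have h6 : g * (g⁻¹ * y * g) * g⁻¹ = y := by group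
      rw [h6] at h5
      exact Subgroup.centralizer_le_normalizer _ (hcR h5)
    have h2 := CfsgH3.eq_of_le_normalizer (g • R) R h1
    exact Sylow.smul_eq_iff_mem_normalizer.1 h2
  have hN7 := CfsgH3.Simp.card_norm R
  have hk : Nat.card G = 7 * 720 := by rw [hG]
  obtain ⟨n, c, hn7, hc7, h1, h2, h3, h4, h5⟩ := syl_data R hR7 hk (by norm_num)
  obtain ⟨q, hq⟩ : 140 ∣ Nat.card (nP R) := by rw [← hN]; exact Subgroup.card_dvd_of_le hNN
  have hq' : n * (140 * q) = 5040 := by rw [← hG, ← hN7, hn7, ← hq]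
  have hnq : n * q = 36 := by
    have : 140 * (n * q) = 140 * 36 := by rw [← mul_assoc, mul_comm 140 n, mul_assoc, hq']
    omega
  have hn36 : n = 36 := by
    have h6 : n ∣ 36 := ⟨q, hnq.symm⟩
    have h7 : n ≤ 36 := Nat.le_of_dvd (by norm_num) h6
    have key : ∀ n ∈ Finset.range 37, n ∣ 36 → n % 7 = 1 → n ≠ 1 → n = 36 := by decide
    exact key n (by rw [Finset.mem_range]; omega) h6 h2 h3
  rw [hn36] at h1
  have h8 : eP R * c = 20 := by omega
  have he7 : eP R = 2 := by
    have h9 : eP R ∣ Nat.gcd 20 6 := Nat.dvd_gcd ⟨c, h8.symm⟩ h4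
    have h10 : eP R ∣ 2 := h9
    rcases (Nat.dvd_prime Nat.prime_two).1 h10 with h11 | h11
    · exact absurd h11 h5
    · exact h11
  obtain ⟨M, hM⟩ := exists_isPModular 7
  have h : FH R 2 := by rw [← he7]; exact FH.of_prime hR7
  obtain ⟨w, δ, ζ, a, S⟩ := h.exists_S2 hM (by rw [hR7])
  obtain ⟨ψ, -, hψ, -⟩ := h.exists_nonrel (by rw [hR7]; norm_num)
  obtain ⟨e1, e2, e3, e4, e5⟩ := S.num hM hR7 (le_refl _) hk (by norm_num) h (η := ζ ψ) ⟨ψ, hψ, rfl⟩
  have hd := s5040_num _ (mem_Icc_of_natAbs_dvd (by norm_num) e1) e1 (by exact_mod_cast e2) e3 e4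
  rw [natAbs_sgn S.wa] at hd
  -- an element of order five
  obtain ⟨u0, hu0⟩ := exists_prime_orderOf_dvd_card' (G := (P : Subgroup G)) 5 (by rw [hP])
  obtain ⟨u, hud⟩ : ∃ u : G, u = (u0 : G) := ⟨_, rfl⟩
  have hu : u ∈ (P : Subgroup G) := by rw [hud]; exact u0.2
  have huo : orderOf u = 5 := by rw [hud, Subgroup.orderOf_coe, hu0]
  have hu1 : u ≠ 1 := by rintro rfl; rw [orderOf_one] at huo; omega
  have huR : u ∈ cP R := hcR (hPc hu)
  haveI := Fintype.ofFinite (Subgroup.zpowers u)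
  have hFH : FH P (5 - 1) := by
    have := FH.of_prime hP
    rw [he] at this
    exact this
  have hconst : ∀ c ∈ Subgroup.zpowers u, c ≠ 1 → (a : G → ℂ) c = (a : G → ℂ) u := by
    intro c hc hc1
    have hcP' : c ∈ (P : Subgroup G) := (Subgroup.zpowers_le.2 hu) hc
    obtain ⟨n, -, hn⟩ := trans_of_card hP hFH hu hu1 hcP' hc1
    rw [← hn]
    exact IsCharacter.isClassFunction (IsIrr.isCharacter a.2) u n
  obtain ⟨s, hs⟩ := exists_lin_ne (G := Subgroup.zpowers u) (g := ⟨u, Subgroup.mem_zpowers u⟩) (by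
    rw [commutator_bot_of (zpow_ab u), Subgroup.mem_bot]
    intro h'
    exact hu1 (congrArg Subtype.val h'))
  have hs1 : s ≠ 1 := by
    rintro rfl
    exact hs rfl
  obtain ⟨k, hk2⟩ := mult_cent hM hR7 h S.D ((S.mem a).2 (Or.inr rfl)) huR (by rw [huo]; norm_num) s hs1
  have h10 := five_val huo hconst s hs1
  rw [hk2] at h10
  have hdeg := (IsIrr.one_eq a.2).1
  have hau : (a : G → ℂ) u = (charDegree (a : G → ℂ) : ℂ) - 35 * k := by
    rw [hdeg] at h10
    push_cast at h10
    linear_combination h10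
  have hk0 : k = 0 := by
    by_contra hk0
    have h11 := IsCharacter.norm_le (IsIrr.isCharacter a.2) u
    rw [hau, hdeg] at h11
    have h12 : ((charDegree (a : G → ℂ) : ℂ) - 35 * k) = (((charDegree (a : G → ℂ) : ℝ) - 35 * k : ℝ) : ℂ) := by push_cast; ring
    rw [h12, Complex.norm_real, Complex.norm_natCast, Real.norm_eq_abs, abs_le] at h11
    have h13 : (1 : ℝ) ≤ k := by exact_mod_cast Nat.one_le_iff_ne_zero.2 hk0
    have h14 : (charDegree (a : G → ℂ) : ℝ) < 16 := by exact_mod_cast hd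
    linarith [h11.1]
  have h15 : (a : G → ℂ) u = (a : G → ℂ) 1 := by
    rw [hau, hk0, hdeg, Nat.cast_zero, mul_zero, sub_zero]
  exact val_ne_top (simple_htop hu1) S.a1 h15

theorem order5040 : Nat.card G ≠ 5040 := by
  intro hG
  haveI := Fintype.ofFinite G
  haveI : Fact (Nat.Prime 5) := ⟨by norm_num⟩
  obtain ⟨P⟩ : Nonempty (Sylow 5 G) := inferInstance
  have hP := sylow_card_prime P (by rw [hG]; norm_num) (by rw [hG]; norm_num)
  have hk : Nat.card G = 5 * 1008 := by rw [hG]
  obtain ⟨n, c, hn, hc, h1, h2, h3, h4, h5⟩ := syl_data P hP hk (by norm_num)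
  rcases eP_five P h4 h5 with he | he
  · have hc1 := c_one_e2 P hP hk (by norm_num) (by norm_num) (fun x hx1 hx2 hx3 hx4 =>
      s21_num2 x (mem_Icc_of_natAbs_dvd (by norm_num) hx1) hx1 hx2 hx3 hx4) he hc
    subst hc1
    rw [he] at h1
    omega
  · rw [he] at h1
    have hnc : n * c = 252 := by
      have : 4 * (n * c) = 1008 := by rw [← h1]; ring
      omega
    have hndvd : n ∣ 252 := ⟨c, hnc.symm⟩
    have hnle : n ≤ 252 := Nat.le_of_dvd (by norm_num) hndvd
    have key : ∀ n ∈ Finset.range 253, n ∣ 252 → n % 5 = 1 → n ≠ 1 → n = 6 ∨ n = 21 ∨ n = 36 ∨ n = 126 := by decide +kernel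
    rcases key n (by rw [Finset.mem_range]; omega) hndvd h2 h3 with h6 | h6 | h6 | h6
    · have hnab := CfsgH3.Simp.not_comm_of_card (G := G) (by rw [hG]; norm_num)
      have hidx : (Subgroup.normalizer ((P : Subgroup G) : Set G)).index = 6 := by
        have h7 : Nat.card (Sylow 5 G) = (Subgroup.normalizer ((P : Subgroup G) : Set G)).index := P.card_eq_index_normalizer
        rw [← h7, ← hn, h6]
      have htop : Subgroup.normalizer ((P : Subgroup G) : Set G) ≠ ⊤ := by
        intro h8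
        rw [h8, Subgroup.index_top] at hidx
        omega
      have h9 := CfsgH3.Simp.two_card_dvd_factorial hnab _ htop
      rw [hG, hidx] at h9
      revert h9
      decide
    · exact s21_simple (by rw [← hn, h6])
    · have hc7 : c = 7 := by rw [h6] at hnc; omega
      exact s5040_II hG P hP he (by rw [← hn, h6]) (by rw [hc, hc7])
    · have hc2 : c = 2 := by rw [h6] at hnc; omega
      exact s5040_I hG P hP he (by rw [← hn, h6]) (by rw [hc, hc2])

end CfsgH5
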