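import Cfsg.Agent.H5.SmS1

/-!
# Simple groups of small order: numerical form
-/

set_option autoImplicit false

open Cfsg MonoidAlgebra
open CfsgH4 hiding centralChar sum_conj regInner_symm

namespace CfsgH5

section Main

variable {G : Type*} [Group G] [Fintype G] {p : ℕ} [hp : Fact p.Prime]

theorem sylow_card_prime (P : Sylow p G) (h1 : p ∣ Nat.card G) (h2 : ¬ p ^ 2 ∣ Nat.card G) : Nat.card (P : Subgroup G) = p := by
  obtain ⟨k, hk⟩ := IsPGroup.iff_card.1 P.isPGroup'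
  have h3 : Nat.card (P : Subgroup G) ∣ Nat.card G := Subgroup.card_subgroup_dvd_card _
  have h4 : p ∣ Nat.card (P : Subgroup G) := P.dvd_card_of_dvd_card h1
  rw [hk] at h3 h4 ⊢
  have hk1 : k ≤ 1 := by
    by_contra hcon
    exact h2 ((pow_dvd_pow p (by omega)).trans h3)
  interval_cases k
  · rw [pow_zero] at h4
    exact absurd (Nat.dvd_one.1 h4) hp.out.one_lt.ne'
  · rw [pow_one]

theorem syl_data [IsSimpleGroup G] (P : Sylow p G) (hP : Nat.card (P : Subgroup G) = p) {k : ℕ} (hk : Nat.card G = p * k) (hk1 : k ≠ 1) :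
    ∃ n c : ℕ, n = Nat.card (Sylow p G) ∧ Nat.card (cP P) = p * c ∧ n * (eP P * c) = k ∧ n % p = 1 ∧ n ≠ 1 ∧ eP P ∣ p - 1 ∧ eP P ≠ 1 := by
  have hp1 := hp.out.one_lt
  have h1 : Nat.card (Sylow p G) = (nP P).index := P.card_eq_index_normalizer
  have h2 : (P : Subgroup G) ≤ cP P := by
    intro a ha
    rw [Subgroup.mem_centralizer_iff]
    intro b hb
    exact (FH.of_prime hP).ab b hb a ha
  obtain ⟨c, hc⟩ : p ∣ Nat.card (cP P) := by
    have := Subgroup.card_dvd_of_le h2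
    rwa [hP] at this
  have h3 : (nP P).index * Nat.card (nP P) = Nat.card G := Subgroup.index_mul_card _
  have hne : Nat.card G ≠ p := by
    rw [hk]; intro h
    have h4 : p * k = p * 1 := by rw [h, mul_one]
    exact hk1 (Nat.eq_of_mul_eq_mul_left hp.out.pos h4)
  refine ⟨_, c, rfl, hc, ?_, ?_, ?_, eP_dvd hP, eP_ne_one hne ⟨k, hk⟩⟩
  · rw [h1]
    rw [eP_mul hP, hc, hk] at h3
    apply Nat.eq_of_mul_eq_mul_left hp.out.pos
    rw [← h3]; ring
  · have h4 := card_sylow_modEq_one p G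
    unfold Nat.ModEq at h4
    rw [Nat.mod_eq_of_lt hp1] at h4
    exact h4
  · intro h4
    have h5 : (P : Subgroup G).Normal := by
      rw [h1, Subgroup.index_eq_one] at h4
      exact Subgroup.normalizer_eq_top_iff.1 h4
    rcases h5.eq_bot_or_eq_top with h6 | h6
    · rw [h6, Subgroup.card_bot] at hP
      omega
    · rw [h6, Subgroup.card_top] at hP
      exact hne hP

theorem not_prime_of {k : ℕ} (hk : Nat.card G = p * k) (hk1 : k ≠ 1) : ¬ (Nat.card G).Prime := by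
  rw [hk]
  exact Nat.not_prime_mul hp.out.one_lt.ne' hk1

theorem dvd_of_sub {k a : ℕ} {ε : ℤ} (hε : IsCoprime (p : ℤ) ε) (h1 : a ∣ p * k) (h2 : (p : ℤ) ∣ a - ε) : a ∣ k := by
  apply Nat.Coprime.dvd_of_dvd_mul_left _ h1
  rw [Nat.coprime_comm, Nat.Prime.coprime_iff_not_dvd hp.out]
  intro h3
  have h4 : (p : ℤ) ∣ ε := by
    have h5 : (p : ℤ) ∣ a := by exact_mod_cast h3
    have := dvd_sub h5 h2
    rwa [sub_sub_cancel] at this
  have h5 := hε.isUnit_of_dvd' dvd_rfl h4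
  have h6 := Int.isUnit_iff.1 h5
  have := hp.out.one_lt
  omega

theorem mod_one_of {a : ℕ} {ε : ℤ} (hε : ε = 1 ∨ ε = -1) (hp2 : 2 ≤ p) (h2 : (p : ℤ) ∣ a - ε) : (ε * a) % p = 1 := by
  have h3 : (p : ℤ) ∣ ε * a - 1 := by
    rcases hε with rfl | rfl
    · rwa [one_mul]
    · have := (dvd_neg.2 h2)
      have h4 : -((a : ℤ) - -1) = -1 * a - 1 := by ring
      rwa [h4] at this
  have h4 := (Int.emod_emod_of_dvd (ε * a) (dvd_refl (p : ℤ)))
  rw [Int.emod_eq_emod_iff_emod_sub_eq_zero.2 (Int.emod_eq_zero_of_dvd h3)]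
  exact Int.emod_eq_of_lt (by norm_num) (by exact_mod_cast hp2)

theorem natAbs_sgn {a : ℕ} {ε : ℤ} (hε : ε = 1 ∨ ε = -1) : (ε * a).natAbs = a := by
  rcases hε with rfl | rfl <;> simp

theorem cop_pm {m : ℕ} {δ : ℤ} (hδ : δ = 1 ∨ δ = -1) (hm : m.Coprime p) : IsCoprime (p : ℤ) (m * δ) := by
  have h1 : IsCoprime (p : ℤ) (m : ℤ) := (Nat.isCoprime_iff_coprime.2 hm).symm
  rcases hδ with rfl | rfl
  · rwa [mul_one]
  · rw [mul_neg, mul_one]; exact h1.neg_right

/-- the degree equation, `e = 2` -/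
theorem two_eq' [IsSimpleGroup G] {P : Sylow p G} (hP : Nat.card (P : Subgroup G) = p) (he : eP P = 2) (hp7 : 7 ≤ p) {k : ℕ}
    (hk : Nat.card G = p * k) (hk1 : k ≠ 1) :
    ∃ x : ℤ, x.natAbs ∣ k ∧ x % p = 1 ∧ x.natAbs ≠ 1 ∧ (1 + x).natAbs ∣ k := by
  obtain ⟨a, η, ε, δ, h1, h2, h3, h4, h5, h6, h7, h8⟩ := two_eq hP he hp7 (not_prime_of hk hk1)
  rw [hk] at h3 h4
  refine ⟨ε * a, ?_, mod_one_of h1 (by omega) h5, ?_, ?_⟩
  · rw [natAbs_sgn h1]
    have := cop_pm (p := p) (m := 1) h1 (Nat.coprime_one_left p)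
    rw [Nat.cast_one, one_mul] at this
    exact dvd_of_sub this h3 h5
  · rw [natAbs_sgn h1]; exact h7
  · have h9 : 1 + ε * a = δ * η := by linarith
    rw [h9, natAbs_sgn h2]
    have := cop_pm (p := p) (m := 2) h2 ((Nat.coprime_primes Nat.prime_two hp.out).2 (by omega))
    exact dvd_of_sub this h4 h6

/-- the degree equation, `e = 3` -/
theorem three_eq' [IsSimpleGroup G] {P : Sylow p G} (hP : Nat.card (P : Subgroup G) = p) (he : eP P = 3) (hp7 : 5 ≤ p) {k : ℕ}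
    (hk : Nat.card G = p * k) (hk1 : k ≠ 1) :
    ∃ x y : ℤ, x.natAbs ∣ k ∧ y.natAbs ∣ k ∧ x % p = 1 ∧ y % p = 1 ∧ x.natAbs ≠ 1 ∧ y.natAbs ≠ 1 ∧ (1 + x + y).natAbs ∣ k := by
  obtain ⟨a, b, η, ε, ε', δ, h1, h1', h2, h3, h3', h4, h5, h5', h6, h7, h7', h8⟩ := three_eq hP he hp7 (not_prime_of hk hk1)
  rw [hk] at h3 h3' h4
  have hc1 := cop_pm (p := p) (m := 1) h1 (Nat.coprime_one_left p)
  have hc1' := cop_pm (p := p) (m := 1) h1' (Nat.coprime_one_left p)
  rw [Nat.cast_one, one_mul] at hc1 hc1'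
  refine ⟨ε * a, ε' * b, ?_, ?_, mod_one_of h1 (by omega) h5, mod_one_of h1' (by omega) h5', ?_, ?_, ?_⟩
  · rw [natAbs_sgn h1]; exact dvd_of_sub hc1 h3 h5
  · rw [natAbs_sgn h1']; exact dvd_of_sub hc1' h3' h5'
  · rw [natAbs_sgn h1]; exact h7
  · rw [natAbs_sgn h1']; exact h7'
  · have h9 : 1 + ε * a + ε' * b = δ * η := by linarith
    rw [h9, natAbs_sgn h2]
    have := cop_pm (p := p) (m := 3) h2 ((Nat.coprime_primes Nat.prime_three hp.out).2 (by omega))
    exact dvd_of_sub this h4 h6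

theorem mem_Icc_of_natAbs_dvd {x : ℤ} {k : ℕ} (hk : 0 < k) (h : x.natAbs ∣ k) : x ∈ Finset.Icc (-(k : ℤ)) k := by
  have h1 := Nat.le_of_dvd hk h
  rw [Finset.mem_Icc]
  omega

end Main

section Orders

variable {G : Type*} [Group G] [Finite G] [IsSimpleGroup G]

theorem order3648 : Nat.card G ≠ 3648 := by
  intro hG
  haveI := Fintype.ofFinite G
  haveI : Fact (Nat.Prime 19) := ⟨by norm_num⟩
  obtain ⟨P⟩ : Nonempty (Sylow 19 G) := inferInstance
  have hP := sylow_card_prime P (by rw [hG]; norm_num) (by rw [hG]; norm_num)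
  have hk : Nat.card G = 19 * 192 := by rw [hG]
  obtain ⟨n, c, -, -, h1, h2, h3, h4, h5⟩ := syl_data P hP hk (by norm_num)
  have hn : n = 96 := by
    have h6 : n ∣ 192 := ⟨_, h1.symm⟩
    have h7 : n ∈ Finset.range 193 := by
      rw [Finset.mem_range]; have := Nat.le_of_dvd (by norm_num) h6; omega
    have key : ∀ n ∈ Finset.range 193, n ∣ 192 → n % 19 = 1 → n ≠ 1 → n = 96 := by decide +kernel
    exact key n h7 h6 h2 h3
  subst hn
  have he : eP P = 2 := by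
    have h6 : eP P ∣ 2 := ⟨c, by omega⟩
    rcases (Nat.dvd_prime Nat.prime_two).1 h6 with h7 | h7
    · exact absurd h7 h5
    · exact h7
  obtain ⟨x, hx1, hx2, hx3, hx4⟩ := two_eq' hP he (by norm_num) hk (by norm_num)
  have key : ∀ x ∈ Finset.Icc (-((192 : ℕ) : ℤ)) ((192 : ℕ) : ℤ), x.natAbs ∣ 192 → x % 19 = 1 → x.natAbs ≠ 1 → ¬ (1 + x).natAbs ∣ 192 := by
    decide +kernel
  exact key x (mem_Icc_of_natAbs_dvd (by norm_num) hx1) hx1 (by exact_mod_cast hx2) hx3 hx4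

theorem order3744 : Nat.card G ≠ 3744 := by
  intro hG
  haveI := Fintype.ofFinite G
  haveI : Fact (Nat.Prime 13) := ⟨by norm_num⟩
  obtain ⟨P⟩ : Nonempty (Sylow 13 G) := inferInstance
  have hP := sylow_card_prime P (by rw [hG]; norm_num) (by rw [hG]; norm_num)
  have hk : Nat.card G = 13 * 288 := by rw [hG]
  obtain ⟨n, c, -, -, h1, h2, h3, h4, h5⟩ := syl_data P hP hk (by norm_num)
  have hn : n = 144 := by
    have h6 : n ∣ 288 := ⟨_, h1.symm⟩
    have h7 : n ∈ Finset.range 289 := by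
      rw [Finset.mem_range]; have := Nat.le_of_dvd (by norm_num) h6; omega
    have key : ∀ n ∈ Finset.range 289, n ∣ 288 → n % 13 = 1 → n ≠ 1 → n = 144 := by decide +kernel
    exact key n h7 h6 h2 h3
  subst hn
  have he : eP P = 2 := by
    have h6 : eP P ∣ 2 := ⟨c, by omega⟩
    rcases (Nat.dvd_prime Nat.prime_two).1 h6 with h7 | h7
    · exact absurd h7 h5
    · exact h7
  obtain ⟨x, hx1, hx2, hx3, hx4⟩ := two_eq' hP he (by norm_num) hk (by norm_num)
  have key : ∀ x ∈ Finset.Icc (-((288 : ℕ) : ℤ)) ((288 : ℕ) : ℤ), x.natAbs ∣ 288 → x % 13 = 1 → x.natAbs ≠ 1 → ¬ (1 + x).natAbs ∣ 288 := by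
    decide +kernel
  exact key x (mem_Icc_of_natAbs_dvd (by norm_num) hx1) hx1 (by exact_mod_cast hx2) hx3 hx4

theorem order5472 : Nat.card G ≠ 5472 := by
  intro hG
  haveI := Fintype.ofFinite G
  haveI : Fact (Nat.Prime 19) := ⟨by norm_num⟩
  obtain ⟨P⟩ : Nonempty (Sylow 19 G) := inferInstance
  have hP := sylow_card_prime P (by rw [hG]; norm_num) (by rw [hG]; norm_num)
  have hk : Nat.card G = 19 * 288 := by rw [hG]
  obtain ⟨n, c, -, -, h1, h2, h3, h4, h5⟩ := syl_data P hP hk (by norm_num)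
  have hn : n = 96 := by
    have h6 : n ∣ 288 := ⟨_, h1.symm⟩
    have h7 : n ∈ Finset.range 289 := by
      rw [Finset.mem_range]; have := Nat.le_of_dvd (by norm_num) h6; omega
    have key : ∀ n ∈ Finset.range 289, n ∣ 288 → n % 19 = 1 → n ≠ 1 → n = 96 := by decide +kernel
    exact key n h7 h6 h2 h3
  subst hn
  have he : eP P = 3 := by
    have h6 : eP P ∣ 3 := ⟨c, by omega⟩
    rcases (Nat.dvd_prime Nat.prime_three).1 h6 with h7 | h7
    · exact absurd h7 h5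
    · exact h7
  obtain ⟨x, y, hx1, hy1, hx2, hy2, hx3, hy3, hxy⟩ := three_eq' hP he (by norm_num) hk (by norm_num)
  have key : ∀ x ∈ Finset.Icc (-((288 : ℕ) : ℤ)) ((288 : ℕ) : ℤ), x.natAbs ∣ 288 → x % 19 = 1 → x.natAbs ≠ 1 → x = 96 ∨ x = -18 := by
    decide +kernel
  have hx := key x (mem_Icc_of_natAbs_dvd (by norm_num) hx1) hx1 (by exact_mod_cast hx2) hx3
  have hy := key y (mem_Icc_of_natAbs_dvd (by norm_num) hy1) hy1 (by exact_mod_cast hy2) hy3
  rcases hx with rfl | rfl <;> rcases hy with rfl | rfl <;> revert hxy <;> decide +kernel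

theorem order1004913 : Nat.card G ≠ 1004913 := by
  intro hG
  haveI := Fintype.ofFinite G
  haveI : Fact (Nat.Prime 409) := ⟨by norm_num⟩
  obtain ⟨P⟩ : Nonempty (Sylow 409 G) := inferInstance
  have hP := sylow_card_prime P (by rw [hG]; norm_num) (by rw [hG]; norm_num)
  have hk : Nat.card G = 409 * 2457 := by rw [hG]
  obtain ⟨n, c, -, -, h1, h2, h3, h4, h5⟩ := syl_data P hP hk (by norm_num)
  have hn : n = 819 := by
    have h6 : n ∣ 2457 := ⟨_, h1.symm⟩
    have h7 : n ∈ Finset.range 2458 := by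
      rw [Finset.mem_range]; have := Nat.le_of_dvd (by norm_num) h6; omega
    have key : ∀ n ∈ Finset.range 2458, n ∣ 2457 → n % 409 = 1 → n ≠ 1 → n = 819 := by decide +kernel
    exact key n h7 h6 h2 h3
  subst hn
  have he : eP P = 3 := by
    have h6 : eP P ∣ 3 := ⟨c, by omega⟩
    rcases (Nat.dvd_prime Nat.prime_three).1 h6 with h7 | h7
    · exact absurd h7 h5
    · exact h7
  obtain ⟨x, y, hx1, hy1, hx2, hy2, hx3, hy3, hxy⟩ := three_eq' hP he (by norm_num) hk (by norm_num)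
  have key : ∀ a ∈ Finset.range 2458, a ∣ 2457 → (a % 409 = 1 ∨ a % 409 = 408) → a ≠ 1 → a = 819 := by decide +kernel
  have key2 : ∀ x : ℤ, x.natAbs ∣ 2457 → x % 409 = 1 → x.natAbs ≠ 1 → x = 819 := by
    intro x h6 h7 h8
    have h9 := Nat.le_of_dvd (by norm_num) h6
    have h10 := key x.natAbs (by rw [Finset.mem_range]; omega) h6 (by omega) h8
    omega
  have hx := key2 x hx1 (by exact_mod_cast hx2) hx3
  have hy := key2 y hy1 (by exact_mod_cast hy2) hy3
  subst hx; subst hy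
  revert hxy; decide +kernel

end Orders

end CfsgH5
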