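import Cfsg.Agent.H5.SmS18
import Cfsg.Agent.H5.KGV1

/-!
# The order 4320
-/

set_option autoImplicit false

open Cfsg MonoidAlgebra
open CfsgH4 hiding centralChar sum_conj regInner_symm

namespace CfsgH5

open scoped ComplexConjugate

def DQ : List (ℤ × ℤ) := [(1,6),(1,16),(1,36),(-1,4),(-1,9),(-1,24),(-1,54)]

def xq (d : ℤ) (i : ℕ) : ℤ := d - 4 * (i + 1)

theorem LQ_num : ∀ a ∈ DQ, ∀ b ∈ DQ, ∀ c ∈ DQ, ∀ e ∈ DQ, a.1 * a.2 + b.1 * b.2 + c.1 * c.2 + e.1 * e.2 = -1 →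
    a.2 * a.2 + b.2 * b.2 + c.2 * c.2 + e.2 * e.2 ≤ 4319 →
    ∀ i ∈ List.range (a.2 / 2).toNat, ∀ j ∈ List.range (b.2 / 2).toNat, ∀ k ∈ List.range (c.2 / 2).toNat, ∀ l ∈ List.range (e.2 / 2).toNat,
    a.1 * xq a.2 i + b.1 * xq b.2 j + c.1 * xq c.2 k + e.1 * xq e.2 l = -1 →
    (1 + (xq a.2 i * xq a.2 i + xq b.2 j * xq b.2 j + xq c.2 k * xq c.2 k + xq e.2 l * xq e.2 l)) *
      (1 + (xq a.2 i * xq a.2 i + xq b.2 j * xq b.2 j + xq c.2 k * xq c.2 k + xq e.2 l * xq e.2 l)) ≤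
      864 + a.1 * (xq a.2 i * xq a.2 i) * (864 / a.2) + b.1 * (xq b.2 j * xq b.2 j) * (864 / b.2) +
        c.1 * (xq c.2 k * xq c.2 k) * (864 / c.2) + e.1 * (xq e.2 l * xq e.2 l) * (864 / e.2) →
    864 + a.1 * (xq a.2 i * xq a.2 i) * (864 / a.2) + b.1 * (xq b.2 j * xq b.2 j) * (864 / b.2) +
        c.1 * (xq c.2 k * xq c.2 k) * (864 / c.2) + e.1 * (xq e.2 l * xq e.2 l) * (864 / e.2) ∈ [(1152 : ℤ), 1920, 864, 768, 2496, 5760] := by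
  decide +kernel

end CfsgH5
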