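import Cfsg.Agent.H5.SmS20

/-!
# The order 4320, continued
-/

set_option autoImplicit false

open Cfsg MonoidAlgebra
open CfsgH4 hiding centralChar sum_conj regInner_symm

namespace CfsgH5

open scoped ComplexConjugate

variable {G : Type*} [Group G] [Finite G] [IsSimpleGroup G]

theorem DQ_mem {w d : ℤ} (hw : w = 1 ∨ w = -1) (hd : d ∣ 864) (hd1 : 2 ≤ d) (hd2 : d * d ≤ 4319) (h5 : (5 : ℤ) ∣ d - w) : (w, d) ∈ DQ := by
  have h1 : d ≤ 65 := by nlinarith
  have key : ∀ d ∈ Finset.Icc (2 : ℤ) 65, d ∣ 864 → (d % 5 = 1 ∨ d % 5 = 4) →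
      d = 6 ∨ d = 16 ∨ d = 36 ∨ d = 4 ∨ d = 9 ∨ d = 24 ∨ d = 54 := by decide +kernel
  have hd' := key d (by rw [Finset.mem_Icc]; omega) hd (by rcases hw with rfl | rfl <;> omega)
  rcases hw with rfl | rfl <;> rcases hd' with rfl | rfl | rfl | rfl | rfl | rfl | rfl <;> first | decide | (exfalso; omega)

theorem xq_mem {d x j : ℤ} (hx : x = d - 4 * j) (hj : 1 ≤ j) (hj2 : 2 * j ≤ d) : ∃ i ∈ List.range (d / 2).toNat, x = xq d i := by
  refine ⟨(j - 1).toNat, ?_, ?_⟩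
  · rw [List.mem_range]; omega
  · rw [xq, hx]
    have : (((j - 1).toNat : ℕ) : ℤ) = j - 1 := Int.toNat_of_nonneg (by omega)
    rw [this]; ring

theorem exists_inverter [Fact (Nat.Prime 5)] (P : Sylow 5 G) (hP : Nat.card (P : Subgroup G) = 5) (hPc : cP P = P) (hFH : FH P (5 - 1))
    {y : G} (hy : y ∈ (P : Subgroup G)) (hy1 : y ≠ 1) : ∃ t : G, orderOf t = 2 ∧ t * t = 1 ∧ t * y * t⁻¹ = y⁻¹ := by
  classical
  haveI := Fintype.ofFinite G
  have h5 : ∀ x ∈ (P : Subgroup G), x ^ 5 = 1 := by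
    intro x hx
    have := pow_card_eq_one' (x := (⟨x, hx⟩ : (P : Subgroup G)))
    rw [hP] at this
    exact congrArg Subtype.val this
  obtain ⟨n, hn, hny⟩ := trans_of_card hP hFH hy hy1 (inv_mem hy) (fun h => hy1 (inv_eq_one.1 h))
  have hn2 : n ^ 2 * y * (n ^ 2)⁻¹ = y := by
    calc n ^ 2 * y * (n ^ 2)⁻¹ = n * (n * y * n⁻¹) * n⁻¹ := by rw [sq]; group
      _ = n * y⁻¹ * n⁻¹ := by rw [hny]
      _ = (n * y * n⁻¹)⁻¹ := by group
      _ = y := by rw [hny, inv_inv]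
  have hyz : Subgroup.zpowers y = (P : Subgroup G) := zpowers_eq_of_prime hP hy hy1
  have hn2P : n ^ 2 ∈ (P : Subgroup G) := by
    rw [← hPc, Subgroup.mem_centralizer_iff]
    intro x hx
    rw [SetLike.mem_coe, ← hyz] at hx
    obtain ⟨k, rfl⟩ := Subgroup.mem_zpowers_iff.1 hx
    have h6 : n ^ 2 * y = y * n ^ 2 := mul_inv_eq_iff_eq_mul.1 hn2
    exact (show Commute y (n ^ 2) from h6.symm).zpow_left k
  have ht2 : n ^ 5 * n ^ 5 = 1 := by
    have := h5 _ hn2P
    rw [← pow_mul] at this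
    rw [← pow_add]; exact this
  have hconj : n ^ 5 * y * (n ^ 5)⁻¹ = y⁻¹ := by
    calc n ^ 5 * y * (n ^ 5)⁻¹ = n * (n ^ 2 * (n ^ 2 * y * (n ^ 2)⁻¹) * (n ^ 2)⁻¹) * n⁻¹ := by group
      _ = y⁻¹ := by rw [hn2, hn2, hny]
  refine ⟨n ^ 5, ?_, ht2, hconj⟩
  apply orderOf_eq_prime (by rw [sq]; exact ht2)
  intro h6
  rw [h6, one_mul, inv_one, mul_one] at hconj
  have h7 : y * y = 1 := by nth_rewrite 1 [hconj]; exact inv_mul_cancel y
  have h8 : orderOf y ∣ 2 := orderOf_dvd_of_pow_eq_one (by rw [sq]; exact h7)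
  have h9 : orderOf y ∣ 5 := orderOf_dvd_of_pow_eq_one (h5 y hy)
  exact hy1 (orderOf_eq_one_iff.1 (Nat.eq_one_of_dvd_coprimes (by norm_num : Nat.Coprime 2 5) h8 h9))

theorem order4320 : Nat.card G ≠ 4320 := by
  intro hG
  classical
  haveI := Fintype.ofFinite G
  haveI : Fact (Nat.Prime 5) := ⟨by norm_num⟩
  obtain ⟨P⟩ : Nonempty (Sylow 5 G) := inferInstance
  have hP := sylow_card_prime P (by rw [hG]; norm_num) (by rw [hG]; norm_num)
  have hk : Nat.card G = 5 * 864 := by rw [hG]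
  obtain ⟨n, c, -, hc, h1, h2, h3, h4, h5⟩ := syl_data P hP hk (by norm_num)
  have he := eP_five P h4 h5
  have key2 : ∀ x ∈ Finset.Icc (-((864 : ℕ) : ℤ)) ((864 : ℕ) : ℤ), x.natAbs ∣ 864 → x % 5 = 1 → x.natAbs ≠ 1 → (1 + x).natAbs ∣ 864 → x.natAbs < 10 := by
    decide +kernel
  have key4 : ∀ d ∈ Finset.range 865, d ∣ 864 → Odd d → (d % 5 = 1 ∨ d % 5 = 4) → d ≠ 1 → d < 10 := by decide +kernel
  have hc1 := c_one_five P hP hk (by norm_num) (by norm_num) (fun x hx => key2 x (mem_Icc_of_natAbs_dvd (by norm_num) hx) hx)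
    (fun d hd => key4 d (by rw [Finset.mem_range]; have := Nat.le_of_dvd (by norm_num) hd; omega) hd) he hc
  subst hc1
  rcases he with he | he
  · rw [he] at h1; omega
  have hPc : cP P = P := by
    have h9 : (P : Subgroup G) ≤ cP P := by
      intro a ha
      rw [Subgroup.mem_centralizer_iff]
      intro b hb
      exact (FH.of_prime hP).ab b hb a ha
    exact (Subgroup.eq_of_le_of_card_ge h9 (by rw [hc, hP])).symm
  obtain ⟨M, hM⟩ := exists_isPModular 5
  haveI := IsPModular.isPrime hM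
  have hnp := not_prime_of hk (by norm_num)
  have h : FH P (5 - 1) := by
    have := FH.of_prime hP
    rw [he] at this
    exact this
  obtain ⟨T, w, y, h1T, hone, hT, hsum, hcard, hy, hy1, hF⟩ := E4_full hM hP h rfl
  obtain ⟨t, hto, htt0, hty⟩ := exists_inverter P hP hPc h hy hy1
  have ht1 : t ≠ 1 := by rintro rfl; rw [orderOf_one] at hto; omega
  have htinv : t⁻¹ = t := inv_eq_of_mul_eq_one_left htt0
  have htp : ¬ 5 ∣ orderOf t := by rw [hto]; norm_num
  -- the number of pairs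
  have hpair : pairN t y = 5 := by
    rcases pairN_eq hP (by norm_num) hPc htt0 hy hy1 with h6 | h6
    · exfalso
      unfold pairN at h6
      rw [Finset.card_eq_zero] at h6
      have h7 : y * t ∈ (Finset.univ.filter fun g : G => IsConj t g ∧ IsConj t (g⁻¹ * y)) := by
        rw [Finset.mem_filter]
        refine ⟨Finset.mem_univ _, ?_, ?_⟩
        · rw [isConj_iff]
          have h5y : y ^ 5 = 1 := by
            have := pow_card_eq_one' (x := (⟨y, hy⟩ : (P : Subgroup G)))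
            rw [hP] at this
            exact congrArg Subtype.val this
          have h8 : t * y⁻¹ = y * t := by
            have h9 : t * y⁻¹ * t⁻¹ = y := by
              have := congrArg (fun z => z⁻¹) hty
              simp only [mul_inv_rev, inv_inv] at this
              rw [← mul_assoc] at this
              exact this
            exact mul_inv_eq_iff_eq_mul.1 h9
          refine ⟨y ^ 3, ?_⟩
          have h9 : ∀ m : ℕ, t * (y⁻¹) ^ m = y ^ m * t := by
            intro m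
            induction m with
            | zero => simp
            | succ m ih => rw [pow_succ, ← mul_assoc, ih, mul_assoc, h8, ← mul_assoc, pow_succ]
          calc y ^ 3 * t * (y ^ 3)⁻¹ = y ^ 3 * (t * (y⁻¹) ^ 3) := by rw [inv_pow, mul_assoc]
            _ = y ^ 5 * (y * t) := by rw [h9, ← mul_assoc, ← mul_assoc, ← pow_add, ← pow_succ]
            _ = y * t := by rw [h5y, one_mul]
        · have h8 : (y * t)⁻¹ * y = t := by
            rw [mul_inv_rev, mul_assoc, inv_mul_cancel, mul_one, htinv]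
          rw [h8]
      rw [h6] at h7
      exact absurd h7 (Finset.notMem_empty _)
    · exact h6
  haveI := Fintype.ofFinite (Subgroup.zpowers t)
  obtain ⟨s, hs⟩ := exists_lin_ne (G := Subgroup.zpowers t) (g := ⟨t, Subgroup.mem_zpowers t⟩) (by
    rw [commutator_bot_of (zpow_ab t), Subgroup.mem_bot]
    exact fun h' => ht1 (congrArg Subtype.val h'))
  have hs1 : s ≠ 1 := by rintro rfl; exact hs rfl
  have hval : ∀ χ ∈ T, χ ≠ irrOne G → ∃ j : ℤ, (χ : G → ℂ) t = ((charDegree (χ : G → ℂ) : ℤ) - 4 * j : ℤ) ∧ 1 ≤ j ∧ 2 * j ≤ charDegree (χ : G → ℂ) := by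
    intro χ hχ hχ1
    obtain ⟨k1, kk, e1, e2, e3⟩ := even_mult hnp (χ := χ) hto s hs1
    refine ⟨kk, ?_, ?_, ?_⟩
    · rw [e3, e2]; push_cast; ring
    · rcases Nat.eq_zero_or_pos kk with h5 | h5
      · exfalso
        have h6 : (χ : G → ℂ) t = (χ : G → ℂ) 1 := by
          rw [e3, (IsIrr.one_eq χ.2).1, e2, h5]; push_cast; ring
        exact val_ne_top (simple_htop ht1) hχ1 h6
      · exact_mod_cast h5
    · rw [e2]; push_cast; omega
  choose! jj hj1 hj2 hj3 using hval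
  obtain ⟨tt, htt⟩ : ∃ tt : IrrCharacter G → ℤ, tt = fun χ => if χ = irrOne G then 1 else (charDegree (χ : G → ℂ) : ℤ) - 4 * jj χ := ⟨_, rfl⟩
  have htv : ∀ χ ∈ T, (χ : G → ℂ) t = tt χ := by
    intro χ hχ
    rw [htt]
    by_cases h1 : χ = irrOne G
    · subst h1
      show (1 : ℂ) = (((if irrOne G = irrOne G then (1 : ℤ) else _) : ℤ) : ℂ)
      rw [if_pos rfl]; push_cast; rfl
    · show _ = (((if χ = irrOne G then (1 : ℤ) else _) : ℤ) : ℂ)
      rw [if_neg h1]
      exact hj1 χ hχ h1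
  have htt1 : tt (irrOne G) = 1 := by rw [htt]; simp
  have hdeg1 : charDegree ((irrOne G : IrrCharacter G) : G → ℂ) = 1 := charDegree_one
  have F2 : ∑ χ ∈ T, w χ * tt χ = 0 := by
    have h1 := block_orth hM (g := y) (h := t) (x := y) (y := 1) ⟨1, mul_one y, Commute.one_right y, FH.ppow P hy, by rw [orderOf_one]; norm_num⟩
      ⟨t, one_mul t, Commute.one_left t, ⟨0, by rw [orderOf_one, pow_zero]⟩, htp⟩
      (fun hc => hy1 (by
        obtain ⟨c, hc⟩ := isConj_iff.1 hc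
        calc y = c⁻¹ * (c * y * c⁻¹) * c := by group
          _ = 1 := by rw [hc]; group)) (isPBlock_principal (M := M) (G := G))
    rw [htinv, hF (fun χ => (χ : G → ℂ) t)] at h1
    have h2 : ((∑ χ ∈ T, w χ * tt χ : ℤ) : ℂ) = 0 := by
      rw [← h1]
      push_cast
      exact Finset.sum_congr rfl fun χ hχ => by rw [htv χ hχ]
    exact_mod_cast h2
  have F3 : ∑ χ ∈ T, (charDegree (χ : G → ℂ) : ℤ) * charDegree (χ : G → ℂ) ≤ 4320 := by
    have h1 := sum_norm_sq G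
    have h2 : ∑ χ ∈ T, ‖(χ : G → ℂ) 1‖ ^ 2 ≤ ∑ χ : IrrCharacter G, ‖(χ : G → ℂ) 1‖ ^ 2 :=
      Finset.sum_le_sum_of_subset_of_nonneg (Finset.subset_univ _) (fun _ _ _ => by positivity)
    rw [h1] at h2
    have h3 : ∑ χ ∈ T, ‖(χ : G → ℂ) 1‖ ^ 2 = ((∑ χ ∈ T, (charDegree (χ : G → ℂ) : ℤ) * charDegree (χ : G → ℂ) : ℤ) : ℝ) := by
      push_cast
      refine Finset.sum_congr rfl fun χ _ => ?_
      rw [(IsIrr.one_eq χ.2).1, Complex.norm_natCast, sq]
    rw [h3] at h2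
    have h4 : (∑ χ ∈ T, (charDegree (χ : G → ℂ) : ℤ) * charDegree (χ : G → ℂ) : ℤ) ≤ (Nat.card G : ℤ) := by exact_mod_cast h2
    rw [hG] at h4
    exact_mod_cast h4
  obtain ⟨C, hC⟩ : ∃ C : ℕ, C = Nat.card (Subgroup.centralizer ({t} : Set G)) := ⟨_, rfl⟩
  have F4 : ∑ χ ∈ T, tt χ * tt χ ≤ C := by
    have h1 := sum_sq_centralizer t
    have h2 : ∑ χ ∈ T, ‖(χ : G → ℂ) t‖ ^ 2 ≤ ∑ χ : IrrCharacter G, ‖(χ : G → ℂ) t‖ ^ 2 :=
      Finset.sum_le_sum_of_subset_of_nonneg (Finset.subset_univ _) (fun _ _ _ => by positivity)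
    rw [h1] at h2
    have h3 : ∑ χ ∈ T, ‖(χ : G → ℂ) t‖ ^ 2 = ((∑ χ ∈ T, tt χ * tt χ : ℤ) : ℝ) := by
      push_cast
      refine Finset.sum_congr rfl fun χ hχ => ?_
      rw [htv χ hχ, Complex.norm_intCast, sq_abs, sq]
    rw [h3, ← hC] at h2
    exact_mod_cast h2
  -- the exact formula
  have F5 : ((C : ℝ)) ^ 2 = 864 * ∑ χ ∈ T, (w χ : ℝ) * ((tt χ : ℝ) * (tt χ : ℝ) / (charDegree (χ : G → ℂ) : ℝ)) := by
    have h1 := pair_formula hM hP hPc h t hy hy1
    rw [hpair, ← hC, hG] at h1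
    have h2 : ∑ χ : IrrCharacter G, (if χ ∈ principalBlock M G then (conj ((χ : G → ℂ) t * (χ : G → ℂ) t) / (χ : G → ℂ) 1) * (χ : G → ℂ) y else 0) =
        ((∑ χ ∈ T, (w χ : ℝ) * ((tt χ : ℝ) * (tt χ : ℝ) / (charDegree (χ : G → ℂ) : ℝ)) : ℝ) : ℂ) := by
      have h3 := hF (fun χ => conj ((χ : G → ℂ) t * (χ : G → ℂ) t) / (χ : G → ℂ) 1)
      have h4 : ∑ χ : IrrCharacter G, (if χ ∈ principalBlock M G then (conj ((χ : G → ℂ) t * (χ : G → ℂ) t) / (χ : G → ℂ) 1) * (χ : G → ℂ) y else 0) =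
        ∑ χ : IrrCharacter G, (if χ ∈ principalBlock M G then (χ : G → ℂ) y * (conj ((χ : G → ℂ) t * (χ : G → ℂ) t) / (χ : G → ℂ) 1) else 0) := by
        refine Finset.sum_congr rfl fun χ _ => ?_
        split_ifs
        · ring
        · rfl
      rw [h4, h3]
      push_cast
      refine Finset.sum_congr rfl fun χ hχ => ?_
      rw [htv χ hχ, (IsIrr.one_eq χ.2).1, map_mul, map_intCast]
    rw [h2] at h1
    obtain ⟨r, hr⟩ : ∃ r : ℝ, r = ∑ χ ∈ T, (w χ : ℝ) * ((tt χ : ℝ) * (tt χ : ℝ) / (charDegree (χ : G → ℂ) : ℝ)) := ⟨_, rfl⟩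
    rw [← hr] at h1 ⊢
    have h3 : (C : ℝ) ^ 2 * 5 = 4320 * r := by exact_mod_cast h1
    linarith
  -- the four characters
  have hdk : ∀ χ ∈ T, charDegree (χ : G → ℂ) ∣ 864 := by
    intro χ hχT
    obtain ⟨hw, hcv, -, hdw⟩ := hT χ hχT
    have h3 := irr_degree_dvd χ
    rw [hk] at h3
    have := cop_pm (p := 5) (m := 1) hw (Nat.coprime_one_left 5)
    rw [Nat.cast_one, one_mul] at this
    exact dvd_of_sub this h3 hdw
  have hmemDQ : ∀ χ ∈ T.erase (irrOne G), (w χ, (charDegree (χ : G → ℂ) : ℤ)) ∈ DQ := by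
    intro χ hχ
    have hχ1 := Finset.ne_of_mem_erase hχ
    have hχT := Finset.mem_of_mem_erase hχ
    obtain ⟨hw, hcv, -, hdw⟩ := hT χ hχT
    have hdpos := (IsIrr.one_eq χ.2).2
    have hdne := deg_ne_one hnp hχ1
    refine DQ_mem hw (by exact_mod_cast hdk χ hχT) (by omega) ?_ hdw
    have h5 : ∑ φ ∈ ({irrOne G, χ} : Finset (IrrCharacter G)), (charDegree (φ : G → ℂ) : ℤ) * charDegree (φ : G → ℂ) ≤
        ∑ χ ∈ T, (charDegree (χ : G → ℂ) : ℤ) * charDegree (χ : G → ℂ) := by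
      apply Finset.sum_le_sum_of_subset_of_nonneg
      · intro φ hφ
        rw [Finset.mem_insert, Finset.mem_singleton] at hφ
        rcases hφ with rfl | rfl
        · exact h1T
        · exact hχT
      · intro φ _ _; positivity
    rw [Finset.sum_pair (fun h' => hχ1 h'.symm), hdeg1] at h5
    push_cast at h5
    linarith
  have hmemX : ∀ χ ∈ T.erase (irrOne G), ∃ i ∈ List.range ((charDegree (χ : G → ℂ) : ℤ) / 2).toNat, tt χ = xq (charDegree (χ : G → ℂ) : ℤ) i := by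
    intro χ hχ
    have hχ1 := Finset.ne_of_mem_erase hχ
    have hχT := Finset.mem_of_mem_erase hχ
    exact xq_mem (by rw [htt]; simp [hχ1]) (hj2 χ hχT hχ1) (hj3 χ hχT hχ1)
  have hc4 : (T.erase (irrOne G)).card = 4 := by rw [Finset.card_erase_of_mem h1T, hcard]
  obtain ⟨a, ha⟩ : (T.erase (irrOne G)).Nonempty := by rw [← Finset.card_pos, hc4]; norm_num
  have hc3 : ((T.erase (irrOne G)).erase a).card = 3 := by rw [Finset.card_erase_of_mem ha, hc4]
  obtain ⟨b, c, e, hbc, hbe, hce, heq⟩ := Finset.card_eq_three.1 hc3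
  have hsum4 : ∀ f : IrrCharacter G → ℝ, ∑ χ ∈ T, f χ = f (irrOne G) + (f a + (f b + (f c + f e))) := by
    intro f
    rw [← Finset.add_sum_erase T f h1T, ← Finset.add_sum_erase _ f ha, heq, Finset.sum_insert, Finset.sum_pair hce]
    rw [Finset.mem_insert, Finset.mem_singleton]
    rintro (h' | h')
    · exact hbc h'
    · exact hbe h'
  have hbT : b ∈ T.erase (irrOne G) := Finset.mem_of_mem_erase (by rw [heq]; simp)
  have hcT : c ∈ T.erase (irrOne G) := Finset.mem_of_mem_erase (by rw [heq]; simp)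
  have heT : e ∈ T.erase (irrOne G) := Finset.mem_of_mem_erase (by rw [heq]; simp)
  have hsum4' : ∀ f : IrrCharacter G → ℤ, ∑ χ ∈ T, f χ = f (irrOne G) + (f a + (f b + (f c + f e))) := by
    intro f
    have := hsum4 (fun χ => (f χ : ℝ))
    exact_mod_cast this
  rw [hsum4'] at hsum F2 F3 F4
  rw [hsum4] at F5
  rw [hone, hdeg1] at hsum F5
  rw [hone, htt1] at F2
  rw [hdeg1] at F3
  rw [htt1] at F4 F5
  have hq : ∀ χ ∈ T.erase (irrOne G), (w χ : ℝ) * ((tt χ : ℝ) * (tt χ : ℝ) / (charDegree (χ : G → ℂ) : ℝ)) * 864 =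
      ((w χ * (tt χ * tt χ) * (864 / (charDegree (χ : G → ℂ) : ℤ)) : ℤ) : ℝ) := by
    intro χ hχ
    have hχT := Finset.mem_of_mem_erase hχ
    obtain ⟨q, hq⟩ := hdk χ hχT
    have hpos := (IsIrr.one_eq χ.2).2
    have h6 : (864 / (charDegree (χ : G → ℂ) : ℤ)) = q := by
      have : (864 : ℤ) = (charDegree (χ : G → ℂ) : ℤ) * q := by exact_mod_cast hq
      rw [this, Int.mul_ediv_cancel_left _ (by exact_mod_cast hpos.ne')]
    rw [h6]
    have h7 : (864 : ℝ) = (charDegree (χ : G → ℂ) : ℝ) * q := by exact_mod_cast hq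
    have h8 : (charDegree (χ : G → ℂ) : ℝ) ≠ 0 := by exact_mod_cast hpos.ne'
    rw [h7]
    push_cast
    field_simp
  have F5' : ((C : ℤ)) * C = 864 + w a * (tt a * tt a) * (864 / (charDegree (a : G → ℂ) : ℤ)) + w b * (tt b * tt b) * (864 / (charDegree (b : G → ℂ) : ℤ)) +
      w c * (tt c * tt c) * (864 / (charDegree (c : G → ℂ) : ℤ)) + w e * (tt e * tt e) * (864 / (charDegree (e : G → ℂ) : ℤ)) := by
    have h1 := hq a ha
    have h2 := hq b hbT
    have h3 := hq c hcT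
    have h4 := hq e heT
    have h5 : ((C : ℝ)) * C = 864 + ((w a * (tt a * tt a) * (864 / (charDegree (a : G → ℂ) : ℤ)) : ℤ) : ℝ) + ((w b * (tt b * tt b) * (864 / (charDegree (b : G → ℂ) : ℤ)) : ℤ) : ℝ) +
      ((w c * (tt c * tt c) * (864 / (charDegree (c : G → ℂ) : ℤ)) : ℤ) : ℝ) + ((w e * (tt e * tt e) * (864 / (charDegree (e : G → ℂ) : ℤ)) : ℤ) : ℝ) := by
      rw [← h1, ← h2, ← h3, ← h4]
      push_cast at F5
      linarith [F5, sq (C : ℝ)]
    exact_mod_cast h5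
  obtain ⟨ia, hia, hxa⟩ := hmemX a ha
  obtain ⟨ib, hib, hxb⟩ := hmemX b hbT
  obtain ⟨ic, hic, hxc⟩ := hmemX c hcT
  obtain ⟨ie, hie, hxe⟩ := hmemX e heT
  have hfin := LQ_num _ (hmemDQ a ha) _ (hmemDQ b hbT) _ (hmemDQ c hcT) _ (hmemDQ e heT) (by push_cast at hsum ⊢; linarith)
    (by push_cast at F3 ⊢; linarith) ia hia ib hib ic hic ie hie
  simp only [← hxa, ← hxb, ← hxc, ← hxe] at hfin
  have hfin2 := hfin (by linarith) (by
    rw [← F5']
    have h6 : 1 + (tt a * tt a + tt b * tt b + tt c * tt c + tt e * tt e) ≤ C := by linarith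
    have h7 : 0 ≤ 1 + (tt a * tt a + tt b * tt b + tt c * tt c + tt e * tt e) := by
      have e1 := mul_self_nonneg (tt a)
      have e2 := mul_self_nonneg (tt b)
      have e3 := mul_self_nonneg (tt c)
      have e4 := mul_self_nonneg (tt e)
      linarith
    exact mul_le_mul h6 h6 h7 (by positivity))
  rw [← F5'] at hfin2
  have hC80 : C < 80 := by
    by_contra hcon
    have h8 : (80 : ℤ) ≤ C := by exact_mod_cast Nat.le_of_not_lt hcon
    have h9 : (6400 : ℤ) ≤ (C : ℤ) * C := by nlinarith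
    simp only [List.mem_cons, List.not_mem_nil, or_false] at hfin2
    rcases hfin2 with h' | h' | h' | h' | h' | h' <;> omega
  have hfinal : ∀ C < 80, ((C : ℕ) : ℤ) * C ∉ [(1152 : ℤ), 1920, 864, 768, 2496, 5760] := by decide +kernel
  exact hfinal C hC80 hfin2

end CfsgH5
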