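import Cfsg.Agent.H5.SmS2
import Cfsg.Agent.H4.Burnside

/-!
# Groups of prime degree; simple groups of order `p²qr`
-/

set_option autoImplicit false

open Cfsg

namespace CfsgH5

open scoped Pointwise

section S1013

variable {α : Type*} [Fintype α] [DecidableEq α] {p : ℕ} [hp : Fact p.Prime]

theorem s1013 (hα : Fintype.card α = p) (G : Subgroup (Equiv.Perm α)) [MulAction.IsPretransitive ↥G α] (P : Sylow p ↥G)
    (hn : 1 < Nat.card (Sylow p ↥G))
    (ht : (((P : Subgroup ↥G).subgroupOf (Subgroup.normalizer ((P : Subgroup ↥G) : Set ↥G))).index).Prime) : IsSimpleGroup ↥G := by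
  classical
  haveI := Fintype.ofFinite G
  have hαN : Nat.card α = p := by rw [Nat.card_eq_fintype_card, hα]
  have hfac : Nat.card G ∣ p.factorial := by
    have h1 := Subgroup.card_subgroup_dvd_card G
    rwa [Nat.card_eq_fintype_card (α := Equiv.Perm α), Fintype.card_perm, hα] at h1
  have hsq : ¬ p ^ 2 ∣ Nat.card G := by
    intro h
    have h1 := h.trans hfac
    have h2 : p.factorial = p * (p - 1).factorial := (Nat.mul_factorial_pred hp.out.ne_zero).symm
    rw [h2, sq] at h1
    have h3 := Nat.dvd_of_mul_dvd_mul_left hp.out.pos h1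
    have h4 := (hp.out.dvd_factorial).1 h3
    have := hp.out.one_lt
    omega
  haveI : Nonempty α := by
    rw [← Fintype.card_pos_iff, hα]; exact hp.out.pos
  obtain ⟨x0⟩ : Nonempty α := inferInstance
  have htr : ∀ N : Subgroup G, MulAction.IsPretransitive N α → p ∣ Nat.card N := by
    intro N hN
    have h1 := MulAction.index_stabilizer_of_transitive N x0
    rw [hαN] at h1
    rw [← h1]
    exact Subgroup.index_dvd_card _
  have hpG : p ∣ Nat.card G := by
    have h1 := MulAction.index_stabilizer_of_transitive G x0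
    rw [hαN] at h1
    rw [← h1]
    exact Subgroup.index_dvd_card _
  have hP := sylow_card_prime P hpG hsq
  haveI : MulAction.IsPreprimitive G α := MulAction.IsPreprimitive.of_prime_card (by rw [hαN]; exact hp.out)
  have hdvd : ∀ N : Subgroup G, N.Normal → N ≠ ⊥ → p ∣ Nat.card N := by
    intro N hN hNb
    apply htr
    apply MulAction.IsQuasiPreprimitive.isPretransitive_of_normal
    intro h
    apply hNb
    rw [eq_bot_iff]
    intro n hn
    rw [Subgroup.mem_bot]
    apply Subtype.ext
    apply Equiv.ext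
    intro x
    have h1 : x ∈ MulAction.fixedPoints N α := by rw [h]; trivial
    exact h1 ⟨n, hn⟩
  have hPab := (FH.of_prime hP).ab
  haveI : Nontrivial G := by
    rw [← Finite.one_lt_card_iff_nontrivial]
    exact lt_of_lt_of_le hp.out.one_lt (Nat.le_of_dvd Nat.card_pos hpG)
  refine ⟨fun N hN => ?_⟩
  by_cases hNb : N = ⊥
  · exact Or.inl hNb
  right
  have hpN := hdvd N hN hNb
  have hPN : (P : Subgroup G) ≤ N := by
    obtain ⟨x, hx⟩ := exists_prime_orderOf_dvd_card' p hpN
    have hx' : orderOf (x : G) = p := by rw [Subgroup.orderOf_coe, hx]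
    have h1 : IsPGroup p (Subgroup.zpowers (x : G)) := by
      apply IsPGroup.of_card (n := 1)
      rw [Nat.card_zpowers, hx', pow_one]
    obtain ⟨Q, hQ⟩ := h1.exists_le_sylow
    have hQc := sylow_card_prime Q hpG hsq
    have hQN : (Q : Subgroup G) ≤ N := by
      have : Subgroup.zpowers (x : G) = Q := by
        apply Subgroup.eq_of_le_of_card_ge hQ
        rw [hQc, Nat.card_zpowers, hx']
      rw [← this, Subgroup.zpowers_le]
      exact x.2
    obtain ⟨g, hg⟩ := MulAction.exists_smul_eq G Q P
    intro a ha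
    rw [← hg] at ha
    have h2 : a ∈ (MulAut.conj g • (Q : Subgroup G)) := ha
    rw [Subgroup.mem_pointwise_smul_iff_inv_smul_mem] at h2
    have h3 := hN.conj_mem _ (hQN h2) g
    have h4 : g * ((MulAut.conj g)⁻¹ • a) * g⁻¹ = a := by
      have : ((MulAut.conj g)⁻¹ • a) = g⁻¹ * a * g := by
        rw [← map_inv]
        show MulAut.conj g⁻¹ a = _
        rw [MulAut.conj_apply, inv_inv]
      rw [this]; group
    rwa [h4] at h3
  by_cases hle : nP P ≤ N
  · have h1 : nP P ⊔ N = ⊤ := Sylow.normalizer_sup_eq_top' P hPN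
    rw [sup_eq_right.2 hle] at h1
    exact h1
  exfalso
  have hmul : (P : Subgroup G).relIndex (N ⊓ nP P) * (N ⊓ nP P).relIndex (nP P) = (P : Subgroup G).relIndex (nP P) :=
    Subgroup.relIndex_mul_relIndex _ _ _ (le_inf hPN Subgroup.le_normalizer) inf_le_right
  have ht' : ((P : Subgroup G).relIndex (nP P)).Prime := ht
  have hone : (P : Subgroup G).relIndex (N ⊓ nP P) = 1 := by
    rw [← hmul] at ht'
    rcases Nat.prime_mul_iff.1 ht' with h | h
    · exfalso
      apply hle
      have := Subgroup.relIndex_eq_one.1 h.2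
      exact this.trans inf_le_left
    · exact h.2
  have hle2 : N ⊓ nP P ≤ P := Subgroup.relIndex_eq_one.1 hone
  have hnpc : CfsgH3.HasNPC p N := by
    apply CfsgH3.hasNPC_burnside (P.subtype hPN)
    intro n hn
    have h1 : (n : G) ∈ nP P := by
      rw [Subgroup.mem_normalizer_iff]
      intro a
      have h2 := Subgroup.mem_normalizer_iff.1 hn
      constructor
      · intro ha
        have h3 := (h2 ⟨a, hPN ha⟩).1 (by
          show (⟨a, hPN ha⟩ : N) ∈ ((P.subtype hPN : Sylow p _) : Subgroup _)
          rw [Sylow.coe_subtype, Subgroup.mem_subgroupOf]; exact ha)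
        have h4 : n * ⟨a, hPN ha⟩ * n⁻¹ ∈ ((P.subtype hPN : Sylow p _) : Subgroup _) := h3
        rw [Sylow.coe_subtype, Subgroup.mem_subgroupOf] at h4
        exact h4
      · intro ha
        have hac : a ∈ N := by
          have h5 := hPN ha
          have h6 := mul_mem (mul_mem (inv_mem n.2) h5) n.2
          have h7 : (n : G)⁻¹ * (n * a * (n : G)⁻¹) * n = a := by group
          rwa [h7] at h6
        have h3 := (h2 ⟨a, hac⟩).2 (by
          show (⟨n * a * (n : G)⁻¹, _⟩ : N) ∈ ((P.subtype hPN : Sylow p _) : Subgroup _)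
          rw [Sylow.coe_subtype, Subgroup.mem_subgroupOf]; exact ha)
        have h4 : (⟨a, hac⟩ : N) ∈ ((P.subtype hPN : Sylow p _) : Subgroup _) := h3
        rw [Sylow.coe_subtype, Subgroup.mem_subgroupOf] at h4
        exact h4
    have h2 : (n : G) ∈ (P : Subgroup G) := hle2 ⟨n.2, h1⟩
    rw [Subgroup.mem_centralizer_iff]
    intro a ha
    have ha' : (a : G) ∈ (P : Subgroup G) := by
      have h4 : a ∈ ((P.subtype hPN : Sylow p _) : Subgroup _) := ha
      rw [Sylow.coe_subtype, Subgroup.mem_subgroupOf] at h4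
      exact h4
    exact Subtype.ext (hPab a ha' n h2)
  obtain ⟨k, hk⟩ := pPrimeCore_index_of_npc hnpc
  haveI := hN
  haveI : (pPrimeCore p N).Characteristic := inferInstance
  have hKn : ((pPrimeCore p N).map N.subtype).Normal := inferInstance
  have hKc : ¬ p ∣ Nat.card ((pPrimeCore p N).map N.subtype) := by
    rw [Subgroup.card_map_of_injective N.subtype_injective]
    have := CfsgH2.coprime_card_pPrimeCore (G := N) p
    intro h
    have h1 := Nat.Coprime.eq_one_of_dvd this.symm h
    exact hp.out.one_lt.ne' h1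
  have hKb : (pPrimeCore p N).map N.subtype = ⊥ := by
    by_contra h
    exact hKc (hdvd _ hKn h)
  have hKb' : pPrimeCore p N = ⊥ := by
    rw [Subgroup.map_eq_bot_iff_of_injective _ N.subtype_injective] at hKb
    exact hKb
  rw [hKb', Subgroup.index_bot] at hk
  have hk1 : Nat.card N = p := by
    have h1 : Nat.card N ∣ Nat.card G := Subgroup.card_subgroup_dvd_card _
    rw [hk] at h1 hpN ⊢
    have hk1 : k ≤ 1 := by
      by_contra hcon
      exact hsq ((pow_dvd_pow p (by omega)).trans h1)
    interval_cases k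
    · rw [pow_zero] at hpN
      exact absurd (Nat.dvd_one.1 hpN) hp.out.one_lt.ne'
    · rw [pow_one]
  have hPeq : (P : Subgroup G) = N := Subgroup.eq_of_le_of_card_ge hPN (by rw [hk1, hP])
  have hPn : (P : Subgroup G).Normal := by rw [hPeq]; exact hN
  have h1 : Nat.card (Sylow p G) = (nP P).index := P.card_eq_index_normalizer
  have h2 : nP P = ⊤ := Subgroup.normalizer_eq_top_iff.2 hPn
  rw [h1, h2, Subgroup.index_top] at hn
  omega

end S1013

section S0988

variable {G : Type*} [Group G] [Fintype G] [IsSimpleGroup G]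

/-- a prime which is the smallest one and divides the order once -/
theorem no_smallest {q k : ℕ} [hq : Fact q.Prime] (hk : Nat.card G = q * k) (hk1 : k ≠ 1) (hqk : ¬ q ∣ k)
    (hmin : ∀ r : ℕ, r.Prime → r ∣ k → q < r) : False := by
  obtain ⟨P⟩ : Nonempty (Sylow q G) := inferInstance
  have hP := sylow_card_prime P ⟨k, hk⟩ (by
    rw [hk, sq]
    intro h
    exact hqk (Nat.dvd_of_mul_dvd_mul_left hq.out.pos h))
  obtain ⟨n, c, -, -, h1, h2, h3, h4, h5⟩ := syl_data P hP hk hk1
  obtain ⟨r, hr, hr2⟩ := Nat.exists_prime_and_dvd h5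
  have h6 : r ∣ k := by rw [← h1]; exact (hr2.trans (dvd_mul_right _ _)).trans (dvd_mul_left _ _)
  have h7 := hmin r hr h6
  have h8 := Nat.le_of_dvd (by have := hq.out.one_lt; omega) (hr2.trans h4)
  omega

end S0988

end CfsgH5
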