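import Cfsg.Agent.H5.SmS3

/-!
# Simple groups of order `p²qr`
-/

set_option autoImplicit false

open Cfsg

namespace CfsgH5

section Comm

variable {G : Type*} [Group G] [Fintype G]

/-- an automorphism of `t`-power order of a group of order `p²`, `t > p` -/
theorem aut_psq {A : Type*} [Group A] [Finite A] {p t : ℕ} [hp : Fact p.Prime] [ht : Fact t.Prime] (hA : Nat.card A = p ^ 2) (hpt : p < t)
    (φ : MulAut A) (hφ : φ ≠ 1) {k : ℕ} (hk : φ ^ t ^ k = 1) : p = 2 ∧ t = 3 := by
  classical
  haveI := Fintype.ofFinite A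
  have hZ : IsPGroup t (Subgroup.zpowers φ) := by
    have h1 : orderOf φ ∣ t ^ k := orderOf_dvd_of_pow_eq_one hk
    obtain ⟨j, -, hj⟩ := (Nat.dvd_prime_pow ht.out).1 h1
    apply IsPGroup.of_card (n := j)
    rw [Nat.card_zpowers, hj]
  have h1 := hZ.card_modEq_card_fixedPoints A
  let F : Subgroup A := φ.toMonoidHom.eqLocus (MonoidHom.id A)
  have hF : ∀ a : A, a ∈ F ↔ φ a = a := fun a => Iff.rfl
  have h2 : Nat.card (MulAction.fixedPoints (Subgroup.zpowers φ) A) = Nat.card F := by
    apply Nat.card_congr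
    refine Equiv.subtypeEquivRight fun a => ?_
    rw [hF, MulAction.mem_fixedPoints]
    constructor
    · intro h
      exact h ⟨φ, Subgroup.mem_zpowers φ⟩
    · rintro h ⟨g, hg⟩
      have h3 : Subgroup.zpowers φ ≤ MulAction.stabilizer (MulAut A) a := by
        rw [Subgroup.zpowers_le, MulAction.mem_stabilizer_iff]
        exact h
      exact MulAction.mem_stabilizer_iff.1 (h3 hg)
  rw [h2, hA] at h1
  have h3 : Nat.card F ∣ p ^ 2 := by rw [← hA]; exact Subgroup.card_subgroup_dvd_card _
  obtain ⟨j, hj, hj2⟩ := (Nat.dvd_prime_pow hp.out).1 h3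
  have hj2' : j ≠ 2 := by
    rintro rfl
    apply hφ
    have h4 : F = ⊤ := by
      rw [← Subgroup.card_eq_iff_eq_top, hj2, hA]
    apply MulEquiv.ext
    intro a
    have : a ∈ F := by rw [h4]; trivial
    exact (hF a).1 this
  rw [hj2] at h1
  have hpos := hp.out.one_lt
  have hj3 : j = 0 ∨ j = 1 := by omega
  have h4 : (t : ℤ) ∣ (p : ℤ) ^ 2 - (p : ℤ) ^ j := by
    have := (Nat.modEq_iff_dvd.1 h1.symm)
    push_cast at this
    exact this
  have htp : ¬ (t : ℤ) ∣ (p : ℤ) - 1 := by
    intro h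
    have := Int.le_of_dvd (by omega) h
    omega
  have htprime : Prime (t : ℤ) := Nat.prime_iff_prime_int.1 ht.out
  rcases hj3 with rfl | rfl
  · have h5 : (p : ℤ) ^ 2 - (p : ℤ) ^ 0 = ((p : ℤ) - 1) * (p + 1) := by ring
    rw [h5] at h4
    rcases htprime.dvd_or_dvd h4 with h6 | h6
    · exact absurd h6 htp
    · have h7 := Int.le_of_dvd (by omega) h6
      have h8 : t = p + 1 := by omega
      rcases hp.out.eq_two_or_odd with h9 | h9
      · exact ⟨h9, by omega⟩
      · rcases ht.out.eq_two_or_odd with h10 | h10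
        · omega
        · omega
  · exfalso
    have h5 : (p : ℤ) ^ 2 - (p : ℤ) ^ 1 = p * (p - 1) := by ring
    rw [h5] at h4
    rcases htprime.dvd_or_dvd h4 with h6 | h6
    · have h7 := Int.le_of_dvd (by omega) h6
      omega
    · exact htp h6

variable [IsSimpleGroup G]

theorem simple_not_pq {p q a b : ℕ} (hp : p.Prime) (hq : q.Prime) (hG : Nat.card G = p ^ a * q ^ b) (hnp : ¬ (Nat.card G).Prime) : False := by
  have h1 := CfsgH4.burnside_pq hp hq (Nat.card G) G a b rfl hG
  have hcomm : ∀ a b : G, a * b = b * a := by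
    rw [IsSimpleGroup.comm_iff_isSolvable]; exact h1
  letI : CommGroup G := { (inferInstance : Group G) with mul_comm := hcomm }
  exact hnp (IsSimpleGroup.prime_card (α := G))

theorem fin_12 {r : ℕ} (hr : r.Prime) (hr5 : 5 ≤ r) (hG : Nat.card G = 12 * r) : Nat.card G = 60 := by
  haveI := Fact.mk hr
  obtain ⟨P⟩ : Nonempty (Sylow r G) := inferInstance
  have hk : Nat.card G = r * 12 := by rw [hG, mul_comm]
  have hr12 : ¬ r ∣ 12 := by
    intro h
    have h1 := Nat.le_of_dvd (by norm_num) h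
    interval_cases r <;> revert hr h <;> decide
  have hP := sylow_card_prime P ⟨12, hk⟩ (by
    rw [hk, sq]
    intro h
    exact hr12 (Nat.dvd_of_mul_dvd_mul_left hr.pos h))
  obtain ⟨n, c, -, -, h1, h2, h3, h4, h5⟩ := syl_data P hP hk (by norm_num)
  have h6 : n ∣ 12 := ⟨_, h1.symm⟩
  have h7 := Nat.le_of_dvd (by norm_num) h6
  have h8 : ¬ n < r := by
    intro h
    rw [Nat.mod_eq_of_lt h] at h2
    exact h3 h2
  have h9 : n ≠ 12 := by
    rintro rfl
    have h10 : eP P * c = 1 := by omega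
    exact h5 (Nat.eq_one_of_mul_eq_one_right h10)
  have h10 : n = 6 := by
    have : n = 5 ∨ n = 6 ∨ n = 7 ∨ n = 8 ∨ n = 9 ∨ n = 10 ∨ n = 11 := by omega
    rcases this with rfl | rfl | rfl | rfl | rfl | rfl | rfl <;> first | rfl | (revert h6; decide)
  subst h10
  have h11 : r = 5 ∨ r = 6 := by omega
  rcases h11 with rfl | rfl
  · rw [hG]
  · omega

theorem s0988 (p q r : ℕ) (hp : p.Prime) (hq : q.Prime) (hr : r.Prime) (hG : Nat.card G = p ^ 2 * q * r) : Nat.card G = 60 := by
  classical
  have hnp : ¬ (Nat.card G).Prime := by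
    rw [hG]
    apply Nat.not_prime_mul _ hr.one_lt.ne'
    have := hq.one_lt
    have h2 : 1 < p ^ 2 := Nat.one_lt_pow (by norm_num) hp.one_lt
    nlinarith
  by_cases hpq : p = q
  · subst hpq
    exact absurd (simple_not_pq hp hr (a := 3) (b := 1) (by rw [hG]; ring) hnp) id
  by_cases hpr : p = r
  · subst hpr
    exact absurd (simple_not_pq hp hq (a := 3) (b := 1) (by rw [hG]; ring) hnp) id
  by_cases hqr : q = r
  · subst hqr
    exact absurd (simple_not_pq hp hq (a := 2) (b := 2) (by rw [hG]; ring) hnp) id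
  haveI := Fact.mk hp
  haveI := Fact.mk hq
  haveI := Fact.mk hr
  have dv : ∀ {s a b : ℕ}, s.Prime → a.Prime → b.Prime → s ∣ a ^ 2 * b → s = a ∨ s = b := by
    intro s a b hs ha hb h
    rcases hs.dvd_mul.1 h with h1 | h1
    · exact Or.inl ((Nat.prime_dvd_prime_iff_eq hs ha).1 (hs.dvd_of_dvd_pow h1))
    · exact Or.inr ((Nat.prime_dvd_prime_iff_eq hs hb).1 h1)
  have hp2 : 1 < p ^ 2 := Nat.one_lt_pow (by norm_num) hp.one_lt
  by_cases hmq : q < p ∧ q < r
  · exfalso
    refine no_smallest (q := q) (k := p ^ 2 * r) (by rw [hG]; ring) ?_ ?_ ?_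
    · intro h; have := Nat.eq_one_of_mul_eq_one_left h; exact hr.one_lt.ne' this
    · intro h; rcases dv hq hp hr h with h1 | h1
      · exact hpq h1.symm
      · exact hqr h1
    · intro s hs h; rcases dv hs hp hr h with h1 | h1
      · rw [h1]; exact hmq.1
      · rw [h1]; exact hmq.2
  by_cases hmr : r < p ∧ r < q
  · exfalso
    refine no_smallest (q := r) (k := p ^ 2 * q) (by rw [hG]; ring) ?_ ?_ ?_
    · intro h; have := Nat.eq_one_of_mul_eq_one_left h; exact hq.one_lt.ne' this
    · intro h; rcases dv hr hp hq h with h1 | h1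
      · exact hpr h1.symm
      · exact hqr h1.symm
    · intro s hs h; rcases dv hs hp hq h with h1 | h1
      · rw [h1]; exact hmr.1
      · rw [h1]; exact hmr.2
  have hpq' : p < q := by omega
  have hpr' : p < r := by omega
  -- the Sylow p-subgroup
  obtain ⟨P⟩ : Nonempty (Sylow p G) := inferInstance
  have hpG : p ∣ Nat.card G := by rw [hG, sq]; exact ⟨p * q * r, by ring⟩
  have hP : Nat.card (P : Subgroup G) = p ^ 2 := by
    obtain ⟨k, hk⟩ := IsPGroup.iff_card.1 P.isPGroup'
    have h3 : Nat.card (P : Subgroup G) ∣ Nat.card G := Subgroup.card_subgroup_dvd_card _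
    have h4 : p ^ 2 ∣ Nat.card (P : Subgroup G) := by
      apply P.pow_dvd_card_of_pow_dvd_card
      rw [hG]; exact ⟨q * r, by ring⟩
    rw [hk] at h3 h4 ⊢
    have h5 : k ≤ 2 := by
      by_contra hcon
      have h6 : p ^ 3 ∣ p ^ 2 * q * r := by rw [← hG]; exact (pow_dvd_pow p (by omega)).trans h3
      have h7 : p ^ 2 * p ∣ p ^ 2 * (q * r) := by
        have e1 : p ^ 2 * p = p ^ 3 := by ring
        rw [e1, ← mul_assoc]; exact h6
      have h8 := Nat.dvd_of_mul_dvd_mul_left (by omega) h7
      rcases hp.dvd_mul.1 h8 with h9 | h9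
      · exact hpq ((Nat.prime_dvd_prime_iff_eq hp hq).1 h9)
      · exact hpr ((Nat.prime_dvd_prime_iff_eq hp hr).1 h9)
    have h6 : 2 ≤ k := (Nat.pow_dvd_pow_iff_le_right hp.one_lt).1 h4
    rw [show k = 2 by omega]
  have hab : ∀ a b : (P : Subgroup G), a * b = b * a := by
    have := IsPGroup.isMulCommutative_of_card_eq_prime_sq hP
    exact fun a b => this.is_comm.comm a b
  have hPC : (P : Subgroup G) ≤ cP P := by
    intro a ha
    rw [Subgroup.mem_centralizer_iff]
    intro b hb
    exact congrArg Subtype.val (hab ⟨b, hb⟩ ⟨a, ha⟩)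
  have hne : (cP P).relIndex (nP P) ≠ 1 := by
    intro h
    have h1 : nP P ≤ cP P := Subgroup.relIndex_eq_one.1 h
    rcases (CfsgH3.hasNPC_burnside P h1).simple with h2 | h2
    · exact h2 hpG
    · exact hnp (by rw [h2]; exact hp)
  obtain ⟨t, ht, htd⟩ := Nat.exists_prime_and_dvd hne
  haveI := Fact.mk ht
  have h1 : (cP P).relIndex (nP P) ∣ (P : Subgroup G).index := by
    have h2 : (P : Subgroup G).relIndex (cP P) * (cP P).relIndex (nP P) = (P : Subgroup G).relIndex (nP P) :=
      Subgroup.relIndex_mul_relIndex _ _ _ hPC (Subgroup.centralizer_le_normalizer _)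
    have h3 : (P : Subgroup G).relIndex (nP P) * (nP P).index = (P : Subgroup G).index :=
      Subgroup.relIndex_mul_index Subgroup.le_normalizer
    rw [← h3, ← h2]
    exact ⟨(P : Subgroup G).relIndex (cP P) * (nP P).index, by ring⟩
  have hidx : (P : Subgroup G).index = q * r := by
    have h2 := Subgroup.card_mul_index (P : Subgroup G)
    rw [hP, hG, mul_assoc] at h2
    exact Nat.eq_of_mul_eq_mul_left (by omega) h2
  have htqr : t = q ∨ t = r := by
    have h2 := htd.trans h1
    rw [hidx] at h2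
    rcases ht.dvd_mul.1 h2 with h3 | h3
    · exact Or.inl ((Nat.prime_dvd_prime_iff_eq ht hq).1 h3)
    · exact Or.inr ((Nat.prime_dvd_prime_iff_eq ht hr).1 h3)
  have hpt : p < t := by rcases htqr with h | h <;> rw [h] <;> assumption
  -- an element of t-power order
  obtain ⟨T⟩ : Nonempty (Sylow t (nP P)) := inferInstance
  have hTn : ¬ (T : Subgroup (nP P)) ≤ (cP P).subgroupOf (nP P) := by
    intro h
    have h2 : t ∣ (T : Subgroup (nP P)).index := htd.trans (Subgroup.index_dvd_of_le h)
    exact T.not_dvd_index h2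
  obtain ⟨x, hxT, hxC⟩ := SetLike.not_le_iff_exists.1 hTn
  obtain ⟨k, hk⟩ := T.isPGroup' ⟨x, hxT⟩
  have hk' : x ^ t ^ k = 1 := congrArg Subtype.val hk
  have h23 := aut_psq hP hpt ((P : Subgroup G).normalizerMonoidHom x) (by
    intro h
    apply hxC
    rw [← Subgroup.normalizerMonoidHom_ker]
    exact h) (k := k) (by rw [← map_pow, hk', map_one])
  obtain ⟨h2, h3⟩ := h23
  subst h2
  rcases htqr with h | h
  · rw [h3] at h
    subst h
    apply fin_12 hr _ (by rw [hG]; norm_num)
    have : r ≠ 4 := by rintro rfl; revert hr; decide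
    omega
  · rw [h3] at h
    subst h
    apply fin_12 hq _ (by rw [hG]; ring)
    have : q ≠ 4 := by rintro rfl; revert hq; decide
    omega

end Comm

end CfsgH5
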