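import Cfsg.Agent.H5.SmS4
import Cfsg.Agent.H5.Misc3
import Cfsg.Agent.S0989

/-!
# Centralizers of Sylow subgroups of prime order and small degrees
-/

set_option autoImplicit false

open Cfsg MonoidAlgebra
open CfsgH4 hiding centralChar sum_conj regInner_symm

namespace CfsgH5

open scoped ComplexConjugate

theorem commutator_bot_of {A : Type*} [Group A] (hab : ∀ a b : A, a * b = b * a) : commutator A = ⊥ := by
  rw [commutator_eq_bot_iff_center_eq_top, eq_top_iff]
  intro x _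
  exact Subgroup.mem_center_iff.2 fun g => hab g x

section Main

variable {G : Type*} [Group G] [Fintype G] {p : ℕ} [hp : Fact p.Prime]
variable {P : Sylow p G} {M : Ideal AlgInt}
variable {w : IrrCharacter G → ℤ} {d δ : ℤ} {ζ : ((P : Subgroup G) →* ℂˣ) → IrrCharacter G}

theorem norm_dvd_of_succ [IsSimpleGroup G] (hP : Nat.card (P : Subgroup G) = p) (hn : Nat.card (Sylow p G) = p + 1) :
    Nat.card (nP P) ∣ p * (p - 1) := by
  classical
  have h1 : (nP P).index = p + 1 := by rw [← hn]; exact (P.card_eq_index_normalizer).symm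
  have hntop : nP P ≠ ⊤ := by
    intro h
    rw [h, Subgroup.index_top] at h1
    have := hp.out.pos
    omega
  haveI : Fintype (G ⧸ nP P) := Fintype.ofFinite _
  have hα : Fintype.card (G ⧸ nP P) = p ∨ Fintype.card (G ⧸ nP P) = p + 1 := by
    right
    rw [← Nat.card_eq_fintype_card]; exact h1
  let f : G →* Equiv.Perm (G ⧸ nP P) := MulAction.toPermHom G (G ⧸ nP P)
  have hf : Function.Injective f := by
    rw [← MonoidHom.ker_eq_bot_iff]
    rcases (inferInstance : f.ker.Normal).eq_bot_or_eq_top with h2 | h2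
    · exact h2
    · exfalso
      apply hntop
      rw [eq_top_iff]
      intro g _
      have h3 : g ∈ f.ker := by rw [h2]; trivial
      have h4 : f g ((1 : G) : G ⧸ nP P) = ((1 : G) : G ⧸ nP P) := by rw [MonoidHom.mem_ker.1 h3]; rfl
      have h5 : ((g * 1 : G) : G ⧸ nP P) = ((1 : G) : G ⧸ nP P) := h4
      rw [mul_one] at h5
      have h6 := QuotientGroup.eq.1 h5.symm
      rw [inv_one, one_mul] at h6
      exact h6
  have hPf : IsPGroup p ((P : Subgroup G).map f) := P.isPGroup'.map f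
  obtain ⟨R, hR⟩ := hPf.exists_le_sylow
  have hRc := Cfsg.Agent.S0989.main hα R
  have hcard : Nat.card ((P : Subgroup G).map f) = p := by rw [Subgroup.card_map_of_injective hf, hP]
  have hReq : (P : Subgroup G).map f = R := Subgroup.eq_of_le_of_card_ge hR (by rw [hcard]; exact hRc.1.le)
  have h2 : (nP P).map f ≤ Subgroup.normalizer (((P : Subgroup G).map f : Subgroup _) : Set (Equiv.Perm (G ⧸ nP P))) := Subgroup.le_normalizer_map f
  rw [hReq] at h2
  have h3 := Subgroup.card_dvd_of_le h2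
  rw [Subgroup.card_map_of_injective hf, hRc.2] at h3
  exact h3

theorem ppart_mulP (hP : Nat.card (P : Subgroup G) = p) {y v : G} (hy : y ∈ (P : Subgroup G)) (hv : v ∈ cP P) (hvp : ¬ p ∣ orderOf v) :
    IsPPart p (y * v) y :=
  ⟨v, rfl, Subgroup.mem_centralizer_iff.1 hv y hy, FH.ppow P hy, hvp⟩

/-- multiplicities of the linear characters of a `p'`-subgroup centralizing `P` -/
theorem mult_cent {m : ℕ} (hM : IsPModular p M) (hP : Nat.card (P : Subgroup G) = p) (h : FH P m) (D : FD M P m w d δ ζ)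
    {χ : IrrCharacter G} (hχ : χ ∈ XX M ζ) {v : G} (hv : v ∈ cP P) (hvp : ¬ p ∣ orderOf v) [Fintype (Subgroup.zpowers v)]
    (μ : Subgroup.zpowers v →* ℂˣ) (hμ : μ ≠ 1) : ∃ k : ℕ, classInner (fun c : Subgroup.zpowers v => (χ : G → ℂ) c) (lch μ) = ((p * k : ℕ) : ℂ) := by
  classical
  haveI := Fintype.ofFinite (P : Subgroup G)
  have hcp : ∀ c ∈ Subgroup.zpowers v, c ∈ cP P ∧ ¬ p ∣ orderOf c := by
    intro c hc
    refine ⟨(Subgroup.zpowers_le.2 hv) hc, fun h1 => hvp (h1.trans (orderOf_dvd_of_mem_zpowers hc))⟩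
  have hC : ∀ (y : (P : Subgroup G)) (c : Subgroup.zpowers v), Commute (y : G) (c : G) := fun y c =>
    Subgroup.mem_centralizer_iff.1 (hcp c c.2).1 y y.2
  let ρ : ↥(P : Subgroup G) × ↥(Subgroup.zpowers v) →* G := MonoidHom.noncommCoprod (P : Subgroup G).subtype (Subgroup.zpowers v).subtype hC
  obtain ⟨k, hk⟩ := IsCharacter.inner_irr_nat (isCharacter_comp ρ (IsIrr.isCharacter χ.2))
    (isCharacter_one_dim ((1 : (P : Subgroup G) →* ℂˣ).coprod μ))
  refine ⟨k, ?_⟩
  rw [classInner_def, Fintype.sum_prod_type, Nat.card_prod] at hk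
  have h0 : ∑ c : Subgroup.zpowers v, conj (lch μ c) = 0 := by
    have h1 : classInner (lch (1 : Subgroup.zpowers v →* ℂˣ)) (lch μ) = 0 := by
      rw [lch_inner, if_neg (fun h' => hμ h'.symm)]
    rw [classInner_def] at h1
    have h2 := (mul_eq_zero.1 h1).resolve_left (inv_ne_zero (card_ne_zero _))
    refine Eq.trans (Finset.sum_congr rfl fun c _ => ?_) h2
    show _ = (((1 : Subgroup.zpowers v →* ℂˣ) c : ℂˣ) : ℂ) * conj (lch μ c)
    rw [MonoidHom.one_apply, Units.val_one, one_mul]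
  have h1 : ∀ y : (P : Subgroup G), y ≠ 1 → ∑ c : Subgroup.zpowers v, (χ : G → ℂ) (ρ (y, c)) *
      conj ((((1 : (P : Subgroup G) →* ℂˣ).coprod μ) (y, c) : ℂˣ) : ℂ) = 0 := by
    intro y hy
    have h2 : ∀ c : Subgroup.zpowers v, (χ : G → ℂ) (ρ (y, c)) * conj ((((1 : (P : Subgroup G) →* ℂˣ).coprod μ) (y, c) : ℂˣ) : ℂ) =
        w χ * conj (lch μ c) := by
      intro c
      have h3 : (χ : G → ℂ) (ρ (y, c)) = w χ :=
        D.val_X' hM h hχ (ppart_mulP hP y.2 (hcp c c.2).1 (hcp c c.2).2) y.2 (fun h' => hy (Subtype.ext h'))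
      rw [h3, MonoidHom.coprod_apply, MonoidHom.one_apply, one_mul]
      rfl
    rw [Finset.sum_congr rfl fun c _ => h2 c, ← Finset.mul_sum, h0, mul_zero]
  rw [Finset.sum_eq_single (1 : (P : Subgroup G)) (fun y _ hy => h1 y hy) (fun h' => absurd (Finset.mem_univ _) h')] at hk
  have h2 : ∀ c : Subgroup.zpowers v, (χ : G → ℂ) (ρ (1, c)) * conj ((((1 : (P : Subgroup G) →* ℂˣ).coprod μ) (1, c) : ℂˣ) : ℂ) =
      (χ : G → ℂ) c * conj (lch μ c) := by
    intro c
    have h3 : ρ (1, c) = (c : G) := by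
      show ((1 : (P : Subgroup G)) : G) * (c : G) = c
      rw [OneMemClass.coe_one, one_mul]
    rw [h3, MonoidHom.coprod_apply, MonoidHom.one_apply, one_mul]; rfl
  rw [Finset.sum_congr rfl fun c _ => h2 c, hP] at hk
  rw [classInner_def]
  push_cast at hk ⊢
  rw [← hk]
  have hp0 : (p : ℂ) ≠ 0 := by exact_mod_cast hp.out.ne_zero
  have hc0 : (Nat.card (Subgroup.zpowers v) : ℂ) ≠ 0 := by exact_mod_cast Nat.card_pos.ne'
  rw [mul_inv]
  field_simp

/-- a character of degree `< p` is trivial on `C_G(P)` -/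
theorem small_deg {m : ℕ} (hM : IsPModular p M) (hP : Nat.card (P : Subgroup G) = p) (h : FH P m) (D : FD M P m w d δ ζ)
    {χ : IrrCharacter G} (hχ : χ ∈ XX M ζ) (hdeg : charDegree (χ : G → ℂ) < p) {v : G} (hv : v ∈ cP P) (hvp : ¬ p ∣ orderOf v) :
    (χ : G → ℂ) v = (χ : G → ℂ) 1 := by
  classical
  haveI := Fintype.ofFinite (Subgroup.zpowers v)
  haveI : Finite (Subgroup.zpowers v →* ℂˣ) := inferInstance
  haveI := Fintype.ofFinite (Subgroup.zpowers v →* ℂˣ)
  have hab : ∀ a b : Subgroup.zpowers v, a * b = b * a := by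
    rintro ⟨a, ha⟩ ⟨b, hb⟩
    obtain ⟨i, rfl⟩ := Subgroup.mem_zpowers_iff.1 ha
    obtain ⟨j, rfl⟩ := Subgroup.mem_zpowers_iff.1 hb
    exact Subtype.ext (zpow_mul_comm v i j)
  have hnat : ∀ μ : Subgroup.zpowers v →* ℂˣ, ∃ k : ℕ, classInner (fun c : Subgroup.zpowers v => (χ : G → ℂ) c) (lch μ) = (k : ℂ) := fun μ =>
    IsCharacter.inner_irr_nat (isCharacter_comp (Subgroup.zpowers v).subtype (IsIrr.isCharacter χ.2)) (isCharacter_one_dim μ)
  choose k hk using hnat
  have h1 := fourier_inv hab (fun c : Subgroup.zpowers v => (χ : G → ℂ) c) 1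
  have h2 : charDegree (χ : G → ℂ) = ∑ μ : Subgroup.zpowers v →* ℂˣ, k μ := by
    have h3 : (charDegree (χ : G → ℂ) : ℂ) = ((∑ μ : Subgroup.zpowers v →* ℂˣ, k μ : ℕ) : ℂ) := by
      rw [← (IsIrr.one_eq χ.2).1]
      push_cast
      refine Eq.trans (show (χ : G → ℂ) 1 = (χ : G → ℂ) ((1 : Subgroup.zpowers v) : G) by rw [OneMemClass.coe_one]) (h1.trans (Finset.sum_congr rfl fun μ _ => ?_))
      rw [hk μ, map_one, Units.val_one, mul_one]
    exact_mod_cast h3
  have h3 : ∀ μ : Subgroup.zpowers v →* ℂˣ, μ ≠ 1 → k μ = 0 := by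
    intro μ hμ
    obtain ⟨j, hj⟩ := mult_cent hM hP h D hχ hv hvp μ hμ
    rw [hk μ] at hj
    have h4 : k μ = p * j := by exact_mod_cast hj
    have h5 : k μ ≤ charDegree (χ : G → ℂ) := by
      rw [h2]; exact Finset.single_le_sum (fun _ _ => Nat.zero_le _) (Finset.mem_univ μ)
    rcases Nat.eq_zero_or_pos j with h6 | h6
    · rw [h4, h6, mul_zero]
    · have : p * 1 ≤ p * j := Nat.mul_le_mul_left p h6
      omega
  have h4 := fourier_inv hab (fun c : Subgroup.zpowers v => (χ : G → ℂ) c) ⟨v, Subgroup.mem_zpowers v⟩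
  have h5 : ∀ x : Subgroup.zpowers v, ∑ μ : Subgroup.zpowers v →* ℂˣ, classInner (fun c : Subgroup.zpowers v => (χ : G → ℂ) c) (lch μ) * (μ x : ℂ) = k 1 := by
    intro x
    rw [Finset.sum_eq_single (1 : Subgroup.zpowers v →* ℂˣ)]
    · rw [hk, MonoidHom.one_apply, Units.val_one, mul_one]
    · intro μ _ hμ; rw [hk, h3 μ hμ]; push_cast; ring
    · intro h'; exact absurd (Finset.mem_univ _) h'
  rw [h5] at h1 h4
  have h6 : (χ : G → ℂ) v = k 1 := h4
  have h7 : (χ : G → ℂ) 1 = k 1 := h1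
  rw [h6, h7]

theorem linhom_trivial [IsSimpleGroup G] (hG : ¬ (Nat.card G).Prime) (f : G →* ℂˣ) : f = 1 := by
  rcases (inferInstance : f.ker.Normal).eq_bot_or_eq_top with h1 | h1
  · have hinj : Function.Injective f := (MonoidHom.ker_eq_bot_iff f).1 h1
    have hcomm : ∀ a b : G, a * b = b * a := fun a b => hinj (by rw [map_mul, map_mul, mul_comm])
    letI : CommGroup G := { (inferInstance : Group G) with mul_comm := hcomm }
    exact absurd (IsSimpleGroup.prime_card (α := G)) hG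
  · ext g
    have h2 : g ∈ f.ker := by rw [h1]; trivial
    rw [MonoidHom.mem_ker.1 h2]; rfl

/-- the determinant condition for involutions -/
theorem even_mult [IsSimpleGroup G] (hG : ¬ (Nat.card G).Prime) {χ : IrrCharacter G} {v : G} (hv : orderOf v = 2) [Fintype (Subgroup.zpowers v)]
    (s : Subgroup.zpowers v →* ℂˣ) (hs : s ≠ 1) : ∃ k1 k : ℕ, classInner (fun c : Subgroup.zpowers v => (χ : G → ℂ) c) (lch s) = ((2 * k : ℕ) : ℂ) ∧
      charDegree (χ : G → ℂ) = k1 + 2 * k ∧ (χ : G → ℂ) v = k1 - 2 * k := by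
  classical
  haveI : Finite (Subgroup.zpowers v →* ℂˣ) := inferInstance
  haveI := Fintype.ofFinite (Subgroup.zpowers v →* ℂˣ)
  have hab : ∀ a b : Subgroup.zpowers v, a * b = b * a := by
    rintro ⟨a, ha⟩ ⟨b, hb⟩
    obtain ⟨i, rfl⟩ := Subgroup.mem_zpowers_iff.1 ha
    obtain ⟨j, rfl⟩ := Subgroup.mem_zpowers_iff.1 hb
    exact Subtype.ext (zpow_mul_comm v i j)
  have hcardC : Nat.card (Subgroup.zpowers v) = 2 := by rw [Nat.card_zpowers, hv]
  have hdual : Nat.card (Subgroup.zpowers v →* ℂˣ) = 2 := by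
    rw [card_hom_units, (commutator_bot_of hab), Subgroup.index_bot, hcardC]
  have huniv : (Finset.univ : Finset (Subgroup.zpowers v →* ℂˣ)) = {1, s} := by
    symm
    apply Finset.eq_univ_of_card
    rw [Finset.card_pair (fun h => hs h.symm), ← Nat.card_eq_fintype_card, hdual]
  have hsv : (s ⟨v, Subgroup.mem_zpowers v⟩ : ℂ) = -1 := by
    have h1 : (s ⟨v, Subgroup.mem_zpowers v⟩ : ℂ) ^ 2 = 1 := by
      rw [← Units.val_pow_eq_pow_val, ← map_pow]
      have h2 : (⟨v, Subgroup.mem_zpowers v⟩ : Subgroup.zpowers v) ^ 2 = 1 := by rw [← hcardC]; exact pow_card_eq_one'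
      rw [h2, map_one, Units.val_one]
    rw [sq] at h1
    rcases mul_self_eq_one_iff.1 h1 with h2 | h2
    · exfalso
      apply hs
      ext x
      obtain ⟨x, hx⟩ := x
      obtain ⟨i, rfl⟩ := Subgroup.mem_zpowers_iff.1 hx
      have h3 : (⟨v ^ i, hx⟩ : Subgroup.zpowers v) = (⟨v, Subgroup.mem_zpowers v⟩ : Subgroup.zpowers v) ^ i := rfl
      rw [h3, map_zpow, map_zpow]
      have h4 : s ⟨v, Subgroup.mem_zpowers v⟩ = 1 := Units.ext h2
      rw [h4, one_zpow, MonoidHom.one_apply, one_zpow]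
    · exact h2
  have hnat : ∀ μ : Subgroup.zpowers v →* ℂˣ, ∃ k : ℕ, classInner (fun c : Subgroup.zpowers v => (χ : G → ℂ) c) (lch μ) = (k : ℂ) := fun μ =>
    IsCharacter.inner_irr_nat (isCharacter_comp (Subgroup.zpowers v).subtype (IsIrr.isCharacter χ.2)) (isCharacter_one_dim μ)
  choose k hk using hnat
  have hexp : ∀ x : Subgroup.zpowers v, (χ : G → ℂ) x = k 1 + k s * (s x : ℂ) := by
    intro x
    have h1 := fourier_inv hab (fun c : Subgroup.zpowers v => (χ : G → ℂ) c) x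
    rw [huniv, Finset.sum_pair (fun h => hs h.symm), hk, hk, MonoidHom.one_apply, Units.val_one, mul_one] at h1
    exact h1
  -- the determinant
  have hdet : detChar (fun c : Subgroup.zpowers v => (χ : G → ℂ) c) ⟨v, Subgroup.mem_zpowers v⟩ = 1 := by
    refine (detChar_comp (Subgroup.zpowers v).subtype (IsIrr.isCharacter χ.2) ⟨v, Subgroup.mem_zpowers v⟩).trans ?_
    obtain ⟨f, hf⟩ := exists_det_hom (IsIrr.isCharacter χ.2)
    rw [hf, linhom_trivial hG f]; rfl
  have hfun : (fun c : Subgroup.zpowers v => (χ : G → ℂ) c) = (k 1 • (fun c => ((1 : Subgroup.zpowers v →* ℂˣ) c : ℂ))) + (k s • (fun c => (s c : ℂ))) := by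
    funext x
    rw [Pi.add_apply, Pi.smul_apply, Pi.smul_apply, nsmul_eq_mul, nsmul_eq_mul, MonoidHom.one_apply, Units.val_one, mul_one]
    exact hexp x
  have hc1 := IsIrr.isCharacter (isCharacter_one_dim (1 : Subgroup.zpowers v →* ℂˣ))
  have hcs := IsIrr.isCharacter (isCharacter_one_dim s)
  rw [hfun, detChar_add (isCharacter_nsmul hc1 _) (isCharacter_nsmul hcs _), detChar_nsmul hc1, detChar_nsmul hcs, detChar_linear, detChar_linear] at hdet
  have hdet' : ((((1 : Subgroup.zpowers v →* ℂˣ) ⟨v, Subgroup.mem_zpowers v⟩ : ℂˣ) : ℂ)) ^ k 1 *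
      ((s ⟨v, Subgroup.mem_zpowers v⟩ : ℂˣ) : ℂ) ^ k s = 1 := hdet
  clear hdet
  rw [MonoidHom.one_apply, Units.val_one, one_pow, one_mul, hsv] at hdet'
  have heven : Even (k s) := by
    rcases Nat.even_or_odd (k s) with h | h
    · exact h
    · rw [h.neg_one_pow] at hdet'
      norm_num at hdet'
  obtain ⟨j, hj⟩ := heven
  refine ⟨k 1, j, by rw [hk, hj]; push_cast; ring, ?_, ?_⟩
  · have h1 := hexp 1
    rw [OneMemClass.coe_one, (IsIrr.one_eq χ.2).1, map_one, Units.val_one, mul_one, hj] at h1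
    have h2 : (charDegree (χ : G → ℂ) : ℂ) = ((k 1 + 2 * j : ℕ) : ℂ) := by rw [h1]; push_cast; ring
    exact_mod_cast h2
  · have h1 := hexp ⟨v, Subgroup.mem_zpowers v⟩
    rw [hsv, hj] at h1
    rw [show (χ : G → ℂ) v = (χ : G → ℂ) ((⟨v, Subgroup.mem_zpowers v⟩ : Subgroup.zpowers v) : G) from rfl, h1]
    push_cast; ring

end Main

end CfsgH5
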