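import Cfsg.Agent.H5.SmS5

/-!
# The orders 2016 and 4032
-/

set_option autoImplicit false

open Cfsg MonoidAlgebra
open CfsgH4 hiding centralChar sum_conj regInner_symm

namespace CfsgH5

open scoped ComplexConjugate

section Main

variable {G : Type*} [Group G] [Fintype G] {p : ℕ} [hp : Fact p.Prime]
variable {P : Sylow p G} {M : Ideal AlgInt}
variable {w : IrrCharacter G → ℤ} {d δ : ℤ} {ζ : ((P : Subgroup G) →* ℂˣ) → IrrCharacter G}

theorem simple_htop [IsSimpleGroup G] {v : G} (hv : v ≠ 1) : ∀ K : Subgroup G, K.Normal → v ∈ K → K = ⊤ := by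
  intro K hK hvK
  rcases hK.eq_bot_or_eq_top with h | h
  · exfalso; rw [h, Subgroup.mem_bot] at hvK; exact hv hvK
  · exact h

/-- no involution centralizes `P` if a nonexceptional character has degree `< 2p` -/
theorem no_invol_cent [IsSimpleGroup G] (hG : ¬ (Nat.card G).Prime) {m : ℕ} (hM : IsPModular p M) (hp2 : p ≠ 2)
    (hP : Nat.card (P : Subgroup G) = p) (h : FH P m) (D : FD M P m w d δ ζ) {χ : IrrCharacter G} (hχ : χ ∈ XX M ζ) (hχ1 : χ ≠ irrOne G)
    (hdeg : charDegree (χ : G → ℂ) < 2 * p) {v : G} (hv : v ∈ cP P) (hv2 : orderOf v = 2) : False := by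
  classical
  haveI := Fintype.ofFinite (Subgroup.zpowers v)
  have hvp : ¬ p ∣ orderOf v := by
    rw [hv2]; intro h1; exact hp2 ((Nat.prime_dvd_prime_iff_eq hp.out Nat.prime_two).1 h1)
  have hab : ∀ a b : Subgroup.zpowers v, a * b = b * a := by
    rintro ⟨a, ha⟩ ⟨b, hb⟩
    obtain ⟨i, rfl⟩ := Subgroup.mem_zpowers_iff.1 ha
    obtain ⟨j, rfl⟩ := Subgroup.mem_zpowers_iff.1 hb
    exact Subtype.ext (zpow_mul_comm v i j)
  have hv1 : v ≠ 1 := by rintro rfl; rw [orderOf_one] at hv2; omega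
  obtain ⟨s, hs⟩ := exists_lin_ne (G := Subgroup.zpowers v) (g := ⟨v, Subgroup.mem_zpowers v⟩) (by
    rw [commutator_bot_of hab, Subgroup.mem_bot]
    exact fun h' => hv1 (congrArg Subtype.val h'))
  have hs1 : s ≠ 1 := by rintro rfl; exact hs rfl
  obtain ⟨j, hj⟩ := mult_cent hM hP h D hχ hv hvp s hs1
  obtain ⟨k1, k, h1, h2, h3⟩ := even_mult hG (χ := χ) hv2 s hs1
  rw [h1] at hj
  have h4 : 2 * k = p * j := by exact_mod_cast hj
  have h5 : j = 0 := by
    have h6 : 2 ∣ p * j := ⟨k, h4.symm⟩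
    rcases Nat.prime_two.dvd_mul.1 h6 with h7 | h7
    · exact absurd ((Nat.prime_dvd_prime_iff_eq Nat.prime_two hp.out).1 h7).symm hp2
    · obtain ⟨i, rfl⟩ := h7
      rcases Nat.eq_zero_or_pos i with h8 | h8
      · rw [h8]
      · exfalso
        have : p * (2 * 1) ≤ p * (2 * i) := Nat.mul_le_mul_left p (by omega)
        omega
  rw [h5, mul_zero] at h4
  have hk : k = 0 := by omega
  subst hk
  have h6 : (χ : G → ℂ) v = (χ : G → ℂ) 1 := by
    rw [h3, (IsIrr.one_eq χ.2).1, h2]; push_cast; ring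
  exact val_ne_top (simple_htop hv1) hχ1 h6

theorem no_small_cent [IsSimpleGroup G] {m : ℕ} (hM : IsPModular p M)
    (hP : Nat.card (P : Subgroup G) = p) (h : FH P m) (D : FD M P m w d δ ζ) {χ : IrrCharacter G} (hχ : χ ∈ XX M ζ) (hχ1 : χ ≠ irrOne G)
    (hdeg : charDegree (χ : G → ℂ) < p) {v : G} (hv : v ∈ cP P) (hv1 : v ≠ 1) (hvp : ¬ p ∣ orderOf v) : False :=
  val_ne_top (simple_htop hv1) hχ1 (small_deg hM hP h D hχ hdeg hv hvp)

theorem S2.num [IsSimpleGroup G] {a : IrrCharacter G} (hM : IsPModular p M) (hP : Nat.card (P : Subgroup G) = p) (hp7 : 7 ≤ p) {k : ℕ}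
    (hk : Nat.card G = p * k) (hk1 : k ≠ 1) (h : FH P 2) (S : S2 M P w δ ζ a) {η : IrrCharacter G} (hη : η ∈ YY ζ) :
    (w a * charDegree (a : G → ℂ)).natAbs ∣ k ∧ (w a * charDegree (a : G → ℂ)) % p = 1 ∧ (w a * charDegree (a : G → ℂ)).natAbs ≠ 1 ∧
      (1 + (w a * charDegree (a : G → ℂ))).natAbs ∣ k ∧ 1 + w a * charDegree (a : G → ℂ) = δ * charDegree (η : G → ℂ) := by
  have h5 := S.D.degX h ((S.mem a).2 (Or.inr rfl))
  have h6 := S.D.degY h hη
  rw [hP] at h5 h6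
  have h3 := irr_degree_dvd a
  have h4 := irr_degree_dvd η
  have h7 := deg_ne_one (not_prime_of hk hk1) S.a1
  rw [hk] at h3 h4
  have h9 : 1 + w a * charDegree (a : G → ℂ) = δ * charDegree (η : G → ℂ) := by
    have h1 := S.rel0 hM hη (g := 1) (by rw [orderOf_one]; exact hp.out.not_dvd_one)
    rw [(IsIrr.one_eq a.2).1, (IsIrr.one_eq η.2).1] at h1
    have h2 : ((1 + w a * (charDegree (a : G → ℂ) : ℤ) - δ * (charDegree (η : G → ℂ) : ℤ) : ℤ) : ℂ) = 0 := by
      push_cast; exact h1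
    have h3 : (1 + w a * (charDegree (a : G → ℂ) : ℤ) - δ * (charDegree (η : G → ℂ) : ℤ) : ℤ) = 0 := by exact_mod_cast h2
    linarith
  refine ⟨?_, mod_one_of S.wa (by omega) h5, ?_, ?_, h9⟩
  · rw [natAbs_sgn S.wa]
    have := cop_pm (p := p) (m := 1) S.wa (Nat.coprime_one_left p)
    rw [Nat.cast_one, one_mul] at this
    exact dvd_of_sub this h3 h5
  · rw [natAbs_sgn S.wa]; exact h7
  · rw [h9, natAbs_sgn S.D.sgn]
    have := cop_pm (p := p) (m := 2) S.D.sgn ((Nat.coprime_primes Nat.prime_two hp.out).2 (by omega))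
    exact dvd_of_sub this h4 h6

theorem SX.num [IsSimpleGroup G] {a b : IrrCharacter G} (hM : IsPModular p M) (hP : Nat.card (P : Subgroup G) = p) (hp7 : 5 ≤ p) {k : ℕ}
    (hk : Nat.card G = p * k) (hk1 : k ≠ 1) (h : FH P 3) (S : SX M P w δ ζ a b) {η : IrrCharacter G} (hη : η ∈ YY ζ) :
    ((w a * charDegree (a : G → ℂ)).natAbs ∣ k ∧ (w a * charDegree (a : G → ℂ)) % p = 1 ∧ (w a * charDegree (a : G → ℂ)).natAbs ≠ 1) ∧
    ((w b * charDegree (b : G → ℂ)).natAbs ∣ k ∧ (w b * charDegree (b : G → ℂ)) % p = 1 ∧ (w b * charDegree (b : G → ℂ)).natAbs ≠ 1) ∧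
      (1 + (w a * charDegree (a : G → ℂ)) + (w b * charDegree (b : G → ℂ))).natAbs ∣ k ∧
      1 + w a * charDegree (a : G → ℂ) + w b * charDegree (b : G → ℂ) = δ * charDegree (η : G → ℂ) := by
  have h5 := S.D.degX h ((S.mem a).2 (Or.inr (Or.inl rfl)))
  have h5' := S.D.degX h ((S.mem b).2 (Or.inr (Or.inr rfl)))
  have h6 := S.D.degY h hη
  rw [hP] at h5 h5' h6
  have h3 := irr_degree_dvd a
  have h3' := irr_degree_dvd b
  have h4 := irr_degree_dvd η
  have h7 := deg_ne_one (not_prime_of hk hk1) S.a1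
  have h7' := deg_ne_one (not_prime_of hk hk1) S.b1
  rw [hk] at h3 h3' h4
  have h9 : 1 + w a * charDegree (a : G → ℂ) + w b * charDegree (b : G → ℂ) = δ * charDegree (η : G → ℂ) := by
    have h1 := S.rel0 hM hη (g := 1) (by rw [orderOf_one]; exact hp.out.not_dvd_one)
    rw [(IsIrr.one_eq a.2).1, (IsIrr.one_eq b.2).1, (IsIrr.one_eq η.2).1] at h1
    have h2 : ((1 + w a * (charDegree (a : G → ℂ) : ℤ) + w b * (charDegree (b : G → ℂ) : ℤ) - δ * (charDegree (η : G → ℂ) : ℤ) : ℤ) : ℂ) = 0 := by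
      push_cast; linear_combination h1
    have h3 : (1 + w a * (charDegree (a : G → ℂ) : ℤ) + w b * (charDegree (b : G → ℂ) : ℤ) - δ * (charDegree (η : G → ℂ) : ℤ) : ℤ) = 0 := by
      exact_mod_cast h2
    linarith
  have hc1 := cop_pm (p := p) (m := 1) S.wa (Nat.coprime_one_left p)
  have hc1' := cop_pm (p := p) (m := 1) S.wb (Nat.coprime_one_left p)
  rw [Nat.cast_one, one_mul] at hc1 hc1'
  refine ⟨⟨?_, mod_one_of S.wa (by omega) h5, ?_⟩, ⟨?_, mod_one_of S.wb (by omega) h5', ?_⟩, ?_, h9⟩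
  · rw [natAbs_sgn S.wa]; exact dvd_of_sub hc1 h3 h5
  · rw [natAbs_sgn S.wa]; exact h7
  · rw [natAbs_sgn S.wb]; exact dvd_of_sub hc1' h3' h5'
  · rw [natAbs_sgn S.wb]; exact h7'
  · rw [h9, natAbs_sgn S.D.sgn]
    have := cop_pm (p := p) (m := 3) S.D.sgn ((Nat.coprime_primes Nat.prime_three hp.out).2 (by omega))
    exact dvd_of_sub this h4 h6

open Classical in
theorem S2.relF {a : IrrCharacter G} (h : FH P 2) (S : S2 M P w δ ζ a) [Fintype ((P : Subgroup G) →* ℂˣ)] (F : IrrCharacter G → ℂ)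
    {x : (P : Subgroup G)} (hx : x ≠ 1) :
    ∑ χ : IrrCharacter G, (if χ ∈ principalBlock M G then F χ * (χ : G → ℂ) x else 0) =
      F (irrOne G) + F a * w a +
        δ * ∑ ψ : (P : Subgroup G) →* ℂˣ, (if ψ ≠ 1 then F (ζ ψ) * (ψ x : ℂ) else 0) := by
  rw [S.D.sum_val h F hx]
  congr 1
  have h1 := sum_split S.D (fun χ => F χ * (w χ : ℂ))
  have h2 : ∑ χ : IrrCharacter G, (if χ ∈ XX M ζ then F χ * (w χ : ℂ) else 0) = F (irrOne G) + F a * w a := by
    rw [← Finset.sum_filter]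
    have h3 : (Finset.univ.filter fun χ : IrrCharacter G => χ ∈ XX M ζ) = {irrOne G, a} := by
      ext χ
      rw [Finset.mem_filter, Finset.mem_insert, Finset.mem_singleton, S.mem]
      exact ⟨fun h => h.2, fun h => ⟨Finset.mem_univ _, h⟩⟩
    rw [h3, Finset.sum_pair (fun h => S.a1 h.symm), S.w1]
    push_cast; ring
  rw [h1, h2]
  rw [Finset.sum_eq_zero (s := Finset.univ) (f := fun χ : IrrCharacter G => if χ ∈ YY ζ then F χ * (w χ : ℂ) else 0)]
  · ring
  · intro χ _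
    split_ifs with h2
    · obtain ⟨ψ, _, rfl⟩ := h2
      rw [S.D.wd]; push_cast; ring
    · rfl

end Main

section Order2016

variable {G : Type*} [Group G] [Finite G] [IsSimpleGroup G]

theorem order2016 : Nat.card G ≠ 2016 := by
  intro hG
  haveI := Fintype.ofFinite G
  haveI : Fact (Nat.Prime 7) := ⟨by norm_num⟩
  obtain ⟨P⟩ : Nonempty (Sylow 7 G) := inferInstance
  have hP := sylow_card_prime P (by rw [hG]; norm_num) (by rw [hG]; norm_num)
  have hk : Nat.card G = 7 * 288 := by rw [hG]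
  have hnp := not_prime_of hk (by norm_num)
  obtain ⟨n, c, hn, hc, h1, h2, h3, h4, h5⟩ := syl_data P hP hk (by norm_num)
  have hn3 : n = 8 ∨ n = 36 ∨ n = 288 := by
    have h6 : n ∣ 288 := ⟨_, h1.symm⟩
    have h7 : n ∈ Finset.range 289 := by
      rw [Finset.mem_range]; have := Nat.le_of_dvd (by norm_num) h6; omega
    have key : ∀ n ∈ Finset.range 289, n ∣ 288 → n % 7 = 1 → n ≠ 1 → n = 8 ∨ n = 36 ∨ n = 288 := by decide +kernel
    exact key n h7 h6 h2 h3
  rcases hn3 with rfl | rfl | rfl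
  · have h6 := norm_dvd_of_succ hP hn.symm
    rw [eP_mul hP, hc] at h6
    have h7 : eP P * (7 * c) = 7 * 36 := by
      have : eP P * c = 36 := by omega
      rw [mul_left_comm, this]
    rw [h7] at h6
    revert h6; decide
  · have h8 : eP P * c = 8 := by omega
    have he : eP P = 2 := by
      have h9 : eP P ∣ Nat.gcd 8 6 := Nat.dvd_gcd ⟨c, h8.symm⟩ h4
      rcases (Nat.dvd_prime Nat.prime_two).1 h9 with h10 | h10
      · exact absurd h10 h5
      · exact h10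
    have hc4 : c = 4 := by rw [he] at h8; omega
    obtain ⟨M, hM⟩ := exists_isPModular 7
    have h : FH P 2 := by rw [← he]; exact FH.of_prime hP
    obtain ⟨w, δ, ζ, a, S⟩ := h.exists_S2 hM (by rw [hP])
    obtain ⟨ψ, -, hψ, -⟩ := h.exists_nonrel (by rw [hP]; norm_num)
    obtain ⟨e1, e2, e3, e4, e5⟩ := S.num hM hP (le_refl _) hk (by norm_num) h (η := ζ ψ) ⟨ψ, hψ, rfl⟩
    have key : ∀ x ∈ Finset.Icc (-((288 : ℕ) : ℤ)) ((288 : ℕ) : ℤ), x.natAbs ∣ 288 → x % 7 = 1 → x.natAbs ≠ 1 → (1 + x).natAbs ∣ 288 → x = 8 := by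
      decide +kernel
    have hx := key _ (mem_Icc_of_natAbs_dvd (by norm_num) e1) e1 (by exact_mod_cast e2) e3 e4
    have hdeg : charDegree (a : G → ℂ) = 8 := by
      have := natAbs_sgn (a := charDegree (a : G → ℂ)) S.wa
      rw [hx] at this
      exact this.symm
    haveI : Fact (Nat.Prime 2) := ⟨Nat.prime_two⟩
    obtain ⟨v, hv⟩ := exists_prime_orderOf_dvd_card' (G := cP P) 2 (by rw [hc, hc4]; norm_num)
    have hv' : orderOf (v : G) = 2 := by rw [Subgroup.orderOf_coe, hv]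
    exact no_invol_cent hnp hM (by norm_num) hP h S.D ((S.mem a).2 (Or.inr rfl)) S.a1 (by rw [hdeg]; norm_num) v.2 hv'
  · have h8 : eP P * c = 1 := by omega
    exact h5 (Nat.eq_one_of_mul_eq_one_right h8)

end Order2016

end CfsgH5
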