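import Cfsg.Agent.H5.SmS6

/-!
# The order 4032
-/

set_option autoImplicit false

open Cfsg MonoidAlgebra
open CfsgH4 hiding centralChar sum_conj regInner_symm

namespace CfsgH5

open scoped ComplexConjugate

section Main

variable {G : Type*} [Group G] [Fintype G] {p : ℕ} [hp : Fact p.Prime]
variable {P : Sylow p G} {M : Ideal AlgInt}
variable {w : IrrCharacter G → ℤ} {d δ : ℤ} {ζ : ((P : Subgroup G) →* ℂˣ) → IrrCharacter G}

open Classical in
/-- the pairs of conjugates of `t` with product `y` -/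
noncomputable def pairN (t y : G) : ℕ := (Finset.univ.filter fun g : G => IsConj t g ∧ IsConj t (g⁻¹ * y)).card

open Classical in
theorem pair_sum (t y : G) : ∑ a : G, ∑ b : G, (if a * t * a⁻¹ * (b * t * b⁻¹) = y then (1 : ℂ) else 0) =
    (Nat.card (Subgroup.centralizer ({t} : Set G)) : ℂ) ^ 2 * (pairN t y : ℂ) := by
  have h1 : ∀ a : G, ∑ b : G, (if a * t * a⁻¹ * (b * t * b⁻¹) = y then (1 : ℂ) else 0) =
      (Nat.card (Subgroup.centralizer ({t} : Set G)) : ℂ) * (if IsConj t ((a * t * a⁻¹)⁻¹ * y) then 1 else 0) := by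
    intro a
    have h2 := CfsgH5.sum_conj (fun g => if a * t * a⁻¹ * g = y then (1 : ℂ) else 0) t
    rw [h2, nsmul_eq_mul]
    congr 1
    have h3 : ∀ g : G, (if IsConj t g then (if a * t * a⁻¹ * g = y then (1 : ℂ) else 0) else 0) =
        if g = (a * t * a⁻¹)⁻¹ * y then (if IsConj t ((a * t * a⁻¹)⁻¹ * y) then 1 else 0) else 0 := by
      intro g
      by_cases h4 : g = (a * t * a⁻¹)⁻¹ * y
      · rw [if_pos h4, ← h4]
        have h5 : a * t * a⁻¹ * g = y := by rw [h4, mul_inv_cancel_left]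
        rw [if_pos h5]
      · rw [if_neg h4]
        have h5 : ¬ a * t * a⁻¹ * g = y := fun h => h4 (by rw [← h, inv_mul_cancel_left])
        rw [if_neg h5]; split_ifs <;> rfl
    rw [Finset.sum_congr rfl fun g _ => h3 g, Finset.sum_ite_eq' Finset.univ, if_pos (Finset.mem_univ _)]
  rw [Finset.sum_congr rfl fun a _ => h1 a, ← Finset.mul_sum]
  have h2 := CfsgH5.sum_conj (fun g => if IsConj t (g⁻¹ * y) then (1 : ℂ) else 0) t
  rw [h2, nsmul_eq_mul, sq, mul_assoc]
  congr 2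
  unfold pairN
  rw [Finset.card_filter]
  push_cast
  refine Finset.sum_congr rfl fun g _ => ?_
  split_ifs <;> simp_all

/-- the number of pairs is `0` or `p` for an involution and a self-centralizing Sylow subgroup of order `p` -/
theorem pairN_eq (hP : Nat.card (P : Subgroup G) = p) (hp2 : p ≠ 2) (hc : cP P = P) {t y : G} (ht : t * t = 1)
    (hy : y ∈ (P : Subgroup G)) (hy1 : y ≠ 1) : pairN t y = 0 ∨ pairN t y = p := by
  classical
  by_cases hne : ∃ g : G, IsConj t g ∧ IsConj t (g⁻¹ * y)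
  swap
  · left
    unfold pairN
    rw [Finset.card_eq_zero, Finset.filter_eq_empty_iff]
    intro g _ hg
    exact hne ⟨g, hg⟩
  right
  have hconj2 : ∀ g : G, IsConj t g → g * g = 1 := by
    intro g hg
    obtain ⟨c, rfl⟩ := isConj_iff.1 hg
    calc c * t * c⁻¹ * (c * t * c⁻¹) = c * (t * t) * c⁻¹ := by group
      _ = 1 := by rw [ht]; group
  -- an element in the set inverts y
  have hinv : ∀ g : G, IsConj t g → IsConj t (g⁻¹ * y) → g * y * g⁻¹ = y⁻¹ := by
    intro g h1 h2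
    have h3 := hconj2 _ h1
    have h4 := hconj2 _ h2
    have h5 : g⁻¹ = g := inv_eq_of_mul_eq_one_left h3
    rw [h5] at h4 ⊢
    have h6 : g * y * g * y = 1 := by rw [mul_assoc]; exact h4
    exact eq_inv_of_mul_eq_one_left h6
  have hcy : Subgroup.centralizer ({y} : Set G) = P := by
    apply le_antisymm
    · rw [← hc]
      intro c hc'
      rw [Subgroup.mem_centralizer_iff]
      intro a ha
      rw [SetLike.mem_coe, ← zpowers_eq_of_prime hP hy hy1] at ha
      obtain ⟨k, rfl⟩ := Subgroup.mem_zpowers_iff.1 ha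
      have h1 := Subgroup.mem_centralizer_singleton_iff.1 hc'
      exact (show Commute y c from h1.symm).zpow_left k
    · exact (FH.of_prime hP).P_le_cent hy
  obtain ⟨g0, hg1, hg2⟩ := hne
  have h0inv := hinv g0 hg1 hg2
  have h0sq := hconj2 g0 hg1
  have h0i : g0⁻¹ = g0 := inv_eq_of_mul_eq_one_left h0sq
  -- g0 inverts all of P
  have h0P : ∀ u ∈ (P : Subgroup G), g0 * u * g0⁻¹ = u⁻¹ := by
    intro u hu
    rw [← zpowers_eq_of_prime hP hy hy1] at hu
    obtain ⟨k, rfl⟩ := Subgroup.mem_zpowers_iff.1 hu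
    rw [← conj_zpow, h0inv, inv_zpow]
  have hpodd : Odd p := hp.out.odd_of_ne_two hp2
  have hcl : ∀ u ∈ (P : Subgroup G), IsConj t (g0 * u) := by
    intro u hu
    refine hg1.trans ?_
    -- u = s^2
    obtain ⟨k, hk⟩ := hpodd
    have hup : u ^ p = 1 := by
      have h1 : (⟨u, hu⟩ : (P : Subgroup G)) ^ Nat.card (P : Subgroup G) = 1 := pow_card_eq_one'
      have h2 : u ^ Nat.card (P : Subgroup G) = 1 := congrArg Subtype.val h1
      rwa [hP] at h2
    have hs : u = u ^ (k + 1) * u ^ (k + 1) := by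
      rw [← pow_add, show k + 1 + (k + 1) = p + 1 by omega, pow_succ, hup, one_mul]
    rw [isConj_iff]
    refine ⟨(u ^ (k + 1))⁻¹, ?_⟩
    rw [inv_inv]
    have h2 := h0P (u ^ (k + 1)) (pow_mem hu _)
    have h3 : (u ^ (k + 1))⁻¹ * g0 = g0 * u ^ (k + 1) := by
      rw [← h2, inv_mul_cancel_right]
    rw [h3, mul_assoc, ← hs]
  have hset : (Finset.univ.filter fun g : G => IsConj t g ∧ IsConj t (g⁻¹ * y)) =
      (Finset.univ.filter fun u : G => u ∈ (P : Subgroup G)).image (fun u => g0 * u) := by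
    ext g
    rw [Finset.mem_filter, Finset.mem_image]
    constructor
    · rintro ⟨-, h1, h2⟩
      refine ⟨g0⁻¹ * g, ?_, by rw [mul_inv_cancel_left]⟩
      rw [Finset.mem_filter]
      refine ⟨Finset.mem_univ _, ?_⟩
      rw [← hcy, Subgroup.mem_centralizer_singleton_iff]
      have h3 := hinv g h1 h2
      have h4 : g⁻¹ * y * g = y⁻¹ := by
        have h5 : g⁻¹ = g := inv_eq_of_mul_eq_one_left (hconj2 g h1)
        rw [h5] at h3 ⊢; exact h3
      have h5 : g0⁻¹ * y⁻¹ * g0 = y := by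
        rw [← h0inv]; group
      have h6 : g * y = y⁻¹ * g := by rw [← h3]; group
      have h7 : g0⁻¹ * y⁻¹ = y * g0⁻¹ := by
        calc g0⁻¹ * y⁻¹ = (g0⁻¹ * y⁻¹ * g0) * g0⁻¹ := by group
          _ = _ := by rw [h5]
      rw [mul_assoc, h6, ← mul_assoc, h7, mul_assoc]
    · rintro ⟨u, hu, rfl⟩
      rw [Finset.mem_filter] at hu
      refine ⟨Finset.mem_univ _, hcl u hu.2, ?_⟩
      have h1 : (g0 * u)⁻¹ = g0 * u := inv_eq_of_mul_eq_one_left (hconj2 _ (hcl u hu.2))
      rw [h1, mul_assoc]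
      exact hcl _ (mul_mem hu.2 hy)
  unfold pairN
  rw [hset, Finset.card_image_of_injective _ (mul_right_injective g0)]
  refine Eq.trans ?_ hP
  rw [Nat.card_eq_fintype_card, Fintype.card_subtype]

/-- the key relation -/
theorem S2.key {a : IrrCharacter G} (hM : IsPModular p M) (hP : Nat.card (P : Subgroup G) = p) (hp2 : p ≠ 2) (hc : cP P = P) (h : FH P 2)
    (S : S2 M P w δ ζ a) {t y : G} (ht : t * t = 1) (hy : y ∈ (P : Subgroup G)) (hy1 : y ≠ 1) {η : IrrCharacter G} (hη : η ∈ YY ζ) :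
    (Nat.card (Subgroup.centralizer ({t} : Set G)) : ℂ) ^ 2 * (pairN t y : ℂ) = (Nat.card G : ℂ) *
      (1 + conj ((a : G → ℂ) t * (a : G → ℂ) t) / (a : G → ℂ) 1 * w a - δ * (conj ((η : G → ℂ) t * (η : G → ℂ) t) / (η : G → ℂ) 1)) := by
  classical
  have hcy : Subgroup.centralizer ({y} : Set G) = P := by
    apply le_antisymm
    · rw [← hc]
      intro c hc'
      rw [Subgroup.mem_centralizer_iff]
      intro a ha
      rw [SetLike.mem_coe, ← zpowers_eq_of_prime hP hy hy1] at ha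
      obtain ⟨k, rfl⟩ := Subgroup.mem_zpowers_iff.1 ha
      have h1 := Subgroup.mem_centralizer_singleton_iff.1 hc'
      exact (show Commute y c from h1.symm).zpow_left k
    · exact h.P_le_cent hy
  have h1 := sec_pairs hM (FH.ppow P hy) (h.npc hy hy1) t t
  have hcard : Nat.card (Subgroup.centralizer ({y} : Set G)) = p := by rw [hcy, hP]
  have hfac : p ^ (Nat.card (Subgroup.centralizer ({y} : Set G))).factorization p = p := by rw [h.card_cent hy, hP]
  rw [hfac, hcard] at h1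
  have hpp : ∀ g : G, IsPPart p g y ↔ g = y := by
    intro g
    constructor
    · rintro ⟨v, hv1, hv2, -, hv4⟩
      have h2 : v ∈ (P : Subgroup G) := by rw [← hcy, Subgroup.mem_centralizer_singleton_iff]; exact hv2.symm
      have h3 : orderOf v ∣ p := by
        have := orderOf_dvd_natCard (⟨v, h2⟩ : (P : Subgroup G))
        rw [hP, Subgroup.orderOf_mk] at this; exact this
      rcases (Nat.dvd_prime hp.out).1 h3 with h4 | h4
      · rw [← hv1, orderOf_eq_one_iff.1 h4, mul_one]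
      · exact absurd (by rw [h4]) hv4
    · rintro rfl
      exact ⟨1, mul_one _, Commute.one_right _, FH.ppow P hy, by rw [orderOf_one]; exact hp.out.not_dvd_one⟩
  have h2 : (∑ a : G, ∑ b : G, (if IsPPart p (a * t * a⁻¹ * (b * t * b⁻¹)) y then (1 : ℂ) else 0)) =
      ∑ a : G, ∑ b : G, (if a * t * a⁻¹ * (b * t * b⁻¹) = y then (1 : ℂ) else 0) := by
    refine Finset.sum_congr rfl fun a _ => Finset.sum_congr rfl fun b _ => ?_
    by_cases h3 : a * t * a⁻¹ * (b * t * b⁻¹) = y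
    · rw [if_pos ((hpp _).2 h3), if_pos h3]
    · rw [if_neg (fun h4 => h3 ((hpp _).1 h4)), if_neg h3]
  rw [h2, pair_sum] at h1
  have hp0 : (p : ℂ) ≠ 0 := by exact_mod_cast hp.out.ne_zero
  have h3 : (Nat.card (Subgroup.centralizer ({t} : Set G)) : ℂ) ^ 2 * (pairN t y : ℂ) = (Nat.card G : ℂ) *
      ∑ ζ : IrrCharacter G, (if ζ ∈ principalBlock M G then
        (ζ : G → ℂ) y * conj ((ζ : G → ℂ) t * (ζ : G → ℂ) t) / (ζ : G → ℂ) 1 else 0) := by
    apply mul_left_cancel₀ hp0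
    rw [h1]; ring
  rw [h3]
  congr 1
  haveI : Finite ((P : Subgroup G) →* ℂˣ) := finite_hom _
  haveI := Fintype.ofFinite ((P : Subgroup G) →* ℂˣ)
  have h4 := S.relF h (fun χ => conj ((χ : G → ℂ) t * (χ : G → ℂ) t) / (χ : G → ℂ) 1) (x := ⟨y, hy⟩) (fun h' => hy1 (congrArg Subtype.val h'))
  have h5 : ∑ ζ : IrrCharacter G, (if ζ ∈ principalBlock M G then
        (ζ : G → ℂ) y * conj ((ζ : G → ℂ) t * (ζ : G → ℂ) t) / (ζ : G → ℂ) 1 else 0) =
      ∑ χ : IrrCharacter G, (if χ ∈ principalBlock M G then (conj ((χ : G → ℂ) t * (χ : G → ℂ) t) / (χ : G → ℂ) 1) * (χ : G → ℂ) ((⟨y, hy⟩ : (P : Subgroup G)) : G) else 0) := by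
    refine Finset.sum_congr rfl fun χ _ => ?_
    split_ifs
    · show _ = _ * (χ : G → ℂ) y
      ring
    · rfl
  rw [h5, h4]
  have hone : (1 : ℕ) = 1 := rfl
  have ht2 : ¬ p ∣ orderOf t := by
    intro h6
    have h7 : orderOf t ∣ 2 := orderOf_dvd_of_pow_eq_one (by rw [sq]; exact ht)
    exact hp2 ((Nat.prime_dvd_prime_iff_eq hp.out Nat.prime_two).1 (h6.trans h7))
  have h11 : ¬ p ∣ orderOf (1 : G) := by rw [orderOf_one]; exact hp.out.not_dvd_one
  have h6 : ∑ ψ : (P : Subgroup G) →* ℂˣ, (if ψ ≠ 1 then (conj ((ζ ψ : G → ℂ) t * (ζ ψ : G → ℂ) t) / (ζ ψ : G → ℂ) 1) *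
      (ψ (⟨y, hy⟩ : (P : Subgroup G)) : ℂ) else 0) = (conj ((η : G → ℂ) t * (η : G → ℂ) t) / (η : G → ℂ) 1) * (-1) := by
    rw [← h.sum_ne_one (x := ⟨y, hy⟩) (fun h' => hy1 (congrArg Subtype.val h')), Finset.mul_sum]
    refine Finset.sum_congr rfl fun ψ _ => ?_
    split_ifs with h7
    · rw [S.D.reg_agree hM (η := ζ ψ) (η' := η) ⟨ψ, h7, rfl⟩ hη ht2, S.D.reg_agree hM (η := ζ ψ) (η' := η) ⟨ψ, h7, rfl⟩ hη h11]
    · ring
  rw [h6]
  have h7 : ((irrOne G : IrrCharacter G) : G → ℂ) t = 1 := rfl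
  have h8 : ((irrOne G : IrrCharacter G) : G → ℂ) 1 = 1 := rfl
  rw [h7, h8, map_mul, map_one]
  ring

end Main

section Order4032

variable {G : Type*} [Group G] [Finite G] [IsSimpleGroup G]

theorem order4032 : Nat.card G ≠ 4032 := by
  intro hG
  haveI := Fintype.ofFinite G
  haveI : Fact (Nat.Prime 7) := ⟨by norm_num⟩
  obtain ⟨P⟩ : Nonempty (Sylow 7 G) := inferInstance
  have hP := sylow_card_prime P (by rw [hG]; norm_num) (by rw [hG]; norm_num)
  have hk : Nat.card G = 7 * 576 := by rw [hG]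
  have hnp := not_prime_of hk (by norm_num)
  obtain ⟨n, c, hn, hc, h1, h2, h3, h4, h5⟩ := syl_data P hP hk (by norm_num)
  have hn3 : n = 8 ∨ n = 36 ∨ n = 64 ∨ n = 288 := by
    have h6 : n ∣ 576 := ⟨_, h1.symm⟩
    have h7 : n ∈ Finset.range 577 := by
      rw [Finset.mem_range]; have := Nat.le_of_dvd (by norm_num) h6; omega
    have key : ∀ n ∈ Finset.range 577, n ∣ 576 → n % 7 = 1 → n ≠ 1 → n = 8 ∨ n = 36 ∨ n = 64 ∨ n = 288 := by decide +kernel
    exact key n h7 h6 h2 h3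
  obtain ⟨M, hM⟩ := exists_isPModular 7
  haveI : Fact (Nat.Prime 2) := ⟨Nat.prime_two⟩
  haveI : Fact (Nat.Prime 3) := ⟨Nat.prime_three⟩
  have kx : ∀ x ∈ Finset.Icc (-((576 : ℕ) : ℤ)) ((576 : ℕ) : ℤ), x.natAbs ∣ 576 → x % 7 = 1 → x.natAbs ≠ 1 →
      x ∈ ({8, 36, 64, 288, -6, -48} : Finset ℤ) := by
    decide +kernel
  have kx8 : ∀ x ∈ ({8, 36, 64, 288, -6, -48} : Finset ℤ), (1 + x).natAbs ∣ 576 → x = 8 := by decide +kernel
  rcases hn3 with rfl | rfl | rfl | rfl
  · have h6 := norm_dvd_of_succ hP hn.symm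
    rw [eP_mul hP, hc] at h6
    have h7 : eP P * (7 * c) = 7 * 72 := by
      have : eP P * c = 72 := by omega
      rw [mul_left_comm, this]
    rw [h7] at h6
    revert h6; decide
  · have h8 : eP P * c = 16 := by omega
    have he : eP P = 2 := by
      have h9 : eP P ∣ Nat.gcd 16 6 := Nat.dvd_gcd ⟨c, h8.symm⟩ h4
      rcases (Nat.dvd_prime Nat.prime_two).1 h9 with h10 | h10
      · exact absurd h10 h5
      · exact h10
    have hc4 : c = 8 := by rw [he] at h8; omega
    have h : FH P 2 := by rw [← he]; exact FH.of_prime hP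
    obtain ⟨w, δ, ζ, a, S⟩ := h.exists_S2 hM (by rw [hP])
    obtain ⟨ψ, -, hψ, -⟩ := h.exists_nonrel (by rw [hP]; norm_num)
    obtain ⟨e1, e2, e3, e4, e5⟩ := S.num hM hP (le_refl _) hk (by norm_num) h (η := ζ ψ) ⟨ψ, hψ, rfl⟩
    have hx := kx8 _ (kx _ (mem_Icc_of_natAbs_dvd (by norm_num) e1) e1 (by exact_mod_cast e2) e3) e4
    have hdeg : charDegree (a : G → ℂ) = 8 := by
      have := natAbs_sgn (a := charDegree (a : G → ℂ)) S.wa
      rw [hx] at this
      exact this.symm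
    obtain ⟨v, hv⟩ := exists_prime_orderOf_dvd_card' (G := cP P) 2 (by rw [hc, hc4]; norm_num)
    have hv' : orderOf (v : G) = 2 := by rw [Subgroup.orderOf_coe, hv]
    exact no_invol_cent hnp hM (by norm_num) hP h S.D ((S.mem a).2 (Or.inr rfl)) S.a1 (by rw [hdeg]; norm_num) v.2 hv'
  · have h8 : eP P * c = 9 := by omega
    have he : eP P = 3 := by
      have h9 : eP P ∣ Nat.gcd 9 6 := Nat.dvd_gcd ⟨c, h8.symm⟩ h4
      rcases (Nat.dvd_prime Nat.prime_three).1 h9 with h10 | h10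
      · exact absurd h10 h5
      · exact h10
    have hc4 : c = 3 := by rw [he] at h8; omega
    have h : FH P 3 := by rw [← he]; exact FH.of_prime hP
    obtain ⟨w, δ, ζ, a, b, S⟩ := h.exists_SX hM (by rw [hP]; norm_num)
    obtain ⟨ψ, -, hψ, -⟩ := h.exists_nonrel (by rw [hP]; norm_num)
    obtain ⟨⟨e1, e2, e3⟩, ⟨f1, f2, f3⟩, g1, g2⟩ := S.num hM hP (by norm_num) hk (by norm_num) h (η := ζ ψ) ⟨ψ, hψ, rfl⟩
    have hx := kx _ (mem_Icc_of_natAbs_dvd (by norm_num) e1) e1 (by exact_mod_cast e2) e3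
    have hy := kx _ (mem_Icc_of_natAbs_dvd (by norm_num) f1) f1 (by exact_mod_cast f2) f3
    have kxy : ∀ x ∈ ({8, 36, 64, 288, -6, -48} : Finset ℤ), ∀ y ∈ ({8, 36, 64, 288, -6, -48} : Finset ℤ),
        (1 + x + y).natAbs ∣ 576 → x = -6 ∨ y = -6 := by decide +kernel
    obtain ⟨v, hv⟩ := exists_prime_orderOf_dvd_card' (G := cP P) 3 (by rw [hc, hc4]; norm_num)
    have hv' : orderOf (v : G) = 3 := by rw [Subgroup.orderOf_coe, hv]
    have hv1 : (v : G) ≠ 1 := by intro h'; rw [h', orderOf_one] at hv'; omega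
    rcases kxy _ hx _ hy g1 with hz | hz
    · have hdeg : charDegree (a : G → ℂ) = 6 := by
        have := natAbs_sgn (a := charDegree (a : G → ℂ)) S.wa
        rw [hz] at this
        exact this.symm
      exact no_small_cent hM hP h S.D ((S.mem a).2 (Or.inr (Or.inl rfl))) S.a1 (by rw [hdeg]; norm_num) v.2 hv1 (by rw [hv']; norm_num)
    · have hdeg : charDegree (b : G → ℂ) = 6 := by
        have := natAbs_sgn (a := charDegree (b : G → ℂ)) S.wb
        rw [hz] at this
        exact this.symm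
      exact no_small_cent hM hP h S.D ((S.mem b).2 (Or.inr (Or.inr rfl))) S.b1 (by rw [hdeg]; norm_num) v.2 hv1 (by rw [hv']; norm_num)
  · have h8 : eP P * c = 2 := by omega
    have he : eP P = 2 := by
      have h9 : eP P ∣ 2 := ⟨c, h8.symm⟩
      rcases (Nat.dvd_prime Nat.prime_two).1 h9 with h10 | h10
      · exact absurd h10 h5
      · exact h10
    have hc4 : c = 1 := by rw [he] at h8; omega
    have hPc : cP P = P := by
      have h9 : (P : Subgroup G) ≤ cP P := by
        intro a ha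
        rw [Subgroup.mem_centralizer_iff]
        intro b hb
        exact (FH.of_prime hP).ab b hb a ha
      exact (Subgroup.eq_of_le_of_card_ge h9 (by rw [hc, hc4, hP])).symm
    have h : FH P 2 := by rw [← he]; exact FH.of_prime hP
    obtain ⟨w, δ, ζ, a, S⟩ := h.exists_S2 hM (by rw [hP])
    obtain ⟨ψ, -, hψ, -⟩ := h.exists_nonrel (by rw [hP]; norm_num)
    have hη : ζ ψ ∈ YY ζ := ⟨ψ, hψ, rfl⟩
    obtain ⟨e1, e2, e3, e4, e5⟩ := S.num hM hP (le_refl _) hk (by norm_num) h (η := ζ ψ) hη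
    have hx := kx8 _ (kx _ (mem_Icc_of_natAbs_dvd (by norm_num) e1) e1 (by exact_mod_cast e2) e3) e4
    have hdeg : charDegree (a : G → ℂ) = 8 := by
      have := natAbs_sgn (a := charDegree (a : G → ℂ)) S.wa
      rw [hx] at this
      exact this.symm
    have hwa : w a = 1 := by
      rcases S.wa with h' | h'
      · exact h'
      · rw [h', hdeg] at hx; norm_num at hx
    rw [hx] at e5
    have hδ : δ = 1 := by
      rcases S.D.sgn with h' | h'
      · exact h'
      · rw [h'] at e5; omega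
    have hdη : charDegree (ζ ψ : G → ℂ) = 9 := by rw [hδ] at e5; omega
    obtain ⟨t, ht⟩ := exists_prime_orderOf_dvd_card' (G := G) 2 (by rw [hG]; norm_num)
    have htt : t * t = 1 := by rw [← sq, ← ht]; exact pow_orderOf_eq_one t
    have ht1 : t ≠ 1 := by rintro rfl; rw [orderOf_one] at ht; omega
    obtain ⟨y, hy⟩ := exists_prime_orderOf_dvd_card' (G := (P : Subgroup G)) 7 (by rw [hP])
    have hy' : orderOf (y : G) = 7 := by rw [Subgroup.orderOf_coe, hy]
    have hy1 : (y : G) ≠ 1 := by intro h'; rw [h', orderOf_one] at hy'; omega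
    have hkey := S.key hM hP (by norm_num) hPc h htt y.2 hy1 hη
    obtain ⟨x, hx1, hx2, -⟩ := val_lt htt (simple_htop ht1) S.a1
    have hrel := S.rel0 hM hη (g := t) (by rw [ht]; norm_num)
    rw [hwa, hδ, hx1] at hrel
    have hηt : (ζ ψ : G → ℂ) t = 1 + (x : ℂ) := by push_cast at hrel; linear_combination -hrel
    rw [hx1, hηt, (IsIrr.one_eq a.2).1, (IsIrr.one_eq (ζ ψ).2).1, hdeg, hdη, hwa, hδ, hG] at hkey
    obtain ⟨C, hC⟩ : ∃ C : ℕ, C = Nat.card (Subgroup.centralizer ({t} : Set G)) := ⟨_, rfl⟩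
    rw [← hC] at hkey
    have hCpos : 0 < C := by rw [hC]; exact Nat.card_pos
    have h9 : ((C : ℂ)) ^ 2 * (pairN t (y : G) : ℂ) = 56 * ((x : ℂ) - 8) ^ 2 := by
      rw [hkey]
      simp only [map_mul, map_add, map_one, map_intCast]
      push_cast
      ring
    have h10 : (C : ℤ) ^ 2 * (pairN t (y : G) : ℤ) = 56 * (x - 8) ^ 2 := by exact_mod_cast h9
    have hx8 : x < 8 := by rw [hdeg] at hx2; exact_mod_cast hx2
    rcases pairN_eq hP (by norm_num) hPc htt y.2 hy1 with h11 | h11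
    · rw [h11] at h10
      push_cast at h10
      have : 0 < (x - 8) ^ 2 := by nlinarith
      nlinarith
    · rw [h11] at h10
      push_cast at h10
      have h12 : (C : ℤ) ^ 2 = 8 * (x - 8) ^ 2 := by linarith
      -- 8 is not a square
      obtain ⟨z, hz⟩ : ∃ z : ℕ, (z : ℤ) = 8 - x := ⟨(8 - x).toNat, by omega⟩
      have h13 : C ^ 2 = 2 * (2 * z) ^ 2 := by
        have : (C : ℤ) ^ 2 = 2 * (2 * z) ^ 2 := by rw [hz, h12]; ring
        exact_mod_cast this
      have hz0 : 0 < 2 * z := by omega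
      have h14 : (C : ℝ) = Real.sqrt 2 * (2 * z : ℕ) := by
        have h15 : (C : ℝ) ^ 2 = (Real.sqrt 2 * (2 * z : ℕ)) ^ 2 := by
          rw [mul_pow, Real.sq_sqrt (by norm_num)]
          exact_mod_cast h13
        exact (sq_eq_sq₀ (by positivity) (by positivity)).1 h15
      have h15 : Irrational (Real.sqrt 2 * (2 * z : ℕ)) := irrational_sqrt_two.mul_natCast hz0.ne'
      rw [← h14] at h15
      exact (C.not_irrational) h15

end Order4032

end CfsgH5
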