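import Cfsg.Agent.H5.SmS7
import Cfsg.Agent.H4.Sec3

/-!
# Sylow subgroups of order `5`
-/

set_option autoImplicit false

open Cfsg MonoidAlgebra
open CfsgH4 hiding centralChar sum_conj regInner_symm

namespace CfsgH5

open scoped ComplexConjugate

section Gen

variable {G : Type*} [Group G] [Fintype G] {p : ℕ} [hp : Fact p.Prime]
variable {P : Sylow p G} {M : Ideal AlgInt}

/-- constant value on the elements with nontrivial `p`-part in `P` -/
def CV (P : Sylow p G) (χ : IrrCharacter G) (w0 : ℂ) : Prop :=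
  ∀ z y : G, IsPPart p z y → y ∈ (P : Subgroup G) → y ≠ 1 → (χ : G → ℂ) z = w0

theorem mult_centC (hP : Nat.card (P : Subgroup G) = p) {χ : IrrCharacter G} {w0 : ℂ} (hcv : CV P χ w0) {v : G} (hv : v ∈ cP P)
    (hvp : ¬ p ∣ orderOf v) [Fintype (Subgroup.zpowers v)]
    (μ : Subgroup.zpowers v →* ℂˣ) (hμ : μ ≠ 1) : ∃ k : ℕ, classInner (fun c : Subgroup.zpowers v => (χ : G → ℂ) c) (lch μ) = ((p * k : ℕ) : ℂ) := by
  classical
  haveI := Fintype.ofFinite (P : Subgroup G)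
  have hcp : ∀ c ∈ Subgroup.zpowers v, c ∈ cP P ∧ ¬ p ∣ orderOf c := by
    intro c hc
    refine ⟨(Subgroup.zpowers_le.2 hv) hc, fun h1 => hvp (h1.trans (orderOf_dvd_of_mem_zpowers hc))⟩
  have hC : ∀ (y : (P : Subgroup G)) (c : Subgroup.zpowers v), Commute (y : G) (c : G) := fun y c =>
    Subgroup.mem_centralizer_iff.1 (hcp c c.2).1 y y.2
  let ρ : ↥(P : Subgroup G) × ↥(Subgroup.zpowers v) →* G := MonoidHom.noncommCoprod (P : Subgroup G).subtype (Subgroup.zpowers v).subtype hC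
  obtain ⟨k, hk⟩ := IsCharacter.inner_irr_nat (isCharacter_comp ρ (IsIrr.isCharacter χ.2))
    (isCharacter_one_dim ((1 : (P : Subgroup G) →* ℂˣ).coprod μ))
  refine ⟨k, ?_⟩
  rw [classInner_def, Fintype.sum_prod_type, Nat.card_prod] at hk
  have h0 : ∑ c : Subgroup.zpowers v, conj (lch μ c) = 0 := by
    have h1 : classInner (lch (1 : Subgroup.zpowers v →* ℂˣ)) (lch μ) = 0 := by
      rw [lch_inner, if_neg (fun h' => hμ h'.symm)]
    rw [classInner_def] at h1
    have h2 := (mul_eq_zero.1 h1).resolve_left (inv_ne_zero (card_ne_zero _))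
    refine Eq.trans (Finset.sum_congr rfl fun c _ => ?_) h2
    show _ = (((1 : Subgroup.zpowers v →* ℂˣ) c : ℂˣ) : ℂ) * conj (lch μ c)
    rw [MonoidHom.one_apply, Units.val_one, one_mul]
  have h1 : ∀ y : (P : Subgroup G), y ≠ 1 → ∑ c : Subgroup.zpowers v, (χ : G → ℂ) (ρ (y, c)) *
      conj ((((1 : (P : Subgroup G) →* ℂˣ).coprod μ) (y, c) : ℂˣ) : ℂ) = 0 := by
    intro y hy
    have h2 : ∀ c : Subgroup.zpowers v, (χ : G → ℂ) (ρ (y, c)) * conj ((((1 : (P : Subgroup G) →* ℂˣ).coprod μ) (y, c) : ℂˣ) : ℂ) =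
        w0 * conj (lch μ c) := by
      intro c
      have h3 : (χ : G → ℂ) (ρ (y, c)) = w0 :=
        hcv _ _ (ppart_mulP hP y.2 (hcp c c.2).1 (hcp c c.2).2) y.2 (fun h' => hy (Subtype.ext h'))
      rw [h3, MonoidHom.coprod_apply, MonoidHom.one_apply, one_mul]
      rfl
    rw [Finset.sum_congr rfl fun c _ => h2 c, ← Finset.mul_sum, h0, mul_zero]
  rw [Finset.sum_eq_single (1 : (P : Subgroup G)) (fun y _ hy => h1 y hy) (fun h' => absurd (Finset.mem_univ _) h')] at hk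
  have h2 : ∀ c : Subgroup.zpowers v, (χ : G → ℂ) (ρ (1, c)) * conj ((((1 : (P : Subgroup G) →* ℂˣ).coprod μ) (1, c) : ℂˣ) : ℂ) =
      (χ : G → ℂ) c * conj (lch μ c) := by
    intro c
    have h3 : ρ (1, c) = (c : G) := by
      show ((1 : (P : Subgroup G)) : G) * (c : G) = c
      rw [OneMemClass.coe_one, one_mul]
    rw [h3, MonoidHom.coprod_apply, MonoidHom.one_apply, one_mul]; rfl
  rw [Finset.sum_congr rfl fun c _ => h2 c, hP] at hk
  rw [classInner_def]
  push_cast at hk ⊢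
  rw [← hk]
  have hp0 : (p : ℂ) ≠ 0 := by exact_mod_cast hp.out.ne_zero
  have hc0 : (Nat.card (Subgroup.zpowers v) : ℂ) ≠ 0 := by exact_mod_cast Nat.card_pos.ne'
  rw [mul_inv]
  field_simp

theorem zpow_ab (v : G) : ∀ a b : Subgroup.zpowers v, a * b = b * a := by
  rintro ⟨a, ha⟩ ⟨b, hb⟩
  obtain ⟨i, rfl⟩ := Subgroup.mem_zpowers_iff.1 ha
  obtain ⟨j, rfl⟩ := Subgroup.mem_zpowers_iff.1 hb
  exact Subtype.ext (zpow_mul_comm v i j)

/-- a real character of degree `< 2p` is trivial on elements of odd order centralizing `P` -/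
theorem real_cent (hP : Nat.card (P : Subgroup G) = p) {χ : IrrCharacter G} {w0 : ℂ} (hcv : CV P χ w0)
    (hreal : ∀ g, conj ((χ : G → ℂ) g) = (χ : G → ℂ) g)
    (hdeg : charDegree (χ : G → ℂ) < 2 * p) {v : G} (hv : v ∈ cP P) (hodd : Odd (orderOf v)) (hvp : ¬ p ∣ orderOf v) :
    (χ : G → ℂ) v = (χ : G → ℂ) 1 := by
  classical
  haveI := Fintype.ofFinite (Subgroup.zpowers v)
  haveI : Finite (Subgroup.zpowers v →* ℂˣ) := inferInstance
  haveI := Fintype.ofFinite (Subgroup.zpowers v →* ℂˣ)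
  have hab := zpow_ab v
  have hnat : ∀ μ : Subgroup.zpowers v →* ℂˣ, ∃ k : ℕ, classInner (fun c : Subgroup.zpowers v => (χ : G → ℂ) c) (lch μ) = (k : ℂ) := fun μ =>
    IsCharacter.inner_irr_nat (isCharacter_comp (Subgroup.zpowers v).subtype (IsIrr.isCharacter χ.2)) (isCharacter_one_dim μ)
  choose k hk using hnat
  have h1 := fourier_inv hab (fun c : Subgroup.zpowers v => (χ : G → ℂ) c) 1
  have h2 : charDegree (χ : G → ℂ) = ∑ μ : Subgroup.zpowers v →* ℂˣ, k μ := by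
    have h3 : (charDegree (χ : G → ℂ) : ℂ) = ((∑ μ : Subgroup.zpowers v →* ℂˣ, k μ : ℕ) : ℂ) := by
      rw [← (IsIrr.one_eq χ.2).1]
      push_cast
      refine Eq.trans (show (χ : G → ℂ) 1 = (χ : G → ℂ) ((1 : Subgroup.zpowers v) : G) by rw [OneMemClass.coe_one]) (h1.trans (Finset.sum_congr rfl fun μ _ => ?_))
      rw [hk μ, map_one, Units.val_one, mul_one]
    exact_mod_cast h3
  have hinv : ∀ μ : Subgroup.zpowers v →* ℂˣ, k μ⁻¹ = k μ := by
    intro μ
    have h3 : (k μ⁻¹ : ℂ) = conj (k μ : ℂ) := by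
      rw [← hk μ, ← hk μ⁻¹, classInner_def, classInner_def, map_mul, map_sum, map_inv₀, map_natCast]
      congr 1
      refine Finset.sum_congr rfl fun c _ => ?_
      rw [map_mul, hreal]
      congr 1
      show conj ((μ⁻¹ c : ℂˣ) : ℂ) = conj (conj ((μ c : ℂˣ) : ℂ))
      rw [conj_hom, conj_hom, conj_hom, MonoidHom.inv_apply, map_inv, inv_inv, inv_inv]
    rw [map_natCast] at h3
    exact_mod_cast h3
  have hne : ∀ μ : Subgroup.zpowers v →* ℂˣ, μ ≠ 1 → μ ≠ μ⁻¹ := by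
    intro μ hμ h3
    apply hμ
    ext c
    have h4 : μ c * μ c = 1 := by
      have h5 : μ c = (μ c)⁻¹ := by
        have := DFunLike.congr_fun h3 c
        rwa [MonoidHom.inv_apply] at this
      nth_rewrite 2 [h5]
      exact mul_inv_cancel _
    obtain ⟨m, hm⟩ := hodd
    have h5 : (μ c) ^ (2 * m + 1) = 1 := by
      have h6 : c ^ (2 * m + 1) = 1 := by rw [← hm, ← Nat.card_zpowers]; exact pow_card_eq_one'
      rw [← map_pow, h6, map_one]
    rw [pow_succ, pow_mul, sq, h4, one_pow, one_mul] at h5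
    rw [h5]; rfl
  have h3 : ∀ μ : Subgroup.zpowers v →* ℂˣ, μ ≠ 1 → k μ = 0 := by
    intro μ hμ
    obtain ⟨j, hj⟩ := mult_centC hP hcv hv hvp μ hμ
    rw [hk μ] at hj
    have h4 : k μ = p * j := by exact_mod_cast hj
    have h5 : k μ + k μ⁻¹ ≤ charDegree (χ : G → ℂ) := by
      rw [h2, ← Finset.sum_pair (hne μ hμ)]
      exact Finset.sum_le_sum_of_subset_of_nonneg (Finset.subset_univ _) (fun _ _ _ => Nat.zero_le _)
    rw [hinv] at h5
    rcases Nat.eq_zero_or_pos j with h6 | h6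
    · rw [h4, h6, mul_zero]
    · have : p * 1 ≤ p * j := Nat.mul_le_mul_left p h6
      omega
  have h4 := fourier_inv hab (fun c : Subgroup.zpowers v => (χ : G → ℂ) c) ⟨v, Subgroup.mem_zpowers v⟩
  have h5 : ∀ x : Subgroup.zpowers v, ∑ μ : Subgroup.zpowers v →* ℂˣ, classInner (fun c : Subgroup.zpowers v => (χ : G → ℂ) c) (lch μ) * (μ x : ℂ) = k 1 := by
    intro x
    rw [Finset.sum_eq_single (1 : Subgroup.zpowers v →* ℂˣ)]
    · rw [hk, MonoidHom.one_apply, Units.val_one, mul_one]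
    · intro μ _ hμ; rw [hk, h3 μ hμ]; push_cast; ring
    · intro h'; exact absurd (Finset.mem_univ _) h'
  rw [h5] at h1 h4
  have h6 : (χ : G → ℂ) v = k 1 := h4
  have h7 : (χ : G → ℂ) 1 = k 1 := h1
  rw [h6, h7]

theorem no_involC [IsSimpleGroup G] (hG : ¬ (Nat.card G).Prime) (hp2 : p ≠ 2)
    (hP : Nat.card (P : Subgroup G) = p) {χ : IrrCharacter G} {w0 : ℂ} (hcv : CV P χ w0) (hχ1 : χ ≠ irrOne G)
    (hdeg : charDegree (χ : G → ℂ) < 2 * p) {v : G} (hv : v ∈ cP P) (hv2 : orderOf v = 2) : False := by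
  classical
  haveI := Fintype.ofFinite (Subgroup.zpowers v)
  have hvp : ¬ p ∣ orderOf v := by
    rw [hv2]; intro h1; exact hp2 ((Nat.prime_dvd_prime_iff_eq hp.out Nat.prime_two).1 h1)
  have hv1 : v ≠ 1 := by rintro rfl; rw [orderOf_one] at hv2; omega
  obtain ⟨s, hs⟩ := exists_lin_ne (G := Subgroup.zpowers v) (g := ⟨v, Subgroup.mem_zpowers v⟩) (by
    rw [commutator_bot_of (zpow_ab v), Subgroup.mem_bot]
    exact fun h' => hv1 (congrArg Subtype.val h'))
  have hs1 : s ≠ 1 := by rintro rfl; exact hs rfl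
  obtain ⟨j, hj⟩ := mult_centC hP hcv hv hvp s hs1
  obtain ⟨k1, k, h1, h2, h3⟩ := even_mult hG (χ := χ) hv2 s hs1
  rw [h1] at hj
  have h4 : 2 * k = p * j := by exact_mod_cast hj
  have h5 : j = 0 := by
    have h6 : 2 ∣ p * j := ⟨k, h4.symm⟩
    rcases Nat.prime_two.dvd_mul.1 h6 with h7 | h7
    · exact absurd ((Nat.prime_dvd_prime_iff_eq Nat.prime_two hp.out).1 h7).symm hp2
    · obtain ⟨i, rfl⟩ := h7
      rcases Nat.eq_zero_or_pos i with h8 | h8
      · rw [h8]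
      · exfalso
        have : p * (2 * 1) ≤ p * (2 * i) := Nat.mul_le_mul_left p (by omega)
        omega
  rw [h5, mul_zero] at h4
  have hk : k = 0 := by omega
  subst hk
  have h6 : (χ : G → ℂ) v = (χ : G → ℂ) 1 := by
    rw [h3, (IsIrr.one_eq χ.2).1, h2]; push_cast; ring
  exact val_ne_top (simple_htop hv1) hχ1 h6

/-- `C_G(P) = P` if there is a real nonexceptional character of degree `< 2p` -/
theorem cent_one [IsSimpleGroup G] (hp2 : p ≠ 2) {k : ℕ} (hk : Nat.card G = p * k) (hk1 : k ≠ 1) (hpk : ¬ p ∣ k)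
    (hP : Nat.card (P : Subgroup G) = p) {χ : IrrCharacter G} {w0 : ℂ} (hcv : CV P χ w0) (hχ1 : χ ≠ irrOne G)
    (hreal : ∀ g, conj ((χ : G → ℂ) g) = (χ : G → ℂ) g)
    (hdeg : charDegree (χ : G → ℂ) < 2 * p) {c : ℕ} (hc : Nat.card (cP P) = p * c) : c = 1 := by
  by_contra hne
  obtain ⟨l, hl, hlc⟩ := Nat.exists_prime_and_dvd hne
  haveI := Fact.mk hl
  have hlk : p * c ∣ p * k := by rw [← hc, ← hk]; exact Subgroup.card_subgroup_dvd_card _
  have hck : c ∣ k := Nat.dvd_of_mul_dvd_mul_left hp.out.pos hlk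
  have hlp : l ≠ p := by rintro rfl; exact hpk (hlc.trans hck)
  obtain ⟨v, hv⟩ := exists_prime_orderOf_dvd_card' (G := cP P) l (by rw [hc]; exact hlc.trans (dvd_mul_left _ _))
  have hv' : orderOf (v : G) = l := by rw [Subgroup.orderOf_coe, hv]
  have hv1 : (v : G) ≠ 1 := by intro h'; rw [h', orderOf_one] at hv'; exact hl.one_lt.ne hv'
  rcases hl.eq_two_or_odd' with h2 | h2
  · exact no_involC (not_prime_of hk hk1) hp2 hP hcv hχ1 hdeg v.2 (by rw [hv', h2])
  · have hvp : ¬ p ∣ orderOf (v : G) := by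
      rw [hv']; intro h1; exact hlp ((Nat.prime_dvd_prime_iff_eq hp.out hl).1 h1).symm
    exact val_ne_top (simple_htop hv1) hχ1 (real_cent hP hcv hreal hdeg v.2 (by rw [hv']; exact h2) hvp)

/-- transitivity of the normalizer -/
theorem trans_of_card (hP : Nat.card (P : Subgroup G) = p) (h : FH P (p - 1)) {y y' : G} (hy : y ∈ (P : Subgroup G)) (hy1 : y ≠ 1)
    (hy' : y' ∈ (P : Subgroup G)) (hy1' : y' ≠ 1) : ∃ n ∈ nP P, n * y * n⁻¹ = y' := by
  classical
  haveI := Fintype.ofFinite (P : Subgroup G)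
  have hmem : ∀ n : nP P, (n : G) * y * (n : G)⁻¹ ∈ (P : Subgroup G) := fun n => (Subgroup.mem_normalizer_iff.1 n.2 y).1 hy
  let f : nP P → (P : Subgroup G) := fun n => ⟨(n : G) * y * (n : G)⁻¹, hmem n⟩
  have h1 : Nat.card (nP P) = ∑ x : (P : Subgroup G), Nat.card {n : nP P // f n = x} := by
    rw [← Nat.card_sigma]
    exact Nat.card_congr (Equiv.sigmaFiberEquiv f).symm
  have h2 : ∀ x : (P : Subgroup G), Nat.card {n : nP P // f n = x} = if (∃ n ∈ nP P, n * y * n⁻¹ = (x : G)) then Nat.card (cP P) else 0 := by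
    intro x
    split_ifs with hx
    · rw [← card_coset_elt h hy hy1 hx]
      apply Nat.card_congr
      exact Equiv.subtypeEquivRight fun n => ⟨fun h' => congrArg Subtype.val h', fun h' => Subtype.ext h'⟩
    · rw [Nat.card_eq_zero]
      left
      exact ⟨fun n => hx ⟨n.1, n.1.2, congrArg Subtype.val n.2⟩⟩
  rw [Finset.sum_congr rfl fun x _ => h2 x, ← Finset.sum_filter, Finset.sum_const, smul_eq_mul, card_nP h] at h1
  have hcp : 0 < Nat.card (cP P) := Nat.card_pos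
  have h3 := Nat.eq_of_mul_eq_mul_right hcp h1
  have h4 : (Finset.univ.filter fun x : (P : Subgroup G) => ∃ n ∈ nP P, n * y * n⁻¹ = (x : G)) ⊆ Finset.univ.erase 1 := by
    intro x hx
    rw [Finset.mem_filter] at hx
    rw [Finset.mem_erase]
    refine ⟨?_, Finset.mem_univ _⟩
    rintro rfl
    obtain ⟨n, -, hn⟩ := hx.2
    apply hy1
    have : y = n⁻¹ * (n * y * n⁻¹) * n := by group
    rw [this, hn, OneMemClass.coe_one]; group
  have h5 : (Finset.univ.erase (1 : (P : Subgroup G))).card = p - 1 := by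
    rw [Finset.card_erase_of_mem (Finset.mem_univ _), Finset.card_univ, ← Nat.card_eq_fintype_card, hP]
  have h6 := Finset.eq_of_subset_of_card_le h4 (by rw [h5, ← h3])
  have h7 : (⟨y', hy'⟩ : (P : Subgroup G)) ∈ Finset.univ.erase (1 : (P : Subgroup G)) := by
    rw [Finset.mem_erase]
    exact ⟨fun h' => hy1' (congrArg Subtype.val h'), Finset.mem_univ _⟩
  rw [← h6, Finset.mem_filter] at h7
  exact h7.2

end Gen

end CfsgH5
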