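import Cfsg.Agent.H5.SmS8

/-!
# Sylow subgroups of order `5`: the inertial index `4`, and `2`
-/

set_option autoImplicit false

open Cfsg MonoidAlgebra
open CfsgH4 hiding centralChar sum_conj regInner_symm

namespace CfsgH5

open scoped ComplexConjugate

section E4

variable {G : Type*} [Group G] [Fintype G] {p : ℕ} [hp : Fact p.Prime]
variable {P : Sylow p G} {M : Ideal AlgInt}

theorem int_val (hP : Nat.card (P : Subgroup G) = p) (h : FH P (p - 1)) {y : G} (hy : y ∈ (P : Subgroup G)) (hy1 : y ≠ 1)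
    (χ : IrrCharacter G) : ∃ z : ℤ, (χ : G → ℂ) y = z ∧ (p : ℤ) ∣ charDegree (χ : G → ℂ) - z := by
  classical
  haveI := Fintype.ofFinite (P : Subgroup G)
  obtain ⟨m, hm⟩ := IsCharacter.inner_irr_nat (isCharacter_comp (P : Subgroup G).subtype (IsIrr.isCharacter χ.2))
    (isCharacter_one_dim (1 : (P : Subgroup G) →* ℂˣ))
  rw [classInner_def] at hm
  have h1 : ∑ u : (P : Subgroup G), (χ : G → ℂ) ((P : Subgroup G).subtype u) * conj ((((1 : (P : Subgroup G) →* ℂˣ) u : ℂˣ) : ℂ)) =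
      (χ : G → ℂ) 1 + (p - 1 : ℕ) * (χ : G → ℂ) y := by
    have h2 : ∀ u : (P : Subgroup G), (χ : G → ℂ) ((P : Subgroup G).subtype u) * conj ((((1 : (P : Subgroup G) →* ℂˣ) u : ℂˣ) : ℂ)) =
        if u = 1 then (χ : G → ℂ) 1 else (χ : G → ℂ) y := by
      intro u
      rw [MonoidHom.one_apply, Units.val_one, map_one, mul_one]
      split_ifs with hu
      · rw [hu]; rfl
      · obtain ⟨n, -, hn⟩ := trans_of_card hP h hy hy1 u.2 (fun h' => hu (Subtype.ext h'))
        show (χ : G → ℂ) (u : G) = _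
        rw [← hn]
        exact IsCharacter.conj_eq (IsIrr.isCharacter χ.2) y n
    rw [Finset.sum_congr rfl fun u _ => h2 u, ← Finset.add_sum_erase _ _ (Finset.mem_univ (1 : (P : Subgroup G))), if_pos rfl]
    congr 1
    rw [Finset.sum_congr rfl fun u hu => if_neg (Finset.ne_of_mem_erase hu), Finset.sum_const, nsmul_eq_mul,
      Finset.card_erase_of_mem (Finset.mem_univ _), Finset.card_univ, ← Nat.card_eq_fintype_card, hP]
  rw [h1, hP, inv_mul_eq_iff_eq_mul₀ (by exact_mod_cast hp.out.ne_zero)] at hm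
  have hp1 : 1 ≤ p := hp.out.one_lt.le
  have hp1' := hp.out.one_lt
  rw [(IsIrr.one_eq χ.2).1] at hm
  have hp10 : ((p - 1 : ℕ) : ℂ) ≠ 0 := by
    have : 0 < p - 1 := by omega
    exact_mod_cast this.ne'
  obtain ⟨z, hz⟩ := int_of_isIntegral_rat (z := (χ : G → ℂ) y) (IsCharacter.isIntegral (IsIrr.isCharacter χ.2) y)
    (q := ((p * m : ℚ) - charDegree (χ : G → ℂ)) / ((p - 1 : ℕ) : ℚ))
    (by
      push_cast
      rw [eq_div_iff hp10]
      linear_combination hm)
  refine ⟨z, hz, ?_⟩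
  rw [hz] at hm
  have h3 : (charDegree (χ : G → ℂ) : ℤ) + ((p - 1 : ℕ) : ℤ) * z = p * m := by exact_mod_cast hm
  push_cast [hp1] at h3
  exact ⟨m - z, by linear_combination h3⟩

theorem E4_exists (hM : IsPModular p M) (hP : Nat.card (P : Subgroup G) = p) (h : FH P (p - 1)) (hp5 : p = 5) :
    ∃ (T : Finset (IrrCharacter G)) (w : IrrCharacter G → ℤ), irrOne G ∈ T ∧ w (irrOne G) = 1 ∧
      (∀ χ ∈ T, (w χ = 1 ∨ w χ = -1) ∧ CV P χ (w χ) ∧ irrConj χ ∈ T ∧ (p : ℤ) ∣ charDegree (χ : G → ℂ) - w χ) ∧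
      ∑ χ ∈ T, w χ * charDegree (χ : G → ℂ) = 0 := by
  classical
  haveI := IsPModular.isPrime hM
  obtain ⟨y0, hy0⟩ := exists_prime_orderOf_dvd_card' (G := (P : Subgroup G)) p (by rw [hP])
  have hy : (y0 : G) ∈ (P : Subgroup G) := y0.2
  have hy1 : (y0 : G) ≠ 1 := by
    intro h'
    have : y0 = 1 := Subtype.ext h'
    rw [this, orderOf_one] at hy0
    exact hp.out.one_lt.ne hy0
  obtain ⟨y, hyd⟩ : ∃ y : G, y = y0 := ⟨_, rfl⟩
  rw [← hyd] at hy hy1
  have hint := int_val hP h hy hy1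
  choose w hw hwd using hint
  have hone : w (irrOne G) = 1 := by
    have h1 : ((irrOne G : IrrCharacter G) : G → ℂ) y = 1 := rfl
    rw [hw] at h1
    exact_mod_cast h1
  have horth := h.orth hM hy hy1 hy hy1
  rw [if_pos ⟨1, (nP P).one_mem, by group⟩, hP] at horth
  have hsum : ∑ χ : IrrCharacter G, (if χ ∈ principalBlock M G then w χ ^ 2 else 0) = p := by
    have h1 : ((∑ χ : IrrCharacter G, (if χ ∈ principalBlock M G then w χ ^ 2 else 0) : ℤ) : ℂ) = p := by
      rw [← horth]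
      push_cast
      refine Finset.sum_congr rfl fun χ _ => ?_
      split_ifs
      · rw [hw, map_intCast, sq]
      · rfl
    exact_mod_cast h1
  have hzero : ∑ χ : IrrCharacter G, (if χ ∈ principalBlock M G then w χ * (charDegree (χ : G → ℂ) : ℤ) else 0) = 0 := by
    have h1 := block_orth hM (g := y) (h := 1) (x := y) (y := 1) ⟨1, mul_one y, Commute.one_right y, FH.ppow P hy, by rw [orderOf_one]; exact hp.out.not_dvd_one⟩
      ⟨1, mul_one 1, Commute.one_right 1, ⟨0, by rw [orderOf_one, pow_zero]⟩, by rw [orderOf_one]; exact hp.out.not_dvd_one⟩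
      (fun hc => hy1 (by
        obtain ⟨c, hc⟩ := isConj_iff.1 hc
        calc y = c⁻¹ * (c * y * c⁻¹) * c := by group
          _ = 1 := by rw [hc]; group)) (isPBlock_principal (M := M) (G := G))
    have h2 : ((∑ χ : IrrCharacter G, (if χ ∈ principalBlock M G then w χ * (charDegree (χ : G → ℂ) : ℤ) else 0) : ℤ) : ℂ) = 0 := by
      rw [← h1]
      push_cast
      refine Finset.sum_congr rfl fun χ _ => ?_
      split_ifs
      · rw [hw, inv_one, (IsIrr.one_eq χ.2).1]
      · rfl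
    exact_mod_cast h2
  obtain ⟨T, hTdef⟩ : ∃ T : Finset (IrrCharacter G), T = Finset.univ.filter (fun χ => χ ∈ principalBlock M G ∧ w χ ≠ 0) := ⟨_, rfl⟩
  have hTm : ∀ χ, χ ∈ T ↔ χ ∈ principalBlock M G ∧ w χ ≠ 0 := fun χ => by rw [hTdef, Finset.mem_filter]; simp
  have hTsum : ∀ f : IrrCharacter G → ℤ, (∀ χ, w χ = 0 → f χ = 0) →
      ∑ χ : IrrCharacter G, (if χ ∈ principalBlock M G then f χ else 0) = ∑ χ ∈ T, f χ := by
    intro f hf
    rw [hTdef, Finset.sum_filter]
    refine Finset.sum_congr rfl fun χ _ => ?_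
    by_cases h1 : χ ∈ principalBlock M G
    · by_cases h2 : w χ = 0
      · rw [if_pos h1, if_neg (fun h' => h'.2 h2), hf χ h2]
      · rw [if_pos h1, if_pos ⟨h1, h2⟩]
    · rw [if_neg h1, if_neg (fun h' => h1 h'.1)]
  rw [hTsum _ (fun χ hχ => by rw [hχ]; norm_num)] at hsum
  rw [hTsum _ (fun χ hχ => by rw [hχ]; norm_num)] at hzero
  have h1T : irrOne G ∈ T := (hTm _).2 ⟨irrOne_mem, by rw [hone]; norm_num⟩
  have hpm : ∀ χ ∈ T, w χ = 1 ∨ w χ = -1 := by
    intro χ hχ
    by_contra hcon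
    push Not at hcon
    have hχ0 := ((hTm χ).1 hχ).2
    have hχne : χ ≠ irrOne G := by rintro rfl; exact hcon.1 hone
    have h4 : 4 ≤ w χ ^ 2 := by
      have : w χ ≤ -2 ∨ 2 ≤ w χ := by omega
      rcases this with h' | h' <;> nlinarith
    have hrest : ∀ ψ ∈ T, ψ = irrOne G ∨ ψ = χ := by
      intro ψ hψ
      by_contra hne
      push Not at hne
      have h5 : ∑ φ ∈ ({irrOne G, χ, ψ} : Finset (IrrCharacter G)), w φ ^ 2 ≤ ∑ φ ∈ T, w φ ^ 2 := by
        apply Finset.sum_le_sum_of_subset_of_nonneg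
        · intro φ hφ
          simp only [Finset.mem_insert, Finset.mem_singleton] at hφ
          rcases hφ with rfl | rfl | rfl
          · exact h1T
          · exact hχ
          · exact hψ
        · intro φ _ _; exact sq_nonneg _
      rw [Finset.sum_insert (by simp only [Finset.mem_insert, Finset.mem_singleton]; push Not; exact ⟨fun h' => hχne h'.symm, fun h' => hne.1 h'.symm⟩),
        Finset.sum_pair (fun h' => hne.2 h'.symm), hsum, hone, hp5] at h5
      have h6 : 0 < w ψ ^ 2 := by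
        have := ((hTm ψ).1 hψ).2
        positivity
      push_cast at h5
      linarith
    have hT2 : T = {irrOne G, χ} := by
      ext ψ
      rw [Finset.mem_insert, Finset.mem_singleton]
      exact ⟨hrest ψ, fun h' => by rcases h' with rfl | rfl; exacts [h1T, hχ]⟩
    rw [hT2, Finset.sum_pair (fun h' => hχne h'.symm), hone] at hsum hzero
    rw [hp5] at hsum
    have h7 : w χ ^ 2 = 4 := by push_cast at hsum; linarith
    have h8 : w χ = 2 ∨ w χ = -2 := by
      have h9 : (w χ - 2) * (w χ + 2) = 0 := by linear_combination h7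
      rcases mul_eq_zero.1 h9 with h' | h'
      · left; linarith
      · right; linarith
    have h9 : (charDegree ((irrOne G : IrrCharacter G) : G → ℂ) : ℤ) = 1 := by
      have := charDegree_one (G := G)
      exact_mod_cast this
    rw [h9] at hzero
    rcases h8 with h' | h' <;> rw [h'] at hzero <;> omega
  have hcv : ∀ χ, χ ∈ principalBlock M G → CV P χ (w χ) := by
    intro χ hχ z u hz hu hu1
    rw [h.val hM hχ hz hu hu1]
    obtain ⟨n, -, hn⟩ := trans_of_card hP h hy hy1 hu hu1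
    rw [← hn, ← hw]
    exact IsCharacter.conj_eq (IsIrr.isCharacter χ.2) y n
  refine ⟨T, w, h1T, hone, fun χ hχ => ⟨hpm χ hχ, hcv χ ((hTm χ).1 hχ).1, ?_, hwd χ⟩, hzero⟩
  rw [hTm]
  refine ⟨principal_conj ((hTm χ).1 hχ).1, ?_⟩
  intro h0
  have h1 : ((irrConj χ : IrrCharacter G) : G → ℂ) y = 0 := by rw [hw, h0]; push_cast; rfl
  have h2 : conj ((χ : G → ℂ) y) = 0 := h1
  rw [hw, map_intCast] at h2
  exact ((hTm χ).1 hχ).2 (by exact_mod_cast h2)

/-- a real member of odd degree -/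
theorem E4_real (T : Finset (IrrCharacter G)) (w : IrrCharacter G → ℤ) (h1T : irrOne G ∈ T) (hone : w (irrOne G) = 1)
    (hT : ∀ χ ∈ T, (w χ = 1 ∨ w χ = -1) ∧ irrConj χ ∈ T)
    (hsum : ∑ χ ∈ T, w χ * charDegree (χ : G → ℂ) = 0) :
    ∃ χ ∈ T, χ ≠ irrOne G ∧ Odd (charDegree (χ : G → ℂ)) ∧ ∀ g, conj ((χ : G → ℂ) g) = (χ : G → ℂ) g := by
  classical
  by_contra hcon
  push Not at hcon
  have hdegc : ∀ χ : IrrCharacter G, charDegree ((irrConj χ : IrrCharacter G) : G → ℂ) = charDegree (χ : G → ℂ) := by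
    intro χ
    have h1 := (IsIrr.one_eq (irrConj χ).2).1
    have h2 : ((irrConj χ : IrrCharacter G) : G → ℂ) 1 = conj ((χ : G → ℂ) 1) := rfl
    rw [h2, (IsIrr.one_eq χ.2).1, map_natCast] at h1
    exact_mod_cast h1.symm
  have hconj1 : ∀ χ : IrrCharacter G, irrConj χ = irrOne G → χ = irrOne G := by
    intro χ h1
    rw [← irrConj_irrConj χ, h1]
    apply Subtype.ext
    funext g
    show conj (1 : ℂ) = 1
    exact map_one _
  -- the sum over `T \ 1` mod 2
  have h2 : ∑ χ ∈ T, ((w χ * charDegree (χ : G → ℂ) : ℤ) : ZMod 2) = 0 := by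
    rw [← Int.cast_sum, hsum, Int.cast_zero]
  rw [← Finset.add_sum_erase T _ h1T] at h2
  have h9 : (charDegree ((irrOne G : IrrCharacter G) : G → ℂ) : ℤ) = 1 := by
    have := charDegree_one (G := G)
    exact_mod_cast this
  rw [hone, h9] at h2
  have hw2 : ∀ χ ∈ T, ((w χ : ℤ) : ZMod 2) = 1 := by
    intro χ hχ
    rcases (hT χ hχ).1 with h' | h' <;> rw [h'] <;> decide
  have h3 : ∑ χ ∈ T.erase (irrOne G), ((w χ * charDegree (χ : G → ℂ) : ℤ) : ZMod 2) = 0 := by
    refine Finset.sum_involution (fun χ _ => irrConj χ) ?_ ?_ ?_ ?_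
    · intro χ hχ
      have hχT := Finset.mem_of_mem_erase hχ
      push_cast
      rw [hw2 χ hχT, hw2 _ (hT χ hχT).2, hdegc, one_mul]
      exact CharTwo.add_self_eq_zero _
    · intro χ hχ hne heq
      have hχT := Finset.mem_of_mem_erase hχ
      apply hne
      have hev : ¬ Odd (charDegree (χ : G → ℂ)) := by
        intro hodd
        obtain ⟨g, hg⟩ := hcon χ hχT (Finset.ne_of_mem_erase hχ) hodd
        apply hg
        have := congrFun (congrArg Subtype.val heq) g
        exact this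
      rw [Nat.not_odd_iff_even] at hev
      obtain ⟨j, hj⟩ := hev
      rw [hj]
      push_cast
      rw [CharTwo.add_self_eq_zero, mul_zero]
    · intro χ hχ
      rw [Finset.mem_erase]
      exact ⟨fun h' => Finset.ne_of_mem_erase hχ (hconj1 χ h'), (hT χ (Finset.mem_of_mem_erase hχ)).2⟩
    · intro χ _; exact irrConj_irrConj χ
  rw [h3] at h2
  revert h2; decide

end E4

end CfsgH5
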