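import Cfsg.Agent.H5.CopCoset
import Cfsg.Agent.H1.SetMul
import Cfsg.Agent.H2.Cores

/-!
# `p`-solvable groups with a TI Sylow subgroup and a faithful character of small degree
-/

set_option autoImplicit false
open Cfsg MonoidAlgebra
open CfsgH4 hiding centralChar sum_conj

namespace CfsgH5

open scoped ComplexConjugate Pointwise

variable {G : Type*} [Group G] [Finite G] {p : ℕ} [hp : Fact p.Prime]

theorem centralizer_pPrimeCore_le (hs : IsPSolvable p G) (hO : ∀ R : Subgroup G, R.Normal → IsPGroup p R → R = ⊥) :
    Subgroup.centralizer (pPrimeCore p G : Set G) ≤ pPrimeCore p G := by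
  obtain ⟨n, H, h0, hn, hmono, hnorm, hstep⟩ := hs
  set N := pPrimeCore p G with hN
  haveI hNn : N.Normal := inferInstance
  set C := Subgroup.centralizer (N : Set G) with hC
  haveI hCn : C.Normal := by rw [hC]; infer_instance
  have hNc : (Nat.card N).Coprime p := CfsgH2.coprime_card_pPrimeCore p
  have key : ∀ k : ℕ, ∀ hk : k < n + 1, C ⊓ H ⟨k, hk⟩ ≤ N := by
    intro k
    induction k with
    | zero =>
      intro hk
      have : H ⟨0, hk⟩ = ⊥ := h0
      rw [this, inf_bot_eq]; exact bot_le
    | succ k ih =>
      intro hk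
      have hk' : k < n := by omega
      have hA := ih (by omega)
      have hst := hstep ⟨k, hk'⟩
      have e1 : (⟨k, hk'⟩ : Fin n).castSucc = ⟨k, by omega⟩ := rfl
      have e2 : (⟨k, hk'⟩ : Fin n).succ = ⟨k + 1, hk⟩ := rfl
      rw [e1, e2] at hst
      set U := H ⟨k, by omega⟩ with hU
      set W := H ⟨k + 1, hk⟩ with hW
      haveI hUn : U.Normal := hnorm _
      haveI hWn : W.Normal := hnorm _
      have hUW : U ≤ W := hmono (by show (⟨k, _⟩ : Fin (n+1)) ≤ ⟨k+1, _⟩; exact Nat.le_succ k)
      set A := C ⊓ U with hAdef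
      set B := C ⊓ W with hBdef
      haveI hAn : A.Normal := by rw [hAdef]; infer_instance
      haveI hBn : B.Normal := by rw [hBdef]; infer_instance
      have hAB : A ≤ B := inf_le_inf_left _ hUW
      have hrel : A.relIndex B ∣ U.relIndex W := by
        have h1 : A.relIndex B = U.relIndex B := by
          have h2 : A = U ⊓ B := by
            rw [hAdef, hBdef]
            apply le_antisymm
            · exact le_inf inf_le_right (inf_le_inf_left _ hUW)
            · exact le_inf (inf_le_right.trans inf_le_left) inf_le_left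
          rw [h2, Subgroup.inf_relIndex_right]
        have h3 : U.relIndex (B ⊔ U) * (B ⊔ U).relIndex W = U.relIndex W :=
          Subgroup.relIndex_mul_relIndex _ _ _ le_sup_right (sup_le inf_le_right hUW)
        rw [h1, ← Subgroup.relIndex_sup_right (H := B) (K := U), ← h3]
        exact dvd_mul_right _ _
      have hcard : Nat.card B = Nat.card A * A.relIndex B := by
        have := Subgroup.relIndex_mul_relIndex (⊥ : Subgroup G) A B bot_le hAB
        rw [Subgroup.relIndex_bot_left, Subgroup.relIndex_bot_left] at this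
        exact this.symm
      have hAp : (Nat.card A).Coprime p := Nat.Coprime.coprime_dvd_left (Subgroup.card_dvd_of_le hA) hNc
      rcases hst with ⟨m, hm⟩ | hcop
      · rw [hm] at hrel
        obtain ⟨j, -, hj⟩ := (Nat.dvd_prime_pow hp.out).1 hrel
        -- Sylow subgroup of `B`
        have P₀ : Sylow p B := default
        set A' := A.subgroupOf B with hA'
        have hidx : A'.index = p ^ j := hj
        have hcop : A'.index.Coprime (P₀ : Subgroup B).index := by
          rw [hidx]
          exact Nat.Coprime.pow_left _ ((Nat.Prime.coprime_iff_not_dvd hp.out).2 P₀.not_dvd_index)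
        have hfact := CfsgH1.isFact_of_coprime hcop
        have hnor : Subgroup.normalizer ((P₀ : Subgroup B) : Set B) = ⊤ := by
          rw [eq_top_iff]
          intro b _
          obtain ⟨a, ha, x, hx, rfl⟩ := hfact b
          refine Subgroup.mul_mem _ ?_ (Subgroup.le_normalizer hx)
          rw [Subgroup.mem_normalizer_iff]
          intro y
          have h1 : a * y = y * a := by
            apply Subtype.ext
            have h2 : (a : G) ∈ N := hA (Subgroup.mem_subgroupOf.1 ha)
            have h3 : (y : G) ∈ C := (y.2 : (y : G) ∈ C ⊓ W).1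
            exact Subgroup.mem_centralizer_iff.1 h3 _ h2
          rw [h1, mul_inv_cancel_right]
        haveI hPn : (P₀ : Subgroup B).Normal := Subgroup.normalizer_eq_top_iff.1 hnor
        haveI hPc : (P₀ : Subgroup B).Characteristic := Sylow.characteristic_of_normal P₀ hPn
        have hmapn : ((P₀ : Subgroup B).map B.subtype).Normal := ConjAct.normal_of_characteristic_of_normal
        have hbot := hO _ hmapn (P₀.isPGroup'.map _)
        have hP1 : (P₀ : Subgroup B) = ⊥ := by
          rw [Subgroup.map_eq_bot_iff_of_injective _ B.subtype_injective] at hbot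
          exact hbot
        have hBp : (Nat.card B).Coprime p := by
          have h1 := P₀.not_dvd_index
          rw [hP1, Subgroup.index_bot] at h1
          exact ((Nat.Prime.coprime_iff_not_dvd hp.out).2 h1).symm
        exact CfsgH2.le_pPrimeCore hBn hBp
      · have hBp : (Nat.card B).Coprime p := by
          rw [hcard]
          exact Nat.Coprime.mul_left hAp (Nat.Coprime.coprime_dvd_left hrel hcop)
        exact CfsgH2.le_pPrimeCore hBn hBp
  have h1 := key n (by omega)
  have h2 : H ⟨n, by omega⟩ = ⊤ := hn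
  rw [h2, inf_top_eq] at h1
  exact h1

theorem ti_faithful (hs : IsPSolvable p G) (P : Sylow p G)
    (hTI : ∀ g : G, g ∉ Subgroup.normalizer ((P : Subgroup G) : Set G) → (P : Subgroup G) ⊓ (MulAut.conj g • (P : Subgroup G)) = ⊥)
    {χ : G → ℂ} (hχ : IsCharacter G χ) (hf : ∀ g : G, χ g = χ 1 → g = 1)
    (hdeg : charDegree χ ^ 2 ≤ Nat.card (P : Subgroup G)) : (P : Subgroup G).Normal := by
  classical
  by_contra hnot
  have hd : χ 1 = (charDegree χ : ℂ) := by
    obtain ⟨n, hn⟩ := IsCharacter.one_nat hχ
    rw [charDegree, hn]; simp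
  have hne : Subgroup.normalizer ((P : Subgroup G) : Set G) ≠ ⊤ := fun h => hnot (Subgroup.normalizer_eq_top_iff.1 h)
  obtain ⟨g, hg⟩ : ∃ g, g ∉ Subgroup.normalizer ((P : Subgroup G) : Set G) := by
    by_contra hcon
    push Not at hcon
    exact hne (eq_top_iff.2 fun x _ => hcon x)
  have hO : ∀ R : Subgroup G, R.Normal → IsPGroup p R → R = ⊥ := by
    intro R hR hRp
    rw [eq_bot_iff, ← hTI g hg]
    have h1 : R ≤ P := by
      obtain ⟨Q, hQ⟩ := hRp.exists_le_sylow
      obtain ⟨c, hc⟩ := MulAction.exists_smul_eq G Q P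
      have h2 : (MulAut.conj c • R : Subgroup G) ≤ MulAut.conj c • (Q : Subgroup G) := Subgroup.pointwise_smul_le_pointwise_smul_iff.2 hQ
      have h3 : (MulAut.conj c • R : Subgroup G) = R := by
        haveI := hR
        exact Subgroup.Normal.conj_smul_eq_self c R
      rw [h3] at h2
      have h4 : (MulAut.conj c • (Q : Subgroup G) : Subgroup G) = P := by rw [← hc]; rfl
      rwa [h4] at h2
    refine le_inf h1 ?_
    have h3 : (MulAut.conj g • R : Subgroup G) = R := by
      haveI := hR
      exact Subgroup.Normal.conj_smul_eq_self g R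
    rw [← h3]
    exact Subgroup.pointwise_smul_le_pointwise_smul_iff.2 h1
  set N := pPrimeCore p G with hN
  haveI hNn : N.Normal := inferInstance
  have hcent := centralizer_pPrimeCore_le hs hO
  have hNc : (Nat.card N).Coprime p := CfsgH2.coprime_card_pPrimeCore p
  have hNp : ¬ p ∣ Nat.card N := (Nat.Prime.coprime_iff_not_dvd hp.out).1 hNc.symm
  haveI : Fintype N := Fintype.ofFinite _
  haveI : Fintype (P : Subgroup G) := Fintype.ofFinite _
  set C : Subgroup G := N ⊓ Subgroup.centralizer ((P : Subgroup G) : Set G) with hC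
  haveI : Fintype C := Fintype.ofFinite _
  have hPN : (P : Subgroup G) ≤ Subgroup.normalizer (N : Set G) := by
    rw [Subgroup.normalizer_eq_top]; exact le_top
  have hd0 : 0 < charDegree χ := by
    rw [Nat.pos_iff_ne_zero]
    intro h0
    have h1 : χ 1 = 0 := by rw [hd, h0]; simp
    have h2 : ∀ g : G, g = 1 := by
      intro g
      apply hf
      have h3 := IsCharacter.norm_le hχ g
      rw [h1, norm_zero] at h3
      rw [h1]; exact norm_le_zero_iff.1 h3
    apply hg
    rw [h2 g]; exact Subgroup.one_mem _
  have hinn := inner_eq_of_small hNp P.isPGroup' hPN hC (by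
    intro x hx hx1 c hc hcx
    refine ⟨hc, ?_⟩
    show c ∈ Subgroup.centralizer ((P : Subgroup G) : Set G)
    have h1 : c ∈ Subgroup.normalizer ((P : Subgroup G) : Set G) := by
      by_contra hcn
      have h2 := hTI c hcn
      have h3 : x ∈ (P : Subgroup G) ⊓ (MulAut.conj c • (P : Subgroup G)) := by
        refine ⟨hx, ?_⟩
        have h4 : x = MulAut.conj c • x := by
          rw [MulAut.smul_def, MulAut.conj_apply, hcx]; group
        rw [h4]
        exact Subgroup.smul_mem_pointwise_smul x _ _ hx
      rw [h2] at h3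
      exact hx1 (Subgroup.mem_bot.1 h3)
    rw [Subgroup.mem_centralizer_iff]
    intro u hu
    have h2 : c * u * c⁻¹ * u⁻¹ ∈ (P : Subgroup G) :=
      Subgroup.mul_mem _ ((Subgroup.mem_normalizer_iff.1 h1 u).1 hu) (Subgroup.inv_mem _ hu)
    have h3 : c * u * c⁻¹ * u⁻¹ ∈ N := by
      have h4 : c * u * c⁻¹ * u⁻¹ = c * (u * c⁻¹ * u⁻¹) := by group
      rw [h4]
      exact N.mul_mem hc (hNn.conj_mem _ (N.inv_mem hc) u)
    have h4 : c * u * c⁻¹ * u⁻¹ = 1 := by
      obtain ⟨k, hk⟩ := (IsPGroup.iff_orderOf.1 P.isPGroup') ⟨_, h2⟩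
      rw [← Subgroup.orderOf_coe] at hk
      have h5 : orderOf (c * u * c⁻¹ * u⁻¹) ∣ Nat.card N := by
        have := orderOf_dvd_natCard (⟨_, h3⟩ : N); rwa [← Subgroup.orderOf_coe] at this
      rcases Nat.eq_zero_or_pos k with h0 | h0
      · have hk' : orderOf (c * u * c⁻¹ * u⁻¹) = 1 := by rw [h0, pow_zero] at hk; exact hk
        exact orderOf_eq_one_iff.1 hk'
      · exfalso
        apply hNp
        have hk' : orderOf (c * u * c⁻¹ * u⁻¹) = p ^ k := hk
        exact (dvd_pow_self p h0.ne').trans (hk' ▸ h5)
    have h5 : c * u = u * c := by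
      have := congrArg (fun g => g * u * c) h4
      simpa [mul_assoc] using this
    exact h5.symm) hχ hd hdeg hd0
  have hPcent : (P : Subgroup G) ≤ Subgroup.centralizer (N : Set G) := by
    intro x hx
    rw [Subgroup.mem_centralizer_iff]
    intro n hn
    have h1 := ker_of_inner_eq (inf_le_left : C ≤ N) hχ hinn (x := x) (fun c hc => (Subgroup.mem_centralizer_iff.1 hc.2 x hx).symm) hn
    have h2 := hf _ h1
    have := congrArg (fun g => g * x * n) h2
    simpa [mul_assoc] using this
  have hPN' : (P : Subgroup G) ≤ N := hPcent.trans hcent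
  have hP1 : (P : Subgroup G) = ⊥ := by
    obtain ⟨k, hk⟩ := (IsPGroup.iff_card.1 P.isPGroup')
    have h1 := Subgroup.card_dvd_of_le hPN'
    rw [hk] at h1
    rcases Nat.eq_zero_or_pos k with h0 | h0
    · rw [h0, pow_zero] at hk; exact Subgroup.card_eq_one.1 hk
    · exact absurd ((dvd_pow_self p h0.ne').trans h1) hNp
  apply hnot
  rw [hP1]; infer_instance

end CfsgH5
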